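import Cfsg.Agent.H4.S4Pre1A

/-!
# Type II for `Sp₄(q)`: the coordinates on `X̂_1` and `X̂_4`
-/

set_option autoImplicit false

namespace Cfsg.Agent.H4.S4Pre1

open Cfsg Cfsg.Agent.H63 Cfsg.Agent.H63.SL Subgroup Cfsg.Agent.H35.S4
open scoped commutatorElement

universe u v

variable {F : Type v} [Field F] {G : Type u} [Group G] {L : Subgroup G} {x : ZMod 8 → F → G}
  {t : G} {Xh : ZMod 8 → Subgroup G}

theorem shuffle (hP : Pin2 x) (hX : Com2 L x t Xh) {r s r' s' : G} (hr : r ∈ Xh 2) (hs : s ∈ Xh 3)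
    (hr' : r' ∈ Xh 2) (hs' : s' ∈ Xh 3) :
    r * s * (r' * s') = r * r' * (s * s') ∧ r' * s' * (r * s) = r * r' * (s * s') := by
  have c1 : Commute r' s := com1 hX hr' hs
  have c2 : Commute r s' := com1 hX hr hs'
  have c3 : Commute r r' := com0 hP hX hr hr'
  have c4 : Commute s s' := com0 hP hX hs hs'
  constructor
  · calc _ = r * (s * r') * s' := by group
      _ = _ := by rw [← c1.eq]; group
  · calc _ = r' * (s' * r) * s := by group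
      _ = (r' * r) * (s' * s) := by rw [← c2.eq]; group
      _ = _ := by rw [c3.eq, c4.eq]

theorem cml (hP : Pin2 x) (hX : Com2 L x t Xh) {π π' P r s r' s' : G} (hπ : π ∈ Xh 1)
    (hr : r ∈ Xh 2) (hs : s ∈ Xh 3) (hr' : r' ∈ Xh 2) (hs' : s' ∈ Xh 3)
    (h : ⁅π, P⁆ = r * s) (h' : ⁅π', P⁆ = r' * s') : ⁅π * π', P⁆ = r * r' * (s * s') := by
  have c : Commute π (r' * s') := (com1 hX hπ hr').mul_right (com2 hX hπ hs')
  calc ⁅π * π', P⁆ = π * ⁅π', P⁆ * π⁻¹ * ⁅π, P⁆ := by simp only [commutatorElement_def]; group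
    _ = _ := by rw [h, h', c.eq, mul_inv_cancel_right, (shuffle hP hX hr hs hr' hs').2]

theorem cmr (hP : Pin2 x) (hX : Com2 L x t Xh) {π P P' r s r' s' : G} (hP4 : P ∈ Xh 4)
    (hr : r ∈ Xh 2) (hs : s ∈ Xh 3) (hr' : r' ∈ Xh 2) (hs' : s' ∈ Xh 3)
    (h : ⁅π, P⁆ = r * s) (h' : ⁅π, P'⁆ = r' * s') : ⁅π, P * P'⁆ = r * r' * (s * s') := by
  have c : Commute P (r' * s') :=
    ((com2 hX hr' hP4).symm).mul_right ((com1 hX hs' hP4).symm)
  calc ⁅π, P * P'⁆ = ⁅π, P⁆ * (P * ⁅π, P'⁆ * P⁻¹) := by simp only [commutatorElement_def]; group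
    _ = _ := by rw [h, h', c.eq, mul_inv_cancel_right, (shuffle hP hX hr hs hr' hs').1]

theorem cconj (g a b : G) : g * ⁅a, b⁆ * g⁻¹ = ⁅g * a * g⁻¹, g * b * g⁻¹⁆ := by
  simp only [commutatorElement_def]; group

theorem wt1 (α β : Fˣ) : wt α β 1 = α := rfl
theorem wt2 (α β : Fˣ) : wt α β 2 = α ^ 2 * β := rfl
theorem wt3 (α β : Fˣ) : wt α β 3 = α * β := rfl
theorem wt4 (α β : Fˣ) : wt α β 4 = β := rfl

/-- `s` is the short component of `⁅x_1(1), P⁆`. -/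
def Ph (x : ZMod 8 → F → G) (Xh : ZMod 8 → Subgroup G) (P s : G) : Prop :=
  ∃ r ∈ Xh 2, ⁅x 1 1, P⁆ = r * s

theorem ph_x (hC : Ctx L x t) (hX : Com2 L x t Xh) (u : F) : Ph x Xh (x 4 u) (x 3 u) := by
  have := hC.mod.pin.rs 1 (by decide) 1 u
  rw [one_pow, one_mul] at this
  exact ⟨_, hX.le 2 u, this⟩

theorem ph_mul (hC : Ctx L x t) (hX : Com2 L x t Xh) {P P' s s' : G} (hP : P ∈ Xh 4)
    (hs : s ∈ Xh 3) (hs' : s' ∈ Xh 3) (h : Ph x Xh P s) (h' : Ph x Xh P' s') :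
    Ph x Xh (P * P') (s * s') := by
  obtain ⟨r, hr, h⟩ := h
  obtain ⟨r', hr', h'⟩ := h'
  exact ⟨_, (Xh 2).mul_mem hr hr', cmr hC.mod.pin hX hP hr hs hr' hs' h h'⟩

theorem ph_fun (hC : Ctx L x t) (hX : Com2 L x t Xh) {P s s' : G}
    (hs : s ∈ Xh 3) (hs' : s' ∈ Xh 3) (h : Ph x Xh P s) (h' : Ph x Xh P s') : s = s' := by
  obtain ⟨r, hr, h⟩ := h
  obtain ⟨r', hr', h'⟩ := h'
  exact (uq hC hX hr hr' hs hs' (h.symm.trans h')).2

theorem ph_lam (hC : Ctx L x t) (hX : Com2 L x t Xh) {P s : G} (hP : P ∈ Xh 4)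
    (hs : s ∈ Xh 3) (h : Ph x Xh P s) {w : F} (hw : P * t * P⁻¹ = t * x 4 w) :
    s * t * s⁻¹ = t * x 3 w := by
  obtain ⟨r, hr, r', hr', -, h1, h2⟩ := hX.r1 P hP w hw 1
  rw [ph_fun hC hX hs hr' h ⟨r, hr, h2⟩, h1, one_mul]

theorem ph_inj (hC : Ctx L x t) (hX : Com2 L x t Xh) {P P' s : G} (hP : P ∈ Xh 4)
    (hP' : P' ∈ Xh 4) (hs : s ∈ Xh 3) (h : Ph x Xh P s) (h' : Ph x Xh P' s) : P = P' := by
  have hp := hC.mod.pin
  have h1 := ph_mul hC hX hP hs hs h h'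
  rw [sq hp hX hs] at h1
  have hm := (Xh 4).mul_mem hP hP'
  obtain ⟨w, hw⟩ := lam hX hm
  have h2 := ph_lam hC hX hm (one_mem _) h1 hw
  rw [one_mul, inv_one, mul_one] at h2
  have h3 : w = 0 := hp.inj 3 _ (mul_eq_left.mp h2.symm)
  rw [h3, x0 hp, mul_one, mul_inv_eq_iff_eq_mul] at hw
  obtain ⟨a, ha⟩ := hX.fix 4 _ hm hw
  rw [ha] at h1
  have h4 : a = 0 := hp.inj 3 _ (ph_fun hC hX (hX.le 3 a) (one_mem _) (ph_x hC hX a) h1)
  rw [h4, x0 hp] at ha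
  rw [← pinv hp hX hP', eq_inv_iff_mul_eq_one]
  exact ha

theorem ph_ex (hC : Ctx L x t) (hX : Com2 L x t Xh) {s : G} (hs : s ∈ Xh 3) :
    ∃ P ∈ Xh 4, Ph x Xh P s := by
  obtain ⟨w, hw⟩ := lam hX hs
  obtain ⟨P, hP, h1⟩ := hX.surj 4 w
  obtain ⟨r, hr, r', hr', -, h2, h3⟩ := hX.r1 P hP w h1 1
  obtain ⟨a, ha⟩ := same hX hr' hs (by rw [h2, hw, one_mul])
  exact ⟨_, (Xh 4).mul_mem hP (hX.le 4 a),
    ha ▸ ph_mul hC hX hP hr' (hX.le 3 a) ⟨r, hr, h3⟩ (ph_x hC hX a)⟩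

theorem crd4 (hC : Ctx L x t) (hX : Com2 L x t Xh) (h3 : C3 Xh) {e3 : F × F → G}
    (he : Crd L x t Xh 3 e3) : ∃ e4, Crd L x t Xh 4 e4 ∧ ∀ a, Ph x Xh (e4 a) (e3 a) := by
  have hp := hC.mod.pin
  choose e4 hm hph using fun a => ph_ex hC hX (he.mem' a)
  refine ⟨e4, ⟨fun q => ⟨fun hq => ?_, ?_⟩, fun a b => ?_, fun a ha => ?_, fun a => ?_,
    fun a => ?_, fun g hg α β hT a => ?_⟩, hph⟩
  · obtain ⟨r, hr, r', hr', h⟩ := h3 _ (hX.le 1 1) q hq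
    obtain ⟨a, rfl⟩ := (he.mem _).mp hr'
    exact ⟨a, ph_inj hC hX hq (hm a) hr' ⟨r, hr, h⟩ (hph a)⟩
  · rintro ⟨a, rfl⟩
    exact hm a
  · refine ph_inj hC hX (hm _) ((Xh 4).mul_mem (hm a) (hm b)) (he.mem' _) (hph _) ?_
    rw [he.add]
    exact ph_mul hC hX (hm a) (he.mem' a) (he.mem' b) (hph a) (hph b)
  · have h1 := hph a
    rw [ha] at h1
    have h2 := ph_x hC hX 0
    rw [x0 hp, x0 hp] at h2
    exact he.inj a (ph_fun hC hX (he.mem' a) (one_mem _) h1 h2)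
  · refine ph_inj hC hX (hm _) (hX.le 4 a) (he.mem' _) (hph _) ?_
    rw [he.res]
    exact ph_x hC hX a
  · obtain ⟨w, hw⟩ := lam hX (hm a)
    have h1 := ph_lam hC hX (hm a) (he.mem' a) (hph a) hw
    rw [he.mov] at h1
    rw [hw, xinj hp (mul_left_cancel h1)]
  · obtain ⟨k, hk, hk'⟩ := hC.kp.tor 1 β
    have hT4 : k⁻¹ * g ∈ TT x L 4 := by
      refine ⟨(HH x L).mul_mem ((HH x L).inv_mem hk) (hC.kb.torH g hg α β hT), ?_⟩
      refine mem_centralizer_iff.mpr fun z hz => ?_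
      obtain ⟨b, rfl⟩ := (hC.kp.memX 4 z).mp hz
      have h1 : g * x 4 b * g⁻¹ = k * x 4 b * k⁻¹ := by rw [hT, hk', wt4, wt4]
      calc x 4 b * (k⁻¹ * g) = k⁻¹ * (k * x 4 b * k⁻¹) * g := by group
        _ = _ := by rw [← h1]; group
    have hc := mem_centralizer_iff.mp ((hX.mem 4 _).mp (hm a)).2.1 _ hT4
    have h1 : g * e4 a * g⁻¹ = k * e4 a * k⁻¹ := by
      calc g * e4 a * g⁻¹ = k * (k⁻¹ * g * e4 a) * g⁻¹ := by group
        _ = _ := by rw [hc]; group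
    have hH : ∀ i, ∀ p ∈ Xh i, k * p * k⁻¹ ∈ Xh i := fun i p hp =>
      (hX.mem _ _).mpr (hC.kb.hatH k hk 0 i p ((hX.mem _ _).mp hp))
    rw [h1]
    refine ph_inj hC hX (hH _ _ (hm a)) (hm _) (he.mem' _) ?_ (hph _)
    obtain ⟨r, hr, h2⟩ := hph a
    refine ⟨_, hH _ _ hr, ?_⟩
    have h4 := cconj k (x 1 1) (e4 a)
    rw [hk', wt1, Units.val_one, one_mul, h2] at h4
    have h5 := he.tor k hk.1 1 β hk' a
    rw [wt3, one_mul] at h5
    rw [← h4, wt4, ← h5]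
    group

/-- The quadratic algebra and its conjugation. -/
theorem quad [Finite F] (h2 : (2 : F) = 0) (n : F) :
    Quad (algebraMap F (QuadraticAlgebra F n 1)) (starRingAut : RingAut (QuadraticAlgebra F n 1)) := by
  have ng : ∀ a : F, -a = a := fun a => by
    rw [neg_eq_iff_add_eq_zero, ← two_mul, h2, zero_mul]
  refine ⟨?_, fun a => star_star a, fun a => ⟨fun h => ⟨a.re, ?_⟩, ?_⟩, ⟨⟨0, 1⟩, ?_⟩, ?_⟩
  · ext
    · exact h2
    · rfl
  · have h1 := congrArg QuadraticAlgebra.re h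
    simp only [starRingAut_apply, QuadraticAlgebra.re_star, one_mul, add_eq_left] at h1
    ext
    · rfl
    · exact h1
  · rintro ⟨b, rfl⟩
    ext <;> simp
  · ext <;> simp [ng, QuadraticAlgebra.re_one, QuadraticAlgebra.im_one]
  · rw [Nat.card_congr (QuadraticAlgebra.equivProd n 1), Nat.card_prod, pow_two]

theorem pre1 : Pre1Stmt.{u, v} := by
  intro F _ _ G _ _ L x t hC Xh p hX h3 hpar
  have hp := hC.mod.pin
  obtain ⟨e1, he1⟩ : ∃ e1, Crd L x t Xh 1 e1 := ⟨_, crd1 hC hX hpar⟩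
  have he3 : Crd L x t Xh 3 fun a => n2 x 4 * e1 a * (n2 x 4)⁻¹ := he1.transport hC hX 4
  obtain ⟨e4, he4, hph⟩ := crd4 hC hX h3 he3
  have he2 : Crd L x t Xh 2 fun a => n2 x 1 * e4 a * (n2 x 1)⁻¹ := he4.transport hC hX 1
  obtain ⟨e3, d3⟩ : ∃ e3 : F × F → G, e3 = fun a => n2 x 4 * e1 a * (n2 x 4)⁻¹ := ⟨_, rfl⟩
  obtain ⟨e2, d2⟩ : ∃ e2 : F × F → G, e2 = fun a => n2 x 1 * e4 a * (n2 x 1)⁻¹ := ⟨_, rfl⟩
  have d3' : ∀ a, e3 a = n2 x 4 * e1 a * (n2 x 4)⁻¹ := fun a => by rw [d3]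
  have d2' : ∀ a, e2 a = n2 x 1 * e4 a * (n2 x 1)⁻¹ := fun a => by rw [d2]
  rw [← d3] at he3
  rw [← d2] at he2
  simp only [← d3'] at hph
  have ex : ∀ a b, ∃ c d, ⁅e1 a, e4 b⁆ = e2 c * e3 d := fun a b => by
    obtain ⟨r, hr, r', hr', h⟩ := h3 _ (he1.mem' a) _ (he4.mem' b)
    obtain ⟨c, rfl⟩ := (he2.mem _).mp hr
    obtain ⟨d, rfl⟩ := (he3.mem _).mp hr'
    exact ⟨c, d, h⟩
  choose m μ hm using ex
  have un : ∀ a b c d, ⁅e1 a, e4 b⁆ = e2 c * e3 d → m a b = c ∧ μ a b = d := fun a b c d h => by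
    obtain ⟨h1, h2⟩ := uq hC hX (he2.mem' _) (he2.mem' _) (he3.mem' _) (he3.mem' _)
      ((hm a b).symm.trans h)
    exact ⟨he2.ext h1, he3.ext h2⟩
  have al : ∀ a a' b, m (a + a') b = m a b + m a' b ∧ μ (a + a') b = μ a b + μ a' b :=
    fun a a' b => un _ _ _ _ (by
      rw [he1.add, he2.add, he3.add]
      exact cml hp hX (he1.mem' a) (he2.mem' _) (he3.mem' _) (he2.mem' _) (he3.mem' _)
        (hm a b) (hm a' b))
  have ar : ∀ a b b', m a (b + b') = m a b + m a b' ∧ μ a (b + b') = μ a b + μ a b' :=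
    fun a b b' => un _ _ _ _ (by
      rw [he4.add, he2.add, he3.add]
      exact cmr hp hX (he4.mem' b) (he2.mem' _) (he3.mem' _) (he2.mem' _) (he3.mem' _)
        (hm a b) (hm a b'))
  have zl : ∀ b, m 0 b = 0 ∧ μ 0 b = 0 := fun b => un _ _ _ _ (by
    rw [he1.zero, he2.zero, he3.zero, commutatorElement_one_left, one_mul])
  have zr : ∀ a, m a 0 = 0 ∧ μ a 0 = 0 := fun a => un _ _ _ _ (by
    rw [he4.zero, he2.zero, he3.zero, commutatorElement_one_right, one_mul])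
  have sc : ∀ (u w : F) a b, m (u • a) (w • b) = (u ^ 2 * w) • m a b ∧
      μ (u • a) (w • b) = (u * w) • μ a b := fun u w a b => by
    by_cases hu : u = 0
    · rw [hu, zero_smul, (zl _).1, (zl _).2]
      simp
    by_cases hw : w = 0
    · rw [hw, zero_smul, (zr _).1, (zr _).2]
      simp
    obtain ⟨k, hk, hk'⟩ := hC.kp.tor (Units.mk0 u hu) (Units.mk0 w hw)
    have h1 := cconj k (e1 a) (e4 b)
    rw [he1.tor k hk.1 _ _ hk', he4.tor k hk.1 _ _ hk', hm,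
      show k * (e2 (m a b) * e3 (μ a b)) * k⁻¹ = (k * e2 (m a b) * k⁻¹) * (k * e3 (μ a b) * k⁻¹) by
        group, he2.tor k hk.1 _ _ hk', he3.tor k hk.1 _ _ hk', wt1, wt2, wt3, wt4] at h1
    simp only [Units.val_mul, Units.val_pow_eq_pow_val, Units.val_mk0] at h1
    exact un _ _ _ _ h1.symm
  have ul : ∀ b, m (1, 0) b = b ∧ μ (1, 0) b = b := fun b => by
    obtain ⟨r, hr, h⟩ := hph b
    refine un _ _ _ _ ?_
    rw [he1.res, h, d2', ← theta1 hC hX h3 (he4.mem' b) hr (he3.mem' b) h]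
  have ur : ∀ a, μ a (1, 0) = a := fun a => by
    have h := hm a (1, 0)
    rw [he4.res] at h
    exact he3.ext ((theta4 hC hX h3 (he1.mem' a) (he2.mem' _) (he3.mem' _) h).trans (d3' a).symm)
  have cj : μ (1, 1) (1, 1) =
      ((μ (0, 1) (0, 1)).1 + (μ (0, 1) (0, 1)).2, (μ (0, 1) (0, 1)).2) := by
    have h1 := cconj t (e1 (0, 1)) (e4 (0, 1))
    rw [he1.conj hC hX, he4.conj hC hX, hm,
      show ∀ a b : G, t * (a * b) * t⁻¹ = (t * a * t⁻¹) * (t * b * t⁻¹) from fun a b => by group,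
      he2.conj hC hX, he3.conj hC hX] at h1
    simp only [zero_add] at h1
    exact (un _ _ _ _ h1.symm).2
  obtain ⟨⟨n, c⟩, hn⟩ : ∃ z, μ (0, 1) (0, 1) = z := ⟨_, rfl⟩
  have split : ∀ a : F × F, a = a.1 • ((1, 0) : F × F) + a.2 • ((0, 1) : F × F) := fun a => by
    ext <;> simp
  have ex : ∀ a b : F × F, μ a b =
      (a.1 * b.1 + n * a.2 * b.2, a.1 * b.2 + a.2 * b.1 + c * a.2 * b.2) := fun a b => by
    conv_lhs => rw [split a, split b, (al _ _ _).2, (ar _ _ _).2, (ar _ _ _).2, (sc _ _ _ _).2,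
      (sc _ _ _ _).2, (sc _ _ _ _).2, (sc _ _ _ _).2, (ul _).2, (ul _).2, ur, hn]
    ext <;> simp <;> ring
  have hc : c = 1 := by
    rw [ex, hn] at cj
    have h1 := congrArg Prod.fst cj
    simp only [mul_one] at h1
    exact (add_left_cancel (a := n) (by rw [← h1, add_comm])).symm
  subst hc
  have ng : ∀ a : F, -a = a := fun a => by rw [neg_eq_iff_add_eq_zero, aa hp]
  let φ : QuadraticAlgebra F n 1 → F × F := fun a => (a.re, a.im)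
  let ψ : F × F → QuadraticAlgebra F n 1 := fun a => ⟨a.1, a.2⟩
  have φa : ∀ a b, φ (a + b) = φ a + φ b := fun a b => rfl
  have ψa : ∀ a b, ψ (a + b) = ψ a + ψ b := fun a b => rfl
  have φψ : ∀ a, φ (ψ a) = a := fun a => rfl
  have φ0 : ∀ a, φ a = 0 → a = 0 := fun a h => by
    ext
    · exact congrArg Prod.fst h
    · exact congrArg Prod.snd h
  have φs : ∀ (u : F) a, φ (algebraMap F _ u * a) = u • φ a := fun u a => by
    ext <;> simp [φ]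
  have ψs : ∀ (u : F) a, ψ (u • a) = algebraMap F _ u * ψ a := fun u a => by
    ext <;> simp [ψ]
  have φc : ∀ a, φ (star a) = ((φ a).1 + (φ a).2, (φ a).2) := fun a => by
    ext <;> simp [φ, ng]
  have φm : ∀ a b, φ (a * b) = μ (φ a) (φ b) := fun a b => by
    rw [ex]
    ext <;> simp [φ]
  have hat : ∀ i e, Crd L x t Xh i e → ∀ q, q ∈ HatS L x t 0 i ↔ ∃ a, q = e (φ a) :=
    fun i e he q => by
      rw [← hX.mem, he.mem]
      exact ⟨fun ⟨a, ha⟩ => ⟨ψ a, ha⟩, fun ⟨a, ha⟩ => ⟨φ a, ha⟩⟩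
  refine ⟨QuadraticAlgebra F n 1, inferInstance, algebraMap F _, starRingAut, fun a => e1 (φ a),
    fun a => e4 (φ a), fun a b => ψ (m (φ a) (φ b)), quad hp.two n,
    fun a b => ⟨by rw [φa, he1.add], by rw [φa, he4.add]⟩,
    fun a => ⟨fun h => φ0 a (he1.inj _ h), fun h => φ0 a (he4.inj _ h)⟩,
    fun a => ⟨he1.res a, he4.res a⟩, fun a => ⟨?_, ?_⟩, fun g hg α β hT a => ⟨?_, ?_⟩,
    fun q => ⟨hat _ _ he1 q, hat _ _ he4 q⟩, fun a b => ?_, fun a a' b => ?_, fun a b b' => ?_,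
    fun u w a b => ?_, fun b => ?_⟩
  · rw [he1.conj hC hX, starRingAut_apply, φc]
  · rw [he4.conj hC hX, starRingAut_apply, φc]
  · rw [he1.tor g hg α β hT, φs, wt1]
  · rw [he4.tor g hg α β hT, φs, wt4]
  · rw [hm, φψ, φm, d2', d3']
  · rw [φa, (al _ _ _).1, ψa]
  · rw [φa, (ar _ _ _).1, ψa]
  · rw [φs, φs, (sc _ _ _ _).1, ψs]
  · exact congrArg ψ (ul (φ b)).1

end Cfsg.Agent.H4.S4Pre1
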