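import Mathlib
import Cfsg.Agent.H92.KPiHall

/-!
# The number of orbits of the automorphism group of a non-abelian group
-/

set_option autoImplicit false

namespace Cfsg.Agent.H4.AO

open Subgroup
open scoped commutatorElement

variable {G : Type*} [Group G]

theorem mul_pow_c {x y c : G} (hc : c ∈ center G) (h : y * x = c * (x * y)) (n : ℕ) :
    (x * y) ^ n = c ^ n.choose 2 * (x ^ n * y ^ n) := by
  have hcc : ∀ (k : ℕ) (g : G), g * c ^ k = c ^ k * g := fun k g => mem_center_iff.1 (pow_mem hc k) g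
  have h1 : ∀ k : ℕ, y ^ k * x = c ^ k * (x * y ^ k) := fun k => by
    induction k with
    | zero => simp
    | succ k ih =>
      calc y ^ (k + 1) * x = y * (y ^ k * x) := by rw [pow_succ', mul_assoc]
        _ = c ^ k * (y * x) * y ^ k := by rw [ih, ← mul_assoc, hcc k y]; simp only [mul_assoc]
        _ = _ := by rw [h, pow_succ, pow_succ']; simp only [mul_assoc]
  induction n with
  | zero => simp
  | succ n ih =>
    rw [pow_succ, ih, Nat.choose_succ_succ' n 1, Nat.choose_one_right, add_comm n, pow_add]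
    calc _ = c ^ n.choose 2 * (x ^ n * (y ^ n * x) * y) := by simp only [mul_assoc]
      _ = _ := by rw [h1, ← mul_assoc (x ^ n), hcc n, pow_succ, pow_succ]; simp only [mul_assoc]

theorem le_center_of_card_le [Finite G] {D : Subgroup G} [hD : D.Normal]
    (h : Nat.card D ≤ (Nat.card G).minFac) : D ≤ center G := by
  intro d hd
  haveI : Finite (ConjAct G) := ‹Finite G›
  by_cases h1 : d = 1
  · exact h1 ▸ one_mem _
  have h2 : MulAction.orbit (ConjAct G) d ⊆ (D : Set G) \ {1} := by
    rintro _ ⟨g, rfl⟩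
    exact ⟨hD.conj_mem d hd _, fun e => h1 (by simpa [ConjAct.smul_def] using e)⟩
  have h3 := Set.ncard_le_ncard h2
  rw [Set.ncard_diff_singleton_of_mem (one_mem D), ← MulAction.index_stabilizer] at h3
  have h4 : (MulAction.stabilizer (ConjAct G) d).index ∣ Nat.card G := index_dvd_card _
  have h5 : (D : Set G).ncard = Nat.card D := rfl
  have h6 : 0 < Nat.card D := Nat.card_pos
  have h7 : (MulAction.stabilizer (ConjAct G) d).index = 1 := by
    by_contra e
    have := Nat.minFac_le_of_dvd (m := (MulAction.stabilizer (ConjAct G) d).index)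
      (by have := (MulAction.stabilizer (ConjAct G) d).index_ne_zero_of_finite; omega) h4
    omega
  refine mem_center_iff.2 fun g => ?_
  have : ConjAct.toConjAct g ∈ MulAction.stabilizer (ConjAct G) d := index_eq_one.1 h7 ▸ mem_top _
  exact mul_inv_eq_iff_eq_mul.1 this

/-- An automorphism trivial on a normal subgroup of prime index. -/
theorem exists_aut [Finite G] {H : Subgroup G} [H.Normal] {p : ℕ} (hp : p.Prime) (hH : H.index = p)
    {g v : G} (hg : g ∉ H) (hv : v ∈ H) (hc : ∀ h ∈ H, h * v = v * h) (hn : (g * v) ^ p = g ^ p) :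
    ∃ φ : MulAut G, φ g = g * v := by
  haveI := Fact.mk hp
  have ho : orderOf (g : G ⧸ H) = p := orderOf_eq_prime (by
    rw [← hH]; exact pow_card_eq_one') fun e => hg ((QuotientGroup.eq_one_iff g).1 e)
  have hz : zpowers (g : G ⧸ H) = ⊤ := eq_top_of_card_eq _ (by rw [Nat.card_zpowers, ho, ← hH]; rfl)
  have h1 : ∀ x : G, ∃ i : ℤ, (g : G ⧸ H) ^ i = x := fun x => (hz ▸ mem_top _ : (x : G ⧸ H) ∈ zpowers _)
  choose i hi using h1
  let δ : ℤ → G := fun k => g ^ (-k) * (g * v) ^ k
  have hδ : ∀ k l : ℤ, (g : G ⧸ H) ^ k = (g : G ⧸ H) ^ l → δ k = δ l := fun k l e => by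
    rw [zpow_eq_zpow_iff_modEq, ho] at e
    obtain ⟨m, hm⟩ := e.dvd
    obtain rfl : l = p * m + k := by omega
    simp only [δ]
    rw [zpow_add (g * v), zpow_mul, zpow_natCast, hn, ← zpow_natCast, ← zpow_mul, ← mul_assoc,
      ← zpow_add, show -((p : ℤ) * m + k) + p * m = -k by ring]
  have hv1 : (v : G ⧸ H) = 1 := (QuotientGroup.eq_one_iff v).2 hv
  have hδ1 : ∀ k, (δ k : G ⧸ H) = 1 := fun k => by simp [δ, hv1]
  have hδc : ∀ (k : ℤ), ∀ h ∈ H, δ k * h = h * δ k := fun k h hh => by
    have e1 : ∀ h ∈ H, (g * v) * h * (g * v)⁻¹ = g * h * g⁻¹ := fun h hh => by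
      rw [mul_assoc g, ← hc h hh]; group
    have e2 : MulAut.conjNormal (H := H) (g * v) = MulAut.conjNormal g :=
      MulEquiv.ext fun x => Subtype.ext (e1 x x.2)
    have e3 : (g * v) ^ k * h * ((g * v) ^ k)⁻¹ = g ^ k * h * (g ^ k)⁻¹ := by
      have := congrArg (fun f : MulAut H => (f ⟨h, hh⟩ : G)) (congrArg (· ^ k) e2)
      simpa only [← map_zpow, MulAut.conjNormal_apply] using this
    simp only [δ]
    rw [mul_assoc, mul_inv_eq_iff_eq_mul.1 e3]
    group
  let f : G →* G := MonoidHom.mk' (fun x => x * δ (i x)) fun x y => by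
    have e1 : y * g ^ (-i y) ∈ H := (QuotientGroup.eq_one_iff _).1 (by simp [← hi y])
    rw [hδ (i (x * y)) (i y + i x) (by rw [hi, add_comm, zpow_add, hi, hi, QuotientGroup.mk_mul])]
    calc x * y * δ (i y + i x) = x * (y * g ^ (-i y) * δ (i x) * (g * v) ^ i y) := by
          simp only [δ]
          rw [add_comm (i y), zpow_add (g * v)]
          group
      _ = _ := by rw [← hδc _ _ e1]; simp only [δ, mul_assoc]
  have hf : Function.Injective f := (injective_iff_map_eq_one f).2 fun x hx => by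
    have e1 : x * δ (i x) = 1 := hx
    have e2 : (x : G ⧸ H) = 1 := by simpa [hδ1] using congrArg (fun y : G => (y : G ⧸ H)) e1
    rw [hδ (i x) 0 (by rw [hi, e2, zpow_zero])] at e1
    simpa [δ] using e1
  refine ⟨MulEquiv.ofBijective f (Finite.injective_iff_bijective.1 hf), ?_⟩
  change g * δ (i g) = _
  rw [hδ (i g) 1 (by rw [hi, zpow_one])]
  simp [δ]

section

variable {D : Subgroup G} (hD : commutator G = D) (hZ : D ≤ center G)
include hD hZ

theorem comm_mem (x y : G) : ⁅x, y⁆ ∈ D := hD ▸ commutator_mem_commutator (mem_top x) (mem_top y)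

/-- Commutation with a fixed element. -/
def kap (u : G) : G →* G := MonoidHom.mk' (fun x => ⁅x, u⁆) fun x y => by
  have := mem_center_iff.1 (hZ (comm_mem hD hZ y u)) x
  calc ⁅x * y, u⁆ = x * ⁅y, u⁆ * x⁻¹ * ⁅x, u⁆ := by simp only [commutatorElement_def]; group
    _ = ⁅y, u⁆ * ⁅x, u⁆ := by rw [this, mul_inv_cancel_right]
    _ = _ := (mem_center_iff.1 (hZ (comm_mem hD hZ y u)) _).symm

variable [Finite G] {p : ℕ} [hp : Fact p.Prime] (hc : Nat.card D = p)
include hc

theorem range_kap {u : G} (hu : u ∉ center G) : (kap hD hZ u).range = D := by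
  have h1 : (kap hD hZ u).range ≤ D := by
    rintro _ ⟨x, rfl⟩
    exact comm_mem hD hZ x u
  refine eq_of_le_of_card_ge h1 ?_
  rcases (Nat.dvd_prime hp.out).1 (hc ▸ card_dvd_of_le h1) with e | e
  · refine absurd (mem_center_iff.2 fun x => commutatorElement_eq_one_iff_mul_comm.1 ?_) hu
    exact mem_bot.1 (card_eq_one.1 e ▸ (⟨x, rfl⟩ : kap hD hZ u x ∈ (kap hD hZ u).range))
  · rw [hc, e]

theorem pow_D {d : G} (hd : d ∈ D) : d ^ p = 1 := by
  simpa [hc] using congrArg Subtype.val (pow_card_eq_one' (x := (⟨d, hd⟩ : D)))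

theorem pow_mem_center (x : G) : x ^ p ∈ center G := mem_center_iff.2 fun y =>
  (commutatorElement_eq_one_iff_mul_comm.1 ((map_pow (kap hD hZ y) x p).trans
    (pow_D hD hZ hc (comm_mem hD hZ x y)))).symm

theorem mul_pow' (x y : G) (n : ℕ) : (x * y) ^ n = ⁅y, x⁆ ^ n.choose 2 * (x ^ n * y ^ n) :=
  mul_pow_c (hZ (comm_mem hD hZ y x)) (by simp [commutatorElement_def]) n

theorem exists_good (hN : p ^ 2 * Nat.card (center G) ≤ Nat.card G)
    (hB : ∀ w ∈ center G, w ^ p = 1 → w ∈ D) :
    ∃ u ∉ center G, ∀ g, ⁅g, u⁆ ≠ 1 → (g * u) ^ p = g ^ p := by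
  have hZ0 : 0 < Nat.card (center G) := Nat.card_pos
  by_contra hne
  by_cases h2 : p = 2
  swap
  · have h1 : ∀ x y : G, (x * y) ^ p = x ^ p * y ^ p := fun x y => by
      obtain ⟨k, hk⟩ : p ∣ p.choose 2 :=
        hp.out.dvd_choose_self two_ne_zero (lt_of_le_of_ne hp.out.two_le (Ne.symm h2))
      rw [mul_pow' hD hZ hc, hk, pow_mul, pow_D hD hZ hc (comm_mem hD hZ _ _), one_pow, one_mul]
    let P : G →* G := MonoidHom.mk' (· ^ p) h1
    have h3 : P.ker ≤ D := fun u hu => hB u (by
      by_contra e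
      exact hne ⟨u, e, fun g _ => by rw [h1, show u ^ p = 1 from hu, mul_one]⟩) hu
    have h4 : P.range ≤ center G := by
      rintro _ ⟨x, rfl⟩
      exact pow_mem_center hD hZ hc x
    have h5 := P.ker.card_mul_index
    rw [index_ker] at h5
    have h6 := Nat.mul_le_mul (hc ▸ card_le_of_le h3) (card_le_of_le h4)
    rw [h5] at h6
    have h7 := Nat.le_of_mul_le_mul_right (hN.trans h6) hZ0
    have := hp.out.two_le
    nlinarith
  subst h2
  have hD2 : ∀ a ∈ D, ∀ b ∈ D, a ≠ 1 → b ≠ 1 → a = b := fun a ha b hb h1 h2 => by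
    obtain ⟨y, -, hy⟩ := (Nat.card_eq_two_iff' (1 : D)).1 hc
    exact congrArg Subtype.val ((hy ⟨a, ha⟩ fun e => h1 (congrArg Subtype.val e)).trans
      (hy ⟨b, hb⟩ fun e => h2 (congrArg Subtype.val e)).symm)
  let Q : G →* Abelianization G := (powMonoidHom 2).comp Abelianization.of
  have hS : ∀ x, x ∈ Q.ker ↔ x ^ 2 ∈ D := fun x => by
    rw [← hD, ← Abelianization.ker_of, MonoidHom.mem_ker, MonoidHom.mem_ker, map_pow]
    rfl
  have h1 : ∀ x ∈ Q.ker, x ∉ center G → x ^ 2 = 1 := fun x hx hx' => by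
    by_contra e
    refine hne ⟨x, hx', fun g hg => ?_⟩
    have e1 : ⁅x, g⁆ ≠ 1 := fun e => hg (by rw [← commutatorElement_inv, e, inv_one])
    rw [mul_pow' hD hZ hc, Nat.choose_self, pow_one,
      hD2 _ (comm_mem hD hZ x g) _ ((hS x).1 hx) e1 e, mem_center_iff.1 (hZ ((hS x).1 hx)) (g ^ 2),
      ← mul_assoc, ← sq, pow_D hD hZ hc ((hS x).1 hx), one_mul]
  have h3 : ∀ x ∈ Q.ker, ∀ y ∈ Q.ker, x * y = y * x := fun x hx y hy => by
    by_contra e
    have e1 := h1 x hx fun k => e (mem_center_iff.1 k y).symm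
    have e2 := h1 y hy fun k => e (mem_center_iff.1 k x)
    have e3 := h1 _ (mul_mem hx hy) fun k => e (mul_left_cancel (a := x)
      (by rw [mem_center_iff.1 k x, mul_assoc]))
    rw [mul_pow' hD hZ hc, e1, e2, Nat.choose_self, pow_one, mul_one, mul_one] at e3
    exact e (commutatorElement_eq_one_iff_mul_comm.1 e3).symm
  have h4 : Q.range ≤ (center G).map Abelianization.of := by
    rintro _ ⟨x, rfl⟩
    exact ⟨x ^ 2, pow_mem_center hD hZ hc x, map_pow _ _ _⟩
  have h5 := Q.ker.card_mul_index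
  rw [index_ker] at h5
  have h6 : 2 * Nat.card ((center G).map Abelianization.of) = Nat.card (center G) := by
    rw [← relIndex_ker, Abelianization.ker_of, hD, ← hc,
      ← Nat.card_congr (subgroupOfEquivOfLe hZ).toEquiv]
    exact card_mul_index _
  have h7 := card_le_of_le h4
  by_cases h8 : Q.ker ≤ center G
  · let f : Q.ker →* G := MonoidHom.mk' (fun s => (s : G) ^ 2) fun a b =>
      Commute.mul_pow (h3 a a.2 b b.2) 2
    have e1 := f.ker.card_mul_index
    rw [index_ker] at e1
    have e2 : f.range ≤ D := by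
      rintro _ ⟨x, rfl⟩
      exact (hS x).1 x.2
    have e3 : f.ker.map Q.ker.subtype ≤ D := by
      rintro _ ⟨x, hx, rfl⟩
      exact hB _ (h8 x.2) hx
    have e4 := card_le_of_le e3
    rw [card_map_of_injective (subtype_injective _)] at e4
    have e5 := Nat.mul_le_mul e4 (card_le_of_le e2)
    rw [e1, hc] at e5
    nlinarith
  obtain ⟨x, hx, hx'⟩ := SetLike.not_le_iff_exists.1 h8
  have e1 : center G ⊓ Q.ker ≤ D := fun s ⟨s1, s2⟩ => hB s s1 (by
    have := h1 _ (mul_mem hx s2) fun k => hx' (((center G).mul_mem_cancel_right s1).1 k)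
    rwa [Commute.mul_pow (h3 x hx s s2), h1 x hx hx', one_mul] at this)
  have e2 := card_le_of_le e1
  have e3 : Nat.card ↥(center G ⊓ Q.ker) * (center G).relIndex Q.ker = Nat.card Q.ker := by
    rw [← inf_relIndex_right, ← Nat.card_congr (subgroupOfEquivOfLe
      (inf_le_right : center G ⊓ Q.ker ≤ Q.ker)).toEquiv]
    exact card_mul_index _
  have e4 := relIndex_mul_index (le_sup_right : center G ≤ Q.ker ⊔ center G)
  rw [relIndex_sup_right] at e4
  have e5 := (center G).card_mul_index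
  have e6 : (Q.ker ⊔ center G).index = 1 := by
    by_contra e
    have k1 : 2 ≤ (Q.ker ⊔ center G).index := by
      have := (Q.ker ⊔ center G).index_ne_zero_of_finite
      omega
    have k2 : 0 < (center G).relIndex Q.ker := Nat.pos_of_ne_zero index_ne_zero_of_finite
    rw [hc] at e2
    generalize (center G).relIndex Q.ker = a, (Q.ker ⊔ center G).index = b,
      Nat.card ↥(center G ⊓ Q.ker) = c, Nat.card Q.range = r,
      Nat.card ((center G).map Abelianization.of) = m at *
    rw [← e3, ← e5, ← e4, ← h6] at h5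
    have k3 : c * a * r ≤ 2 * a * m := Nat.mul_le_mul (Nat.mul_le_mul_right _ e2) h7
    have k4 : 0 < m := by omega
    have k5 : 2 * m * (a * 2) ≤ 2 * m * (a * b) := Nat.mul_le_mul_left _ (Nat.mul_le_mul_left _ k1)
    have k6 := Nat.mul_pos k2 k4
    nlinarith
  refine hx' (mem_center_iff.2 fun g => ?_)
  have : Q.ker ⊔ center G ≤ centralizer {x} :=
    sup_le (fun s hs => mem_centralizer_singleton_iff.2 (h3 s hs x hx)) (center_le_centralizer _)
  exact mem_centralizer_singleton_iff.1 (this (index_eq_one.1 e6 ▸ mem_top g))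

theorem exists_uv (hN : p ^ 2 * Nat.card (center G) ≤ Nat.card G) (hne : ∃ u, u ∉ center G) :
    ∃ u ∉ center G, ∀ g, ⁅g, u⁆ ≠ 1 → ∃ φ : MulAut G, ∃ v ∉ D, φ g = g * v := by
  have key : ∀ u ∉ center G, ∀ v, ⁅v, u⁆ = 1 → (∀ h, ⁅h, u⁆ = 1 → h * v = v * h) → ∀ g, ⁅g, u⁆ ≠ 1 →
      (g * v) ^ p = g ^ p → ∃ φ : MulAut G, φ g = g * v := fun u hu v h1 h2 g h3 h4 =>
    exists_aut (H := (kap hD hZ u).ker) hp.out (by rw [index_ker, range_kap hD hZ hc hu, hc]) h3 h1
      h2 h4
  by_cases hB : ∀ w ∈ center G, w ^ p = 1 → w ∈ D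
  · obtain ⟨u, hu, h⟩ := exists_good hD hZ hc hN hB
    refine ⟨u, hu, fun g hg => ?_⟩
    obtain ⟨φ, hφ⟩ := key u hu u (by simp) (fun h e => commutatorElement_eq_one_iff_mul_comm.1 e) g hg
      (h g hg)
    exact ⟨φ, u, fun e => hu (hZ e), hφ⟩
  push Not at hB
  obtain ⟨w, w1, w2, w3⟩ := hB
  obtain ⟨u, hu⟩ := hne
  refine ⟨u, hu, fun g hg => ?_⟩
  obtain ⟨φ, hφ⟩ := key u hu w (commutatorElement_eq_one_iff_mul_comm.2 (mem_center_iff.1 w1 u).symm)
    (fun h _ => mem_center_iff.1 w1 h) g hg (by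
      rw [Commute.mul_pow (mem_center_iff.1 w1 g), w2, mul_one])
  exact ⟨φ, w, w3, hφ⟩

theorem conj_of {g : G} (hg : g ∉ center G) {d : G} (hd : d ∈ D) :
    ∃ φ : MulAut G, φ g = g * d := by
  obtain ⟨x, rfl⟩ := (range_kap hD hZ hc hg).ge hd
  refine ⟨MulAut.conj x, ?_⟩
  rw [mem_center_iff.1 (hZ hd) g]
  simp [kap, commutatorElement_def]

open Classical in
theorem orbits_le (hm : p = (Nat.card G).minFac) (hne : ∃ u, u ∉ center G) :
    Nat.card (MulAction.orbitRel.Quotient (MulAut G) G) * p ≤ Nat.card G := by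
  have hidx : ∀ u ∉ center G, (kap hD hZ u).ker.index = p := fun u hu => by
    rw [index_ker, range_kap hD hZ hc hu, hc]
  have hZH : ∀ u, center G ≤ (kap hD hZ u).ker := fun u w hw =>
    commutatorElement_eq_one_iff_mul_comm.2 (mem_center_iff.1 hw u).symm
  have hN : p ^ 2 * Nat.card (center G) ≤ Nat.card G := by
    obtain ⟨u, hu⟩ := hne
    have e1 := relIndex_mul_index (hZH u)
    have e2 : p ≤ (center G).relIndex (kap hD hZ u).ker := by
      refine hm ▸ Nat.minFac_le_of_dvd ?_ ((relIndex_dvd_card _ _).trans (card_subgroup_dvd_card _))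
      have k1 : (center G).relIndex (kap hD hZ u).ker ≠ 0 := index_ne_zero_of_finite
      have k2 : (center G).relIndex (kap hD hZ u).ker ≠ 1 := fun e =>
        hu (relIndex_eq_one.1 e (show ⁅u, u⁆ = 1 by simp))
      omega
    rw [← (center G).index_mul_card, ← e1, hidx u hu, sq]
    exact Nat.mul_le_mul_right _ (Nat.mul_le_mul_right _ e2)
  obtain ⟨u, hu, hφ⟩ := exists_uv hD hZ hc hN hne
  have hH := (kap hD hZ u).ker.card_mul_index
  rw [hidx u hu] at hH
  have hZH := hZH u
  change ∀ g, g ∉ (kap hD hZ u).ker → _ at hφ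
  generalize (kap hD hZ u).ker = H at *
  let _ := Fintype.ofFinite G
  let _ := Fintype.ofFinite (MulAction.orbitRel.Quotient (MulAut G) G)
  let π : G → MulAction.orbitRel.Quotient (MulAut G) G := Quotient.mk''
  have hπ : ∀ (φ : MulAut G) (g : G), π (φ g) = π g := fun φ g =>
    Quotient.sound' (MulAction.mem_orbit g φ)
  let w : G → ℕ := fun g => 1 + (if g ∈ H then 1 else 0) + (2 * p - 2) * (if g ∈ center G then 1 else 0)
  have hsum : ∀ (K : Subgroup G) [DecidablePred (· ∈ K)],
      ∑ g, (if g ∈ K then 1 else 0) = Nat.card K := fun K _ => by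
    rw [Finset.sum_boole, Nat.card_eq_fintype_card, Fintype.card_subtype]
    rfl
  have hw : ∑ g, w g = Nat.card G + Nat.card H + (2 * p - 2) * Nat.card (center G) := by
    simp only [w]
    rw [Finset.sum_add_distrib, Finset.sum_add_distrib, ← Finset.mul_sum, hsum, hsum]
    simp
  have h2 := hp.out.two_le
  let cs : G → Finset G := fun g => Finset.univ.image fun d : D => g * d
  have cs1 : ∀ g, (cs g).card = p := fun g => by
    rw [Finset.card_image_of_injective _ fun a b h => Subtype.ext (mul_left_cancel h), ← hc,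
      Finset.card_univ, Nat.card_eq_fintype_card]
  have cs2 : ∀ g ∉ center G, ∀ x ∈ cs g, π x = π g := fun g hg x hx => by
    obtain ⟨d, -, rfl⟩ := Finset.mem_image.1 hx
    obtain ⟨φ, h⟩ := conj_of hD hZ hc hg d.2
    rw [← h, hπ]
  have hfib : ∀ q, 2 * p ≤ ∑ g with π g = q, w g := fun q => by
    induction q using Quotient.inductionOn' with | h g => ?_
    by_cases g1 : g ∈ center G
    · refine le_trans ?_ (Finset.single_le_sum (f := w) (fun _ _ => Nat.zero_le _)
        (show g ∈ _ from Finset.mem_filter.2 ⟨Finset.mem_univ _, rfl⟩))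
      simp only [w, if_pos g1, if_pos (hZH g1)]
      omega
    by_cases g2 : g ∈ H
    · refine le_trans ?_ (Finset.sum_le_sum_of_subset (s := cs g) fun x hx =>
        Finset.mem_filter.2 ⟨Finset.mem_univ _, cs2 g g1 x hx⟩)
      rw [← cs1 g, mul_comm]
      refine Finset.card_nsmul_le_sum (cs g) w 2 fun x hx => ?_
      obtain ⟨d, -, rfl⟩ := Finset.mem_image.1 hx
      simp only [w, if_pos (mul_mem g2 (hZH (hZ d.2)))]
      omega
    obtain ⟨φ, v, hv, h⟩ := hφ g g2
    have g3 : φ g ∉ center G := fun e => g1 (mem_center_iff.2 fun y => φ.injective (by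
      rw [map_mul, map_mul, mem_center_iff.1 e]))
    refine le_trans ?_ (Finset.sum_le_sum_of_subset (s := cs g ∪ cs (φ g)) fun x hx =>
      Finset.mem_filter.2 ⟨Finset.mem_univ _, (Finset.mem_union.1 hx).elim (cs2 g g1 x)
        fun k => (cs2 _ g3 x k).trans (hπ φ g)⟩)
    have hd : Disjoint (cs g) (cs (φ g)) := Finset.disjoint_left.2 fun x h1 h2 => by
      obtain ⟨d, -, rfl⟩ := Finset.mem_image.1 h1
      obtain ⟨e, -, he⟩ := Finset.mem_image.1 h2
      rw [h, mul_assoc, mul_right_inj] at he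
      exact hv ((mul_mem_cancel_right e.2).1 (he ▸ d.2))
    have := Finset.card_nsmul_le_sum (cs g ∪ cs (φ g)) w 1 fun x _ => by simp only [w]; omega
    rw [Finset.card_union_of_disjoint hd, cs1, cs1] at this
    simpa [two_mul] using this
  have h3 := Finset.card_nsmul_le_sum Finset.univ _ _ fun q _ => hfib q
  rw [Finset.sum_fiberwise, hw, Finset.card_univ, ← Nat.card_eq_fintype_card, smul_eq_mul] at h3
  obtain ⟨k, rfl⟩ : ∃ k, p = k + 2 := ⟨p - 2, by omega⟩
  rw [show 2 * (k + 2) - 2 = 2 * (k + 1) by omega] at h3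
  generalize Nat.card (MulAction.orbitRel.Quotient (MulAut G) G) = o, Nat.card (center G) = z,
    Nat.card H = h, Nat.card G = n at *
  subst hH
  have h4 : (k + 2) * z ≤ h := Nat.le_of_mul_le_mul_right (c := k + 2) (by nlinarith) (by omega)
  have h5 : (k + 1) * (2 * z) ≤ (k + 1) * h := Nat.mul_le_mul_left _ (by nlinarith)
  nlinarith

end

theorem main [Finite G] (hna : ¬ IsMulCommutative G) :
    Nat.card (MulAction.orbitRel.Quotient (MulAut G) G) ≤ Nat.card G / (Nat.card G).minFac := by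
  have hne : ∃ u, u ∉ center G := by
    by_contra e
    push Not at e
    exact hna ⟨⟨fun a b => mem_center_iff.1 (e b) a⟩⟩
  have h1 : Nat.card (commutator G) ≠ 1 := fun e => hna ⟨⟨fun a b =>
    commutatorElement_eq_one_iff_mul_comm.1 (mem_bot.1 (card_eq_one.1 e ▸
      commutator_mem_commutator (mem_top a) (mem_top b)))⟩⟩
  have h2 : Nat.card G ≠ 1 := fun e => h1 (Nat.dvd_one.1 (e ▸ card_subgroup_dvd_card _))
  have hp := Nat.minFac_prime h2
  rw [Nat.le_div_iff_mul_le hp.pos]
  by_cases h3 : Nat.card (commutator G) ≤ (Nat.card G).minFac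
  · haveI := Fact.mk hp
    have h4 : 0 < Nat.card (commutator G) := Nat.card_pos
    exact orbits_le rfl (le_center_of_card_le h3) (le_antisymm h3
      (Nat.minFac_le_of_dvd (by omega) (card_subgroup_dvd_card _))) rfl hne
  have h4 := H92.sq_mul_card_conjClasses_le (G := G) (p := (Nat.card G).minFac)
    fun q hq h => Nat.minFac_le_of_dvd hq.two_le h
  have h5 : Nat.card (MulAction.orbitRel.Quotient (MulAut G) G) ≤ Nat.card (ConjClasses G) := by
    refine Nat.card_le_card_of_surjective (Quotient.map' id ?_) fun q => ?_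
    · intro a b h
      obtain ⟨c, rfl⟩ := isConj_iff.1 h
      exact (MulAction.orbitRel _ _).symm (MulAction.mem_orbit a (MulAut.conj c))
    · induction q using Quotient.inductionOn' with | h g => exact ⟨ConjClasses.mk g, rfl⟩
  have h6 := (commutator G).card_mul_index
  have h7 := hp.two_le
  generalize (Nat.card G).minFac = p at *
  generalize Nat.card (commutator G) = d, (commutator G).index = i,
    Nat.card (ConjClasses G) = k, Nat.card (MulAction.orbitRel.Quotient (MulAut G) G) = o,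
    Nat.card G = n at *
  obtain ⟨q, rfl⟩ : ∃ q, p = q + 1 := ⟨p - 1, by omega⟩
  have h8 : (q + 2) * i ≤ n := h6 ▸ Nat.mul_le_mul_right _ (by omega)
  have h9 : q * ((q + 2) * i) ≤ q * n := Nat.mul_le_mul_left _ h8
  have h10 : (q + 1) * (k * (q + 1)) ≤ (q + 1) * n := by nlinarith
  exact (Nat.mul_le_mul_right _ h5).trans (Nat.le_of_mul_le_mul_left h10 (by omega))

end Cfsg.Agent.H4.AO
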