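import Cfsg.Agent.H4.DgS1C

/-!
Piece S1 of project DG: one of the two constituents has degree divisible by the characteristic.
-/

set_option autoImplicit false

namespace Cfsg.Agent.H4.DgS1

open Module Cfsg.Agent.H53.Dg Cfsg.Agent.H11 Cfsg.Agent.H26 Cfsg.Agent.H26.PForm
open scoped Classical commutatorElement

variable {F V : Type} [Field F] [AddCommGroup V] [Module F V] {P : PForm F V}

namespace B5

variable {X X' : Submodule F V} (B : B5 P X X')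

/-- Simplification of values of the form. -/
local macro "fsimq" "[" B:term "]" loc:(Lean.Parser.Tactic.location)? : tactic =>
  `(tactic| simp only [PForm.f_add_left, PForm.f_add_right, PForm.f_sub_left, PForm.f_sub_right,
    PForm.f_smul_left, B5.fr $B, B5.gram $B, mul_zero, mul_one, add_zero, zero_add, sub_zero,
    zero_smul, one_smul, map_add, map_sub, map_smul] $[$loc]?)

theorem U_le [Finite V] : B.U ≤ stab P.isom X := by
  intro g hg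
  obtain ⟨h1, h2, -⟩ := B.of_U hg
  rw [mem_stab, mem_stabSub]
  intro v hv
  obtain ⟨a, b, rfl⟩ := (B.memX v).1 hv
  rw [map_add, map_smul, map_smul, h1, h2]
  exact (B.memX _).2 ⟨a + b * B.x g, b, by module⟩

theorem free {u : P.isom} (hu : u ∈ B.Ub) (h : u.1 ∈ stabSub X') : u = 1 := by
  have h1 := B.of_Ub hu B.e₁_mem
  have h2 := B.of_Ub hu B.e₂_mem
  have k : ∀ v ∈ X', u.1 v = v := by
    intro v hv
    obtain ⟨a, b, e⟩ := (B.memX' _).1 ((h v).1 hv)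
    obtain ⟨a', b', rfl⟩ := (B.memX' _).1 hv
    have e1 := fi u (a' • B.f₁ + b' • B.f₂) B.e₁
    have e2 := fi u (a' • B.f₁ + b' • B.f₂) B.e₂
    rw [e, h1] at e1
    rw [e, h2] at e2
    fsimq [B] at e1 e2
    rw [e, e1, e2]
  obtain ⟨-, -, c, h3⟩ := B.of_U hu.1
  have e1 := fi u B.w B.f₁
  have e2 := fi u B.w B.f₂
  rw [h3, k _ B.f₁_mem] at e1
  rw [h3, k _ B.f₂_mem] at e2
  fsimq [B] at e1 e2
  refine B.eq_one h1 h2 ?_ (k _ B.f₂_mem)
  rw [h3, e1, e2]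
  simp

theorem trans [Finite V] {Y : Submodule F V} (hY : TS P Y) (hd : finrank F Y = 2)
    (hd' : finrank F X' = 2) (h : X ⊓ Y = ⊥) : ∃ u ∈ B.Ub, mp u.1 X' = Y := by
  obtain ⟨y₁, hy₁, y₂, hy₂, h11, h12, h21, h22⟩ := dualPair (P := P) hd (b₁ := B.e₁) (b₂ := B.e₂)
    fun v hv h1 h2 => by
      rw [← Submodule.mem_bot F, ← h]
      exact ⟨B.maxX (hY.f_eq_zero hv hv) h1 h2, hv⟩
  have h11' := B.fs _ _ ▸ h11
  have h12' := B.fs _ _ ▸ h12
  have h21' := B.fs _ _ ▸ h21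
  have h22' := B.fs _ _ ▸ h22
  obtain ⟨ev₁, m₁⟩ := exists_eich_map B.s_e₁ B.s_f₁ (hY.1 _ hy₁) (B.fs _ _ ▸ B.h11) h11
  have u₁ : ei ev₁ ∈ B.Ub := by
    have := B.mem_U (g := ei ev₁) (a := 0) (b := 0) (c := -P.f B.w y₁) ?_ ?_ ?_
    · exact ⟨this.1, this.2.1⟩
    all_goals
      rw [B.ei_ap]
      fsimq [B]
      simp [h11', h12', sub_eq_add_neg]
  replace m₁ : (ei ev₁).1 B.f₁ = y₁ := m₁
  generalize ei ev₁ = g₁ at u₁ m₁
  have k₁ : P.f (g₁.1 B.f₂) B.e₂ = 1 := by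
    rw [fil, B.of_Ub (inv_mem u₁) B.e₂_mem, B.fs, B.h22]
  have k₂ : P.f B.e₁ (g₁.1 B.f₂) = 0 := by
    rw [B.fs, fil, B.of_Ub (inv_mem u₁) B.e₁_mem, B.fs, B.h12]
  have k₃ : P.f y₁ (g₁.1 B.f₂) = 0 := by
    rw [← m₁]
    exact (fi g₁ _ _).trans B.gram.2.2.2.2.2.1
  obtain ⟨ev₂, m₂⟩ := exists_eich_map B.s_e₂ (B.s_f₂.map g₁.2) (hY.1 _ hy₂) k₁ h22
  have u₂ : ei ev₂ ∈ B.Ub := by
    have := B.mem_U (g := ei ev₂) (a := 0) (b := -P.f B.w (y₂ - g₁.1 B.f₂)) (c := 0) ?_ ?_ ?_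
    · exact ⟨this.1, this.2.1⟩
    all_goals
      rw [B.ei_ap]
      fsimq [B]
    · simp [h21', k₂]
    · simp [h22', B.fs B.e₂, k₁]
    · module
  refine ⟨ei ev₂ * g₁, mul_mem u₂ u₁,
    Submodule.eq_of_le_of_finrank_eq ?_ (by rw [finrank_mp, hd, hd'])⟩
  rintro _ ⟨v, hv, rfl⟩
  obtain ⟨a, b, rfl⟩ := (B.memX' _).1 hv
  have a1 : (ei ev₂ * g₁).1 B.f₁ = y₁ := by
    rw [mul_ap, m₁, B.ei_ap, f_sub_right, k₃, h12,
      hY.f_eq_zero hy₁ hy₂]
    simp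
  have a2 : (ei ev₂ * g₁).1 B.f₂ = y₂ := m₂
  rw [LinearEquiv.coe_coe, map_add, map_smul, map_smul, a1, a2]
  exact Y.add_mem (Y.smul_mem _ hy₁) (Y.smul_mem _ hy₂)

theorem meet [Finite V] {Y : Submodule F V} (hY : TS P Y) (hd : finrank F Y = finrank F X)
    (h : X ⊓ Y ≠ ⊥) (h' : Y ≠ X) : ∃ e ∈ Y, ∃ y ∈ Y, e ≠ 0 ∧ y ∉ F ∙ e ∧ ∃ κ : F, κ ≠ 0 ∧
      ∀ t, (B.zz t).1 e = e ∧ (B.zz t).1 y = y + (t * κ) • e := by
  obtain ⟨e, ⟨heX, heY⟩, he0⟩ := Submodule.exists_mem_ne_zero_of_ne_bot h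
  obtain ⟨y, hyY, hyX⟩ := SetLike.not_le_iff_exists.1 fun hle : Y ≤ X =>
    h' (Submodule.eq_of_le_of_finrank_eq hle hd)
  have hye : y ∉ F ∙ e := fun hm => hyX ((Submodule.span_singleton_le_iff_mem _ _).2 heX hm)
  have h0 := hY.f_eq_zero hyY heY
  obtain ⟨α, β, rfl⟩ := (B.memX e).1 heX
  fsimq [B] at h0
  obtain ⟨κ, k1, k2⟩ : ∃ κ : F, P.f y B.e₁ = κ * β ∧ P.f y B.e₂ = -(κ * α) := by
    by_cases hα : α = 0
    · have hβ : β ≠ 0 := fun hβ => he0 (by simp [hα, hβ])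
      rw [hα, zero_mul, zero_add, mul_eq_zero, or_iff_right hβ] at h0
      exact ⟨P.f y B.e₁ / β, by field_simp, by simp [hα, h0]⟩
    · refine ⟨-P.f y B.e₂ / α, ?_, by field_simp⟩
      field_simp
      linear_combination h0
  refine ⟨_, heY, y, hyY, he0, hye, κ, fun hκ => hyX (B.maxX (hY.f_eq_zero hyY hyY) ?_ ?_),
    fun t => ⟨B.of_Ub ⟨(B.zz_mem t).1, (B.zz_mem t).2.1⟩ heX, ?_⟩⟩
  · rw [k1, hκ, zero_mul]
  · rw [k2, hκ, zero_mul, neg_zero]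
  · rw [B.zz_ap, k1, k2]; module

end B5

theorem s1 (pl : PlStmt) (zero : ZeroStmt) (_ : WittStmt) : S1Stmt := by
  intro F V _ _ _ _ _ P p L ψ χ χ' n n' hP hp _ hψ hχ hχ' hρ hn hn'
  obtain ⟨B⟩ := exists_B5 hP L
  letI iF := Fintype.ofFinite F
  letI iG := Fintype.ofFinite P.isom
  let ξ : stab P.isom L.X → ℂ := fun h => L.xi ψ (fun _ => 1) h
  have hξ : ∀ s : stab P.isom L.X, ξ s = ψ (rs L.X s.1.1) := fun s => mul_one _
  have hρ' : ∀ g, indFun _ ξ g = χ g + χ' g := fun g => by rw [← hρ, Lev.hc, ind_eq]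
  have hirr : IsIrrCharacter _ ξ := by
    rw [show ξ = fun s => ψ (rsHom P.isom L.X s) from funext hξ]
    refine isIrrCharacter_comp_of_surjective hψ.irr _ fun A => ?_
    obtain ⟨g, hg, h1, -, h2, -⟩ := L.surj A 1
    exact ⟨⟨⟨g, hg⟩, h1⟩, h2⟩
  have hdeg : ψ 1 = Fintype.card F - 1 := by
    rw [hψ.deg, L.dim, cd, Nat.card_eq_fintype_card]
    simp [Nat.cast_sub Fintype.card_pos]
  have hUS : B.Ub ≤ stab P.isom L.X := fun g hg => B.U_le hg.1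
  have h1 : ∀ x ∈ stab P.isom L.X, ∀ u ∈ B.Ub,
      extendByZero _ ξ (x⁻¹ * u * x) = Fintype.card F - 1 := by
    intro x hx u hu
    have hm := mul_mem (mul_mem (inv_mem hx) (hUS hu)) hx
    rw [ext_mem ξ hm, hξ, ← hdeg]
    congr 1
    ext v
    rw [rs_apply (mem_stab.1 hm), mul_ap, mul_ap, B.of_Ub hu ((mem_stab.1 hx v).1 v.2)]
    exact inv_ap rfl
  let w : P.isom := ⟨L.w0, L.w0_mem⟩
  have hw : w ∉ stab P.isom L.X := fun h => by
    have e : L.X' = L.X := L.w0_X.symm.trans (mem_stabSub_iff_mp.1 (mem_stab.1 h))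
    have := L.ts.f_eq_zero B.e₁_mem (e.le B.f₁_mem)
    rw [B.h11] at this
    exact one_ne_zero this
  have free : ∀ u ∈ B.Ub, w⁻¹ * u * w ∈ stab P.isom L.X → u = 1 := fun u hu h =>
    B.free hu (L.w0_X ▸ conj_mem_stabSub.1 (mem_stab.1 h))
  have tri : ∀ x : P.isom, x ∈ stab P.isom L.X ∨
      (∃ u ∈ B.Ub, ∃ s ∈ stab P.isom L.X, x = u * w * s) ∨
      ∀ K : Subgroup P.isom, (∀ t, B.zz t ∈ K) →
        sm K (fun u => extendByZero _ ξ (x⁻¹ * u * x)) = 0 := by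
    intro x
    have hY : TS P (mp x.1 L.X) := L.ts.map (sim_of_isom x.2)
    by_cases ha : mp x.1 L.X = L.X
    · exact Or.inl (mem_stab.2 (mem_stabSub_iff_mp.2 ha))
    by_cases hb : L.X ⊓ mp x.1 L.X = ⊥
    · obtain ⟨u, hu, h⟩ := B.trans hY (by rw [finrank_mp, L.dim]) L.dim' hb
      refine Or.inr (Or.inl ⟨u, hu, (u * w)⁻¹ * x, ?_, by group⟩)
      rw [mem_stab, mem_stabSub_iff_mp, Subgroup.coe_mul, mp_mul, ← h, ← L.w0_X, ← mp_mul,
        ← mp_mul, mul_assoc]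
      change mp ((u * w)⁻¹ * (u * w)).1 L.X = L.X
      rw [inv_mul_cancel]
      exact mp_one _
    · obtain ⟨e, he, y, hy, he0, hye, κ, hκ, h⟩ := B.meet hY (finrank_mp _ _) hb ha
      exact Or.inr (Or.inr fun K hK => van L.dim hψ.cusp hξ x B.zz hK he hy he0 hye hκ
        (fun t => (h t).1) fun t => (h t).2)
  have hK : ∀ K ≤ B.Ub, (∀ t, B.zz t ∈ K) → sm K (indFun _ ξ) =
      (Nat.card K + Nat.card B.Ub) * (Fintype.card F - 1) := fun K hK hz =>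
    sm_ind ξ hK hUS hw free h1 fun x => (tri x).imp_right (Or.imp_right fun h => h K hz)
  have hza : ∀ t, B.zz t ∈ B.Ua := fun t => ⟨(B.zz_mem t).1, (B.zz_mem t).2.2⟩
  have hzb : ∀ t, B.zz t ∈ B.Ub := fun t => ⟨(B.zz_mem t).1, (B.zz_mem t).2.1⟩
  have hxa : ∀ t, B.xa t ∈ B.Ua := fun t => ⟨(B.xa_mem t).1, (B.xa_mem t).2.2⟩
  have hA : sm B.Ua (indFun _ ξ) = 0 := by
    rw [sm_indFun, Finset.sum_eq_zero, mul_zero]
    intro x _
    rcases tri x with h | ⟨u, hu, s, hs, rfl⟩ | h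
    · have e := mem_stabSub_iff_mp.1 (mem_stab.1 h)
      refine van L.dim hψ.cusp hξ x B.xa hxa (e.ge B.e₁_mem) (e.ge B.e₂_mem)
        (fun h => ?_) (fun h => ?_) (neg_ne_zero.2 one_ne_zero) (fun t => (B.of_Ua (hxa t)).1)
        fun t => ?_
      · have := B.h11
        rw [h, f_zero_left] at this
        exact zero_ne_one this
      · obtain ⟨c, hc⟩ := Submodule.mem_span_singleton.1 h
        have := B.h22
        rw [← hc, P.f_smul_left, B.h12, mul_zero] at this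
        exact zero_ne_one this
      · rw [(B.of_Ua (hxa t)).2.1, (B.xa_mem t).2.1, mul_neg_one]
    · have e : mp (u * w * s).1 L.X = mp u.1 L.X' := by
        rw [Subgroup.coe_mul, Subgroup.coe_mul, mp_mul, mp_mul,
          mem_stabSub_iff_mp.1 (mem_stab.1 hs), L.w0_X]
      have g := B.gram
      refine van L.dim hψ.cusp hξ _ (fun t => u * B.xa t * u⁻¹) (fun t => ?_)
        (e.ge (apply_mem_mp.2 B.f₂_mem)) (e.ge (apply_mem_mp.2 B.f₁_mem))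
        (fun h => ?_) (fun h => ?_) one_ne_zero (fun t => ?_) fun t => ?_
      · have a1 := mul_mem hu.1 (hxa t).1
        refine ⟨mul_mem a1 (inv_mem hu.1), ?_⟩
        rw [(B.xy_mul a1 (inv_mem hu.1)).2, (B.xy_mul hu.1 (hxa t).1).2, (hxa t).2, add_zero,
          ← (B.xy_mul hu.1 (inv_mem hu.1)).2, mul_inv_cancel, B.rk2.y_one]
      · have := B.h22
        rw [← fi u, h, f_zero_right] at this
        exact zero_ne_one this
      · obtain ⟨c, hc⟩ := Submodule.mem_span_singleton.1 h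
        have := B.h11
        rw [← fi u, ← hc, B.fr, fi, B.h12, mul_zero] at this
        exact zero_ne_one this
      · rw [mul_ap, mul_ap, inv_ap rfl, B5.xa, B.ei_ap]
        simp [B.fr, g]
      · rw [mul_ap, mul_ap, inv_ap rfl, B5.xa, B.ei_ap]
        simp [B.fr, g]
    · exact h _ hza
  refine B.rk2.main pl zero hp ?_ B.isPGroup B.comm hirr hUS (fun s hs => ?_) hχ hχ' hρ' hn hn' hA
    (hK _ le_rfl hzb) (hK _ inf_le_left fun t => ⟨hzb t, hza t⟩)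
  · obtain ⟨k, -, hk⟩ := FiniteField.card F p
    rw [hk]
    exact dvd_pow_self p k.ne_zero
  · simpa [ext_mem ξ s.2] using h1 1 (one_mem _) s hs

end Cfsg.Agent.H4.DgS1
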