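import Cfsg.Agent.H53.DgDefs
import Cfsg.Agent.H11.Inner
import Cfsg.Agent.H14.Induce

/-!
Piece S1 of project DG, the character theoretic part: counting linear constituents of the
restriction to a maximal unipotent subgroup of rank two.
-/

set_option autoImplicit false

namespace Cfsg.Agent.H4.DgS1

open Cfsg.Agent.H53.Dg Cfsg.Agent.H11
open scoped Classical ComplexConjugate commutatorElement

section Sm

variable {G : Type} [Group G] [Fintype G]

/-- The sum over a subgroup. -/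
noncomputable def sm (K : Subgroup G) (Φ : G → ℂ) : ℂ := ∑ g, if g ∈ K then Φ g else 0

theorem sum_eq_sm (K : Subgroup G) [Fintype K] (Φ : G → ℂ) : ∑ u : K, Φ u = sm K Φ := by
  rw [sm, ← Finset.sum_filter]
  exact (Finset.sum_subtype _ (by simp) Φ).symm

theorem finsum_eq_sm (K : Subgroup G) (Φ : G → ℂ) : ∑ᶠ u : K, Φ u = sm K Φ := by
  rw [finsum_eq_sum_of_fintype, sum_eq_sm]

theorem sm_congr {K : Subgroup G} {Φ Ψ : G → ℂ} (h : ∀ g ∈ K, Φ g = Ψ g) : sm K Φ = sm K Ψ :=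
  Finset.sum_congr rfl fun g _ => by
    split_ifs with hg
    · exact h g hg
    · rfl

theorem sm_const (K : Subgroup G) (c : ℂ) : sm K (fun _ => c) = Nat.card K * c := by
  rw [← sum_eq_sm]
  simp

theorem sm_add (K : Subgroup G) (Φ Ψ : G → ℂ) :
    sm K (fun g => Φ g + Ψ g) = sm K Φ + sm K Ψ := by
  simp only [← sum_eq_sm, Finset.sum_add_distrib]

theorem sm_sub (K : Subgroup G) (Φ Ψ : G → ℂ) :
    sm K (fun g => Φ g - Ψ g) = sm K Φ - sm K Ψ := by
  simp only [← sum_eq_sm, Finset.sum_sub_distrib]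

theorem sm_mul (K : Subgroup G) (c : ℂ) (Φ : G → ℂ) :
    sm K (fun g => c * Φ g) = c * sm K Φ := by
  simp only [← sum_eq_sm, Finset.mul_sum]

theorem sm_sum {ι : Type} (s : Finset ι) (K : Subgroup G) (Φ : ι → G → ℂ) :
    sm K (fun g => ∑ i ∈ s, Φ i g) = ∑ i ∈ s, sm K (Φ i) := by
  simp only [← sum_eq_sm]
  exact Finset.sum_comm

theorem sm_mul_right {K : Subgroup G} {k : G} (hk : k ∈ K) (Φ : G → ℂ) :
    sm K (fun g => Φ (g * k)) = sm K Φ := by
  refine Fintype.sum_equiv (Equiv.mulRight k) _ _ fun g => ?_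
  simp only [Equiv.coe_mulRight, K.mul_mem_cancel_right hk]

theorem sm_conj {K : Subgroup G} {τ : G} (h : ∀ u ∈ K, τ * u * τ⁻¹ ∈ K) (Φ : G → ℂ) :
    sm K (fun g => Φ (τ * g * τ⁻¹)) = sm K Φ := by
  have hn := Subgroup.mem_normalizer_fintype (S := (K : Set G)) h
  refine Fintype.sum_equiv (MulAut.conj τ).toEquiv _ _ fun g => ?_
  have : g ∈ K ↔ τ * g * τ⁻¹ ∈ K := hn g
  simp only [MulEquiv.toEquiv_eq_coe, EquivLike.coe_coe, MulAut.conj_apply, ← this]

theorem sm_avg {ι : Type} [Fintype ι] [Nonempty ι] {K : Subgroup G} (a : ι → G)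
    (ha : ∀ t, a t ∈ K) {Φ : G → ℂ} (h : ∀ g ∈ K, ∑ t, Φ (g * a t) = 0) : sm K Φ = 0 := by
  have h1 : ∑ t, sm K (fun g => Φ (g * a t)) = Fintype.card ι * sm K Φ := by
    simp [sm_mul_right (ha _)]
  rw [← sm_sum, sm_congr h, sm_const, mul_zero] at h1
  exact (mul_eq_zero.1 h1.symm).resolve_left (Nat.cast_ne_zero.2 Fintype.card_ne_zero)

theorem sm_le {K U : Subgroup G} (p : G → Prop) (h : ∀ g, g ∈ K ↔ g ∈ U ∧ p g) (Φ : G → ℂ) :
    sm K Φ = sm U (fun g => if p g then Φ g else 0) :=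
  Finset.sum_congr rfl fun g _ => by
    by_cases h1 : g ∈ U <;> by_cases h2 : p g <;> simp [h, h1, h2]

theorem exists_nat_sm {S : Subgroup G} {α : S → ℂ} (hα : IsCharacter S α) {K : Subgroup G}
    (hK : K ≤ S) {Φ : G → ℂ} (hΦ : ∀ s : S, Φ s = α s) : ∃ m : ℕ, sm K Φ = Nat.card K * m := by
  obtain ⟨m, hm⟩ := exists_nat_classInner (isCharacter_restrict_of_le hα hK) isCharacter_one
  refine ⟨m, ?_⟩
  rw [← hm, classInner, ← mul_assoc, mul_inv_cancel₀ (card_ne_zero K), one_mul, ← sum_eq_sm]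
  exact Finset.sum_congr rfl fun u _ => by rw [map_one, mul_one, ← hΦ]

theorem exists_nat_sm' {χ : G → ℂ} (hχ : IsCharacter G χ) (K : Subgroup G) :
    ∃ m : ℕ, sm K χ = Nat.card K * m :=
  exists_nat_sm (isCharacter_restrict hχ K) le_rfl fun _ => rfl

end Sm

section Key

variable {G F : Type} [Group G] [Fintype G] [Field F] [Fintype F]

/-- A subgroup `U` with a homomorphism onto `F × F` and enough normalizing elements. -/
structure Rk2 (U Ua Ub D : Subgroup G) (x y : G → F) : Prop where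
  hx : ∀ a ∈ U, ∀ b ∈ U, x (a * b) = x a + x b
  hy : ∀ a ∈ U, ∀ b ∈ U, y (a * b) = y a + y b
  hUa : ∀ g, g ∈ Ua ↔ g ∈ U ∧ y g = 0
  hUb : ∀ g, g ∈ Ub ↔ g ∈ U ∧ x g = 0
  hD : ∀ g, g ∈ D ↔ g ∈ U ∧ x g = 0 ∧ y g = 0
  surj : ∀ s t, ∃ g ∈ U, x g = s ∧ y g = t
  tor : ∀ α β : F, α ≠ 0 → β ≠ 0 → ∃ τ : G, ∀ u ∈ U, τ * u * τ⁻¹ ∈ U ∧
    x (τ * u * τ⁻¹) = x u * α ∧ y (τ * u * τ⁻¹) = y u * β

variable {U Ua Ub D : Subgroup G} {x y : G → F}

theorem card_of_add {K N : Subgroup G} {z : G → F} (hz : ∀ a ∈ K, ∀ b ∈ K, z (a * b) = z a + z b)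
    (hN : ∀ g, g ∈ N ↔ g ∈ K ∧ z g = 0) (hs : ∀ s, ∃ g ∈ K, z g = s) :
    (Nat.card K : ℂ) = Fintype.card F * Nat.card N := by
  choose a ha ha' using hs
  have h1 : ∀ s, sm K (fun g => if z g + s = 0 then (1 : ℂ) else 0) = Nat.card N := fun s => by
    rw [← mul_one (Nat.card N : ℂ), ← sm_const, sm_le _ hN,
      ← sm_mul_right (ha s) fun g => if z g = 0 then (1 : ℂ) else 0]
    exact sm_congr fun g hg => by rw [hz g hg _ (ha s), ha']
  have h2 := sm_sum Finset.univ K fun s g => if z g + s = 0 then (1 : ℂ) else 0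
  simp only [h1] at h2
  simp only [add_eq_zero_iff_neg_eq, Finset.sum_ite_eq, Finset.mem_univ, if_true,
    sm_const] at h2
  simpa using h2

theorem Rk2.x_one (h : Rk2 U Ua Ub D x y) : x 1 = 0 := by
  simpa using h.hx 1 (one_mem _) 1 (one_mem _)

theorem Rk2.y_one (h : Rk2 U Ua Ub D x y) : y 1 = 0 := by
  simpa using h.hy 1 (one_mem _) 1 (one_mem _)

theorem Rk2.card_U (h : Rk2 U Ua Ub D x y) : (Nat.card U : ℂ) = Fintype.card F * Nat.card Ub :=
  card_of_add h.hx h.hUb fun s => by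
    obtain ⟨g, hg, h1, -⟩ := h.surj s 0
    exact ⟨g, hg, h1⟩

theorem Rk2.card_Ub (h : Rk2 U Ua Ub D x y) : (Nat.card Ub : ℂ) = Fintype.card F * Nat.card D :=
  card_of_add (fun a ha b hb => h.hy a ((h.hUb a).1 ha).1 b ((h.hUb b).1 hb).1)
    (fun g => by rw [h.hD, h.hUb, and_assoc]) fun s => by
    obtain ⟨g, hg, h1, h2⟩ := h.surj 0 s
    exact ⟨g, (h.hUb g).2 ⟨hg, h1⟩, h2⟩

theorem Rk2.key (h : Rk2 U Ua Ub D x y) {χ : G → ℂ} (hχ : IsCharacter G χ)
    (h0 : ∀ g, sm Ua (fun u => χ (g * u)) = 0) :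
    ∃ k : ℕ, ((Fintype.card F : ℂ) - 1) ^ 2 * (Nat.card U * k) =
      (Fintype.card F : ℂ) ^ 2 * sm D χ - Fintype.card F * sm Ub χ := by
  set lam := AddChar.FiniteField.primitiveChar_to_Complex F
  have hlam : lam.IsPrimitive := AddChar.FiniteField.primitiveChar_to_Complex_isPrimitive F
  have hlin : IsIrrCharacter U fun u => conj (lam (x u) * lam (y u)) :=
    isIrrCharacter_of_map_mul (by simp [h.x_one, h.y_one]) fun a b => by
      rw [Subgroup.coe_mul, h.hx _ a.2 _ b.2, h.hy _ a.2 _ b.2, AddChar.map_add_eq_mul,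
        AddChar.map_add_eq_mul, ← map_mul (starRingEnd ℂ)]
      congr 1; ring
  obtain ⟨k, hk⟩ := exists_nat_classInner (isCharacter_restrict hχ U) (isCharacter_of_irr hlin)
  refine ⟨k, ?_⟩
  have hk' : sm U (fun u => χ u * (lam (x u) * lam (y u))) = Nat.card U * k := by
    rw [← hk, classInner, ← mul_assoc, mul_inv_cancel₀ (card_ne_zero U), one_mul, ← sum_eq_sm]
    simp only [Complex.conj_conj]
  have h1 : ∀ α β : F, α ≠ 0 → β ≠ 0 →
      sm U (fun u => χ u * (lam (α * x u) * lam (β * y u))) = Nat.card U * k := by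
    intro α β hα hβ
    obtain ⟨τ, hτ⟩ := h.tor α β hα hβ
    rw [← hk', ← sm_conj (fun u hu => (hτ u hu).1) fun u => χ u * (lam (x u) * lam (y u))]
    refine sm_congr fun u hu => ?_
    rw [(hτ u hu).2.1, (hτ u hu).2.2, isClassFunction_of_isCharacter hχ, mul_comm α, mul_comm β]
  have h2 : ∀ s : F, ∑ α ∈ Finset.univ.erase (0 : F), lam (α * s) =
      (if s = 0 then (Fintype.card F : ℂ) else 0) - 1 := fun s => by
    rw [Finset.sum_erase_eq_sub (Finset.mem_univ _), AddChar.sum_mulShift s hlam]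
    simp
  have h3 : ∀ b : F → ℂ, sm U (fun u => χ u * b (y u)) = 0 := fun b => by
    refine sm_avg (fun t : Ua => (t : G)) (fun t => ((h.hUa t).1 t.2).1) fun g hg => ?_
    have : ∀ t : Ua, y (g * t) = y g := fun t => by
      rw [h.hy g hg _ ((h.hUa t).1 t.2).1, ((h.hUa t).1 t.2).2, add_zero]
    simp only [this]
    rw [← Finset.sum_mul, sum_eq_sm Ua fun u => χ (g * u), h0, zero_mul]
  have h4 : ∑ α ∈ Finset.univ.erase (0 : F), ∑ β ∈ Finset.univ.erase (0 : F),
      sm U (fun u => χ u * (lam (α * x u) * lam (β * y u))) =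
      ((Fintype.card F : ℂ) - 1) ^ 2 * (Nat.card U * k) := by
    rw [Finset.sum_congr rfl fun α hα => Finset.sum_congr rfl fun β hβ =>
      h1 α β (Finset.ne_of_mem_erase hα) (Finset.ne_of_mem_erase hβ)]
    simp only [Finset.sum_const, Finset.card_erase_of_mem (Finset.mem_univ _), Finset.card_univ,
      nsmul_eq_mul, Nat.cast_sub Fintype.card_pos]
    push_cast
    ring
  rw [← h4]
  simp only [← sm_sum, ← Finset.mul_sum, ← Finset.sum_mul, h2]
  rw [sm_le _ h.hD, sm_le _ h.hUb, ← sm_mul, ← sm_mul, ← sm_sub]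
  refine Eq.trans ?_ (sub_zero _)
  refine Eq.trans ?_
    (congrArg _ (h3 fun t => (if t = 0 then (Fintype.card F : ℂ) else 0) - 1))
  rw [← sm_sub]
  refine sm_congr fun g _ => ?_
  by_cases h1 : x g = 0 <;> by_cases h2 : y g = 0 <;> simp [h1, h2] <;> ring

theorem Rk2.main (h : Rk2 U Ua Ub D x y) (pl : PlStmt) (zero : ZeroStmt) {p : ℕ} (hp : p.Prime)
    (hpq : p ∣ Fintype.card F) (hU : IsPGroup p U) (hDU : D ≤ ⁅U, U⁆) {S : Subgroup G}
    {ξ : S → ℂ} (hξ : IsIrrCharacter S ξ) (hUS : Ub ≤ S)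
    (hξ1 : ∀ s : S, (s : G) ∈ Ub → ξ s = Fintype.card F - 1) {χ χ' : G → ℂ} {n n' : ℕ}
    (hχ : IsIrrCharacter G χ) (hχ' : IsIrrCharacter G χ') (hρ : ∀ g, indFun S ξ g = χ g + χ' g)
    (hn : χ 1 = n) (hn' : χ' 1 = n') (hA : sm Ua (indFun S ξ) = 0)
    (hB : sm Ub (indFun S ξ) = (Nat.card Ub + Nat.card Ub) * (Fintype.card F - 1))
    (hC : sm D (indFun S ξ) = (Nat.card D + Nat.card Ub) * (Fintype.card F - 1)) :
    p ∣ n ∨ p ∣ n' := by
  have hρ' : indFun S ξ = χ + χ' := funext hρ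
  obtain ⟨r, hr⟩ : ∃ r : ℕ, Fintype.card F = r + 1 := ⟨_, (Nat.sub_add_cancel Fintype.card_pos).symm⟩
  have hr0 : r ≠ 0 := by
    have := Fintype.one_lt_card (α := F)
    omega
  have hrC : (Fintype.card F : ℂ) - 1 = r := by rw [hr]; push_cast; ring
  have hq0 : (Fintype.card F : ℂ) ≠ 0 := Nat.cast_ne_zero.2 Fintype.card_ne_zero
  have hnorm : ∀ u ∈ U, ∀ z ∈ D, u * z * u⁻¹ ∈ D := by
    intro u hu z hz
    obtain ⟨hz, h1, h2⟩ := (h.hD z).1 hz
    have e1 := h.hx u hu u⁻¹ (inv_mem hu)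
    have e2 := h.hy u hu u⁻¹ (inv_mem hu)
    rw [mul_inv_cancel] at e1 e2
    refine (h.hD _).2 ⟨mul_mem (mul_mem hu hz) (inv_mem hu), ?_, ?_⟩
    · rw [h.hx _ (mul_mem hu hz) _ (inv_mem hu), h.hx _ hu _ hz, h1, add_zero, ← e1, h.x_one]
    · rw [h.hy _ (mul_mem hu hz) _ (inv_mem hu), h.hy _ hu _ hz, h2, add_zero, ← e2, h.y_one]
  have one : ∀ {χ χ' : G → ℂ}, IsIrrCharacter G χ → IsIrrCharacter G χ' → indFun S ξ = χ + χ' →
      ∃ k m d : ℕ, sm D χ = Nat.card D * m ∧ sm Ub χ = Nat.card Ub * (r + d : ℕ) ∧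
        r ^ 2 * k + (r + d) = m := by
    intro χ χ' hχ hχ' hρ'
    have c := isCharacter_of_irr hχ
    have c' := isCharacter_of_irr hχ'
    obtain ⟨a, ha⟩ := exists_nat_sm' c Ua
    obtain ⟨a', ha'⟩ := exists_nat_sm' c' Ua
    have ha0 : a = 0 := by
      have e := sm_add Ua χ χ'
      rw [show (fun g => χ g + χ' g) = indFun S ξ from hρ'.symm, hA, ha, ha', ← mul_add,
        eq_comm, mul_eq_zero, or_iff_right (card_ne_zero Ua)] at e
      have : a + a' = 0 := by exact_mod_cast e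
      omega
    have h0 : ∀ g, sm Ua (fun u => χ (g * u)) = 0 := fun g => by
      rw [← finsum_eq_sm]
      exact zero G χ Ua c (by rw [finsum_eq_sm, ha, ha0]; simp) g
    obtain ⟨k, hk⟩ := h.key c h0
    obtain ⟨m, hm⟩ := exists_nat_sm' c D
    have hin : classInner (fun s : S => χ s) ξ ≠ 0 := by
      rw [← H14.classInner_indFun_right S ξ (isClassFunction_of_isCharacter c), hρ',
        classInner_comm_of_isGen (isGen_of_isCharacter c)
          (isGen_of_isCharacter (isCharacter_add c c'))]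
      refine classInner_add_ne_zero c c' c ?_
      rw [(isIrrCharacter_iff.1 hχ).2]
      exact one_ne_zero
    obtain ⟨d, hd⟩ := exists_nat_sm (isCharacter_sub_irr (isCharacter_restrict c S) hξ hin) hUS
      (Φ := fun g => χ g - extendByZero S ξ g) fun s => by
        simp [extendByZero, Subtype.val_injective.extend_apply]
    have hd' : sm Ub χ = Nat.card Ub * (r + d : ℕ) := by
      have e : sm Ub (extendByZero S ξ) = Nat.card Ub * r := by
        rw [← sm_const]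
        refine sm_congr fun g hg => ?_
        have := hξ1 ⟨g, hUS hg⟩ hg
        rw [← hrC, ← this]
        exact Subtype.val_injective.extend_apply ξ 0 ⟨g, hUS hg⟩
      rw [sm_sub, e] at hd
      push_cast
      linear_combination hd
    refine ⟨k, m, d, hm, hd', ?_⟩
    rw [hm, hd', h.card_U, h.card_Ub, hrC] at hk
    have e : ((Fintype.card F : ℂ) ^ 2 * Nat.card D) * ((r ^ 2 * k + (r + d) : ℕ) - m) = 0 := by
      push_cast at hk ⊢
      linear_combination hk
    rw [mul_eq_zero, or_iff_right (mul_ne_zero (pow_ne_zero _ hq0) (card_ne_zero D)),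
      sub_eq_zero] at e
    exact_mod_cast e
  obtain ⟨k, m, d, h1, h2, h3⟩ := one hχ hχ' hρ'
  obtain ⟨k', m', d', h1', h2', h3'⟩ := one hχ' hχ (hρ'.trans (add_comm _ _))
  have eB := sm_add Ub χ χ'
  have eC := sm_add D χ χ'
  rw [show (fun g => χ g + χ' g) = indFun S ξ from hρ'.symm] at eB eC
  rw [hB, h2, h2', hrC] at eB
  rw [hC, h1, h1', hrC, h.card_Ub, hr] at eC
  have hd : d + d' = 0 := by
    have e : (Nat.card Ub : ℂ) * (d + d' : ℕ) = 0 := by
      push_cast at eB ⊢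
      linear_combination -eB
    exact_mod_cast (mul_eq_zero.1 e).resolve_left (card_ne_zero Ub)
  have hm : m + m' = (r + 2) * r := by
    have e : (Nat.card D : ℂ) * ((m + m' : ℕ) - ((r + 2) * r : ℕ)) = 0 := by
      push_cast at eC ⊢
      linear_combination -eC
    exact_mod_cast sub_eq_zero.1 ((mul_eq_zero.1 e).resolve_left (card_ne_zero D))
  have hk : k + k' = 1 := by
    have : r ^ 2 * (k + k') = r ^ 2 * 1 := by
      have e1 : d = 0 := by omega
      have e2 : d' = 0 := by omega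
      subst e1 e2
      nlinarith
    exact Nat.eq_of_mul_eq_mul_left (by positivity) this
  have fin : ∀ {χ : G → ℂ} {n m : ℕ}, IsIrrCharacter G χ → χ 1 = n → sm D χ = Nat.card D * m →
      r ^ 2 * 1 + (r + 0) = m → p ∣ n := by
    intro χ n m hχ hn h1 h3
    have := pl G χ U D p n m (isCharacter_of_irr hχ) hp hU hDU hnorm hn (by rw [finsum_eq_sm, h1])
    refine (this.dvd_iff dvd_rfl).2 ?_
    rw [← h3, show r ^ 2 * 1 + (r + 0) = (r + 1) * r by ring, ← hr]
    exact hpq.mul_right _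
  have e1 : d = 0 := by omega
  have e2 : d' = 0 := by omega
  subst e1 e2
  rcases Nat.eq_zero_or_pos k with h0 | h0
  · obtain rfl : k' = 1 := by omega
    exact Or.inr (fin hχ' hn' h1' h3')
  · obtain rfl : k = 1 := by omega
    exact Or.inl (fin hχ hn h1 h3)

end Key

end Cfsg.Agent.H4.DgS1
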