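import Cfsg.Agent.H4.DgS1A
import Cfsg.Agent.H53.DgKit

/-!
Piece S1 of project DG: sums of induced functions, and coordinates in the five dimensional
orthogonal space.
-/

set_option autoImplicit false

namespace Cfsg.Agent.H4.DgS1

open Module Cfsg.Agent.H53.Dg Cfsg.Agent.H11 Cfsg.Agent.H26 Cfsg.Agent.H26.PForm
open scoped Classical commutatorElement

section Ind

variable {G : Type} [Group G] [Fintype G]

theorem ext_mem {S : Subgroup G} (ξ : S → ℂ) {g : G} (h : g ∈ S) :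
    extendByZero S ξ g = ξ ⟨g, h⟩ :=
  Subtype.val_injective.extend_apply ξ 0 ⟨g, h⟩

theorem ext_notMem {S : Subgroup G} (ξ : S → ℂ) {g : G} (h : g ∉ S) :
    extendByZero S ξ g = 0 :=
  Function.extend_apply' _ _ _ fun ⟨s, hs⟩ => h (hs ▸ s.2)

theorem sm_indFun (S K : Subgroup G) (ξ : S → ℂ) : sm K (indFun S ξ) =
    (Nat.card S : ℂ)⁻¹ * ∑ x : G, sm K fun u => extendByZero S ξ (x⁻¹ * u * x) := by
  rw [← sm_sum, ← sm_mul]
  rfl

theorem sm_ind {S K N : Subgroup G} (ξ : S → ℂ) {w : G} {d : ℂ} (hK : K ≤ N) (hN : N ≤ S)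
    (hw : w ∉ S) (free : ∀ u ∈ N, w⁻¹ * u * w ∈ S → u = 1)
    (h1 : ∀ x ∈ S, ∀ u ∈ N, extendByZero S ξ (x⁻¹ * u * x) = d)
    (h2 : ∀ x, x ∈ S ∨ (∃ u ∈ N, ∃ s ∈ S, x = u * w * s) ∨
      sm K (fun u => extendByZero S ξ (x⁻¹ * u * x)) = 0) :
    sm K (indFun S ξ) = (Nat.card K + Nat.card N) * d := by
  have e : ∀ x : G, sm K (fun u => extendByZero S ξ (x⁻¹ * u * x)) =
      (if x ∈ S then Nat.card K * d else 0) +
        if ∃ u ∈ N, ∃ s ∈ S, x = u * w * s then d else 0 := by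
    intro x
    by_cases ha : x ∈ S
    · have hb : ¬ ∃ u ∈ N, ∃ s ∈ S, x = u * w * s := by
        rintro ⟨u, hu, s, hs, rfl⟩
        exact hw ((S.mul_mem_cancel_left (hN hu)).1 ((S.mul_mem_cancel_right hs).1 ha))
      rw [if_pos ha, if_neg hb, add_zero, ← sm_const]
      exact sm_congr fun u hu => h1 x ha u (hK hu)
    by_cases hb : ∃ u ∈ N, ∃ s ∈ S, x = u * w * s
    · rw [if_neg ha, if_pos hb, zero_add, sm, Finset.sum_eq_single 1, if_pos (one_mem K)]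
      · simpa using h1 1 (one_mem S) 1 (one_mem N)
      · intro k _ hk
        split_ifs with hkK
        · refine ext_notMem ξ fun hm => hk ?_
          obtain ⟨u, hu, s, hs, rfl⟩ := hb
          have := free (u⁻¹ * k * u) (mul_mem (mul_mem (inv_mem hu) (hK hkK)) hu) (by
            have := mul_mem (mul_mem hs hm) (inv_mem hs)
            convert this using 1
            group)
          rwa [mul_assoc, inv_mul_eq_one, eq_comm, mul_eq_right] at this
        · rfl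
      · simp
    · rw [if_neg ha, if_neg hb, add_zero]
      exact ((h2 x).resolve_left ha).resolve_left hb
  have e2 : ∑ x : G, (if ∃ u ∈ N, ∃ s ∈ S, x = u * w * s then d else 0) =
      Nat.card N * Nat.card S * d := by
    rw [← Finset.sum_filter, Finset.sum_const, nsmul_eq_mul]
    congr 1
    rw [← Nat.cast_mul, ← Nat.card_prod, Nat.card_eq_fintype_card, ← Finset.card_univ]
    congr 1
    symm
    refine Finset.card_bij (fun a _ => (a.1 : G) * w * a.2) ?_ ?_ ?_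
    · intro a _
      simp only [Finset.mem_filter, Finset.mem_univ, true_and]
      exact ⟨_, a.1.2, _, a.2.2, rfl⟩
    · intro a _ b _ hab
      have := free ((b.1 : G)⁻¹ * a.1) (mul_mem (inv_mem b.1.2) a.1.2) (by
        have e : w⁻¹ * ((b.1 : G)⁻¹ * a.1) * w = b.2 * (a.2 : G)⁻¹ := by
          have : (a.1 : G) * w = b.1 * w * b.2 * (a.2 : G)⁻¹ := by rw [← hab]; group
          rw [mul_assoc, mul_assoc, this]; group
        rw [e]
        exact mul_mem b.2.2 (inv_mem a.2.2))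
      rw [inv_mul_eq_one] at this
      rw [← this] at hab
      exact Prod.ext (Subtype.ext this.symm) (Subtype.ext (mul_left_cancel hab))
    · intro x hx
      simp only [Finset.mem_filter, Finset.mem_univ, true_and] at hx
      obtain ⟨u, hu, s, hs, rfl⟩ := hx
      exact ⟨(⟨u, hu⟩, ⟨s, hs⟩), Finset.mem_univ _, rfl⟩
  rw [sm_indFun]
  simp only [e, Finset.sum_add_distrib, e2]
  rw [show (∑ x : G, if x ∈ S then Nat.card K * d else 0) = _ from sm_const S _]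
  field_simp [card_ne_zero S]

end Ind

/-- The kernel of an additive function on a subgroup. -/
def kerOf {G F : Type} [Group G] [Field F] (K : Subgroup G) (z : G → F)
    (hz : ∀ a ∈ K, ∀ b ∈ K, z (a * b) = z a + z b) : Subgroup G where
  carrier := {g | g ∈ K ∧ z g = 0}
  mul_mem' {a b} ha hb := ⟨mul_mem ha.1 hb.1, by rw [hz a ha.1 b hb.1, ha.2, hb.2, add_zero]⟩
  one_mem' := ⟨one_mem _, by simpa using hz 1 (one_mem _) 1 (one_mem _)⟩
  inv_mem' {a} ha := ⟨inv_mem ha.1, by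
    have h1 : z 1 = 0 := by simpa using hz 1 (one_mem _) 1 (one_mem _)
    have := hz a ha.1 a⁻¹ (inv_mem ha.1)
    rwa [mul_inv_cancel, h1, ha.2, zero_add, eq_comm] at this⟩

section Lin

variable {F X : Type} [Field F] [AddCommGroup X] [Module F X]

theorem span_two [FiniteDimensional F X] (hX : finrank F X = 2) {e y : X} (he : e ≠ 0)
    (hy : y ∉ F ∙ e) (v : X) : ∃ a b : F, v = a • e + b • y := by
  have hli : LinearIndependent F ![e, y] := by
    rw [LinearIndependent.pair_iff' he]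
    intro a ha
    exact hy (ha ▸ Submodule.smul_mem _ _ (Submodule.mem_span_singleton_self e))
  have := hli.span_eq_top_of_card_eq_finrank (by simp [hX])
  have hv : v ∈ Submodule.span F (Set.range ![e, y]) := this ▸ Submodule.mem_top
  rw [Matrix.range_cons, Matrix.range_cons, Matrix.range_empty, Set.union_empty,
    Set.singleton_union, Submodule.mem_span_pair] at hv
  obtain ⟨a, b, h⟩ := hv
  exact ⟨a, b, h.symm⟩

theorem cusp_two [Fintype F] [Finite X] (hX : finrank F X = 2) {ψ : (X ≃ₗ[F] X) → ℂ}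
    (hψ : IsCusp ψ) {e y : X} (he : e ≠ 0) (hy : y ∉ F ∙ e) {κ : F} (hκ : κ ≠ 0)
    (A : F → X ≃ₗ[F] X) (h1 : ∀ t, A t e = e) (h2 : ∀ t, A t y = y + (t * κ) • e)
    (g : X ≃ₗ[F] X) : ∑ t, ψ (g * A t) = 0 := by
  have := hψ (F ∙ e) (by simpa using he) (fun h => hy (h ▸ Submodule.mem_top)) g
  letI i := Fintype.ofFinite (UZ (F ∙ e))
  rw [finsum_eq_sum_of_fintype] at this
  rw [← this]
  have hA : ∀ t, A t ∈ UZ (F ∙ e) := fun t => ⟨fun z hz => by
      obtain ⟨c, rfl⟩ := Submodule.mem_span_singleton.1 hz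
      rw [map_smul, h1], fun v => by
      obtain ⟨a, b, rfl⟩ := span_two hX he hy v
      rw [map_add, map_smul, map_smul, h1, h2]
      exact Submodule.mem_span_singleton.2 ⟨b * (t * κ), by module⟩⟩
  refine Fintype.sum_bijective (fun t => (⟨A t, hA t⟩ : UZ (F ∙ e))) ⟨fun s t hst => ?_, ?_⟩
    _ _ fun _ => rfl
  · have e1 : A s y = A t y := by rw [show A s = A t from congrArg Subtype.val hst]
    rw [h2, h2, add_right_inj] at e1
    exact mul_right_cancel₀ hκ (smul_left_injective F he e1)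
  · intro u
    obtain ⟨c, hc⟩ := Submodule.mem_span_singleton.1 (u.2.2 y)
    refine ⟨c / κ, Subtype.ext (LinearEquiv.ext fun v => ?_)⟩
    obtain ⟨a, b, rfl⟩ := span_two hX he hy v
    simp only [map_add, map_smul]
    rw [h1, h2, u.2.1 e (Submodule.mem_span_singleton_self e), div_mul_cancel₀ _ hκ, hc,
      add_sub_cancel]

end Lin

section Geo

variable {F V : Type} [Field F] [AddCommGroup V] [Module F V] {P : PForm F V}

theorem dualPair [FiniteDimensional F V] {A : Submodule F V} (hA : finrank F A = 2) {b₁ b₂ : V}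
    (h : ∀ v ∈ A, P.f v b₁ = 0 → P.f v b₂ = 0 → v = 0) :
    ∃ a₁ ∈ A, ∃ a₂ ∈ A, P.f a₁ b₁ = 1 ∧ P.f a₁ b₂ = 0 ∧ P.f a₂ b₁ = 0 ∧ P.f a₂ b₂ = 1 := by
  let T : A →ₗ[F] F × F := ((P.fL b₁).prod (P.fL b₂)).comp A.subtype
  have hT : Function.Injective T := (injective_iff_map_eq_zero T).2 fun v hv =>
    Subtype.ext (h v v.2 (congrArg Prod.fst hv) (congrArg Prod.snd hv))
  have hs := (LinearMap.injective_iff_surjective_of_finrank_eq_finrank (by simp [hA])).1 hT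
  obtain ⟨a₁, h₁⟩ := hs (1, 0)
  obtain ⟨a₂, h₂⟩ := hs (0, 1)
  exact ⟨a₁, a₁.2, a₂, a₂.2, congrArg Prod.fst h₁, congrArg Prod.snd h₁, congrArg Prod.fst h₂,
    congrArg Prod.snd h₂⟩

/-- The vanishing of the sum attached to `x`. -/
theorem van [Fintype F] [Finite V] [Fintype P.isom] {X : Submodule F V} (hX : finrank F X = 2)
    {ψ : (X ≃ₗ[F] X) → ℂ} (hψ : IsCusp ψ) {ξ : stab P.isom X → ℂ}
    (hξ : ∀ s : stab P.isom X, ξ s = ψ (rs X s.1.1)) {K : Subgroup P.isom} (x : P.isom)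
    (a : F → P.isom) (ha : ∀ t, a t ∈ K) {e y : V} (he : e ∈ mp x.1 X) (hy : y ∈ mp x.1 X)
    (he0 : e ≠ 0) (hye : y ∉ F ∙ e) {κ : F} (hκ : κ ≠ 0) (h1 : ∀ t, (a t).1 e = e)
    (h2 : ∀ t, (a t).1 y = y + (t * κ) • e) :
    sm K (fun u => extendByZero _ ξ (x⁻¹ * u * x)) = 0 := by
  rw [mem_mp] at he hy
  have he0' : (⟨_, he⟩ : X) ≠ 0 := fun h => he0 (by
    have : x.1⁻¹ e = 0 := congrArg Subtype.val h
    rwa [LinearEquiv.map_eq_zero_iff] at this)
  have hye' : (⟨_, hy⟩ : X) ∉ F ∙ (⟨_, he⟩ : X) := fun h => hye (by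
    obtain ⟨c, hc⟩ := Submodule.mem_span_singleton.1 h
    have : c • x.1⁻¹ e = x.1⁻¹ y := congrArg Subtype.val hc
    rw [← map_smul, EmbeddingLike.apply_eq_iff_eq] at this
    exact Submodule.mem_span_singleton.2 ⟨c, this⟩)
  have k1 : ∀ t, (x⁻¹ * a t * x).1 (x.1⁻¹ e) = x.1⁻¹ e := fun t => by
    simp only [Subgroup.coe_mul, Subgroup.coe_inv, mul_apply', apply_inv_apply, h1]
  have k2 : ∀ t, (x⁻¹ * a t * x).1 (x.1⁻¹ y) = x.1⁻¹ y + (t * κ) • x.1⁻¹ e := fun t => by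
    simp only [Subgroup.coe_mul, Subgroup.coe_inv, mul_apply', apply_inv_apply, h2, map_add,
      map_smul]
  have hS : ∀ t, x⁻¹ * a t * x ∈ stab P.isom X := fun t => by
    rw [mem_stab, mem_stabSub]
    intro v hv
    obtain ⟨c, d, h⟩ := span_two hX he0' hye' ⟨v, hv⟩
    have : v = c • x.1⁻¹ e + d • x.1⁻¹ y := congrArg Subtype.val h
    rw [this, map_add, map_smul, map_smul, k1, k2]
    exact X.add_mem (X.smul_mem _ he) (X.smul_mem _ (X.add_mem hy (X.smul_mem _ he)))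
  refine sm_avg a ha fun g _ => ?_
  have e1 : ∀ t, x⁻¹ * (g * a t) * x = (x⁻¹ * g * x) * (x⁻¹ * a t * x) := fun t => by group
  simp only [e1]
  by_cases hg : x⁻¹ * g * x ∈ stab P.isom X
  · rw [← cusp_two hX hψ he0' hye' hκ (fun t => rs X (x⁻¹ * a t * x).1)
      (fun t => Subtype.ext (by rw [rs_apply (mem_stab.1 (hS t))]; exact k1 t))
      (fun t => Subtype.ext (by rw [rs_apply (mem_stab.1 (hS t))]; exact k2 t)) (rs X (x⁻¹ * g * x).1)]
    refine Finset.sum_congr rfl fun t _ => ?_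
    rw [ext_mem ξ (mul_mem hg (hS t)), hξ, ← rs_mul (mem_stab.1 hg) (mem_stab.1 (hS t))]
    rfl
  · exact Finset.sum_eq_zero fun t _ =>
      ext_notMem ξ fun h => hg ((Subgroup.mul_mem_cancel_right _ (hS t)).1 h)

variable (P) in
/-- Coordinates. -/
structure B5 (X X' : Submodule F V) where
  e₁ : V
  e₂ : V
  w : V
  f₂ : V
  f₁ : V
  sig : ∀ a, P.σ a = a
  eps : P.ε = 1
  lam : P.Λ = ⊥
  memX : ∀ v, v ∈ X ↔ ∃ a b : F, v = a • e₁ + b • e₂
  memX' : ∀ v, v ∈ X' ↔ ∃ a b : F, v = a • f₁ + b • f₂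
  ts : TS P X
  ts' : TS P X'
  h11 : P.f e₁ f₁ = 1
  h12 : P.f e₁ f₂ = 0
  h21 : P.f e₂ f₁ = 0
  h22 : P.f e₂ f₂ = 1
  we₁ : P.f w e₁ = 0
  we₂ : P.f w e₂ = 0
  wf₁ : P.f w f₁ = 0
  wf₂ : P.f w f₂ = 0
  ww : P.f w w ≠ 0
  span : ∀ v, ∃ a b c d e : F, v = a • e₁ + b • e₂ + c • w + d • f₂ + e • f₁

theorem exists_B5 [Finite V] (hP : Ty P false 2 1) (L : Lev P 2) : Nonempty (B5 P L.X L.X') := by
  obtain ⟨eps, lam, -, dim⟩ := hP.orth rfl
  have fs : ∀ x y, P.f x y = P.f y x := fun x y => by rw [P.herm, eps, hP.sig, one_mul]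
  have fr : ∀ (c : F) x y, P.f x (c • y) = c * P.f x y := fun c x y => by
    rw [f_smul_right, hP.sig]
  let b := Module.finBasisOfFinrankEq F L.X' L.dim'
  have memX' : ∀ v, v ∈ L.X' ↔ ∃ a c : F, v = a • (b 0 : V) + c • (b 1 : V) := fun v =>
    ⟨fun hv => ⟨b.repr ⟨v, hv⟩ 0, b.repr ⟨v, hv⟩ 1, by
      have := b.sum_repr ⟨v, hv⟩
      rw [Fin.sum_univ_two] at this
      exact (congrArg Subtype.val this).symm⟩,
    fun ⟨a, c, h⟩ => h ▸ L.X'.add_mem (L.X'.smul_mem _ (b 0).2) (L.X'.smul_mem _ (b 1).2)⟩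
  have inj : ∀ v ∈ L.X, P.f v (b 0) = 0 → P.f v (b 1) = 0 → v = 0 := fun v hv h0 h1 => by
    rw [← Submodule.mem_bot F, ← L.opp]
    refine ⟨hv, fun z hz => ?_⟩
    obtain ⟨a, c, rfl⟩ := (memX' z).1 hz
    rw [f_add_right, fr, fr, h0, h1]; ring
  obtain ⟨e₁, he₁, e₂, he₂, h11, h12, h21, h22⟩ := dualPair L.dim inj
  have memX : ∀ v, v ∈ L.X ↔ ∃ a c : F, v = a • e₁ + c • e₂ := fun v =>
    ⟨fun hv => ⟨P.f v (b 0), P.f v (b 1), by
      rw [← sub_eq_zero]
      refine inj _ (L.X.sub_mem hv (L.X.add_mem (L.X.smul_mem _ he₁) (L.X.smul_mem _ he₂))) ?_ ?_ <;>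
        simp [f_sub_left, P.f_add_left, P.f_smul_left, h11, h12, h21, h22]⟩,
    fun ⟨a, c, h⟩ => h ▸ L.X.add_mem (L.X.smul_mem _ he₁) (L.X.smul_mem _ he₂)⟩
  have hinf : L.X ⊓ L.X' = ⊥ := eq_bot_iff.2 (L.opp ▸ inf_le_inf_left _ L.ts'.2)
  have hW : finrank F L.W = 1 := by
    have h1 := Submodule.finrank_sup_add_finrank_inf_eq L.X L.X'
    have h2 := P.finrank_perp (L.X ⊔ L.X')
    rw [hinf, finrank_bot, L.dim, L.dim'] at h1
    change _ + finrank F L.W = _ at h2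
    omega
  obtain ⟨w, hw0, hw⟩ := finrank_eq_one_iff'.1 hW
  have hwX : ∀ v ∈ L.X, P.f w v = 0 := fun v hv => w.2 v (Submodule.mem_sup_left hv)
  have hwX' : ∀ v ∈ L.X', P.f w v = 0 := fun v hv => w.2 v (Submodule.mem_sup_right hv)
  refine ⟨⟨e₁, e₂, w, b 1, b 0, hP.sig, eps, lam, memX, memX', L.ts, L.ts', h11, h12, h21, h22,
    hwX _ he₁, hwX _ he₂, hwX' _ (b 0).2, hwX' _ (b 1).2, fun h => hw0 ?_, fun v => ?_⟩⟩
  · refine Subtype.ext (L.hW w w.2 fun x hx => ?_)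
    obtain ⟨c, hc⟩ := hw ⟨x, hx⟩
    have : c • (w : V) = x := congrArg Subtype.val hc
    rw [← this, P.f_smul_left, h, mul_zero]
  · have hm : v - (P.f v (b 0) • e₁ + P.f v (b 1) • e₂ + P.f v e₂ • (b 1 : V) +
        P.f v e₁ • (b 0 : V)) ∈ L.W := by
      intro z hz
      obtain ⟨x, hx, x', hx', rfl⟩ := Submodule.mem_sup.1 hz
      obtain ⟨a, c, rfl⟩ := (memX x).1 hx
      obtain ⟨a', c', rfl⟩ := (memX' x').1 hx'
      simp only [f_sub_left, P.f_add_left, P.f_smul_left, f_add_right, fr, h11, h12, h21, h22,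
        fs (b 0) e₁, fs (b 0) e₂, fs (b 1) e₁, fs (b 1) e₂, L.ts.f_eq_zero he₁ he₁,
        L.ts.f_eq_zero he₁ he₂, L.ts.f_eq_zero he₂ he₁, L.ts.f_eq_zero he₂ he₂,
        L.ts'.f_eq_zero (b 0).2 (b 0).2, L.ts'.f_eq_zero (b 0).2 (b 1).2,
        L.ts'.f_eq_zero (b 1).2 (b 0).2, L.ts'.f_eq_zero (b 1).2 (b 1).2]
      ring
    obtain ⟨c, hc⟩ := hw ⟨_, hm⟩
    have hc' : c • (w : V) = _ := congrArg Subtype.val hc
    refine ⟨P.f v (b 0), P.f v (b 1), c, P.f v e₂, P.f v e₁, ?_⟩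
    rw [hc']
    module

end Geo

end Cfsg.Agent.H4.DgS1
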