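import Cfsg.Agent.H4.DgS1B

/-!
Piece S1 of project DG: the maximal unipotent subgroup of the five dimensional orthogonal group.
-/

set_option autoImplicit false

namespace Cfsg.Agent.H4.DgS1

open Module Cfsg.Agent.H53.Dg Cfsg.Agent.H11 Cfsg.Agent.H26 Cfsg.Agent.H26.PForm
open scoped Classical commutatorElement

variable {F V : Type} [Field F] [AddCommGroup V] [Module F V] {P : PForm F V}

/-- An Eichler transformation as an isometry. -/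
def ei {e y : V} {ν : F} (h : P.EV e y ν) : P.isom := ⟨h.equiv, h.equiv_mem_isom⟩

theorem fi (g : P.isom) (x y : V) : P.f (g.1 x) (g.1 y) = P.f x y := isom_f g.2 x y

theorem fil (g : P.isom) (x y : V) : P.f (g.1 x) y = P.f x ((g⁻¹).1 y) := isom_f_left g.2 x y

theorem mul_ap (g k : P.isom) (x : V) : (g * k).1 x = g.1 (k.1 x) := rfl

theorem one_ap (x : V) : (1 : P.isom).1 x = x := rfl

theorem inv_ap {g : P.isom} {x y : V} (h : g.1 x = y) : (g⁻¹).1 y = x := by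
  rw [← h]; exact inv_apply_apply g.1 x

theorem ap_inv (g : P.isom) (x : V) : g.1 ((g⁻¹).1 x) = x := apply_inv_apply g.1 x

namespace B5

variable {X X' : Submodule F V} (B : B5 P X X')

include B in
theorem fs (x y : V) : P.f x y = P.f y x := by rw [P.herm, B.eps, B.sig, one_mul]

include B in
theorem fr (c : F) (x y : V) : P.f x (c • y) = c * P.f x y := by rw [f_smul_right, B.sig]

include B in
theorem f_self (x : V) : P.f x x = 2 * P.h x := by rw [P.f_self, B.eps, B.sig]; ring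

include B in
theorem two_ne : (2 : F) ≠ 0 := fun h => B.ww (by rw [B.f_self, h, zero_mul])

include B in
theorem ei_ap {e y : V} {ν : F} (h : P.EV e y ν) (v : V) :
    (ei h).1 v = v + P.f v e • y - (P.f v y + ν * P.f v e) • e := by
  rw [← one_mul (P.f v y + _), ← B.eps]; rfl

theorem e₁_mem : B.e₁ ∈ X := (B.memX _).2 ⟨1, 0, by simp⟩
theorem e₂_mem : B.e₂ ∈ X := (B.memX _).2 ⟨0, 1, by simp⟩
theorem f₁_mem : B.f₁ ∈ X' := (B.memX' _).2 ⟨1, 0, by simp⟩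
theorem f₂_mem : B.f₂ ∈ X' := (B.memX' _).2 ⟨0, 1, by simp⟩

theorem gram : P.f B.e₁ B.e₁ = 0 ∧ P.f B.e₁ B.e₂ = 0 ∧ P.f B.e₂ B.e₁ = 0 ∧ P.f B.e₂ B.e₂ = 0 ∧
    P.f B.f₁ B.f₁ = 0 ∧ P.f B.f₁ B.f₂ = 0 ∧ P.f B.f₂ B.f₁ = 0 ∧ P.f B.f₂ B.f₂ = 0 ∧
    P.f B.e₁ B.f₁ = 1 ∧ P.f B.e₁ B.f₂ = 0 ∧ P.f B.e₂ B.f₁ = 0 ∧ P.f B.e₂ B.f₂ = 1 ∧
    P.f B.f₁ B.e₁ = 1 ∧ P.f B.f₂ B.e₁ = 0 ∧ P.f B.f₁ B.e₂ = 0 ∧ P.f B.f₂ B.e₂ = 1 ∧
    P.f B.w B.e₁ = 0 ∧ P.f B.w B.e₂ = 0 ∧ P.f B.w B.f₁ = 0 ∧ P.f B.w B.f₂ = 0 ∧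
    P.f B.e₁ B.w = 0 ∧ P.f B.e₂ B.w = 0 ∧ P.f B.f₁ B.w = 0 ∧ P.f B.f₂ B.w = 0 :=
  ⟨B.ts.f_eq_zero B.e₁_mem B.e₁_mem, B.ts.f_eq_zero B.e₁_mem B.e₂_mem,
    B.ts.f_eq_zero B.e₂_mem B.e₁_mem, B.ts.f_eq_zero B.e₂_mem B.e₂_mem,
    B.ts'.f_eq_zero B.f₁_mem B.f₁_mem, B.ts'.f_eq_zero B.f₁_mem B.f₂_mem,
    B.ts'.f_eq_zero B.f₂_mem B.f₁_mem, B.ts'.f_eq_zero B.f₂_mem B.f₂_mem,
    B.h11, B.h12, B.h21, B.h22, B.fs _ _ ▸ B.h11, B.fs _ _ ▸ B.h12, B.fs _ _ ▸ B.h21,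
    B.fs _ _ ▸ B.h22, B.we₁, B.we₂, B.wf₁, B.wf₂, B.fs _ _ ▸ B.we₁, B.fs _ _ ▸ B.we₂,
    B.fs _ _ ▸ B.wf₁, B.fs _ _ ▸ B.wf₂⟩

theorem s_e₁ : P.Sing B.e₁ := B.ts.1 _ B.e₁_mem
theorem s_e₂ : P.Sing B.e₂ := B.ts.1 _ B.e₂_mem
theorem s_f₁ : P.Sing B.f₁ := B.ts'.1 _ B.f₁_mem
theorem s_f₂ : P.Sing B.f₂ := B.ts'.1 _ B.f₂_mem

/-- Simplification of values of the form. -/
local macro "fsimp" "[" B:term "]" loc:(Lean.Parser.Tactic.location)? : tactic =>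
  `(tactic| simp only [PForm.f_add_left, PForm.f_add_right, PForm.f_sub_left, PForm.f_sub_right,
    PForm.f_smul_left, B5.fr $B, B5.gram $B, mul_zero, mul_one, add_zero, zero_add, sub_zero,
    zero_smul, one_smul, map_add, map_sub, map_smul] $[$loc]?)

theorem perp3 {v : V} (h1 : P.f v B.e₁ = 0) (h2 : P.f v B.e₂ = 0) (h3 : P.f v B.w = 0) :
    ∃ a b : F, v = a • B.e₁ + b • B.e₂ := by
  obtain ⟨a, b, c, d, e, rfl⟩ := B.span v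
  fsimp [B] at h1 h2 h3
  rw [mul_eq_zero, or_iff_left B.ww] at h3
  exact ⟨a, b, by simp [h1, h2, h3]⟩

theorem maxX {v : V} (h : P.f v v = 0) (h1 : P.f v B.e₁ = 0) (h2 : P.f v B.e₂ = 0) : v ∈ X := by
  refine (B.memX v).2 (B.perp3 h1 h2 ?_)
  obtain ⟨a, b, c, d, e, rfl⟩ := B.span v
  fsimp [B] at h1 h2
  subst h1 h2
  fsimp [B] at h ⊢
  rcases mul_eq_zero.1 h with h | h
  · rw [h, zero_mul]
  · exact h

theorem ext5 {g k : P.isom} (h1 : g.1 B.e₁ = k.1 B.e₁) (h2 : g.1 B.e₂ = k.1 B.e₂)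
    (h3 : g.1 B.w = k.1 B.w) (h4 : g.1 B.f₂ = k.1 B.f₂) (h5 : g.1 B.f₁ = k.1 B.f₁) : g = k := by
  refine Subtype.ext (LinearEquiv.ext fun v => ?_)
  obtain ⟨a, b, c, d, e, rfl⟩ := B.span v
  simp only [map_add, map_smul, h1, h2, h3, h4, h5]

theorem eq_one {g : P.isom} (h1 : g.1 B.e₁ = B.e₁) (h2 : g.1 B.e₂ = B.e₂) (h3 : g.1 B.w = B.w)
    (h4 : g.1 B.f₂ = B.f₂) : g = 1 := by
  refine B.ext5 h1 h2 h3 h4 ?_
  obtain ⟨a, b, h⟩ := B.perp3 (v := g.1 B.f₁ - B.f₁)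
    (by rw [f_sub_left, fil, inv_ap h1, sub_self]) (by rw [f_sub_left, fil, inv_ap h2, sub_self])
    (by rw [f_sub_left, fil, inv_ap h3, sub_self])
  rw [sub_eq_iff_eq_add'] at h
  have e1 := fi g B.f₁ B.f₂
  have e2 := fi g B.f₁ B.f₁
  rw [h, h4] at e1
  rw [h] at e2
  fsimp [B] at e1 e2
  have : a = 0 := by
    rw [← two_mul, mul_eq_zero, or_iff_right B.two_ne] at e2
    exact e2
  rw [h, e1, this, one_ap]
  simp

theorem ext4 {g k : P.isom} (h1 : g.1 B.e₁ = k.1 B.e₁) (h2 : g.1 B.e₂ = k.1 B.e₂)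
    (h3 : g.1 B.w = k.1 B.w) (h4 : g.1 B.f₂ = k.1 B.f₂) : g = k := by
  rw [eq_comm, ← inv_mul_eq_one]
  exact B.eq_one (inv_ap h1.symm) (inv_ap h2.symm) (inv_ap h3.symm) (inv_ap h4.symm)

/-- The maximal unipotent subgroup. -/
def U : Subgroup P.isom where
  carrier := {g | g.1 B.e₁ = B.e₁ ∧ (∃ a : F, g.1 B.e₂ = B.e₂ + a • B.e₁) ∧
    ∃ b c : F, g.1 B.w = B.w + b • B.e₂ + c • B.e₁}
  mul_mem' := by
    rintro g k ⟨h1, ⟨a, h2⟩, b, c, h3⟩ ⟨k1, ⟨a', k2⟩, b', c', k3⟩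
    refine ⟨by rw [mul_ap, k1, h1], ⟨a + a', ?_⟩, b + b', c + b' * a + c', ?_⟩
    · rw [mul_ap, k2, map_add, map_smul, h1, h2]; module
    · rw [mul_ap, k3, map_add, map_add, map_smul, map_smul, h1, h2, h3]; module
  one_mem' := ⟨rfl, ⟨0, by simp⟩, 0, 0, by simp⟩
  inv_mem' := by
    rintro g ⟨h1, ⟨a, h2⟩, b, c, h3⟩
    refine ⟨inv_ap h1, ⟨-a, inv_ap ?_⟩, -b, a * b - c, inv_ap ?_⟩
    · rw [map_add, map_smul, h1, h2]; module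
    · rw [map_add, map_add, map_smul, map_smul, h1, h2, h3]; module

/-- The first coordinate. -/
def x (g : P.isom) : F := P.f (g.1 B.e₂) B.f₁

/-- The second coordinate. -/
def y (g : P.isom) : F := P.f (g.1 B.w) B.f₂

theorem mem_U {g : P.isom} {a b c : F} (h1 : g.1 B.e₁ = B.e₁) (h2 : g.1 B.e₂ = B.e₂ + a • B.e₁)
    (h3 : g.1 B.w = B.w + b • B.e₂ + c • B.e₁) : g ∈ B.U ∧ B.x g = a ∧ B.y g = b := by
  refine ⟨⟨h1, ⟨a, h2⟩, b, c, h3⟩, ?_, ?_⟩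
  · rw [x, h2]; fsimp [B]
  · rw [y, h3]; fsimp [B]

theorem of_U {g : P.isom} (h : g ∈ B.U) : g.1 B.e₁ = B.e₁ ∧ g.1 B.e₂ = B.e₂ + B.x g • B.e₁ ∧
    ∃ c : F, g.1 B.w = B.w + B.y g • B.e₂ + c • B.e₁ := by
  obtain ⟨h1, ⟨a, h2⟩, b, c, h3⟩ := h
  obtain ⟨-, rfl, rfl⟩ := B.mem_U h1 h2 h3
  exact ⟨h1, h2, c, h3⟩

theorem xy_mul {g k : P.isom} (hg : g ∈ B.U) (hk : k ∈ B.U) :
    B.x (g * k) = B.x g + B.x k ∧ B.y (g * k) = B.y g + B.y k := by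
  obtain ⟨h1, h2, c, h3⟩ := B.of_U hg
  obtain ⟨k1, k2, c', k3⟩ := B.of_U hk
  refine (B.mem_U (c := c + B.y k * B.x g + c') (by rw [mul_ap, k1, h1]) ?_ ?_).2
  · rw [mul_ap, k2, map_add, map_smul, h1, h2]; module
  · rw [mul_ap, k3, map_add, map_add, map_smul, map_smul, h1, h2, h3]; module

/-- The radical of the stabilizer of the point. -/
def Ua : Subgroup P.isom := kerOf B.U B.y fun _ ha _ hb => (B.xy_mul ha hb).2

/-- The radical of the stabilizer of the line. -/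
def Ub : Subgroup P.isom := kerOf B.U B.x fun _ ha _ hb => (B.xy_mul ha hb).1

theorem mem_Ua {g : P.isom} : g ∈ B.Ua ↔ g ∈ B.U ∧ B.y g = 0 := Iff.rfl

theorem mem_Ub {g : P.isom} : g ∈ B.Ub ↔ g ∈ B.U ∧ B.x g = 0 := Iff.rfl

theorem of_Ua {g : P.isom} (h : g ∈ B.Ua) : g.1 B.e₁ = B.e₁ ∧ g.1 B.e₂ = B.e₂ + B.x g • B.e₁ ∧
    (∃ c : F, g.1 B.w = B.w + c • B.e₁) ∧ ∃ t : F, g.1 B.f₂ = B.f₂ + t • B.e₁ := by
  obtain ⟨h1, h2, c, h3⟩ := B.of_U h.1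
  obtain ⟨k1, k2, c', k3⟩ := B.of_U (inv_mem h).1
  rw [h.2, zero_smul, add_zero] at h3
  rw [(inv_mem h).2, zero_smul, add_zero] at k3
  refine ⟨h1, h2, ⟨c, h3⟩, ?_⟩
  obtain ⟨a, b, e⟩ := B.perp3 (v := g.1 B.f₂ - B.f₂) (by rw [f_sub_left, fil, k1, sub_self])
    (by rw [f_sub_left, fil, k2]; fsimp [B]; exact sub_self _)
    (by rw [f_sub_left, fil, k3]; fsimp [B])
  rw [sub_eq_iff_eq_add'] at e
  have e2 := fi g B.f₂ B.f₂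
  rw [e] at e2
  fsimp [B] at e2
  rw [← two_mul, mul_eq_zero, or_iff_right B.two_ne] at e2
  exact ⟨a, by rw [e, e2]; simp⟩

theorem of_Ub {g : P.isom} (h : g ∈ B.Ub) {v : V} (hv : v ∈ X) : g.1 v = v := by
  obtain ⟨h1, h2, -⟩ := B.of_U h.1
  obtain ⟨a, b, rfl⟩ := (B.memX v).1 hv
  rw [h.2, zero_smul, add_zero] at h2
  rw [map_add, map_smul, map_smul, h1, h2]

theorem isPGroup {p : ℕ} [CharP F p] : IsPGroup p B.U := by
  have pw : ∀ {g : P.isom} {v : V} {c : F}, g.1 B.e₁ = B.e₁ → g.1 v = v + c • B.e₁ → ∀ n : ℕ,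
      (g ^ n).1 v = v + (n * c) • B.e₁ := by
    intro g v c h1 h2 n
    induction n with
    | zero => simp
    | succ n ih => rw [pow_succ', mul_ap, ih, map_add, map_smul, h1, h2]; push_cast; module
  intro g
  have hy : ∀ n : ℕ, B.y (g.1 ^ n) = n * B.y g.1 := fun n => by
    induction n with
    | zero => simp [y, B.wf₂]
    | succ n ih => rw [pow_succ, (B.xy_mul (pow_mem g.2 n) g.2).2, ih]; push_cast; ring
  have hm : g.1 ^ p ∈ B.Ua := ⟨pow_mem g.2 p, by rw [hy, CharP.cast_eq_zero, zero_mul]⟩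
  obtain ⟨h1, h2, ⟨c, h3⟩, t, h4⟩ := B.of_Ua hm
  refine ⟨2, Subtype.ext ?_⟩
  rw [Subgroup.coe_pow, sq, pow_mul]
  refine B.eq_one ?_ ?_ ?_ ?_
  · simpa using pw (c := 0) h1 (by simpa using h1) p
  · simpa using pw h1 h2 p
  · simpa using pw h1 h3 p
  · simpa using pw h1 h4 p

/-- The long simple root subgroup. -/
def xa (t : F) : P.isom :=
  ei (EV.of_sing B.s_e₁ (B.s_f₂.smul t) (by rw [P.f_smul_left, B.fs, B.h12, mul_zero]))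

/-- The short simple root subgroup. -/
def xb (t : F) : P.isom :=
  ei (EV.of_h (y := t • B.w) B.s_e₂ (by rw [P.f_smul_left, B.we₂, mul_zero]))

/-- The highest root subgroup. -/
def zz (t : F) : P.isom :=
  ei (EV.of_sing B.s_e₁ (B.s_e₂.smul t) (by rw [P.f_smul_left, B.gram.2.2.1, mul_zero]))

theorem xa_mem (t : F) : B.xa t ∈ B.U ∧ B.x (B.xa t) = -t ∧ B.y (B.xa t) = 0 := by
  refine B.mem_U (c := 0) ?_ ?_ ?_ <;> rw [xa, B.ei_ap] <;> fsimp [B]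
  module

theorem xb_mem (t : F) :
    B.xb t ∈ B.U ∧ B.x (B.xb t) = 0 ∧ B.y (B.xb t) = -(t * P.f B.w B.w) := by
  refine B.mem_U (c := 0) ?_ ?_ ?_ <;> rw [xb, B.ei_ap] <;> fsimp [B]
  module

theorem zz_mem (t : F) : B.zz t ∈ B.U ∧ B.x (B.zz t) = 0 ∧ B.y (B.zz t) = 0 := by
  refine B.mem_U (c := 0) ?_ ?_ ?_ <;> rw [zz, B.ei_ap] <;> fsimp [B]

theorem zz_ap (t : F) (v : V) :
    (B.zz t).1 v = v + t • (P.f v B.e₁ • B.e₂ - P.f v B.e₂ • B.e₁) := by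
  rw [zz, B.ei_ap]; fsimp [B]; module

theorem comm : B.Ub ⊓ B.Ua ≤ ⁅B.U, B.U⁆ := by
  intro g hg
  obtain ⟨h1, h2, ⟨z, h3⟩, t, h4⟩ := B.of_Ua hg.2
  rw [hg.1.2, zero_smul, add_zero] at h2
  have hw := B.ww
  set α := -z / P.f B.w B.w with hα
  set β := (t + z + P.h B.w * α) / P.f B.w B.w with hβ
  let n : P.isom := ei (EV.of_h (y := α • B.f₂ + β • B.w) B.s_e₁ (by fsimp [B]))
  have hn : n ∈ B.U := by
    refine (B.mem_U (a := -α) (b := 0) (c := -(β * P.f B.w B.w)) ?_ ?_ ?_).1 <;>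
      rw [B.ei_ap] <;> fsimp [B] <;> module
  have : g * n * B.xb 1 = B.xb 1 * n := by
    refine B.ext4 ?_ ?_ ?_ ?_ <;> simp only [mul_ap, xb, n, B.ei_ap] <;> fsimp [B] <;>
      simp only [h1, h2, h3, h4]
    all_goals
      rw [hβ, hα]
      match_scalars <;> field_simp <;> ring
  rw [show g = ⁅B.xb 1, n⁆ by rw [commutatorElement_def, ← this]; group]
  exact Subgroup.commutator_mem_commutator (B.xb_mem 1).1 hn

include B in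
/-- A linear map preserving the form is an isometry. -/
noncomputable def mkI [Finite V] (T : V →ₗ[F] V) (hT : ∀ x y, P.f (T x) (T y) = P.f x y) :
    P.isom :=
  ⟨LinearEquiv.ofInjectiveEndo T ((injective_iff_map_eq_zero T).2 fun v hv =>
      P.nondeg v fun x => by rw [← hT, hv, f_zero_right]), hT, fun x => by
    have := hT x x
    rw [B.f_self, B.f_self] at this
    change P.h (T x) - P.h x ∈ P.Λ
    rw [mul_left_cancel₀ B.two_ne this, sub_self]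
    exact zero_mem _⟩

theorem exists_tor [Finite V] {α β : F} (hα : α ≠ 0) (hβ : β ≠ 0) : ∃ τ : P.isom,
    τ.1 B.e₁ = α • B.e₁ ∧ τ.1 B.e₂ = β • B.e₂ ∧ τ.1 B.w = B.w := by
  let T : V →ₗ[F] V := LinearMap.id + (P.fL B.f₁).smulRight ((α - 1) • B.e₁) +
    (P.fL B.e₁).smulRight ((α⁻¹ - 1) • B.f₁) + (P.fL B.f₂).smulRight ((β - 1) • B.e₂) +
    (P.fL B.e₂).smulRight ((β⁻¹ - 1) • B.f₂)
  have hT : ∀ v, T v = v + P.f v B.f₁ • (α - 1) • B.e₁ + P.f v B.e₁ • (α⁻¹ - 1) • B.f₁ +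
      P.f v B.f₂ • (β - 1) • B.e₂ + P.f v B.e₂ • (β⁻¹ - 1) • B.f₂ := fun _ => rfl
  refine ⟨B.mkI T fun x y => ?_, ?_, ?_, ?_⟩
  · rw [hT, hT]
    fsimp [B]
    rw [B.fs B.e₁ y, B.fs B.e₂ y, B.fs B.f₁ y, B.fs B.f₂ y]
    field_simp
    ring
  all_goals
    change T _ = _
    rw [hT]
    fsimp [B]
  all_goals module

theorem rk2 [Finite V] : Rk2 B.U B.Ua B.Ub (B.Ub ⊓ B.Ua) B.x B.y where
  hx _ ha _ hb := (B.xy_mul ha hb).1
  hy _ ha _ hb := (B.xy_mul ha hb).2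
  hUa _ := Iff.rfl
  hUb _ := Iff.rfl
  hD g := by rw [Subgroup.mem_inf, mem_Ua, mem_Ub]; tauto
  surj s t := by
    obtain ⟨a1, a2, a3⟩ := B.xa_mem (-s)
    obtain ⟨b1, b2, b3⟩ := B.xb_mem (-t / P.f B.w B.w)
    refine ⟨_, mul_mem a1 b1, ?_, ?_⟩
    · rw [(B.xy_mul a1 b1).1, a2, b2]; ring
    · rw [(B.xy_mul a1 b1).2, a3, b3, div_mul_cancel₀ _ B.ww]; ring
  tor α β hα hβ := by
    obtain ⟨τ, t1, t2, t3⟩ := B.exists_tor (mul_ne_zero hα hβ) hβ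
    refine ⟨τ, fun u hu => ?_⟩
    obtain ⟨h1, h2, c, h3⟩ := B.of_U hu
    have i1 : (τ⁻¹).1 B.e₁ = (α * β)⁻¹ • B.e₁ := inv_ap (by
      rw [map_smul, t1, smul_smul, inv_mul_cancel₀ (mul_ne_zero hα hβ), one_smul])
    have i2 : (τ⁻¹).1 B.e₂ = β⁻¹ • B.e₂ := inv_ap (by
      rw [map_smul, t2, smul_smul, inv_mul_cancel₀ hβ, one_smul])
    refine B.mem_U (c := c * (α * β)) ?_ ?_ ?_ <;>
      simp only [mul_ap, i1, i2, inv_ap t3, map_add, map_smul, h1, h2, h3, t1, t2, t3] <;>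
      match_scalars <;> field_simp

end B5

end Cfsg.Agent.H4.DgS1
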