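import Mathlib
import Cfsg.Agent.H50.E72Defs
import Cfsg.Agent.H28.OmegaIso
import Cfsg.Agent.H52.FStar
import Cfsg.Agent.S0243
import Cfsg.Agent.S2602

/-! From a fixed vector of the generalized Fitting subgroup to non-maximality in `E₇(2)`. -/

set_option autoImplicit false

namespace Cfsg.Agent.H4.E72Fin

open Cfsg.Agent.H50.E72 Subgroup
open scoped Matrix MatrixGroups

universe u

theorem fixv (hD : DescStmt) {X : Type u} [Group X] (hX : FixAll X) {π : G0 →* M56 (ZMod 2)}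
    (hπ : Good π) (H : Subgroup G0) (L : Subgroup H) (e : L ≃* X) :
    ∃ v : Fin 56 → ZMod 2, v ≠ 0 ∧ ∀ g ∈ L, π g *ᵥ v = v := by
  obtain ⟨v, v0, hv⟩ := hD _ π _ (hX π hπ (H.subtype.comp (L.subtype.comp e.symm.toMonoidHom))
    (H.subtype_injective.comp (L.subtype_injective.comp e.symm.injective)))
  exact ⟨v, v0, fun g hg => hv _ ⟨e ⟨g, hg⟩, by simp⟩⟩

theorem finA (hG : GoodStmt) (hO : OutStmt.{u}) (hA : MaxAStmt) (hD : DescStmt) : FinAStmt.{u} := by
  rintro X _ hX hZ ⟨k, k2, hk⟩ hc H hH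
  refine ⟨fun e => ?_⟩
  obtain ⟨π, hπ⟩ := hG
  obtain ⟨ψ, hψ⟩ := hO H X e hZ
  have := H52.fstar_normal (G := H)
  have hd : (generalizedFittingSubgroup H).index ∣ 2 ^ k := by
    rw [← hψ, index_ker, ← hk]; exact card_subgroup_dvd_card _
  obtain ⟨j, hj, ej⟩ := (Nat.dvd_prime_pow Nat.prime_two).1 hd
  refine hA π hπ H _ hH ⟨j, ej⟩ ?_ (fixv hD hX hπ H _ e)
  rw [← (generalizedFittingSubgroup H).card_mul_index, ej, Nat.card_congr e.toEquiv]
  calc _ ≤ 2 ^ 60 * 2 ^ 2 := Nat.mul_le_mul hc (Nat.pow_le_pow_right (by norm_num) (hj.trans k2))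
    _ ≤ _ := by norm_num

theorem finB (hG : GoodStmt) (hO : OutStmt.{u}) (hB : MaxBStmt) (hD : DescStmt) : FinBStmt.{u} := by
  intro F _ _ hF hX H hH
  refine ⟨fun e => ?_⟩
  obtain ⟨π, hπ⟩ := hG
  obtain ⟨ψ, hψ⟩ := hO H _ e (H28.center_PSL2_eq_bot F)
  have := H52.fstar_normal (G := H)
  have : Fact (Nat.Prime 3) := ⟨Nat.prime_three⟩
  obtain ⟨φ, -, -, hk⟩ := S2602.result (F := F) (p := 3) (f := 3) (by norm_num) (by rw [hF]; norm_num)
    (by norm_num)
  have hc : Nat.card PSL(2, F) = 9828 := by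
    have h := S0243.result hF 2 (by norm_num)
    simp only [Fin.prod_univ_two, Fin.val_zero, Fin.val_one] at h
    norm_num at h
    omega
  have hle : generalizedFittingSubgroup H ≤ (φ.comp ψ).ker := by
    rw [← hψ]; intro g hg
    rw [MonoidHom.mem_ker] at hg ⊢
    rw [MonoidHom.comp_apply, hg, map_one]
  have h2 : (generalizedFittingSubgroup H).relIndex (φ.comp ψ).ker ∣ 2 := by
    rw [← hψ, relIndex_ker]
    refine (card_dvd_of_le (K := φ.ker) ?_).trans (by rw [hk]; norm_num)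
    rintro _ ⟨g, hg, rfl⟩
    exact hg
  have h3 : (φ.comp ψ).ker.index ∣ 3 := by
    rw [index_ker]
    simpa using card_subgroup_dvd_card (φ.comp ψ).range
  refine hB π hπ H _ _ hH hle h2 h3 ?_ (fixv hD hX hπ H _ e)
  rw [← (generalizedFittingSubgroup H).card_mul_index, ← relIndex_mul_index hle,
    Nat.card_congr e.toEquiv, hc]
  calc _ ≤ 9828 * (2 * 3) := Nat.mul_le_mul le_rfl
        (Nat.mul_le_mul (Nat.le_of_dvd (by norm_num) h2) (Nat.le_of_dvd (by norm_num) h3))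
    _ ≤ _ := by norm_num

end Cfsg.Agent.H4.E72Fin
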