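import Cfsg.Agent.H50.E83Defs2
import Cfsg.Agent.H29.G2Spec

/-! Project E83, piece LAM: the trace on skew matrices of an orthogonal element of order four. -/

set_option autoImplicit false

namespace Cfsg.Agent.H4.E83Lam

open Cfsg.Agent.H50.E83 Module Matrix

theorem two_ne : (2 : K) ≠ 0 := fun h => by
  have := (CharP.cast_eq_zero_iff K 3 2).1 (by exact_mod_cast h)
  omega

theorem exists_diag {A : M16} (h : A ^ 4 = 1) :
    ∃ (P Q : M16) (d : Fin 16 → K), P * Q = 1 ∧ Q * P = 1 ∧ A = P * diagonal d * Q := by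
  have h4 : ((4 : ℕ) : K) ≠ 0 := by
    rw [show ((4 : ℕ) : K) = 2 * 2 by norm_num]; exact mul_ne_zero two_ne two_ne
  obtain ⟨b, d, hd⟩ := H29.exists_eigenbasis (f := Matrix.toLin' A) h4
    (by rw [← Matrix.toLin'_pow, h, Matrix.toLin'_one]; rfl) (m := 16) (by simp)
  have e1 := Basis.toMatrix_mul_toMatrix_flip (Pi.basisFun K (Fin 16)) b
  refine ⟨_, _, d, e1, Basis.toMatrix_mul_toMatrix_flip _ _, ?_⟩
  have : A * (Pi.basisFun K (Fin 16)).toMatrix b =
      (Pi.basisFun K (Fin 16)).toMatrix b * diagonal d := by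
    ext i j
    have := congrFun (hd j) i
    simp only [toLin'_apply, mulVec, dotProduct, Pi.smul_apply, smul_eq_mul] at this
    simp only [mul_diagonal, Basis.toMatrix_apply, Pi.basisFun_repr]
    rw [mul_comm, ← this, mul_apply]
    simp only [Basis.toMatrix_apply, Pi.basisFun_repr]
  rw [← this, Matrix.mul_assoc, e1, Matrix.mul_one]

theorem nul_eq (A : M16) : nul A = 16 - A.rank := by
  have := LinearMap.finrank_range_add_finrank_ker (Matrix.toLin' A)
  rw [finrank_fin_fun] at this
  rw [nul, Matrix.rank, ← Matrix.toLin'_apply']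
  omega

theorem rank_cj {P Q : M16} (h : P * Q = 1) (M : M16) : (P * M * Q).rank = M.rank := by
  rw [rank_mul_eq_left_of_isUnit_det _ _ (isUnit_det_of_left_inverse h),
    rank_mul_eq_right_of_isUnit_det _ _ (isUnit_det_of_right_inverse h)]

open Classical in
theorem nul_cj {P Q : M16} (h : P * Q = 1) (w : Fin 16 → K) :
    nul (P * diagonal w * Q) = ∑ a, if w a = 0 then 1 else 0 := by
  rw [nul_eq, rank_cj h, rank_diagonal, Fintype.card_subtype, Finset.sum_boole]
  have := Finset.card_filter_add_card_filter_not (s := Finset.univ) (fun a => w a = 0)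
  rw [Finset.card_univ, Fintype.card_fin] at this
  simp only [ne_eq]
  omega

theorem skE_le {P Q : M16} (h : Q * P = 1) (D : M16) (c : K) :
    finrank K (skE D c) ≤ finrank K (skE (P * D * Q) c) := by
  have h' : Pᵀ * Qᵀ = 1 := by rw [← transpose_mul, h, transpose_one]
  let e : M16 →ₗ[K] M16 := (LinearMap.mulRight K Pᵀ).comp (LinearMap.mulLeft K P)
  have ea : ∀ Y, e Y = P * Y * Pᵀ := fun _ => rfl
  have hm : ∀ Y ∈ skE D c, e Y ∈ skE (P * D * Q) c := fun Y hY => by
    refine ⟨?_, ?_⟩
    · rw [ea, transpose_mul, transpose_mul, transpose_transpose, hY.1]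
      simp only [Matrix.neg_mul, Matrix.mul_neg, Matrix.mul_assoc]
    · rw [ea, transpose_mul, transpose_mul]
      calc _ = P * (D * (Q * P) * Y * (Pᵀ * Qᵀ) * Dᵀ) * Pᵀ := by simp only [Matrix.mul_assoc]
        _ = _ := by rw [h, h', Matrix.mul_one, Matrix.mul_one, hY.2, Matrix.mul_smul, Matrix.smul_mul]
  refine LinearMap.finrank_le_finrank_of_injective (f := e.restrict hm) fun Y Z hYZ => ?_
  have e1 : P * Y.1 * Pᵀ = P * Z.1 * Pᵀ := congrArg Subtype.val hYZ
  have e2 := congrArg (fun X => Q * X * Qᵀ) e1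
  simp only [Matrix.mul_assoc, h', Matrix.mul_one] at e2
  simp only [← Matrix.mul_assoc, h, Matrix.one_mul] at e2
  exact Subtype.ext e2

theorem skE_cj {P Q : M16} (h : P * Q = 1) (h' : Q * P = 1) (D : M16) (c : K) :
    finrank K (skE (P * D * Q) c) = finrank K (skE D c) := by
  refine le_antisymm ?_ (skE_le h' D c)
  have := skE_le h (P * D * Q) c
  rwa [show Q * (P * D * Q) * P = (Q * P) * D * (Q * P) by simp only [Matrix.mul_assoc], h',
    Matrix.one_mul, Matrix.mul_one] at this

theorem JJ : J16 * J16 = 1 := by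
  ext a b
  simp only [J16, mul_apply, of_apply, ite_mul, one_mul, zero_mul, Finset.sum_ite_eq',
    Finset.mem_univ, if_true, Fin.rev_rev, one_apply, eq_comm (a := b)]

theorem sum_sym (f : Fin 16 → Fin 16 → ℤ) (hf : ∀ a b, f a b = f b a) :
    ∑ a, ∑ b, f a b = 2 * (∑ p : Fin 16 × Fin 16, if p.1 < p.2 then f p.1 p.2 else 0) +
      ∑ a, f a a := by
  have : ∀ a b, f a b = (if a < b then f a b else 0) + (if b < a then f b a else 0) +
      if a = b then f a b else 0 := fun a b => by
    rcases lt_trichotomy a b with h | h | h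
    · simp [h, h.not_gt, h.ne]
    · simp [h]
    · simp [h, h.not_gt, h.ne', hf a b]
  rw [Finset.sum_congr rfl fun a _ => Finset.sum_congr rfl fun b _ => this a b,
    Fintype.sum_prod_type]
  simp only [Finset.sum_add_distrib, Finset.sum_ite_eq, Finset.mem_univ, if_true]
  rw [Finset.sum_comm (f := fun a b => if b < a then f b a else 0)]
  ring

open Classical in
theorem lam (hD : LamDStmt) : LamStmt := by
  intro A hA h4
  obtain ⟨P, Q, d, pq, qp, rfl⟩ := exists_diag h4
  obtain ⟨i, hi⟩ := IsAlgClosed.exists_eq_mul_self (-1 : K)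
  have mul : ∀ v w : Fin 16 → K, P * diagonal v * Q * (P * diagonal w * Q) =
      P * diagonal (fun a => v a * w a) * Q := fun v w => by
    rw [← diagonal_mul_diagonal]
    calc _ = P * (diagonal v * (Q * P) * diagonal w) * Q := by simp only [Matrix.mul_assoc]
      _ = _ := by rw [qp, Matrix.mul_one]
  have add : ∀ (v : Fin 16 → K) (c : K), P * diagonal v * Q + c • (1 : M16) =
      P * diagonal (fun a => v a + c) * Q := fun v c => by
    rw [← diagonal_add, Matrix.mul_add, Matrix.add_mul, ← smul_one_eq_diagonal, Matrix.mul_smul,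
      Matrix.smul_mul, Matrix.mul_one, pq]
  have h4' : P * diagonal d * Q * (P * diagonal (fun a => d a * (d a * d a)) * Q) = 1 := by
    rw [← mul, ← mul, ← h4, pow_succ', pow_succ', pow_two]
  have d4 : ∀ a, d a * (d a * (d a * d a)) = 1 := fun a => by
    rw [mul] at h4'
    have := congrArg (fun X => Q * X * P) h4'
    simp only [Matrix.mul_assoc, qp, Matrix.mul_one, Matrix.one_mul] at this
    rw [← Matrix.mul_assoc, qp, Matrix.one_mul] at this
    simpa using congrFun (congrFun this a) a
  have n1 : (1 : K) ≠ -1 := fun h => two_ne (by linear_combination h)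
  have n2 : i ≠ 1 := fun h => two_ne (by rw [h] at hi; linear_combination -hi)
  have n3 : i ≠ -1 := fun h => two_ne (by rw [h] at hi; linear_combination -hi)
  have n4 : i ≠ -i := fun h => by
    have : 2 * i = 0 := by linear_combination h
    rw [mul_eq_zero, or_iff_right two_ne] at this
    rw [this] at hi
    simp at hi
  have n5 : -i ≠ 1 := fun h => n3 (by linear_combination -h)
  have ii : i * i = -1 := hi.symm
  have cs : ∀ a, d a = 1 ∨ d a = -1 ∨ d a = i ∨ d a = -i := fun a => by
    have : (d a - 1) * ((d a + 1) * ((d a - i) * (d a + i))) = 0 := by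
      linear_combination d4 a - (d a ^ 2 - 1) * ii
    simpa only [mul_eq_zero, sub_eq_zero, add_eq_zero_iff_eq_neg] using this
  have e1 := nul_cj pq fun a => d a + -1
  have e2 := nul_cj pq fun a => d a + 1
  have e3 := nul_cj pq fun a => d a * d a + 1
  have e4 := nul_cj pq fun a => d a + -i
  have e5 := nul_cj pq fun a => d a * (d a * d a) + -i
  rw [← add] at e1 e2 e3 e4 e5
  rw [← mul] at e3
  rw [neg_smul, one_smul, ← sub_eq_add_neg] at e1
  rw [one_smul] at e2 e3
  have e6 : nul (P * diagonal d * Q + -i • 1) =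
      nul (P * diagonal (fun a => d a * (d a * d a)) * Q + -i • 1) := by
    rw [nul_eq, nul_eq, ← rank_transpose, ← rank_cj JJ (_ + _)]
    congr 2
    have := congrArg (fun X => X * (P * diagonal (fun a => d a * (d a * d a)) * Q) * J16) hA
    rw [Matrix.mul_assoc _ _ (P * _ * Q), h4', Matrix.mul_one, Matrix.mul_assoc, JJ,
      Matrix.mul_one] at this
    rw [transpose_add, this, transpose_smul, transpose_one, Matrix.mul_add, Matrix.add_mul,
      Matrix.mul_smul, Matrix.smul_mul, Matrix.mul_one, JJ]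
  rw [e4, e5] at e6
  let re : K → ℤ := fun x => (if x = 1 then 1 else 0) - if x = -1 then 1 else 0
  let im : K → ℤ := fun x => (if x = i then 1 else 0) - if x = -i then 1 else 0
  have s1 : ∑ a, im (d a) = 0 := by
    rw [← sub_eq_zero, ← Finset.sum_sub_distrib] at e6
    refine (Finset.sum_congr rfl fun a _ => ?_).trans e6
    rcases cs a with e | e | e | e <;>
      simp [im, e, ii, add_neg_eq_zero, n2, n3, n4, n2.symm, n3.symm, n4.symm, n5, n5.symm]
  have s2 : ∀ a b, re (d a * d b) = re (d a) * re (d b) - im (d a) * im (d b) := fun a b => by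
    rcases cs a with e | e | e | e <;> rcases cs b with e' | e' | e' | e' <;>
      simp [re, im, e, e', ii, n1, n2, n3, n4, n1.symm, n2.symm, n3.symm, n4.symm, n5, n5.symm]
  have s3 := sum_sym (fun a b => re (d a * d b)) fun a b => by rw [mul_comm]
  have s4 : tsk (P * diagonal d * Q) =
      ∑ p : Fin 16 × Fin 16, if p.1 < p.2 then re (d p.1 * d p.2) else 0 := by
    rw [tsk, skE_cj pq qp, skE_cj pq qp, hD, hD, ← Finset.sum_boole, ← Finset.sum_boole,
      ← Finset.sum_sub_distrib]
    refine Finset.sum_congr rfl fun p _ => ?_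
    by_cases h : p.1 < p.2 <;> simp [re, h]
  have s5 : ∑ a, re (d a) = nul (P * diagonal d * Q - 1) - nul (P * diagonal d * Q + 1) := by
    rw [e1, e2, ← Finset.sum_sub_distrib]
    simp only [re, add_neg_eq_zero, add_eq_zero_iff_eq_neg, neg_neg]
  have s6 : ∑ a, re (d a * d a) = nul (P * diagonal d * Q - 1) + nul (P * diagonal d * Q + 1) -
      nul (P * diagonal d * Q * (P * diagonal d * Q) + 1) := by
    rw [e1, e2, e3, ← Finset.sum_add_distrib, ← Finset.sum_sub_distrib]
    refine Finset.sum_congr rfl fun a _ => ?_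
    rcases cs a with e | e | e | e <;>
      simp [re, e, ii, add_eq_zero_iff_eq_neg, n1, n2, n3, n1.symm, n5]
  constructor
  · rw [e1, e2, e3, ← Finset.sum_add_distrib, ← Finset.sum_add_distrib]
    refine (Finset.sum_congr rfl fun a _ => (?_ : _ = (1 : ℤ))).trans (by simp)
    rcases cs a with e | e | e | e <;>
      simp [e, ii, add_eq_zero_iff_eq_neg, n1, n2, n3, n1.symm, n5]
  · rw [← s4, s6] at s3
    simp only [s2, Finset.sum_sub_distrib, ← Finset.mul_sum, ← Finset.sum_mul, s1, s5] at s3
    linarith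

end Cfsg.Agent.H4.E83Lam
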