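import Cfsg.Agent.H73.GagDefs
import Cfsg.Agent.S0252

/-! Project GAG, pieces FSL and FISO. -/

set_option autoImplicit false

namespace Cfsg.Agent.H4.Gag

open Subgroup Cfsg Cfsg.Agent.H82 Cfsg.Agent.H73.Gag
open scoped MatrixGroups

universe u

variable {F : Type} [Field F] [Fintype F] {a : ℕ}

theorem two_eq (hF : Fintype.card F = 2 ^ a) : (2 : F) = 0 :=
  haveI := charP_of_card hF
  CharP.cast_eq_zero F 2

theorem center_bot (hF : Fintype.card F = 2 ^ a) : center SL(2, F) = ⊥ := by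
  have e : ∀ x : F, -x = x := fun x => by linear_combination (-x) * two_eq hF
  refine eq_bot_iff.2 fun g hg => mem_bot.2 ((mem_center_SL2_iff.1 hg).elim id fun k => k.trans ?_)
  apply SL2_ext <;> rw [SL2_neg_apply, e]

theorem trace_three (hF : Fintype.card F = 2 ^ a) {y : SL(2, F)} (hy : orderOf y = 3) :
    y 0 0 + y 1 1 = 1 := by
  rw [trace_of_pow_three (hy ▸ pow_orderOf_eq_one y) (by rintro rfl; simp at hy)]
  linear_combination (-1) * two_eq hF

theorem conj_three (hF : Fintype.card F = 2 ^ a) {y z : SL(2, F)} (hy : orderOf y = 3)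
    (hz : orderOf z = 3) : IsConj y z := by
  obtain ⟨g, e⟩ := exists_conj_of_trace_one (two_eq hF) (trace_three hF hy)
  obtain ⟨k, f⟩ := exists_conj_of_trace_one (two_eq hF) (trace_three hF hz)
  exact (isConj_iff.2 ⟨g, e⟩).symm.trans (isConj_iff.2 ⟨k, f⟩)

theorem eq_one_of_commute (hF : Fintype.card F = 2 ^ a) {y l : SL(2, F)} (hy : orderOf y = 3)
    (c : Commute y l) {k : ℕ} (hl : l ^ 2 ^ k = 1) : l = 1 := by
  obtain ⟨g, t, e⟩ := exists_conj_eq_uu hF hl
  have tr := (trace_conj g y).trans (trace_three hF hy)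
  have c' : g * y * g⁻¹ * uu t = uu t * (g * y * g⁻¹) := e ▸ (c.conj g).eq
  generalize g * y * g⁻¹ = z at tr c'
  have h1 := congrArg (fun m : SL(2, F) => m 0 1) c'
  simp only [SL2_mul_apply, uu_00, uu_01, uu_11] at h1
  have : t = 0 := by linear_combination h1 - t * tr + t * z 1 1 * two_eq hF
  rwa [this, uu_zero, conj_eq_one_iff] at e

theorem fsl : FslStmt := by
  intro F _ _ a hF ha
  have h4 : 4 ≤ Nat.card F := by
    rw [Nat.card_eq_fintype_card, hF]; exact Nat.pow_le_pow_right two_pos ha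
  obtain ⟨s, s0, s2⟩ := exists_sq_ne_one h4
  have u1 : uu (1 : F) ≠ 1 := fun e => one_ne_zero (uu_eq_one_iff.1 e)
  haveI : Nontrivial SL(2, F) := ⟨_, _, u1⟩
  refine ⟨⟨fun N hN => ?_⟩, fun c => u1 (mem_bot.1 (center_bot hF ▸ mem_center_iff.2 fun g =>
    c.is_comm.comm _ _)), H28.card_SL2 hF, fun y l hy c ⟨k, hl⟩ => eq_one_of_commute hF hy c hl,
    fun y hy => conj_three hF hy (by rwa [orderOf_inv]), fun ⟨b, hb⟩ y hy => ?_⟩
  · by_cases h : N ≤ center SL(2, F)
    · exact Or.inl (eq_bot_iff.2 (center_bot hF ▸ h))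
    · exact Or.inr (normal_eq_top_of_not_le_center s0 s2 h)
  classical
  obtain ⟨ω, hω⟩ := exists_prime_orderOf_dvd_card (G := Fˣ) 3 (by
    rw [Fintype.card_units, hF, hb, ← two_mul, pow_mul]
    exact Nat.sub_one_dvd_pow_sub_one 4 b)
  have o : orderOf (hh (ω : F) ω.ne_zero) = 3 := by
    refine orderOf_eq_prime ?_ fun e => ?_
    · rw [pow_three, hh_mul_hh, hh_mul_hh, ← hh_one]
      congr 1
      rw [← Units.val_mul, ← Units.val_mul, ← pow_three, ← hω, pow_orderOf_eq_one, Units.val_one]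
    · have : ω = 1 := Units.ext (congrArg (fun m : SL(2, F) => m 0 0) e)
      rw [this, orderOf_one] at hω
      omega
  obtain ⟨g, rfl⟩ := isConj_iff.1 (conj_three hF o hy)
  refine ⟨(UU F).map (MulAut.conj g).toMonoidHom, (isPGroup_UU hF).map _,
    le_normalizer_map _ (mem_map_of_mem _ (BB_le_normalizer (mem_BB.2 (hh_10 _ _)))),
    _, mem_map_of_mem _ (uu_mem 1), fun c => u1 (conj_eq_one_iff.1
      (eq_one_of_commute hF hy c.symm (k := 1) ?_))⟩
  rw [conj_pow, pow_one, uu_pow_char hF, mul_one, mul_inv_cancel]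

theorem psl_equiv (hF : Fintype.card F = 2 ^ a) :
    Nonempty (Matrix.ProjectiveSpecialLinearGroup (Fin 2) F ≃* SL(2, F)) :=
  ⟨(QuotientGroup.quotientMulEquivOfEq (center_bot hF)).trans QuotientGroup.quotientBot⟩

theorem fiso : FisoStmt.{u} := by
  rintro G _ (⟨F, _, _, a, ha, hF, ⟨e⟩⟩ | ⟨⟨e⟩⟩)
  · obtain ⟨f⟩ := psl_equiv hF
    exact ⟨F, _, _, a, hF, ha, ⟨e.trans f⟩⟩
  · letI : Fintype (GaloisField 2 2) := Fintype.ofFinite _
    have hF : Fintype.card (GaloisField 2 2) = 2 ^ 2 := by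
      rw [← Nat.card_eq_fintype_card, GaloisField.card 2 2 two_ne_zero]
    obtain ⟨f⟩ := psl_equiv hF
    obtain ⟨k⟩ := S0252.result hF
    exact ⟨_, _, _, 2, hF, le_rfl, ⟨e.trans (k.symm.trans f)⟩⟩

end Cfsg.Agent.H4.Gag
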