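import Cfsg.Agent.H99.HNSet
import Cfsg.Agent.S0058

/-! Project HN3, piece S5. -/

set_option autoImplicit false

universe u

namespace Cfsg.Agent.H4.HnS5

open Cfsg Subgroup Cfsg.Agent.H99.HN
open Cfsg.Agent.H91 (SL25 slX slY)
open scoped Pointwise

variable {G : Type u} [Group G] [Finite G] {z : G} {Q : Subgroup G} {ι : SL25 →* G} {j : W4 → G}

omit [Finite G] in
theorem j0 (g : Geo z Q ι j) : j 0 = 1 := by
  have := g.add 0 0
  rw [add_zero] at this
  exact left_eq_mul.1 this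

omit [Finite G] in
theorem j3 (g : Geo z Q ι j) (v : W4) : j v ^ 3 = 1 := by
  have : v + v + v = 0 := by revert v; decide
  rw [pow_succ, pow_two, ← g.add, ← g.add, this, j0 g]

theorem eq_one_of {X : Subgroup G} (h : (Nat.card X).Coprime 3) {c : G} (hc : c ∈ X)
    (h3 : c ^ 3 = 1) : c = 1 := by
  have h1 : orderOf c ∣ Nat.card X := orderOf_dvd_natCard X hc
  exact orderOf_eq_one_iff.1 (Nat.eq_one_of_dvd_coprimes h h1 (orderOf_dvd_of_pow_eq_one h3))

theorem sigz (t : T1 z Q ι) (g : Geo z Q ι j) {X : Subgroup G}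
    (hX : ∀ v, j v ∈ normalizer (X : Set G)) (h : (Nat.card X).Coprime 3) {c : G} (hc : c ∈ X)
    (hz : c * z = z * c) : c = 1 := by
  obtain ⟨v, rfl⟩ := g.cA c fun a ha => by
    obtain ⟨v, rfl⟩ := g.jA a ha
    have h1 : c * j v * c⁻¹ * (j v)⁻¹ ∈ Q :=
      mul_mem (t.nQ c (by rw [hz, mul_inv_cancel_right]; exact mem_zpowers z) _ ha.1) (inv_mem ha.1)
    have h2 : c * j v * c⁻¹ * (j v)⁻¹ ∈ X := by
      have := mul_mem hc ((mem_normalizer_iff.1 (hX v) c⁻¹).1 (inv_mem hc))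
      simpa only [mul_assoc] using this
    have := eq_one_of h h2 (t.Qe _ h1)
    rw [mul_inv_eq_one, mul_inv_eq_iff_eq_mul] at this
    exact this
  exact eq_one_of h hc (j3 g v)

theorem sigv (t : T1 z Q ι) (g : Geo z Q ι j) (m : Mon j ι) {X : Subgroup G}
    (hX : ∀ v, j v ∈ normalizer (X : Set G)) (h : (Nat.card X).Coprime 3) {c : G} (hc : c ∈ X)
    {v : W4} (h0 : v ≠ 0) (hq : qf v = 0) (hz : c * j v = j v * c) : c = 1 := by
  obtain ⟨n, h1, -, h3⟩ := m.tz v h0 hq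
  rw [g.jz] at h3
  set X' : Subgroup G := X.comap (MulAut.conj n).toMonoidHom with hX'
  have mem : ∀ x, x ∈ X' ↔ n * x * n⁻¹ ∈ X := fun x => Iff.rfl
  have c' : Nat.card X' = Nat.card X := by
    rw [hX', comap_equiv_eq_map_symm']
    exact card_map_of_injective (MulAut.conj n).symm.injective
  have := sigz t g (X := X') (c := n⁻¹ * c * n) (fun w => by
    obtain ⟨w', e⟩ := h1 w
    refine mem_normalizer_iff.2 fun x => ?_
    rw [mem, mem, mem_normalizer_iff.1 (hX w'), ← e]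
    exact Iff.of_eq (congrArg (· ∈ X) (by group))) (c' ▸ h)
    (by rw [mem]; convert hc using 1; group) (by
      calc n⁻¹ * c * n * z = n⁻¹ * (c * (n * z * n⁻¹)) * n := by group
        _ = z * (n⁻¹ * c * n) := by rw [h3, hz, ← h3]; group)
  calc c = n * (n⁻¹ * c * n) * n⁻¹ := by group
    _ = 1 := by rw [this]; group

/-- a totally singular plane -/
def pl (g : Geo z Q ι j) : Subgroup G where
  carrier := {x | ∃ v : W4, (v 0 = v 2 + v 3 ∧ v 1 = v 3 - v 2) ∧ x = j v}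
  one_mem' := ⟨0, by decide, (j0 g).symm⟩
  mul_mem' := by
    rintro _ _ ⟨v, ⟨a1, a2⟩, rfl⟩ ⟨w, ⟨b1, b2⟩, rfl⟩
    exact ⟨v + w, ⟨by simp only [Pi.add_apply, a1, b1]; ring,
      by simp only [Pi.add_apply, a2, b2]; ring⟩, (g.add v w).symm⟩
  inv_mem' := by
    rintro _ ⟨v, ⟨a1, a2⟩, rfl⟩
    refine ⟨-v, ⟨by simp only [Pi.neg_apply, a1]; ring, by simp only [Pi.neg_apply, a2]; ring⟩, ?_⟩
    exact inv_eq_of_mul_eq_one_right (by rw [← g.add, add_neg_cancel, j0 g])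

theorem jinj (g : Geo z Q ι j) {v w : W4} (h : j v = j w) : v = w := by
  have : j (v - w) * j w = 1 * j w := by rw [← g.add, sub_add_cancel, h, one_mul]
  exact sub_eq_zero.1 (g.inj _ (mul_right_cancel this))

theorem sig (t : T1 z Q ι) (g : Geo z Q ι j) (m : Mon j ι) (X : Subgroup G)
    (hX : ∀ v, j v ∈ normalizer (X : Set G)) (h : (Nat.card X).Coprime 3) : X = ⊥ := by
  haveI : IsMulCommutative (pl g) := ⟨⟨by
    rintro ⟨_, v, hv, rfl⟩ ⟨_, w, hw, rfl⟩
    exact Subtype.ext (show j v * j w = j w * j v by rw [← g.add, ← g.add, add_comm])⟩⟩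
  have p3 : IsPGroup 3 (pl g) := by
    rintro ⟨_, v, hv, rfl⟩
    exact ⟨1, Subtype.ext (by simpa using j3 g v)⟩
  have nc : ¬ IsCyclic (pl g) := by
    rintro ⟨⟨_, v, hv, rfl⟩, hc⟩
    have k : ∀ w : W4, (w 0 = w 2 + w 3 ∧ w 1 = w 3 - w 2) → w = 0 ∨ w = v ∨ w = -v := fun w hw => by
      obtain ⟨i, hi⟩ := hc ⟨_, w, hw, rfl⟩
      have : j w ∈ zpowers (j v) := ⟨i, congrArg Subtype.val hi⟩
      rcases (H67.T3.mem_zp3 (j3 g v)).1 this with e | e | e
      · exact Or.inl (g.inj _ e)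
      · exact Or.inr (Or.inl (jinj g e))
      · refine Or.inr (Or.inr (jinj g (e.trans ?_)))
        exact inv_eq_of_mul_eq_one_right (by rw [← g.add, add_neg_cancel, j0 g])
    have k1 := k ![1, 1, 0, 1] (by decide)
    have k2 := k ![1, -1, 1, 0] (by decide)
    clear k hc hv
    revert v; decide
  obtain ⟨n, hn⟩ := IsPGroup.iff_card.1 p3
  rw [← S0058.result (pl g) X nc (by rintro _ ⟨v, -, rfl⟩; exact hX v)
    (hn ▸ Nat.Coprime.pow_left n h.symm)]
  refine iSup_eq_bot.2 fun a => iSup_eq_bot.2 ?_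
  rintro ⟨⟨v, hv, rfl⟩, h1⟩
  refine eq_bot_iff.2 fun c hc => ?_
  have q : ∀ w : W4, (w 0 = w 2 + w 3 ∧ w 1 = w 3 - w 2) → qf w = 0 := by decide
  exact sigv t g m hX h hc.1 (by rintro rfl; exact h1 (j0 g)) (q v hv)
    (mem_centralizer_singleton_iff.1 hc.2)

theorem sl_top (N : Subgroup SL25) [N.Normal] (h : slX ∈ N) : N = ⊤ := by
  rw [eq_top_iff, ← H91.closure_slXY, closure_le]
  rintro _ (rfl | rfl)
  · exact h
  · have e1 : (slX * slY) ^ 4 = 1 := by decide
    have e2 : slY ^ 5 = 1 := by decide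
    have f1 := congrArg (QuotientGroup.mk' N) e1
    have f2 := congrArg (QuotientGroup.mk' N) e2
    have f0 : QuotientGroup.mk' N slX = 1 := (QuotientGroup.eq_one_iff _).2 h
    rw [map_pow, map_mul, f0, one_mul, map_one] at f1
    rw [map_pow, map_one, pow_succ, f1, one_mul] at f2
    exact (QuotientGroup.eq_one_iff _).1 f2

theorem simple (t : T1 z Q ι) (g : Geo z Q ι j) (m : Mon j ι) : IsSimpleGroup G := by
  haveI : Nontrivial G := ⟨z, 1, t.z1⟩
  refine ⟨fun N hN => or_iff_not_imp_left.2 fun hb => ?_⟩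
  obtain ⟨S, hS⟩ := t.syl
  have d3 : 3 ∣ Nat.card N := by
    by_contra hc
    exact hb (sig t g m N (fun v => by rw [normalizer_eq_top]; trivial)
      ((Nat.Prime.coprime_iff_not_dvd Nat.prime_three).2 hc).symm)
  have zN : z ∈ N := by
    obtain ⟨⟨x, hx⟩, ox⟩ := exists_prime_orderOf_dvd_card' 3 d3
    rw [orderOf_mk] at ox
    obtain ⟨P, hP⟩ := (IsPGroup.of_card (p := 3) (n := 1)
      (by rw [Nat.card_zpowers, ox]; rfl) : IsPGroup 3 (zpowers x)).exists_le_sylow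
    obtain ⟨c, rfl⟩ := MulAction.exists_smul_eq G S P
    have x1 : c⁻¹ * x * c ∈ (S : Subgroup G) := by
      have := hP (mem_zpowers x)
      rw [Sylow.coe_subgroup_smul, mem_pointwise_smul_iff_inv_smul_mem] at this
      simpa using this
    have x2 : c⁻¹ * x * c ∈ N := by simpa using hN.conj_mem x hx c⁻¹
    have x3 : c⁻¹ * x * c ≠ 1 := fun e => by
      have : x = 1 := by
        calc x = c * (c⁻¹ * x * c) * c⁻¹ := by group
          _ = 1 := by rw [e]; group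
      rw [this, orderOf_one] at ox; omega
    haveI : Nontrivial (N.subgroupOf S) := ⟨⟨⟨_, x1⟩, x2⟩, 1, fun e =>
      x3 (congrArg (fun y : N.subgroupOf (S : Subgroup G) => ((y : (S : Subgroup G)) : G)) e)⟩
    letI : MulDistribMulAction (S : Subgroup G) (N.subgroupOf S) :=
      MulDistribMulAction.compHom _ (MulAut.conjNormal (H := N.subgroupOf S))
    obtain ⟨b, b1, b2⟩ := S.isPGroup'.exists_fixed_point_of_prime_dvd_card_of_fixed_point
      (N.subgroupOf S) (by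
        obtain ⟨k, hk, e⟩ := (S.isPGroup'.to_subgroup (N.subgroupOf S)).nontrivial_iff_card.1
          inferInstance
        rw [e]; exact dvd_pow_self 3 hk.ne') (a := 1) (fun s => smul_one s)
    have b3 : ((b : (S : Subgroup G)) : G) ∈ zpowers z := by
      rw [← hS]
      refine ⟨(b : (S : Subgroup G)).2, fun s hs => ?_⟩
      have := congrArg (fun y : N.subgroupOf (S : Subgroup G) => ((y : (S : Subgroup G)) : G))
        (b1 ⟨s, hs⟩)
      exact mul_inv_eq_iff_eq_mul.1 this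
    have b4 : ((b : (S : Subgroup G)) : G) ∈ N := b.2
    rcases (H67.T3.mem_zp3 t.z3).1 b3 with e | e | e
    · exact absurd (Subtype.ext (Subtype.ext e.symm)) b2
    · exact e ▸ b4
    · exact inv_mem_iff.1 (e ▸ b4)
  have xN : ι slX ∈ N := by
    obtain ⟨n, -, -, e⟩ := m.tz ![1, 1, 0, -1] (by decide) (by decide)
    rw [← g.jx, ← e, g.jz]
    exact hN.conj_mem _ zN n
  have ιN : ∀ k, ι k ∈ N := fun k => by
    have : k ∈ N.comap ι := by rw [sl_top (N.comap ι) xN]; trivial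
    exact this
  have QN : ∀ q ∈ Q, q ∈ N := fun q hq => by
    have h1 : ι (-1) * q * (ι (-1))⁻¹ * q ∈ N := zpowers_le.2 zN (t.inv q hq)
    have h2 : ι (-1) * (q * (ι (-1))⁻¹ * q⁻¹) ∈ N :=
      mul_mem (ιN _) (hN.conj_mem _ (inv_mem (ιN _)) q)
    refine H67.T3.mem_of_sq_cube ?_ (t.Qe q hq)
    convert mul_mem (inv_mem h2) h1 using 1
    group
  have CN : ∀ r, r * z = z * r → r ∈ N := fun r hr => by
    obtain ⟨q, hq, k, rfl⟩ := t.dec r hr
    exact mul_mem (QN q hq) (ιN k)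
  have zS : z ∈ (S : Subgroup G) ⊓ centralizer ((S : Subgroup G) : Set G) := hS ▸ mem_zpowers z
  have SN : (S : Subgroup G) ≤ N := fun s hs => CN s (zS.2 s hs)
  rw [← Sylow.normalizer_sup_eq_top' S SN, eq_comm, sup_eq_right]
  intro a ha
  have ha' : a ∈ normalizer ((S : Subgroup G) : Set G) := ha
  have az : a * z * a⁻¹ ∈ zpowers z := by
    rw [← hS]
    refine ⟨(mem_normalizer_iff.1 ha' z).1 zS.1, fun s hs => ?_⟩
    have h1 : a⁻¹ * s * a ∈ (S : Subgroup G) := (mem_normalizer_iff''.1 ha' s).1 hs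
    calc s * (a * z * a⁻¹) = a * (a⁻¹ * s * a * z) * a⁻¹ := by group
      _ = _ := by rw [zS.2 _ h1]; group
  rcases (H67.T3.mem_zp3 t.z3).1 az with e | e | e
  · exact absurd (conj_eq_one_iff.1 e) t.z1
  · exact CN a (mul_inv_eq_iff_eq_mul.1 e)
  · obtain ⟨c, -, hc, -⟩ := g.r1
    have e1 := m.ιu ![1, -1, 1, 0]
    have e2 : j ![(![1, -1, 1, 0] : W4) 1, (![1, -1, 1, 0] : W4) 0, -(![1, -1, 1, 0] : W4) 2,
        (![1, -1, 1, 0] : W4) 3] = (j ![1, -1, 1, 0])⁻¹ :=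
      eq_inv_of_mul_eq_one_left (by rw [← g.add, ← j0 g]; exact congrArg j (by decide))
    rw [e2, ← hc] at e1
    have h1 : c⁻¹ * ι (-1) * c ∈ N := by simpa using hN.conj_mem _ (ιN (-1)) c⁻¹
    have h2 : c⁻¹ * ι (-1) * c * a ∈ N := CN _ (by
      calc c⁻¹ * ι (-1) * c * a * z = c⁻¹ * ι (-1) * c * (a * z * a⁻¹) * a := by group
        _ = c⁻¹ * (ι (-1) * (c * z * c⁻¹) * (ι (-1))⁻¹)⁻¹ * ι (-1) * c * a := by rw [e]; group
        _ = _ := by rw [e1]; group)
    exact (mul_mem_cancel_left h1).1 h2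

theorem s5 : S5Stmt.{u} := fun _ _ _ _ _ _ _ t g m => ⟨sig t g m, simple t g m⟩

end Cfsg.Agent.H4.HnS5
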