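import Mathlib
import Cfsg.Agent.H97.JmDefs
import Cfsg.Agent.H12.J5G
import Cfsg.Agent.H83.J4U

/-!
# Elements of order seven in groups of fourth Janko type
-/

set_option autoImplicit false

namespace Cfsg.Agent.H97.JM

open Subgroup

universe u

namespace X2

theorem two {C : Type u} [Group C] [Finite C] (hC : Nat.card C = 840) (Q : Subgroup C)
    (hQ : Nat.card Q = 8) (f : Equiv.Perm (Fin 5) →* C) (hf : Function.Injective f) :
    ∃ b ∈ Q, ∃ c ∈ Q, b ≠ c ∧ orderOf b = 2 ∧ orderOf c = 2 := by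
  have hi : Q.index = 105 := by
    have := Q.card_mul_index; rw [hQ, hC] at this; omega
  let T : Sylow 2 C := (IsPGroup.of_card (p := 2) (n := 3) hQ).toSylow (by rw [hi]; norm_num)
  have k : ∀ s t : Equiv.Perm (Fin 5), s = Equiv.swap 0 1 → t = Equiv.swap 2 3 →
      s ≠ t ∧ s ^ 2 = 1 ∧ t ^ 2 = 1 ∧ s ≠ 1 ∧ t ≠ 1 ∧ Commute s t := by
    rintro _ _ rfl rfl; unfold Commute SemiconjBy; decide
  obtain ⟨h1, h2, h3, h4, h5, h6⟩ := k _ _ rfl rfl
  generalize Equiv.swap (0 : Fin 5) 1 = s at *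
  generalize Equiv.swap (2 : Fin 5) 3 = t at *
  have os : orderOf (f s) = 2 := by rw [orderOf_injective f hf, orderOf_eq_prime h2 h4]
  have ot : orderOf (f t) = 2 := by rw [orderOf_injective f hf, orderOf_eq_prime h3 h5]
  have ps : IsPGroup 2 (zpowers (f s)) := IsPGroup.of_card (n := 1) (by rw [Nat.card_zpowers, os]; rfl)
  have pt : IsPGroup 2 (zpowers (f t)) := IsPGroup.of_card (n := 1) (by rw [Nat.card_zpowers, ot]; rfl)
  have pp : IsPGroup 2 ↥(zpowers (f s) ⊔ zpowers (f t)) := by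
    refine ps.to_sup_of_normal_right' pt ?_
    refine (zpowers_le.2 ?_).trans (centralizer_le_normalizer _)
    rw [zpowers_eq_closure, centralizer_closure, mem_centralizer_singleton_iff]
    exact (h6.map f).eq
  obtain ⟨S, hS⟩ := pp.exists_le_sylow
  obtain ⟨g, hg⟩ := MulAction.exists_smul_eq C S T
  have m : ∀ y ∈ (S : Subgroup C), MulAut.conj g y ∈ Q := fun y hy => by
    have : MulAut.conj g y ∈ ((g • S : Sylow 2 C) : Subgroup C) := smul_mem_pointwise_smul y (MulAut.conj g) _ hy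
    rwa [hg] at this
  exact ⟨_, m _ (hS (mem_sup_left (mem_zpowers _))), _, m _ (hS (mem_sup_right (mem_zpowers _))),
    fun e => h1 (hf ((MulAut.conj g).injective e)), by rw [MulEquiv.orderOf_eq, os],
    by rw [MulEquiv.orderOf_eq, ot]⟩

end X2

theorem pX2 : X2.{u} := fun G _ _ _ hG hJ a ha => by
  obtain ⟨z, P, hP⟩ := hJ
  obtain ⟨J, -⟩ := H83.J4.exists_JL hG hP
  obtain ⟨-, t2, t3⟩ := H12.J4.cardN7 J ha
  obtain ⟨I, i1, ⟨i2⟩⟩ := H12.J4.h7 J a ha
  refine ⟨t3, t2, fun Q hQ h8 => ?_⟩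
  have hI : I ≤ centralizer ({a} : Set G) := by
    have := i1.2.1
    rwa [H12.J4.cent_zp] at this
  obtain ⟨b, hb, c, hc, n, ob, oc⟩ := X2.two t2 (Q.subgroupOf _)
    (by rw [← h8]; exact Nat.card_congr (subgroupOfEquivOfLe hQ).toEquiv)
    ((inclusion hI).comp i2.symm.toMonoidHom) ((inclusion_injective hI).comp i2.symm.injective)
  exact ⟨b, hb, c, hc, fun e => n (Subtype.ext e), by rw [orderOf_coe, ob], by rw [orderOf_coe, oc]⟩

end Cfsg.Agent.H97.JM
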