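import Cfsg.Agent.H4.MwReg
import Cfsg.Agent.H53.MWOrd

/-!
Counting orbits of primitive solvable linear groups.
-/

set_option autoImplicit false

namespace Cfsg.Agent.H4.Mw

open MulAction Module Cfsg.Agent.H12.RO Cfsg.Agent.H53.MW

universe u

theorem pow8 (c j₀ : ℕ) (h16 : 16 ≤ j₀) (h : c * j₀ ^ 8 ≤ 2 ^ j₀) :
    ∀ j, j₀ ≤ j → c * j ^ 8 ≤ 2 ^ j := by
  intro j hj
  induction j, hj using Nat.le_induction with
  | base => exact h
  | succ j hj ih =>
    have h1 : (16 * (j + 1)) ^ 8 ≤ (17 * j) ^ 8 := Nat.pow_le_pow_left (by omega) 8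
    rw [mul_pow, mul_pow] at h1
    have h2 : (j + 1) ^ 8 ≤ 2 * j ^ 8 := by omega
    calc c * (j + 1) ^ 8 ≤ c * (2 * j ^ 8) := Nat.mul_le_mul_left _ h2
      _ = 2 * (c * j ^ 8) := by ring
      _ ≤ 2 ^ (j + 1) := by rw [pow_succ 2 j]; omega

theorem five_of {G V : Type*} [Group G] [Finite G] [MulAction G V] (X : Set V)
    (h : 4 * Nat.card G < X.ncard) :
    ∃ v : Fin 5 → V, (∀ a, v a ∈ X) ∧ ∀ a a' (g : G), g • v a = v a' → a = a' := by
  classical
  have := Fintype.ofFinite G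
  obtain ⟨v, h1, h2⟩ := exists_sep X (fun v w => ∃ g : G, g • v = w)
    (fun v w ⟨g, hg⟩ => ⟨g⁻¹, inv_smul_eq_iff.2 hg.symm⟩) (fun v => Finset.univ.image (· • v : G → V))
    (Nat.card G) (fun v => Finset.card_image_le.trans (by simp))
    (fun v _ w ⟨g, hg⟩ => Finset.mem_image.2 ⟨g, Finset.mem_univ _, hg⟩) 4 h
  exact ⟨v, h1, fun a a' g hg => h2 a a' ⟨g, hg⟩⟩

variable {G V K W : Type*} [Group G] [Finite G] [AddCommGroup V] [DistribMulAction G V] [Field K]
  [Module K V] [AddCommGroup W] [Finite W] [DistribMulAction G W] {σ : G →* RingAut K}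
  {U To E M : Subgroup G} {π : G → W} {b : W → W → Kˣ} {e : ℕ}
  [Finite K] [Finite V] [Nontrivial V]

omit [Finite G] [Finite W] [Finite V] [Nontrivial V] in
theorem card_U_lt (h : Pk G V K W σ U To E M π b e) : Nat.card U < Nat.card K := by
  have h2 : 1 < Nat.card K := Finite.one_lt_card
  have := Nat.le_of_dvd (by omega) h.U_dvd
  omega

omit [Finite G] [Finite K] [Finite V] [Nontrivial V] in
theorem nontriv_W (h : Pk G V K W σ U To E M π b e) (he : 2 ≤ e) : Nontrivial W :=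
  Finite.one_lt_card_iff_nontrivial.1 (by rw [h.card]; nlinarith)

theorem card_ker_le [Group.IsSolvable G] (h : Pk G V K W σ U To E M π b e) (he : 2 ≤ e) :
    Nat.card σ.ker ≤ Nat.card K * e ^ 8 ∧ Nat.card G ≤ Nat.card K ^ 2 * e ^ 8 := by
  have := nontriv_W h he
  have h1 := ord_base (clifford h.cr σ.ker)
  rw [h.card] at h1
  have h2 : Nat.card σ.ker ≤ Nat.card K * e ^ 8 := by
    rw [h.card_ker]
    calc _ ≤ Nat.card K * e ^ 2 * (e ^ 2) ^ 3 :=
          Nat.mul_le_mul (Nat.mul_le_mul_right _ (card_U_lt h).le) (by omega)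
      _ = _ := by ring
  refine ⟨h2, ?_⟩
  have hp := CharP.char_is_prime K (ringChar K)
  obtain ⟨f, f1, f2, f3⟩ := char_field (V := V) hp (fun v => by
    rw [← Nat.cast_smul_eq_nsmul K, CharP.cast_eq_zero, zero_smul]) σ
  have h3 : σ.ker.index ≤ Nat.card K :=
    (Nat.le_of_dvd f3 f2).trans (f1 ▸ (Nat.lt_pow_self hp.one_lt).le)
  rw [← σ.ker.index_mul_card]
  calc _ ≤ Nat.card K * (Nat.card K * e ^ 8) := Nat.mul_le_mul h3 h2
    _ = _ := by ring

omit [Finite W] [Finite G] [Nontrivial V] in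
theorem ncard_ne : {v : V | v ≠ 0}.ncard = Nat.card K ^ finrank K V - 1 := by
  have : Module.Finite K V := Module.Finite.of_finite
  rw [← Module.natCard_eq_pow_finrank, ← Set.ncard_univ, ← Set.ncard_diff_singleton_of_mem
    (Set.mem_univ (0 : V))]
  congr 1
  ext; simp

theorem cnt1 [Group.IsSolvable G] (h : Pk G V K W σ U To E M π b e) (he : 64 ≤ e) :
    ∃ v : Fin 5 → V, (∀ a, v a ≠ 0) ∧ ∀ a a' (g : G), g • v a = v a' → a = a' := by
  refine five_of {v : V | v ≠ 0} ?_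
  rw [ncard_ne (K := K)]
  have h1 := (card_ker_le h (by omega)).2
  have h2 : 1 < Nat.card K := Finite.one_lt_card
  have h3 := pow8 32 64 (by norm_num) (by norm_num) e he
  obtain ⟨k, hk⟩ : ∃ k, finrank K V = k + 2 := ⟨finrank K V - 2, by have := h.le; omega⟩
  have h4 : 2 ^ e ≤ 4 * Nat.card K ^ k := by
    calc 2 ^ e ≤ 2 ^ (k + 2) := Nat.pow_le_pow_right two_pos (hk ▸ h.le)
      _ = 4 * 2 ^ k := by ring
      _ ≤ _ := Nat.mul_le_mul_left _ (Nat.pow_le_pow_left h2 k)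
  have h5 : Nat.card K ^ 2 * (8 * e ^ 8) ≤ Nat.card K ^ 2 * Nat.card K ^ k :=
    Nat.mul_le_mul_left _ (by omega)
  have h6 : 0 < Nat.card G := Nat.card_pos
  rw [hk, pow_add, mul_comm _ (Nat.card K ^ 2)]
  have : Nat.card K ^ 2 * (8 * e ^ 8) = 8 * (Nat.card K ^ 2 * e ^ 8) := by ring
  omega

theorem cnt2 [Group.IsSolvable G] (h : Pk G V K W σ U To E M π b e) (he : 4096 ≤ e) :
    ∃ v : Fin 5 → V, (∀ a (g : G), σ g = 1 → g • v a = v a → g = 1) ∧
      ∀ a a' (g : G), g • v a = v a' → a = a' := by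
  have : Module.Finite K V := Module.Finite.of_finite
  let X : Set V := {v | ∀ g : G, σ g = 1 → g • v = v → g = 1}
  refine five_of X ?_
  obtain ⟨h0, h1⟩ := card_ker_le h (by omega)
  have h2 : 1 < Nat.card K := Finite.one_lt_card
  have c1 := cover_le ({v : V | v ≠ 0} \ X) {g : G | σ g = 1 ∧ g ≠ 1}
    (Nat.card K ^ (3 * finrank K V / 4)) (fun v hv => by
      have := hv.2
      simp only [X, Set.mem_setOf_eq, not_forall] at this
      obtain ⟨g, a1, a2, a3⟩ := this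
      exact ⟨hv.1, g, ⟨a1, a3⟩, a2⟩) fun g hg => by
      rw [ncard_fix h.toStr g hg.1]
      have := rk_34 h hg.1 hg.2
      exact Nat.pow_le_pow_right Nat.card_pos (by omega)
  have c2 : {g : G | σ g = 1 ∧ g ≠ 1}.ncard ≤ Nat.card σ.ker := by
    rw [← SetLike.coe_sort_coe, Nat.card_coe_set_eq]
    exact Set.ncard_le_ncard fun g hg => hg.1
  have c3 := Set.ncard_le_ncard_diff_add_ncard {v : V | v ≠ 0} X
  rw [ncard_ne (K := K)] at c3
  have hn := h.le
  obtain ⟨k, hk⟩ : ∃ k, finrank K V = 3 * finrank K V / 4 + (k + 2) :=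
    ⟨finrank K V - 3 * finrank K V / 4 - 2, by omega⟩
  have h3 := pow8 (2 ^ 30) 128 (by norm_num) (by norm_num) k (by omega)
  have h4 : e ^ 8 ≤ (8 * k) ^ 8 := Nat.pow_le_pow_left (by omega) 8
  have h5 : 2 ^ k ≤ Nat.card K ^ k := Nat.pow_le_pow_left h2 k
  rw [mul_pow] at h4
  have h6 : 8 * e ^ 8 ≤ Nat.card K ^ k := by omega
  rw [hk, pow_add, pow_add] at c3
  have h7 : 0 < Nat.card K ^ (3 * finrank K V / 4) := by positivity
  have h8 : 0 < e ^ 8 := by positivity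
  generalize Nat.card K ^ (3 * finrank K V / 4) = a at *
  generalize Nat.card K ^ k = c at *
  generalize e ^ 8 = d at *
  generalize Nat.card K = q at *
  have i1 : ({v : V | v ≠ 0} \ X).ncard ≤ a * (q ^ 2 * d) := by
    calc _ ≤ q * d * a := c1.trans (Nat.mul_le_mul (c2.trans h0) (Nat.sub_le _ _))
      _ = a * (q * d) := by ring
      _ ≤ _ := Nat.mul_le_mul_left _ (Nat.mul_le_mul_right _ (by nlinarith))
  have i2 : q ^ 2 * d ≤ a * (q ^ 2 * d) := Nat.le_mul_of_pos_left _ h7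
  have i3 : 8 * (a * (q ^ 2 * d)) ≤ a * (c * q ^ 2) := by
    calc _ = a * (8 * d * q ^ 2) := by ring
      _ ≤ _ := Nat.mul_le_mul_left _ (Nat.mul_le_mul_right _ h6)
  have i4 : 0 < q ^ 2 * d := by positivity
  omega

theorem cnt : CntStmt.{u} := fun _ _ _ _ _ _ _ _ _ _ _ _ _ _ _ _ _ _ _ _ _ _ _ _ _ h =>
  ⟨cnt1 h, cnt2 h⟩

end Cfsg.Agent.H4.Mw
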