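import Cfsg.Agent.H4.MwCnt

/-!
Primitive linear groups of odd order in odd characteristic: regular orbits of the linear part.
-/

set_option autoImplicit false

namespace Cfsg.Agent.H4.Mw

open MulAction Module Cfsg.Agent.H12.RO Cfsg.Agent.H53.MW

universe u

section Odd8

variable {X W : Type*} [Group X] [AddCommGroup W] [DistribMulAction X W]

theorem smul_sign (g : X) (s : ℤˣ) (w : W) : g • s • w = s • g • w := by
  rcases Int.units_eq_one_or s with rfl | rfl <;> simp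

theorem sq_of_sign {z : X} {a : W} {s : ℤˣ} (h : z • a = s • a) : z ^ 2 • a = a := by
  rw [sq, mul_smul, h, smul_sign, h, ← mul_smul, Int.units_mul_self, one_smul]

theorem four_of_swap {z : X} {a c : W} {s t : ℤˣ} (h1 : z • a = s • c) (h2 : z • c = t • a) :
    (z ^ 2) ^ 2 • a = a :=
  sq_of_sign (s := s * t) (by rw [sq, mul_smul, h1, smul_sign, h2, mul_smul])

theorem sign_eq [Finite W] (hW : Odd (Nat.card W)) {a : W} (ha : a ≠ 0) {s : ℤˣ}
    (h : a = s • a) : s = 1 := by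
  rcases Int.units_eq_one_or s with rfl | rfl
  · rfl
  have h1 : addOrderOf a ∣ 2 := addOrderOf_dvd_of_nsmul_eq_zero (by
    rw [two_smul]; nth_rewrite 1 [h]; simp)
  exact absurd (AddMonoid.addOrderOf_eq_one_iff.1 (Nat.eq_one_of_dvd_coprimes
    (Nat.coprime_two_left.2 hW) h1 (addOrderOf_dvd_natCard a))) ha

theorem odd8 [Finite X] [Finite W] (hX : Odd (Nat.card X)) (hW : Odd (Nat.card W))
    (h4 : 4 ≤ Nat.card W) (hcr : CR X W) : 8 * Nat.card (img X W) ≤ Nat.card W ^ 2 := by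
  obtain ⟨v, hv⟩ := odd_base hX hcr
  have h2 := Nat.coprime_two_left.2 hX
  choose s hs using (toPermHom X W).rangeRestrict_surjective
  have fin : ∀ x x' : img X W, (∀ y : W, ((s x')⁻¹ * s x) • y = y) → x = x' := fun x x' h => by
    rw [← hs x, ← hs x', rr_eq_iff]
    intro y
    have := h y
    rwa [mul_smul, inv_smul_eq_iff] at this
  have mv : ∀ (x x' : img X W) (α α' : ℤˣ) (a a' : W), α • s x • a = α' • s x' • a' →
      ((s x')⁻¹ * s x) • a = (α⁻¹ * α') • a' := fun x x' α α' a a' h => by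
    rw [mul_smul, inv_smul_eq_iff, smul_sign, mul_smul, ← h, inv_smul_smul]
  by_cases h1 : ∃ a : W, ∀ g : X, g • a = a → ∀ y : W, g • y = y
  · obtain ⟨a, ha⟩ := h1
    obtain ⟨a, a0, ha⟩ : ∃ a : W, a ≠ 0 ∧ ∀ g : X, g • a = a → ∀ y : W, g • y = y := by
      by_cases h0 : a = 0
      · have : Nontrivial W := Finite.one_lt_card_iff_nontrivial.1 (by omega)
        obtain ⟨c, hc⟩ := exists_ne (0 : W)
        exact ⟨c, hc, fun g _ => ha g (by rw [h0, smul_zero])⟩
      exact ⟨a, h0, ha⟩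
    have := Nat.card_le_card_of_injective (fun x : ℤˣ × img X W => x.1 • s x.2 • a) (by
      rintro ⟨α, x⟩ ⟨α', x'⟩ e1
      have e2 := mv _ _ _ _ _ _ e1
      have e3 := ha _ (smul_eq_of_pow h2 (sq_of_sign e2))
      rw [e3] at e2
      exact Prod.ext (inv_mul_eq_one.1 (sign_eq hW a0 e2)) (fin _ _ e3))
    rw [Nat.card_prod, Nat.card_eq_fintype_card, Fintype.card_units_int] at this
    nlinarith
  have base : ∀ g : X, g • v 0 = v 0 → g • v 1 = v 1 → ∀ y : W, g • y = y := fun g a c =>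
    hv g (Fin.forall_fin_two.2 ⟨a, c⟩)
  have n0 : v 0 ≠ 0 := fun e0 => h1 ⟨v 1, fun g hg => base g (by rw [e0, smul_zero]) hg⟩
  have n1 : v 1 ≠ 0 := fun e0 => h1 ⟨v 0, fun g hg => base g hg (by rw [e0, smul_zero])⟩
  have n2 : ∀ α : ℤˣ, v 0 ≠ α • v 1 := fun α e0 =>
    h1 ⟨v 1, fun g hg => base g (by rw [e0, smul_sign, hg]) hg⟩
  have n3 : ∀ α : ℤˣ, v 1 ≠ α • v 0 := fun α e0 =>
    h1 ⟨v 0, fun g hg => base g hg (by rw [e0, smul_sign, hg])⟩
  have := Nat.card_le_card_of_injective (fun x : ℤˣ × ℤˣ × Bool × img X W =>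
    ((x.1 • s x.2.2.2 • (bif x.2.2.1 then v 1 else v 0),
      x.2.1 • s x.2.2.2 • (bif x.2.2.1 then v 0 else v 1)) : W × W)) (by
    rintro ⟨α, β, c, x⟩ ⟨α', β', c', x'⟩ e1
    have e2 := mv _ _ _ _ _ _ (congrArg Prod.fst e1)
    have e3 := mv _ _ _ _ _ _ (congrArg Prod.snd e1)
    cases c <;> cases c' <;> simp only [cond_true, cond_false] at e2 e3
    · have e4 := base _ (smul_eq_of_pow h2 (sq_of_sign e2)) (smul_eq_of_pow h2 (sq_of_sign e3))
      rw [e4] at e2 e3
      rw [inv_mul_eq_one.1 (sign_eq hW n0 e2), inv_mul_eq_one.1 (sign_eq hW n1 e3), fin _ _ e4]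
    · have e4 := base _ (smul_eq_of_pow h2 (smul_eq_of_pow h2 (four_of_swap e2 e3)))
        (smul_eq_of_pow h2 (smul_eq_of_pow h2 (four_of_swap e3 e2)))
      exact absurd ((e4 _).symm.trans e2) (n2 _)
    · have e4 := base _ (smul_eq_of_pow h2 (smul_eq_of_pow h2 (four_of_swap e3 e2)))
        (smul_eq_of_pow h2 (smul_eq_of_pow h2 (four_of_swap e2 e3)))
      exact absurd ((e4 _).symm.trans e2) (n3 _)
    · have e4 := base _ (smul_eq_of_pow h2 (sq_of_sign e3)) (smul_eq_of_pow h2 (sq_of_sign e2))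
      rw [e4] at e2 e3
      rw [inv_mul_eq_one.1 (sign_eq hW n1 e2), inv_mul_eq_one.1 (sign_eq hW n0 e3), fin _ _ e4])
  simp only [Nat.card_prod, Nat.card_eq_fintype_card (α := ℤˣ), Fintype.card_units_int,
    Nat.card_eq_fintype_card (α := Bool), Fintype.card_bool] at this
  rw [sq]
  omega

end Odd8

theorem pow6 (e : ℕ) (he : 29 ≤ e) : e ^ 6 < 8 * 7 ^ (e - 2 * e / 3) := by
  induction e using Nat.strong_induction_on with
  | _ e ih =>
  by_cases h : e ≤ 31
  · interval_cases e <;> norm_num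
  obtain ⟨j, rfl⟩ : ∃ j, e = j + 3 := ⟨e - 3, by omega⟩
  have h1 := ih j (by omega) (by omega)
  have h2 : (4 * (j + 3)) ^ 6 ≤ (5 * j) ^ 6 := Nat.pow_le_pow_left (by omega) 6
  rw [mul_pow, mul_pow] at h2
  rw [show j + 3 - 2 * (j + 3) / 3 = j - 2 * j / 3 + 1 by omega, pow_succ 7]
  omega

theorem num_odd {q n e : ℕ} (ho : Odd e) (h1 : ¬ (e = 1 ∨ e = 3 ∨ e = 5 ∨ e = 9)) (hn : e ≤ n)
    (hq : Odd q) (hq1 : 1 < q) (h15 : q ≠ 15) (hd : ∀ r : ℕ, r.Prime → r ∣ e → r ∣ q - 1) :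
    e ^ 6 * (q ^ (2 * n / 3) + q ^ (n / 2 + 1)) + 16 ≤ 16 * q ^ n := by
  have h7 : 7 ≤ e := by obtain ⟨k, rfl⟩ := ho; omega
  have hq7 : 7 ≤ q := by
    obtain ⟨r, hr, hd'⟩ := Nat.exists_prime_and_dvd (n := e) (by omega)
    obtain ⟨k, rfl⟩ := hq
    obtain ⟨c, hc⟩ := hd r hr hd'
    obtain ⟨j, rfl⟩ := ho.of_dvd_nat hd'
    have := hr.two_le
    rcases c with _ | _ | c
    · omega
    · omega
    · have : 3 * 2 ≤ (2 * j + 1) * (c + 1 + 1) := Nat.mul_le_mul (by omega) (by omega)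
      omega
  obtain ⟨j, hj⟩ : ∃ j, 2 * n / 3 = n / 2 + 1 + j := ⟨2 * n / 3 - (n / 2 + 1), by omega⟩
  obtain ⟨k, hk⟩ : ∃ k, n = n / 2 + 1 + j + k := ⟨n - 2 * n / 3, by omega⟩
  have hk' : e - 2 * e / 3 ≤ k := by omega
  suffices h : e ^ 6 * (q ^ j + 1) < 16 * (q ^ j * q ^ k) by
    have h16 : 16 ≤ q ^ (n / 2 + 1) := le_trans (by norm_num : 16 ≤ 7 ^ 2)
      ((Nat.pow_le_pow_left hq7 2).trans (Nat.pow_le_pow_right (by omega) (by omega)))
    rw [hj]
    nth_rewrite 3 [hk]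
    rw [pow_add _ _ k, pow_add _ _ j]
    generalize q ^ (n / 2 + 1) = a at *
    have := Nat.mul_le_mul_left a (Nat.succ_le_of_lt h)
    nlinarith
  have hj1 : 0 < q ^ j := by positivity
  have A : ∀ a i, a ≤ q → i ≤ k → e ^ 6 < 8 * a ^ i → e ^ 6 * (q ^ j + 1) < 16 * (q ^ j * q ^ k) :=
    fun a i a1 a2 a3 => by
      have : a ^ i ≤ q ^ k := (Nat.pow_le_pow_left a1 i).trans (Nat.pow_le_pow_right (by omega) a2)
      calc e ^ 6 * (q ^ j + 1) ≤ e ^ 6 * (2 * q ^ j) := Nat.mul_le_mul_left _ (by omega)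
        _ < 8 * q ^ k * (2 * q ^ j) := Nat.mul_lt_mul_of_lt_of_le (by omega) le_rfl (by omega)
        _ = _ := by ring
  by_cases h29 : 29 ≤ e
  · exact A 7 _ hq7 hk' (pow6 e h29)
  obtain ⟨m, rfl⟩ := hq
  have B : ∀ r : ℕ, r.Prime → r ∣ e → r ∣ 2 * m := fun r h1 h2 => by simpa using hd r h1 h2
  obtain ⟨i, rfl⟩ := ho
  have hi : i ≤ 13 := by omega
  interval_cases i
  all_goals try omega
  · have := B 7 (by norm_num) (by norm_num)
    exact A 29 3 (by omega) (by omega) (by norm_num)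
  · have := B 11 (by norm_num) (by norm_num)
    exact A 23 4 (by omega) (by omega) (by norm_num)
  · have := B 13 (by norm_num) (by norm_num)
    exact A 27 5 (by omega) (by omega) (by norm_num)
  · have := B 3 (by norm_num) (by norm_num)
    have := B 5 (by norm_num) (by norm_num)
    exact A 31 5 (by omega) (by omega) (by norm_num)
  · have := B 17 (by norm_num) (by norm_num)
    exact A 35 6 (by omega) (by omega) (by norm_num)
  · have := B 19 (by norm_num) (by norm_num)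
    exact A 39 7 (by omega) (by omega) (by norm_num)
  · have := B 7 (by norm_num) (by norm_num)
    exact A 15 7 (by omega) (by omega) (by norm_num)
  · have := B 23 (by norm_num) (by norm_num)
    exact A 47 8 (by omega) (by omega) (by norm_num)
  · have := B 5 (by norm_num) (by norm_num)
    exact A 11 9 (by omega) (by omega) (by norm_num)
  · have a1 : 7 ^ 9 ≤ (2 * m + 1) ^ k :=
      (Nat.pow_le_pow_left hq7 9).trans (Nat.pow_le_pow_right (by omega) (by omega))
    have a2 : 7 ^ 1 ≤ (2 * m + 1) ^ j :=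
      (Nat.pow_le_pow_left hq7 1).trans (Nat.pow_le_pow_right (by omega) (by omega))
    norm_num at a1 a2 ⊢
    nlinarith

variable {G V K W : Type*} [Group G] [Finite G] [AddCommGroup V] [DistribMulAction G V] [Field K]
  [Module K V] [AddCommGroup W] [Finite W] [DistribMulAction G W] {σ : G →* RingAut K}
  {U To E M : Subgroup G} {π : G → W} {b : W → W → Kˣ} {e : ℕ}
  [Finite K] [Finite V] [Nontrivial V]

omit [Finite K] [Finite V] [Nontrivial V] in
theorem odd_e (hG : Odd (Nat.card G)) (h : Pk G V K W σ U To E M π b e) : Odd e := by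
  have := hG.of_dvd_nat M.card_subgroup_dvd_card
  rw [card_M h, Nat.odd_mul, Nat.odd_pow_iff two_ne_zero] at this
  exact this.2

omit [Finite W] [Finite G] [Nontrivial V] in
theorem odd_q (hV : Odd (Nat.card V)) (h : Pk G V K W σ U To E M π b e) : Odd (Nat.card K) := by
  have : Module.Finite K V := Module.Finite.of_finite
  rwa [Module.natCard_eq_pow_finrank (K := K), Nat.odd_pow_iff (h.pos.trans_le h.le).ne'] at hV

theorem coset_le (hG : Odd (Nat.card G)) (h : Pk G V K W σ U To E M π b e) {y : G} (hy : σ y = 1)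
    (hU : y ∉ U) : {v : V | v ≠ 0 ∧ ∃ u ∈ U, (u * y) • v = v}.ncard ≤
      Nat.card K ^ (2 * finrank K V / 3) + Nat.card K ^ (finrank K V / 2 + 1) := by
  have : Module.Finite K V := Module.Finite.of_finite
  have hσ : ∀ u ∈ U, σ (u * y) = 1 := fun u hu => by rw [map_mul, h.σ_U hu, hy, one_mul]
  obtain ⟨g₀, g1, g2, g3⟩ : ∃ g₀, ∃ hg : σ g₀ = 1, g₀ ≠ 1 ∧ ∀ u (hu : u ∈ U), u * y ≠ g₀ →
      2 * finrank K (eg h.toStr _ (hσ u hu) 1) ≤ finrank K V := by
    have hne : ∀ u ∈ U, u * y ≠ 1 := fun u hu e1 =>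
      hU (eq_inv_of_mul_eq_one_right e1 ▸ U.inv_mem hu)
    by_cases hh : ∃ u, ∃ hu : u ∈ U, finrank K V < 2 * finrank K (eg h.toStr _ (hσ u hu) 1)
    · obtain ⟨u₀, hu₀, h0⟩ := hh
      refine ⟨_, hσ u₀ hu₀, hne u₀ hu₀, fun u hu hne => ?_⟩
      have := rk_pair h.toStr (hσ u₀ hu₀) (hσ u hu) (by
        simpa [mul_assoc] using U.mul_mem hu (U.inv_mem hu₀)) hne
      omega
    · push Not at hh
      exact ⟨_, hσ 1 U.one_mem, hne 1 U.one_mem, fun u hu _ => hh u hu⟩
  have c1 := cover_le ({v : V | v ≠ 0 ∧ ∃ u ∈ U, (u * y) • v = v} \ {v | g₀ • v = v})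
    {g | g ≠ g₀ ∧ g * y⁻¹ ∈ U} (Nat.card K ^ (finrank K V / 2)) (fun v hv => by
      obtain ⟨⟨v0, u, hu, e1⟩, e2⟩ := hv
      exact ⟨v0, u * y, ⟨fun e3 => e2 (e3 ▸ e1), by simpa using hu⟩, e1⟩) fun g hg => by
      obtain ⟨u, rfl⟩ : ∃ u, g = u * y := ⟨g * y⁻¹, by simp⟩
      have hu : u ∈ U := by simpa using hg.2
      rw [ncard_fix h.toStr _ (hσ u hu)]
      have := g3 u hu hg.1
      exact Nat.pow_le_pow_right Nat.card_pos (by omega)
  have c2 : {g | g ≠ g₀ ∧ g * y⁻¹ ∈ U}.ncard ≤ Nat.card U := by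
    rw [← SetLike.coe_sort_coe, Nat.card_coe_set_eq]
    exact Set.ncard_le_ncard_of_injOn (· * y⁻¹) (fun g hg => hg.2)
      fun a _ c _ e1 => mul_right_cancel e1
  have c3 := Set.ncard_le_ncard_diff_add_ncard {v : V | v ≠ 0 ∧ ∃ u ∈ U, (u * y) • v = v}
    {v | g₀ • v = v}
  have c4 : {v : V | g₀ • v = v}.ncard ≤ Nat.card K ^ (2 * finrank K V / 3) := by
    rw [ncard_fix h.toStr _ g1]
    have := rk_23 hG h g1 g2
    exact Nat.pow_le_pow_right Nat.card_pos (by omega)
  have c5 := c1.trans (Nat.mul_le_mul (c2.trans (card_U_lt h).le) (Nat.sub_le _ _))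
  rw [pow_succ']
  omega

theorem odd_big (hG : Odd (Nat.card G)) (hV : Odd (Nat.card V))
    (h : Pk G V K W σ U To E M π b e) (he : ¬ (e = 1 ∨ e = 3 ∨ e = 5 ∨ e = 9)) :
    ∃ v : V, ∀ g : G, σ g = 1 → g • v = v → g = 1 := by
  classical
  by_contra hh
  push Not at hh
  have := Fintype.ofFinite G
  have := Fintype.ofFinite V
  have oe := odd_e hG h
  have oq := odd_q hV h
  have h15 : Nat.card K ≠ 15 := fun e1 => by
    have := Fintype.ofFinite K
    obtain ⟨p, _, f, hp, hf⟩ := FiniteField.card' K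
    rw [← Nat.card_eq_fintype_card, e1] at hf
    have a1 := (Nat.prime_dvd_prime_iff_eq Nat.prime_three hp).1
      (Nat.prime_three.dvd_of_dvd_pow (n := f) (by rw [← hf]; norm_num))
    have a2 := (Nat.prime_dvd_prime_iff_eq Nat.prime_five hp).1
      (Nat.prime_five.dvd_of_dvd_pow (n := f) (by rw [← hf]; norm_num))
    omega
  have hn := num_odd oe he h.le oq Finite.one_lt_card h15 fun r hr hd => (lt_card h hr hd).1
  have h8 := odd8 (hG.of_dvd_nat σ.ker.card_subgroup_dvd_card) (by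
    rw [h.card]; exact oe.pow) (by
    rw [h.card]; obtain ⟨k, rfl⟩ := oe; have : 1 ≤ k := by omega
    nlinarith) (clifford h.cr σ.ker)
  have key := Finset.card_mul_le_card_mul (s := {v : V | v ≠ 0}.toFinset)
    (t := {y : G | σ y = 1 ∧ y ∉ U}.toFinset) (fun v y => ∃ u ∈ U, (u * y) • v = v)
    (m := 2 * Nat.card U) (n := Nat.card K ^ (2 * finrank K V / 3) +
      Nat.card K ^ (finrank K V / 2 + 1)) (fun v hv => by
      obtain ⟨g, g1, g2, g3⟩ := hh v
      have v0 : v ≠ 0 := by simpa using hv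
      have gU : g ∉ U := fun hu => g3 (h.U_fix hu v0 g2)
      have g4 : g⁻¹ • v = v := inv_smul_eq_iff.2 g2.symm
      rw [← Nat.card_eq_finsetCard]
      have : 2 * Nat.card U = Nat.card (Bool × U) := by simp
      rw [this]
      refine Nat.card_le_card_of_injective (fun x => ⟨x.2.1 * (bif x.1 then g else g⁻¹), ?_⟩) ?_
      · obtain ⟨c, u, hu⟩ := x
        simp only [Finset.mem_bipartiteAbove, Set.mem_toFinset, Set.mem_setOf_eq, map_mul,
          h.σ_U hu, one_mul, U.mul_mem_cancel_left hu]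
        refine ⟨?_, u⁻¹, U.inv_mem hu, ?_⟩ <;> cases c <;> simp [g1, gU, g2, g4]
      · have k : ∀ u ∈ U, ∀ u' ∈ U, u * g ≠ u' * g⁻¹ := fun u hu u' hu' e1 => by
          have a1 : g ^ 2 = u⁻¹ * u' := by
            rw [sq, eq_inv_mul_iff_mul_eq, ← mul_assoc, e1]; simp
          have a2 : g ^ 2 = 1 := h.U_fix (a1 ▸ U.mul_mem (U.inv_mem hu) hu') v0 (by
            rw [sq, mul_smul, g2, g2])
          exact g3 (h.faith g fun x => smul_eq_of_pow (Nat.coprime_two_left.2 hG) (by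
            rw [a2, one_smul]))
        rintro ⟨c, u, hu⟩ ⟨c', u', hu'⟩ e1
        have e2 := congrArg Subtype.val e1
        cases c <;> cases c' <;> simp only [cond_true, cond_false] at e2
        · simpa using e2
        · exact absurd e2.symm (k _ hu' _ hu)
        · exact absurd e2 (k _ hu _ hu')
        · simpa using e2) fun y hy => by
      rw [Set.mem_toFinset] at hy
      refine le_trans (le_of_eq ?_) (coset_le hG h hy.1 hy.2)
      rw [← Set.ncard_coe_finset]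
      congr 1
      ext v
      simp [Finset.mem_bipartiteBelow]
  rw [← Set.ncard_eq_toFinset_card', ← Set.ncard_eq_toFinset_card', ncard_ne (K := K)] at key
  have c2 : {y : G | σ y = 1 ∧ y ∉ U}.ncard ≤ Nat.card σ.ker := by
    rw [← SetLike.coe_sort_coe, Nat.card_coe_set_eq]
    exact Set.ncard_le_ncard fun g hg => hg.1
  have c3 : {y : G | σ y = 1 ∧ y ∉ U}.ncard < Nat.card σ.ker := by
    rw [← SetLike.coe_sort_coe, Nat.card_coe_set_eq]
    exact Set.ncard_lt_ncard ⟨fun g hg => hg.1, fun hs => (hs σ.ker.one_mem).2 U.one_mem⟩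
  rw [h.card_ker] at c3
  rw [h.card] at h8
  have hU : 0 < Nat.card U := Nat.card_pos
  have hc : 0 < Nat.card K ^ (2 * finrank K V / 3) + Nat.card K ^ (finrank K V / 2 + 1) := by
    have : 0 < Nat.card K := Nat.card_pos
    positivity
  generalize Nat.card K ^ (2 * finrank K V / 3) + Nat.card K ^ (finrank K V / 2 + 1) = c at *
  generalize Nat.card K ^ finrank K V = N at *
  generalize Nat.card (img σ.ker W) = x at *
  generalize Nat.card U = a at *
  have i1 := key.trans_lt (Nat.mul_lt_mul_of_lt_of_le c3 le_rfl hc)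
  have i2 : (N - 1) * 2 < e ^ 2 * x * c := by
    refine Nat.lt_of_mul_lt_mul_left (a := a) ?_
    calc a * ((N - 1) * 2) = (N - 1) * (2 * a) := by ring
      _ < _ := i1
      _ = _ := by ring
  have i3 : 8 * (e ^ 2 * x * c) ≤ e ^ 6 * c := by
    calc _ = e ^ 2 * (8 * x) * c := by ring
      _ ≤ e ^ 2 * (e ^ 2) ^ 2 * c := Nat.mul_le_mul_right _ (Nat.mul_le_mul_left _ h8)
      _ = _ := by ring
  omega

end Cfsg.Agent.H4.Mw
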