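import Cfsg.Agent.H4.MwPhi
import Cfsg.Agent.H4.MwCnt
import Cfsg.Agent.H4.MwOddL
import Cfsg.Agent.H58.ColB

/-!
Vectors with stabilizers of small derived length in completely reducible solvable linear groups.
-/

set_option autoImplicit false

namespace Cfsg.Agent.H4.Mw

open MulAction Module Cfsg.Agent.H12.RO Cfsg.Agent.H53.MW Cfsg.Agent.H28.MwP

universe u

section Gen

variable {G V : Type*} [Group G] [AddCommGroup V] [DistribMulAction G V]

theorem good_step {Ω : Type*} [MulAction G Ω] [Fintype Ω] (S : Sys G V Ω) (hirr : Irr G V)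
    (ω₀ : Ω) {k k' : ℕ} {d : Fin k → ℕ} {d' : Fin k' → ℕ}
    (hg : letI := subAct (S.inv_range ω₀); Good (stabilizer G ω₀) (S.e ω₀).range d)
    (hc : Cols G Ω d d') : Good G V d' := by
  letI := subAct (S.inv_range ω₀)
  obtain ⟨w, w1, w2⟩ := hg
  obtain ⟨c, c1, c2⟩ := hc
  choose t ht using S.trans hirr ω₀
  have he := fun j => S.e_sum t ht fun ω => w (c j ω)
  have key : ∀ j j' (g : G), g • ∑ a, t a • (w (c j a) : V) = ∑ a, t a • (w (c j' a) : V) →
      ∀ ω, ∃ h : (t (g • ω))⁻¹ * g * t ω ∈ stabilizer G ω₀,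
        (⟨_, h⟩ : stabilizer G ω₀) • w (c j ω) = w (c j' (g • ω)) := by
    intro j j' g h ω
    refine ⟨by rw [mem_stabilizer_iff, mul_smul, mul_smul, ht, inv_smul_eq_iff, ht],
      Subtype.ext ?_⟩
    have h1 := S.equiv g ω (∑ a, t a • (w (c j a) : V))
    rw [h, he, he] at h1
    change ((t (g • ω))⁻¹ * g * t ω) • (w (c j ω) : V) = _
    rw [mul_smul, mul_smul, ← h1, inv_smul_smul]
  have k2 : ∀ j j' (g : G), g • ∑ a, t a • (w (c j a) : V) = ∑ a, t a • (w (c j' a) : V) →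
      ∀ ω, c j' (g • ω) = c j ω := fun j j' g h ω =>
    (w1 _ _ _ (key j j' g h ω).2).symm
  refine ⟨fun j => ∑ a, t a • (w (c j a) : V), fun j j' g h => c1 j j' g (k2 j j' g h),
    fun j => sys_triv S fun ω g hg => ?_⟩
  obtain ⟨s, s1, s2⟩ := c2 j ω
  have h1 := der_anti _ s1 hg
  rw [der_add] at h1
  refine sys_block S (ht ω) _ (w2 (c j ω)) (fun a ha => ?_) g h1
  have h2 := der_le _ _ ha
  have h3 : a • ω = ω := s2 a (der_mono (Y := cst G (c j)) (fun x hx => k2 j j x hx) s ha)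
  have h4 := key j j a h2 ω
  rw [h3] at h4
  exact h4

theorem good_sum {U W : AddSubgroup V} (hU : Inv G U) (hW : Inv G W) (h1 : U ⊓ W = ⊥)
    (h2 : U ⊔ W = ⊤) {k k' : ℕ} {d : Fin k → ℕ} {d' : Fin k' → ℕ} (a₀ : Fin k')
    (h : ∀ a, d' a₀ ≤ d a) (gU : letI := subAct hU; Good G U d)
    (gW : letI := subAct hW; Good G W d') : Good G V d := by
  letI := subAct hU
  letI := subAct hW
  obtain ⟨x, x1, x2⟩ := gU
  obtain ⟨y, -, y2⟩ := gW
  have key : ∀ a a' (g : G), g • ((x a : V) + y a₀) = x a' + y a₀ →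
      g • x a = x a' ∧ g • y a₀ = y a₀ := by
    intro a a' g e
    rw [smul_add] at e
    have h3 : g • (x a : V) - x a' = y a₀ - g • (y a₀ : V) := by
      rw [sub_eq_sub_iff_add_eq_add, e, add_comm]
    have h4 : g • (x a : V) - x a' ∈ U ⊓ W :=
      ⟨U.sub_mem (hU g _ (x a).2) (x a').2, h3 ▸ W.sub_mem (y a₀).2 (hW g _ (y a₀).2)⟩
    rw [h1, AddSubgroup.mem_bot] at h4
    exact ⟨Subtype.ext (sub_eq_zero.1 h4), Subtype.ext (sub_eq_zero.1 (h3 ▸ h4)).symm⟩
  refine ⟨fun a => x a + y a₀, fun a a' g e => x1 a a' g (key a a' g e).1, fun a => ?_⟩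
  exact triv_sum hU hW h2 ((x2 a).mono (der_mono (fun g hg => (key a a g hg).1) _))
    ((y2 a₀).mono ((der_anti _ (h a)).trans (der_mono (fun g hg => (key a a g hg).2) _)))

theorem good_quot {G' : Type*} [Group G'] [DistribMulAction G' V] (f : G →* G')
    (hf : ∀ (g : G) (v : V), f g • v = g • v) {k : ℕ} {d : Fin k → ℕ} (h : Good G' V d) :
    Good G V d := by
  obtain ⟨x, x1, x2⟩ := h
  refine ⟨x, fun a a' g e => x1 a a' (f g) (by rw [hf, e]), fun a => triv_quot f hf ?_ (x2 a)⟩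
  rintro _ ⟨g, hg, rfl⟩
  exact (hf g _).trans hg

theorem triv_of {X : Subgroup G} {v : V} {n : ℕ} (h : der (⊤ : Subgroup G) n ≤ X)
    (hv : ∀ g ∈ X, g • v = v → g = 1) : Triv (der (stabilizer G v) n) V := fun g hg x => by
  rw [hv g (h (der_mono le_top n hg)) (der_le _ _ hg), one_smul]

theorem good_odd [Finite G] [Finite V] [Nontrivial V] (hG : Odd (Nat.card G))
    (hV : Odd (Nat.card V)) {v : V} (h : Triv (der (stabilizer G v) 1) V) : Good G V ![1, 1] := by
  by_cases h0 : v = 0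
  · obtain ⟨w, hw⟩ := exists_ne (0 : V)
    subst h0
    refine ⟨![0, w], fun a a' g e => ?_, fun a => ?_⟩
    · fin_cases a <;> fin_cases a' <;> simp_all [eq_comm (a := (0 : V)), smul_eq_zero_iff_eq]
    · refine Triv.mono h ?_
      fin_cases a <;> exact der_mono (fun g _ => smul_zero g) _
  have key : ∀ g : G, g • v ≠ -v := by
    intro g e
    have h1 : g • v = v := smul_eq_of_pow (n := 2) (Nat.coprime_two_left.2 hG)
      (by rw [pow_two, mul_smul, e, smul_neg, e, neg_neg])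
    exact absurd (sign_eq hV h0 (s := -1) (by simpa using h1.symm.trans e)) (by decide)
  refine ⟨![v, -v], fun a a' g e => ?_, fun a => ?_⟩
  · fin_cases a <;> fin_cases a'
    · rfl
    · exact absurd e (key g)
    · exact absurd (neg_eq_iff_eq_neg.1 ((smul_neg g v).symm.trans e)) (key g)
    · rfl
  · refine Triv.mono h ?_
    fin_cases a
    · exact le_rfl
    · exact der_mono (fun g hg => neg_injective ((smul_neg g v).symm.trans hg)) _

end Gen

theorem U_free {G V K : Type*} [Group G] [AddCommGroup V] [DistribMulAction G V] [Field K]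
    [Module K V] {σ : G →* RingAut K} {U To E : Subgroup G} (h : Str G V K σ U To E) {v : V}
    (hv : v ≠ 0) : ∀ g ∈ U, g • v = v → g = 1 := by
  intro g hg e
  obtain ⟨c, hc⟩ := h.Usc g hg
  have : c = 1 := smul_left_injective K hv (show c • v = (1 : K) • v by rw [← hc, e, one_smul])
  exact h.faith g fun x => by rw [hc, this, one_smul]

theorem inv9_prim (G V : Type u) [Group G] [Finite G] [Group.IsSolvable G] [AddCommGroup V]
    [Finite V] [Nontrivial V] [DistribMulAction G V] (hf : ∀ g : G, (∀ x : V, g • x = x) → g = 1)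
    (hp : Prim G V) : Inv9 G V := by
  obtain ⟨K, _, _, _, W, _, _, _, σ, U, To, E, M, π, b, e, h⟩ := pk G V hf hp
  have hW : ∀ n k, e ≤ n → n ^ 2 < 2 ^ 24 → phi (n ^ 2) ≤ k →
      Triv (der (⊤ : Subgroup G) k) W := by
    intro n k h1 h2 h3
    have h4 : Nat.card W ≤ n ^ 2 := h.card ▸ Nat.pow_le_pow_left h1 2
    exact (phi_stmt G W h.cr (h4.trans_lt h2)).mono (der_anti _ ((phi_mono h4).trans h3))
  by_cases h7 : e ≤ 7
  · have h1 := (prim_der h (by norm_num) (hW 7 4 h7 (by norm_num) (by decide))).2.2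
    obtain ⟨w, hw⟩ := exists_ne (0 : V)
    refine Or.inl ⟨![0, w], fun a a' g e => ?_, fun a => ?_⟩
    · fin_cases a <;> fin_cases a' <;> simp_all [eq_comm (a := (0 : V)), smul_eq_zero_iff_eq]
    · fin_cases a <;> exact triv_of h1 fun _ hg _ => Subgroup.mem_bot.1 hg
  by_cases h63 : e ≤ 63
  · obtain ⟨h1, h2, h3⟩ := prim_der h (by norm_num) (hW 63 6 h63 (by norm_num) (by decide))
    obtain ⟨v, v0, hv⟩ := reg_mid h (by omega) h63
    obtain ⟨w, w0, t, t1, t2, t3⟩ := exists_nonreg h (by omega)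
    have key : ∀ g : G, g • v ≠ w := by
      rintro g rfl
      have := hv _ (h.Mn.conj_mem' t t1 g) (by rw [mul_smul, mul_smul, t3, inv_smul_smul])
      exact t2 (by simpa [mul_assoc, inv_mul_eq_one] using this)
    refine Or.inr (Or.inl ⟨![v, w, 0], fun a a' g e => ?_, fun a => ?_⟩)
    · have k2 : g • w ≠ v := fun e => key g⁻¹ (by rw [← e, inv_smul_smul])
      have := key g
      fin_cases a <;> fin_cases a' <;> simp_all [eq_comm (a := (0 : V)), smul_eq_zero_iff_eq]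
    · fin_cases a
      · exact triv_of (h2.trans (U_le_M h)) hv
      · exact triv_of h2 (U_free h.toStr w0)
      · exact triv_of h3 fun _ hg _ => Subgroup.mem_bot.1 hg
  by_cases h4 : e ≤ 4095
  · obtain ⟨v, v1, v2⟩ := cnt1 h (by omega)
    have h2 := (prim_der h (by norm_num) (hW 4095 8 h4 (by norm_num) (by decide))).2.1
    refine Or.inr (Or.inr (Or.inr ⟨v, v2, fun a => ?_⟩))
    rw [show tD a = 8 + 1 by fin_cases a <;> rfl]
    exact triv_of h2 (U_free h.toStr (v1 a))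
  obtain ⟨v, v1, v2⟩ := cnt2 h (by omega)
  refine Or.inr (Or.inr (Or.inr ⟨v, v2, fun a => ?_⟩))
  exact triv_of ((der_anti _ (by fin_cases a <;> decide)).trans (σ_der σ)) (v1 a)

theorem inv9 (G V : Type u) [Group G] [Finite G] [Group.IsSolvable G] [AddCommGroup V] [Finite V]
    [DistribMulAction G V] (hcr : CR G V) : Nontrivial V → Inv9 G V := by
  refine ind (fun G V _ _ _ => Nontrivial V → Inv9 G V) ?_ ?_ ?_ ?_ ?_ G V hcr
  · exact fun _ V _ _ _ _ _ => absurd ‹Nontrivial V› (not_nontrivial V)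
  · intro G V _ _ _ _ _ _ U W hU hW _ u0 w0 h1 h2 i1 i2 _
    have s1 := @good_sum G V _ _ _ U W hU hW h1 h2
    have s2 := @good_sum G V _ _ _ W U hW hU (inf_comm W U ▸ h1) (sup_comm W U ▸ h2)
    unfold Inv9
    rcases i1 (U.nontrivial_iff_ne_bot.2 u0) with i1 | i1 | i1 | i1 <;>
      rcases i2 (W.nontrivial_iff_ne_bot.2 w0) with i2 | i2 | i2 | i2 <;>
      first
        | (have := s1 0 (by decide) i1 i2; simp only [this, true_or, or_true])
        | (have := s2 0 (by decide) i2 i1; simp only [this, true_or, or_true])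
  · intro G G' V _ _ _ _ _ _ _ f _ hf i1 hV
    exact (i1 hV).imp (good_quot f hf) (Or.imp (good_quot f hf)
      (Or.imp (good_quot f hf) (good_quot f hf)))
  · exact fun G V _ _ _ _ _ _ _ hf hp _ _ => inv9_prim G V hf hp
  · intro G V Ω N _ _ _ _ _ _ _ _ _ _ _ _ hf hirr S A IH _
    obtain ⟨ω₀⟩ : Nonempty Ω := inferInstance
    letI := subAct (S.inv_range ω₀)
    obtain ⟨x, hx⟩ := S.ne ω₀
    have i2 := IH _ _ (S.card_range_lt ω₀) (S.irr_range hirr ω₀).cr
      ⟨⟨_, x, rfl⟩, 0, fun e1 => hx (congrArg Subtype.val e1)⟩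
    have cB := H58.ColB.colB psi G Ω N A
    rcases i2 with i2 | i2 | i2 | i2
    · exact Or.inr ((colA G Ω N A).imp (good_step S hirr ω₀ i2)
        (Or.imp (good_step S hirr ω₀ i2) (good_step S hirr ω₀ i2)))
    · exact Or.inr (Or.inr (Or.inr (good_step S hirr ω₀ i2 cB.1)))
    · exact Or.inr (Or.inr (Or.inr (good_step S hirr ω₀ i2 cB.2.1)))
    · exact Or.inr (Or.inr (Or.inr (good_step S hirr ω₀ i2 cB.2.2)))

theorem nine (G V : Type u) [Group G] [Finite G] [Group.IsSolvable G] [AddCommGroup V] [Finite V]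
    [DistribMulAction G V] (hcr : CR G V) : ∃ v : V, Triv (der (stabilizer G v) 9) V := by
  rcases subsingleton_or_nontrivial V with hV | hV
  · exact ⟨0, fun _ _ _ => Subsingleton.elim _ _⟩
  rcases inv9 G V hcr hV with ⟨v, -, h⟩ | ⟨v, -, h⟩ | ⟨v, -, h⟩ | ⟨v, -, h⟩ <;>
    exact ⟨v 0, (h 0).mono (der_anti _ (by decide))⟩

theorem one_odd (G V : Type u) [Group G] [Finite G] [Group.IsSolvable G] [AddCommGroup V]
    [Finite V] [DistribMulAction G V] (hcr : CR G V) : Odd (Nat.card G) → Odd (Nat.card V) →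
    ∃ v : V, Triv (der (stabilizer G v) 1) V := by
  refine ind (fun G V _ _ _ => Odd (Nat.card G) → Odd (Nat.card V) →
    ∃ v : V, Triv (der (stabilizer G v) 1) V) ?_ ?_ ?_ ?_ ?_ G V hcr
  · exact fun _ _ _ _ _ _ _ _ => ⟨0, fun _ _ _ => Subsingleton.elim _ _⟩
  · intro G V _ _ _ _ _ _ U W hU hW _ _ _ h1 h2 i1 i2 hG hV
    obtain ⟨x, hx⟩ := i1 hG (hV.of_dvd_nat U.card_addSubgroup_dvd_card)
    obtain ⟨y, hy⟩ := i2 hG (hV.of_dvd_nat W.card_addSubgroup_dvd_card)
    obtain ⟨v, -, hv⟩ := good_sum hU hW h1 h2 (d := ![1]) (d' := ![1]) 0 (by decide)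
      ⟨![x], fun _ _ _ _ => Subsingleton.elim _ _, fun a => by fin_cases a; exact hx⟩
      ⟨![y], fun _ _ _ _ => Subsingleton.elim _ _, fun a => by fin_cases a; exact hy⟩
    exact ⟨v 0, hv 0⟩
  · intro G G' V _ _ _ _ _ _ _ f hs hf i1 hG hV
    obtain ⟨v, hv⟩ := i1 (hG.of_dvd_nat (Subgroup.card_dvd_of_surjective f hs)) hV
    refine ⟨v, triv_quot f hf ?_ hv⟩
    rintro _ ⟨g, hg, rfl⟩
    exact (hf g _).trans hg
  · intro G V _ _ _ _ _ _ _ hf hp _ hG hV
    obtain ⟨K, _, _, _, W, _, _, _, σ, U, To, E, M, π, b, e, h⟩ := pk G V hf hp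
    by_cases he : e = 1 ∨ e = 3 ∨ e = 5 ∨ e = 9
    · obtain ⟨v, -, hv⟩ := odd_reg hV h he
      exact ⟨v, triv_of (prim_der h le_rfl (odd_comm hG h he)).1 hv⟩
    obtain ⟨v, hv⟩ := odd_big hG hV h he
    exact ⟨v, triv_of (σ_der σ) hv⟩
  · intro G V Ω N _ _ _ _ _ _ _ _ _ _ _ _ hf hirr S A IH hG hV
    have : Finite N := Finite.of_equiv _ A.e
    obtain ⟨ω₀⟩ : Nonempty Ω := inferInstance
    letI := subAct (S.inv_range ω₀)
    obtain ⟨x, hx⟩ := S.ne ω₀
    have : Nontrivial (S.e ω₀).range := ⟨⟨_, x, rfl⟩, 0, fun e1 => hx (congrArg Subtype.val e1)⟩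
    have o1 := hG.of_dvd_nat (stabilizer G ω₀).card_subgroup_dvd_card
    have o2 := hV.of_dvd_nat (S.e ω₀).range.card_addSubgroup_dvd_card
    obtain ⟨w, hw⟩ := IH _ _ (S.card_range_lt ω₀) (S.irr_range hirr ω₀).cr o1 o2
    obtain ⟨z, hz⟩ := odd_base hG A.irr.cr
    obtain ⟨col, hcol⟩ := A.col2 hG hz
    obtain ⟨v, -, hv⟩ := good_step S hirr ω₀ (good_odd o1 o2 hw) (d' := ![1])
      ⟨fun _ => col, fun _ _ _ _ => Subsingleton.elim _ _, fun j ω =>
        ⟨0, (by decide : ∀ (j : Fin 1) (a : Fin 2), 0 + ![1, 1] a ≤ ![1] j) j (col ω), fun g hg => hcol g hg ω⟩⟩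
    exact ⟨v 0, hv 0⟩

end Cfsg.Agent.H4.Mw
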