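import Cfsg.Agent.H4.MwOddL

/-!
Primitive linear groups of odd order in odd characteristic: small symplectic part.
-/

set_option autoImplicit false

namespace Cfsg.Agent.H4.Mw

open MulAction Module Cfsg.Agent.H12.RO Cfsg.Agent.H53.MW

universe u

theorem dvd_of_free {X α : Type*} [Group X] [MulAction X α] (T : Set α)
    (hT : ∀ (k : X), ∀ x ∈ T, k • x ∈ T) (hf : ∀ (k : X), ∀ x ∈ T, k • x = x → k = 1) :
    Nat.card X ∣ T.ncard := by
  let S : SubMulAction X α := ⟨T, fun k x => hT k x⟩
  have e := selfEquivOrbitsQuotientProd (G := X) (X := S) fun x =>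
    eq_bot_iff.2 fun k hk => hf k x x.2 (congrArg Subtype.val hk)
  exact Dvd.intro_left _ ((Nat.card_prod _ _).symm.trans (Nat.card_congr e).symm)

section Grp

variable {X W : Type*} [Group X] [Finite X] [AddCommGroup W] [Finite W] [DistribMulAction X W]

/-- the fixed points of a set of operators -/
def fxs (W : Type*) [AddCommGroup W] [DistribMulAction X W] (P : Set X) : AddSubgroup W where
  carrier := {w | ∀ g ∈ P, g • w = w}
  add_mem' ha hb g hg := by rw [smul_add, ha g hg, hb g hg]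
  zero_mem' g _ := smul_zero g
  neg_mem' ha g hg := by rw [smul_neg, ha g hg]

omit [Finite X] in
/-- a normal `r`-subgroup acts trivially on a completely reducible `r`-group -/
theorem triv_pgroup {r k : ℕ} [Fact r.Prime] (hW : Nat.card W = r ^ k) (hcr : CR X W)
    (P : Subgroup X) [hn : P.Normal] (hP : IsPGroup r P) : ∀ g ∈ P, ∀ w : W, g • w = w := by
  obtain ⟨C, c1, c2, c3⟩ := hcr (fxs W (P : Set X)) fun g v hv a ha => by
    have := hv _ (hn.conj_mem' a ha g)
    rwa [mul_smul, mul_smul, inv_smul_eq_iff] at this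
  have : C = ⊥ := by
    by_contra h0
    letI := subAct c1
    obtain ⟨j, -, hj⟩ := (Nat.dvd_prime_pow Fact.out).1 (hW ▸ C.card_addSubgroup_dvd_card)
    obtain ⟨y, y1, y2⟩ := hP.exists_fixed_point_of_prime_dvd_card_of_fixed_point C (by
      rw [hj]
      refine dvd_pow_self r fun e0 => h0 ?_
      rwa [e0, pow_zero, AddSubgroup.card_eq_one] at hj) (a := 0) fun g => smul_zero g
    have : (y : W) ∈ fxs W (P : Set X) ⊓ C := ⟨fun g hg => congrArg Subtype.val (y1 ⟨g, hg⟩), y.2⟩
    rw [c2] at this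
    exact y2 (Subtype.ext (AddSubgroup.mem_bot.1 this).symm)
  rw [this, sup_bot_eq] at c3
  exact fun g hg w => (c3 ▸ AddSubgroup.mem_top w : w ∈ fxs W (P : Set X)) g hg

theorem comm_small [Group.IsSolvable X] (hX : Odd (Nat.card X))
    (hf : ∀ g : X, (∀ w : W, g • w = w) → g = 1) (hcr : CR X W) {r k s : ℕ} (hr : r.Prime)
    (hW : Nat.card W = r ^ k) (hs : s = 3 ∨ s = 5) (hrs : r ≠ s) (h2 : ¬ s ^ 2 ∣ Nat.card W - 1)
    (H : ∀ x : X, (orderOf x).Prime → orderOf x ≠ r → orderOf x = s ∧ ∀ y : W, x • y = y → y = 0)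
    (a c : X) : a * c = c * a := by
  have := Fact.mk hr
  have hsp : s.Prime := by rcases hs with rfl | rfl <;> norm_num
  have := Fact.mk hsp
  have hp : ∀ p : ℕ, p.Prime → p ∣ Nat.card X → p = r ∨ p = s := fun p hp hd => by
    have := Fact.mk hp
    obtain ⟨x, rfl⟩ := exists_prime_orderOf_dvd_card' p hd
    exact or_iff_not_imp_left.2 fun h => (H x hp h).1
  have hr1 : ∀ P : Subgroup X, P.Normal → IsPGroup r P → P = ⊥ := fun P _ hP =>
    eq_bot_iff.2 fun g hg => hf g (triv_pgroup hW hcr P hP g hg)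
  have hs2 : ¬ s ^ 2 ∣ Nat.card X := fun hd => by
    obtain ⟨B, hB⟩ := Sylow.exists_subgroup_card_pow_prime s hd
    have := dvd_of_free (X := B) {w : W | w ≠ 0} (fun k x hx => (smul_ne_zero_iff_ne k).2 hx) fun g x hx e1 => by
      by_contra g1
      obtain ⟨p, n, p1, p2⟩ := exists_prime_pow g1
      have p3 := (Nat.prime_dvd_prime_iff_eq p1 hsp).1 (p1.dvd_of_dvd_pow (n := 2) (by
        rw [← hB, ← p2]; exact orderOf_dvd_natCard _))
      rw [← Subgroup.orderOf_coe] at p2
      exact hx ((H _ (p2 ▸ p1) (by rw [p2, p3]; exact hrs.symm)).2 x ((stabilizer B x).pow_mem e1 n))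
    rw [hB, show {w : W | w ≠ 0} = Set.univ \ {0} by ext; simp,
      Set.ncard_diff_singleton_of_mem (Set.mem_univ _), Set.ncard_univ] at this
    exact h2 this
  rcases subsingleton_or_nontrivial X with h0 | h0
  · exact Subsingleton.elim _ _
  obtain ⟨A, An, A1, -, A2⟩ := exists_chief_above (G := X) (bot_lt_top)
  obtain ⟨-, p, p1, -, j, p2⟩ := chief_elem A1 A2
  rw [Subgroup.relIndex_bot_left] at p2
  have j0 : j ≠ 0 := fun e0 => A1.ne' (by rwa [e0, pow_zero, Subgroup.card_eq_one] at p2)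
  have hA := A.card_subgroup_dvd_card
  obtain rfl | rfl := hp p p1 ((dvd_pow_self p j0).trans (p2 ▸ hA))
  · exact absurd (hr1 A An (IsPGroup.of_card p2)) A1.ne'
  obtain rfl : j = 1 := by
    by_contra j1
    exact hs2 ((pow_dvd_pow p (by omega)).trans (p2 ▸ hA))
  rw [pow_one] at p2
  have hi : ¬ p ∣ A.index := fun hd => hs2 (by
    rw [← A.card_mul_index, p2, sq]; exact Nat.mul_dvd_mul_left p hd)
  have hcyc := isCyclic_of_prime_card p2
  have hc : ∀ g : X, ∀ x ∈ A, g * x = x * g := fun g x hx => by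
    have d1 := orderOf_dvd_natCard (MulAut.conjNormal (H := A) g)
    have d2 := (orderOf_map_dvd (MulAut.conjNormal (H := A)) g).trans (orderOf_dvd_natCard g)
    rw [IsCyclic.card_mulAut, p2, Nat.totient_prime p1] at d1
    have d3 : orderOf (MulAut.conjNormal (H := A) g) = 1 :=
      Nat.eq_one_of_dvd_coprimes (a := 2 ^ 2) (Nat.Coprime.pow_left 2 (Nat.coprime_two_left.2 hX))
        (d1.trans (by rcases hs with rfl | rfl <;> norm_num)) d2
    have := congrArg Subtype.val (DFunLike.congr_fun (orderOf_eq_one_iff.1 d3) ⟨x, hx⟩)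
    exact mul_inv_eq_iff_eq_mul.1 this
  obtain ⟨P⟩ : Nonempty (Sylow r X) := inferInstance
  have top : ∀ N : Subgroup X, A ≤ N → ¬ r ∣ N.index → N = ⊤ := fun N h1 h2 => by
    rw [← Subgroup.index_eq_one]
    by_contra h3
    obtain ⟨t, t1, t2⟩ := Nat.exists_prime_and_dvd h3
    obtain rfl | rfl := hp t t1 (t2.trans N.index_dvd_card)
    · exact h2 t2
    · exact hi (t2.trans (Subgroup.index_dvd_of_le h1))
  have hP := hr1 P (Subgroup.normalizer_eq_top_iff.1 (top _ (fun x hx => by
    refine Subgroup.mem_normalizer_iff.2 fun y => ?_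
    rw [← hc y x hx, mul_inv_cancel_right]) fun hd =>
      P.not_dvd_index (hd.trans (Subgroup.index_dvd_of_le Subgroup.le_normalizer)))) P.2
  have hA' := top A le_rfl fun hd => P.not_dvd_index (by
    rw [hP, Subgroup.index_bot]; exact hd.trans A.index_dvd_card)
  exact hc a c (hA' ▸ Subgroup.mem_top c)

theorem fix_card {x : X} (hx : (orderOf x).Prime) (hf : ∀ g : X, (∀ w : W, g • w = w) → g = 1) :
    Nat.card (fxs W {x}) ∣ Nat.card W ∧ Nat.card (fxs W {x}) ≠ Nat.card W ∧
      orderOf x ∣ Nat.card W - Nat.card (fxs W {x}) := by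
  refine ⟨AddSubgroup.card_addSubgroup_dvd_card _, fun e1 => ?_, ?_⟩
  · have := AddSubgroup.eq_top_of_card_eq _ e1
    rw [hf x fun w => (this ▸ AddSubgroup.mem_top w : w ∈ fxs W {x}) x rfl, orderOf_one] at hx
    exact hx.one_lt.ne rfl
  have := dvd_ncard hx rfl ((fxs W {x} : Set W)ᶜ) (fun a ha h => ha (by
    rintro _ rfl
    exact smul_left_cancel _ (h _ rfl))) fun a ha h => ha (by rintro _ rfl; exact h)
  rwa [Set.ncard_compl, ← Nat.card_coe_set_eq] at this

end Grp

variable {G V K W : Type*} [Group G] [Finite G] [AddCommGroup V] [DistribMulAction G V] [Field K]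
  [Module K V] [AddCommGroup W] [Finite W] [DistribMulAction G W] {σ : G →* RingAut K}
  {U To E M : Subgroup G} {π : G → W} {b : W → W → Kˣ} {e : ℕ}

theorem no13 (hG : Odd (Nat.card G)) (h : Pk G V K W σ U To E M π b e) {g : G}
    (h13 : ∀ y : W, g ^ 13 • y = y) (F : AddSubgroup W) (hF : ∀ y, y ∈ F ↔ g • y = y) :
    Nat.card F ≠ 3 := by
  intro h3
  have := Fact.mk Nat.prime_three
  have : Nontrivial F := Finite.one_lt_card_iff_nontrivial.1 (by omega)
  obtain ⟨c, hc⟩ := exists_ne (0 : F)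
  let φ : W →+ Additive Kˣ := AddMonoidHom.mk' (fun y => Additive.ofMul (b c y)) (h.b_add_right c)
  have f1 : ∀ y, b c y ^ 3 = 1 := fun y => by
    let ψ : W →+ Additive Kˣ :=
      AddMonoidHom.mk' (fun x => Additive.ofMul (b x y)) fun x z => h.b_add_left x z y
    have : 3 • (c : W) = 0 := congrArg Subtype.val (h3 ▸ card_nsmul_eq_zero' (x := c))
    exact ((map_nsmul ψ 3 (c : W)).symm.trans (by rw [this, map_zero]) : 3 • ψ c = 0)
  have f2 : ∀ y, φ (g • y) = φ y := fun y => by
    have a1 : (b c (g • y) : K) = σ g (b c y) := by rw [← h.b_smul, (hF _).1 c.2]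
    have a2 : (b c y : K) ^ 3 = 1 := by rw [← Units.val_pow_eq_pow_val, f1, Units.val_one]
    refine Units.ext (a1.trans ?_)
    change σ g (b c y) = b c y
    generalize (b c y : K) = β at a2
    letI : MulAction G K := MulAction.compHom K σ
    have a3 : σ g β ^ 3 = 1 := by rw [← map_pow, a2, map_one]
    by_contra a4
    refine a4 (smul_eq_of_pow (g := g) (x := β) (Nat.coprime_two_left.2 hG) ?_)
    have a5 : β ≠ 1 := fun e1 => a4 (by rw [e1, map_one])
    have a6 : σ g β ≠ 1 := fun e1 => a5 ((σ g).injective (e1.trans (map_one _).symm))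
    have a7 : β ^ 2 + β + 1 = 0 :=
      mul_left_cancel₀ (sub_ne_zero.2 a5) (by linear_combination a2)
    have a8 : σ g β ^ 2 + σ g β + 1 = 0 :=
      mul_left_cancel₀ (sub_ne_zero.2 a6) (by linear_combination a3)
    have a9 : σ g β = β ^ 2 :=
      mul_left_cancel₀ (sub_ne_zero.2 a4) (by linear_combination a8 + (-σ g β + β - 1 + β - β) * a7 - a2 + a2)
    rw [sq, mul_smul]
    change σ g (σ g β) = β
    rw [a9, map_pow, a9]
    linear_combination β * a2
  have f3 : ∀ y ∈ F, φ y = 0 := fun y hy => by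
    obtain ⟨n, hn⟩ := mem_zmultiples_of_prime_card h3 (g := c) (g' := ⟨y, hy⟩) hc
    have : n • (c : W) = y := congrArg Subtype.val hn
    rw [← this, map_zsmul]
    change n • Additive.ofMul (b c c) = 0
    rw [h.b_self]; simp
  refine hc (Subtype.ext (h.b_nd _ fun y => ?_))
  have f4 : ∀ i : ℕ, φ (g ^ i • y) = φ y := fun i => by
    induction i with
    | zero => simp
    | succ i ih => rw [pow_succ', mul_smul, f2, ih]
  have f5 := f3 (∑ i ∈ Finset.range 13, g ^ i • y) ((hF _).2 (by
    have := Finset.sum_range_succ' (fun i => g ^ i • y) 13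
    rw [Finset.sum_range_succ, h13, pow_zero, one_smul] at this
    rw [Finset.smul_sum, add_right_cancel this]
    exact Finset.sum_congr rfl fun i _ => by rw [pow_succ', mul_smul]))
  simp only [map_sum, f4, Finset.sum_const, Finset.card_range] at f5
  have f6 : b c y ^ 13 = 1 := f5
  exact (pow_eq_one_iff_of_coprime (by norm_num : Nat.Coprime 3 13)).1 ⟨f1 y, f6⟩

theorem odd_comm [Group.IsSolvable G] (hG : Odd (Nat.card G)) (h : Pk G V K W σ U To E M π b e)
    (he : e = 1 ∨ e = 3 ∨ e = 5 ∨ e = 9) : Triv (der (⊤ : Subgroup G) 1) W := by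
  have hW := h.card
  rcases he with rfl | he
  · have := (Nat.card_eq_one_iff_unique.1 hW).1
    exact fun _ _ _ => Subsingleton.elim _ _
  let f := DistribMulAction.toModuleAut ℤ W (S := G)
  have hsur := f.rangeRestrict_surjective
  have : Finite f.range := Finite.of_surjective _ hsur
  have : Group.IsSolvable f.range := Group.isSolvable_of_surjective hsur
  have hX : Odd (Nat.card f.range) := hG.of_dvd_nat (Subgroup.card_dvd_of_surjective _ hsur)
  have hf : ∀ g : f.range, (∀ x : W, g • x = x) → g = 1 :=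
    fun g hg => Subtype.ext (LinearEquiv.ext hg)
  have hcr : CR f.range W := fun A hA => by
    obtain ⟨C, c1, c2⟩ := h.cr A fun g v hv => hA (f.rangeRestrict g) v hv
    refine ⟨C, fun g v hv => ?_, c2⟩
    obtain ⟨g, rfl⟩ := hsur g
    exact c1 g v hv
  have key : ∀ a c : f.range, a * c = c * a := by
    have fx : ∀ x : f.range, Nat.card (fxs W {x}) = 1 → ∀ y : W, x • y = y → y = 0 :=
      fun x h1 y hy => by
        have : y ∈ fxs W {x} := by rintro _ rfl; exact hy
        rwa [AddSubgroup.card_eq_one.1 h1] at this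
    have od : ∀ x : f.range, Odd (orderOf x) := fun x => hX.of_dvd_nat (orderOf_dvd_natCard x)
    have pr : ∀ {s : ℕ}, s.Prime → Odd s → ∀ a c d : ℕ, c.Prime → d.Prime → ∀ i j : ℕ,
        s ∣ 2 ^ a * c ^ i * d ^ j → s = c ∨ s = d := fun {s} hs ho a c d hc hd i j h1 => by
      rcases (Nat.Prime.dvd_mul hs).1 h1 with h2 | h2
      · rcases (Nat.Prime.dvd_mul hs).1 h2 with h3 | h3
        · exact absurd (Nat.Coprime.eq_one_of_dvd
            (Nat.Coprime.pow_right a (Nat.coprime_two_right.2 ho)) h3) hs.one_lt.ne'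
        · exact .inl ((Nat.prime_dvd_prime_iff_eq hs hc).1 (hs.dvd_of_dvd_pow h3))
      · exact .inr ((Nat.prime_dvd_prime_iff_eq hs hd).1 (hs.dvd_of_dvd_pow h2))
    have p3 := Nat.prime_three
    have p5 := Nat.prime_five
    rcases he with rfl | rfl | rfl
    · refine comm_small hX hf hcr p3 (k := 2) hW (.inr rfl) (by norm_num) (by rw [hW]; norm_num)
        fun x hx hr => ?_
      obtain ⟨a1, a2, a3⟩ := fix_card hx hf
      rw [hW] at a1 a2 a3
      obtain ⟨i, hi, e1⟩ := (Nat.dvd_prime_pow p3).1 a1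
      rw [e1] at a2 a3
      interval_cases i
      · exact absurd (pr hx (od x) 3 3 3 p3 p3 0 0 a3) (by simpa using hr)
      · exact absurd (pr hx (od x) 1 3 3 p3 p3 1 0 a3) (by simpa using hr)
      · exact absurd rfl a2
    · refine comm_small hX hf hcr p5 (k := 2) hW (.inl rfl) (by norm_num) (by rw [hW]; norm_num)
        fun x hx hr => ?_
      obtain ⟨a1, a2, a3⟩ := fix_card hx hf
      rw [hW] at a1 a2 a3
      obtain ⟨i, hi, e1⟩ := (Nat.dvd_prime_pow p5).1 a1
      rw [e1] at a2 a3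
      interval_cases i
      · exact ⟨by simpa using pr hx (od x) 3 3 3 p3 p3 1 0 a3, fx x e1⟩
      · exact absurd (pr hx (od x) 2 5 5 p5 p5 1 0 a3) (by simpa using hr)
      · exact absurd rfl a2
    · refine comm_small hX hf hcr p3 (k := 4) hW (.inr rfl) (by norm_num) (by rw [hW]; norm_num)
        fun x hx hr => ?_
      obtain ⟨a1, a2, a3⟩ := fix_card hx hf
      rw [hW] at a1 a2 a3
      obtain ⟨i, hi, e1⟩ := (Nat.dvd_prime_pow p3 (m := 4)).1 a1
      rw [e1] at a2 a3
      interval_cases i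
      · exact ⟨by simpa using pr hx (od x) 4 5 5 p5 p5 1 0 a3, fx x e1⟩
      · have o13 := (pr hx (od x) 1 3 13 p3 (by norm_num) 1 1 a3).resolve_left hr
        obtain ⟨g, rfl⟩ := hsur x
        refine absurd e1 (no13 hG h (g := g) (fun y => ?_) _ fun y => ⟨fun hy => hy _ rfl, ?_⟩)
        · change f.rangeRestrict (g ^ 13) • y = y
          rw [map_pow, ← o13, pow_orderOf_eq_one, one_smul]
        · rintro hy _ rfl
          exact hy
      · exact absurd (pr hx (od x) 3 3 3 p3 p3 2 0 a3) (by simpa using hr)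
      · exact absurd (pr hx (od x) 1 3 3 p3 p3 3 0 a3) (by simpa using hr)
      · exact absurd rfl a2
  refine triv_der_one fun a _ c _ w => ?_
  change f.rangeRestrict a • f.rangeRestrict c • w = f.rangeRestrict c • f.rangeRestrict a • w
  rw [← mul_smul, key, mul_smul]

variable [Finite K] [Finite V] [Nontrivial V]

theorem odd_reg (hV : Odd (Nat.card V)) (h : Pk G V K W σ U To E M π b e)
    (he : e = 1 ∨ e = 3 ∨ e = 5 ∨ e = 9) : ∃ v : V, v ≠ 0 ∧ ∀ t ∈ M, t • v = v → t = 1 := by
  obtain ⟨m, hm⟩ := odd_q hV h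
  have h1 : 1 < Nat.card K := Finite.one_lt_card
  have hn := h.le
  have key : ∀ a k, a ≤ Nat.card K → k ≤ finrank K V - finrank K V / 2 →
      a ^ k ≤ Nat.card K ^ (finrank K V - finrank K V / 2) := fun a k h1 h2 =>
    (Nat.pow_le_pow_left h1 k).trans (Nat.pow_le_pow_right Nat.card_pos h2)
  have p3 := Nat.prime_three
  have p5 := Nat.prime_five
  rcases he with rfl | rfl | rfl | rfl
  · exact reg_of h (R := 1) (fun r _ hd => Nat.le_of_dvd one_pos hd) (by positivity)
  · have := (lt_card h p3 dvd_rfl).1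
    exact reg_of h (R := 3) (fun r _ hd => Nat.le_of_dvd (by norm_num) hd)
      (lt_of_lt_of_le (by norm_num) (key 7 2 (by omega) (by omega)))
  · have := (lt_card h p5 dvd_rfl).1
    exact reg_of h (R := 5) (fun r _ hd => Nat.le_of_dvd (by norm_num) hd)
      (lt_of_lt_of_le (by norm_num) (key 11 3 (by omega) (by omega)))
  · have := (lt_card h p3 (by norm_num)).1
    exact reg_of h (R := 3) (fun r hr hd => Nat.le_of_dvd (by norm_num)
      (hr.dvd_of_dvd_pow (n := 2) hd))
      (lt_of_lt_of_le (by norm_num) (key 7 5 (by omega) (by omega)))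

end Cfsg.Agent.H4.Mw
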