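import Cfsg.Agent.H4.MwOddS
import Cfsg.Agent.H28.MwP

/-!
The derived length of small completely reducible solvable linear groups.
-/

set_option autoImplicit false

namespace Cfsg.Agent.H4.Mw

open MulAction Module Cfsg.Agent.H12.RO Cfsg.Agent.H53.MW Cfsg.Agent.H28.MwP

universe u

section Gen

variable {G V : Type*} [Group G] [AddCommGroup V] [DistribMulAction G V]

theorem triv_sum {U W : AddSubgroup V} (hU : Inv G U) (hW : Inv G W) (h : U ⊔ W = ⊤)
    {X : Subgroup G} (h1 : letI := subAct hU; Triv X U) (h2 : letI := subAct hW; Triv X W) :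
    Triv X V := by
  intro g hg x
  obtain ⟨a, ha, c, hc, rfl⟩ := AddSubgroup.mem_sup.1 (h ▸ AddSubgroup.mem_top x)
  rw [smul_add]
  exact congrArg₂ (· + ·) (congrArg Subtype.val (h1 g hg ⟨a, ha⟩))
    (congrArg Subtype.val (h2 g hg ⟨c, hc⟩))

theorem triv_quot {G G' V : Type*} [Group G] [Group G'] [MulAction G V] [MulAction G' V]
    (f : G →* G') (hf : ∀ (g : G) (v : V), f g • v = g • v) {X : Subgroup G} {Y : Subgroup G'}
    (h : X.map f ≤ Y) {n : ℕ} (hY : Triv (der Y n) V) : Triv (der X n) V := fun g hg v => by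
  rw [← hf]
  exact hY _ (der_mono h n (mem_der_map f hg)) v

variable {Ω : Type*} [MulAction G Ω] [Fintype Ω]

theorem sys_triv (S : Sys G V Ω) {X : Subgroup G}
    (h : ∀ ω, ∀ g ∈ X, ∀ x, g • S.e ω x = S.e ω x) : Triv X V := fun g hg x => by
  rw [← S.sum x, Finset.smul_sum]
  exact Finset.sum_congr rfl fun ω _ => h ω g hg x

theorem sys_block (S : Sys G V Ω) {ω₀ ω : Ω} {t : G} (ht : t • ω₀ = ω)
    (Z : Subgroup (stabilizer G ω₀)) {n : ℕ}
    (hZ : letI := subAct (S.inv_range ω₀); Triv (der Z n) (S.e ω₀).range) {Y : Subgroup G}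
    (hY : ∀ g ∈ Y, ∃ h : t⁻¹ * g * t ∈ stabilizer G ω₀, (⟨_, h⟩ : stabilizer G ω₀) ∈ Z) :
    ∀ g ∈ der Y n, ∀ x, g • S.e ω x = S.e ω x := by
  intro g hg x
  have h1 := der_mono (show Y.map (MulAut.conj t⁻¹).toMonoidHom ≤ Z.map (stabilizer G ω₀).subtype by
    rintro _ ⟨a, ha, rfl⟩
    obtain ⟨h, h'⟩ := hY a ha
    exact ⟨_, h', by simp⟩) n (mem_der_map _ hg)
  rw [← map_der] at h1
  obtain ⟨z, z1, z2⟩ := h1
  have h2 : (z : G) • S.e ω₀ (t⁻¹ • x) = S.e ω₀ (t⁻¹ • x) :=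
    congrArg Subtype.val (hZ z z1 ⟨S.e ω₀ (t⁻¹ • x), _, rfl⟩)
  have h3 : (z : G) = t⁻¹ * g * t := by simpa using z2
  have h4 := S.equiv t ω₀ (t⁻¹ • x)
  rw [ht, smul_inv_smul] at h4
  rw [h3, mul_smul, mul_smul, inv_smul_eq_iff, ← h4] at h2
  exact h2

end Gen

section Prim

variable {G V K W : Type*} [Group G] [AddCommGroup V] [DistribMulAction G V] [Field K]
  [Module K V] [AddCommGroup W] [DistribMulAction G W] {σ : G →* RingAut K}
  {U To E M : Subgroup G} {π : G → W} {b : W → W → Kˣ} {e : ℕ}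

theorem σ_der [Finite K] (σ : G →* RingAut K) : der (⊤ : Subgroup G) 1 ≤ σ.ker := by
  refine Subgroup.commutator_le.2 fun a _ c _ => ?_
  rw [MonoidHom.mem_ker, map_commutatorElement, commutatorElement_eq_one_iff_mul_comm]
  exact H73.ringAut_mul_comm _ _

theorem der_M (h : Pk G V K W σ U To E M π b e) : der M 1 ≤ U :=
  Subgroup.commutator_le.2 fun _ ha _ hc => comm_mem_U h ha hc

theorem der_U (h : Pk G V K W σ U To E M π b e) : der U 1 ≤ ⊥ :=
  Subgroup.commutator_le.2 fun _ ha _ hc =>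
    commutatorElement_eq_one_iff_commute.2 (h.comm_U (h.σ_U hc) ha)

theorem prim_der [Finite K] (h : Pk G V K W σ U To E M π b e) {k : ℕ} (hk : 1 ≤ k)
    (hW : Triv (der (⊤ : Subgroup G) k) W) :
    der (⊤ : Subgroup G) k ≤ M ∧ der (⊤ : Subgroup G) (k + 1) ≤ U ∧
      der (⊤ : Subgroup G) (k + 2) ≤ ⊥ := by
  have h1 : der (⊤ : Subgroup G) k ≤ M := fun g hg =>
    h.kerW g (σ_der σ (der_anti _ hk hg)) (hW g hg)
  have h2 : der (⊤ : Subgroup G) (k + 1) ≤ U := by
    rw [der_add]; exact (der_mono h1 1).trans (der_M h)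
  refine ⟨h1, h2, ?_⟩
  rw [show k + 2 = (k + 1) + 1 from rfl, der_add]
  exact (der_mono h2 1).trans (der_U h)

end Prim

theorem phi_mono {a c : ℕ} (h : a ≤ c) : phi a ≤ phi c := by
  unfold phi
  split_ifs <;> omega

theorem phi_rep {a : ℕ} (h : 2 ≤ a) :
    ∃ l ≤ a, (l = 2 ∨ l = 3 ∨ l = 4 ∨ l = 9 ∨ l = 64 ∨ l = 4096) ∧ (phi a = phi l ∨ l = 4096) := by
  by_cases h1 : a ≤ 2
  · exact ⟨2, h, by simp, by simp [phi, h1]⟩
  by_cases h2 : a ≤ 3
  · exact ⟨3, by omega, by simp, by simp [phi, h1, h2]⟩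
  by_cases h3 : a ≤ 8
  · exact ⟨4, by omega, by simp, by simp [phi, h1, h2, h3]⟩
  by_cases h4 : a ≤ 63
  · exact ⟨9, by omega, by simp, by simp [phi, h1, h2, h3, h4]⟩
  by_cases h5 : a ≤ 4095
  · exact ⟨64, by omega, by simp, by simp [phi, h1, h2, h3, h4, h5]⟩
  exact ⟨4096, by omega, by simp, by simp⟩

theorem phi_imp {a m : ℕ} (ha : 2 ≤ a) (hm : 2 ≤ m) (h : a ^ m < 2 ^ 24) :
    phi m + 1 + phi a ≤ phi (a ^ m) := by
  have h24 : m < 24 := (Nat.pow_lt_pow_iff_right one_lt_two).1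
    ((Nat.pow_le_pow_left ha m).trans_lt h)
  obtain ⟨l, l1, l2, l3⟩ := phi_rep ha
  obtain ⟨k, k1, k2, k3⟩ := phi_rep hm
  have h1 : l ^ k ≤ a ^ m := (Nat.pow_le_pow_left l1 k).trans (Nat.pow_le_pow_right (by omega) k1)
  have h2 := h1.trans_lt h
  refine le_trans ?_ (phi_mono h1)
  rw [k3.resolve_right (by omega)]
  have k4 : k = 2 ∨ k = 3 ∨ k = 4 ∨ k = 9 := by omega
  rcases l3 with l3 | rfl
  · rw [l3]
    rcases k4 with rfl | rfl | rfl | rfl <;> rcases l2 with rfl | rfl | rfl | rfl | rfl | rfl <;>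
      first | decide | exact absurd h2 (by norm_num)
  · rcases k4 with rfl | rfl | rfl | rfl <;> exact absurd h2 (by norm_num)

theorem phi_prim {e q n : ℕ} (he : 2 ≤ e) (hn : e ≤ n) (hq : ∀ r : ℕ, r.Prime → r ∣ e → r < q) :
    e ^ 2 < q ^ n ∧ 1 ≤ phi (e ^ 2) ∧ (q ^ n < 2 ^ 24 → phi (e ^ 2) + 2 ≤ phi (q ^ n)) := by
  have h3 : 3 ≤ q := by
    obtain ⟨r, hr, hd⟩ := Nat.exists_prime_and_dvd (n := e) (by omega)
    have := hq r hr hd
    have := hr.two_le
    omega
  have key : ∀ a, a ≤ q → a ^ e ≤ q ^ n := fun a h1 =>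
    (Nat.pow_le_pow_left h1 e).trans (Nat.pow_le_pow_right (by omega) hn)
  refine ⟨(sq_lt_three_pow e).trans_le (key 3 h3),
    le_trans (by decide) (phi_mono (Nat.pow_le_pow_left he 2)), fun h => ?_⟩
  have h16 : e < 16 := (Nat.pow_lt_pow_iff_right (by norm_num : 1 < 3)).1
    (((key 3 h3).trans_lt h).trans (by norm_num))
  by_cases e3 : e = 3
  · subst e3
    exact le_trans (by decide) (phi_mono (key 4 (hq 3 Nat.prime_three dvd_rfl)))
  refine le_trans ?_ (phi_mono (key 3 h3))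
  interval_cases e <;> first | decide | exact absurd rfl e3

theorem phi_stmt : PhiStmt.{u} := by
  intro G V _ _ _ _ _ _ hcr
  refine ind (fun G V _ _ _ => Nat.card V < 2 ^ 24 →
    Triv (der (⊤ : Subgroup G) (phi (Nat.card V))) V) ?_ ?_ ?_ ?_ ?_ G V hcr
  · exact fun _ _ _ _ _ _ _ _ _ _ => Subsingleton.elim _ _
  · intro G V _ _ _ _ _ _ U W hU hW _ _ _ _ h2 i1 i2 hV
    have c1 : Nat.card U ≤ Nat.card V := U.card_le_card_addGroup
    have c2 : Nat.card W ≤ Nat.card V := W.card_le_card_addGroup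
    letI := subAct hU
    letI := subAct hW
    exact triv_sum hU hW h2 ((i1 (c1.trans_lt hV)).mono (der_anti _ (phi_mono c1)))
      ((i2 (c2.trans_lt hV)).mono (der_anti _ (phi_mono c2)))
  · intro G G' V _ _ _ _ _ _ _ f _ hf i1 hV
    exact triv_quot f hf le_top (i1 hV)
  · intro G V _ _ _ _ _ _ _ hf hp IH hV
    by_cases h3 : Nat.card V ≤ 3
    · have c1 : {v : V | v ≠ 0}.ncard = Nat.card V - 1 := by
        rw [show {v : V | v ≠ 0} = Set.univ \ {0} by ext; simp,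
          Set.ncard_diff_singleton_of_mem (Set.mem_univ _), Set.ncard_univ]
      have := psi_set (⊤ : Subgroup G) {v : V | v ≠ 0} (by omega)
        fun g _ v hv => (smul_ne_zero_iff_ne g).2 hv
      have c2 : 1 < Nat.card V := Finite.one_lt_card
      intro g hg v
      by_cases h0 : v = 0
      · rw [h0, smul_zero]
      refine this g (der_anti _ ?_ hg) v h0
      rw [c1]
      interval_cases Nat.card V <;> decide
    obtain ⟨K, _, _, _, W, _, _, _, σ, U, To, E, M, π, b, e, h⟩ := pk G V hf hp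
    suffices hs : ∃ k ≤ phi (Nat.card V), der (⊤ : Subgroup G) k ≤ ⊥ by
      obtain ⟨k, k1, k2⟩ := hs
      intro g hg v
      rw [Subgroup.mem_bot.1 (k2 (der_anti _ k1 hg)), one_smul]
    by_cases he : e = 1
    · subst he
      have := (Nat.card_eq_one_iff_unique.1 h.card).1
      have h1 := (prim_der h le_rfl fun _ _ _ => Subsingleton.elim _ _).1
      have h2 : M ≤ U := fun t ht => (h.sec.ker t ht).1 (Subsingleton.elim _ _)
      exact ⟨2, le_trans (by decide) (phi_mono (not_le.1 h3)),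
        (der_mono (h1.trans h2) 1).trans (der_U h)⟩
    have : Module.Finite K V := Module.Finite.of_finite
    obtain ⟨n1, n2, n3⟩ := phi_prim (q := Nat.card K) (by have := h.pos; omega) h.le
      fun r hr hd => (lt_card h hr hd).2
    rw [← Module.natCard_eq_pow_finrank, ← h.card] at n1 n3
    exact ⟨_, n3 hV, (prim_der h (h.card ▸ n2) (IH G W n1 h.cr (n1.trans hV))).2.2⟩
  · intro G V Ω N _ _ _ _ _ _ _ _ _ _ _ _ hf hirr S A IH hV
    have : Finite N := Finite.of_equiv _ A.e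
    obtain ⟨ω₀⟩ : Nonempty Ω := inferInstance
    have c1 : Nat.card N < Nat.card V := A.card_eq ▸ S.card_lt
    have i1 := aff_step A (IH G N c1 A.irr.cr (c1.trans hV))
    letI := subAct (S.inv_range ω₀)
    have i2 := IH _ _ (S.card_range_lt ω₀) (S.irr_range hirr ω₀).cr
      ((S.card_range_lt ω₀).trans hV)
    have c2 : Nat.card V = Nat.card (S.e ω₀).range ^ Nat.card N := by
      rw [H29.CpK.sys_card S, Finset.prod_congr rfl fun ω _ => sys_card_eq S hirr ω ω₀,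
        Finset.prod_const, Finset.card_univ, A.card_eq]
    have c3 : 2 ≤ Nat.card (S.e ω₀).range := by
      obtain ⟨x, hx⟩ := S.ne ω₀
      exact Finite.one_lt_card_iff_nontrivial.2 ⟨⟨_, x, rfl⟩, 0, fun e1 => hx (congrArg Subtype.val e1)⟩
    have c4 := phi_imp c3 (A.card_eq ▸ Fintype.one_lt_card) (c2 ▸ hV)
    rw [← c2] at c4
    refine Triv.mono ?_ (der_anti _ c4)
    rw [der_add, der_add]
    refine sys_triv S fun ω => ?_
    obtain ⟨t, ht⟩ := S.trans hirr ω₀ ω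
    refine sys_block S ht ⊤ i2 fun g hg => ⟨?_, trivial⟩
    rw [mem_stabilizer_iff, mul_smul, mul_smul, ht, i1 g hg, inv_smul_eq_iff, ht]

end Cfsg.Agent.H4.Mw
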