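import Cfsg.Agent.H71.P3Defs

/-! Project P3, piece NA: no anisotropic elements. -/

set_option autoImplicit false

namespace Cfsg.Agent.H4.P3Na

open Cfsg.Agent.H71.P3 Cfsg.Agent.H27 Module
open scoped Pointwise MatrixGroups

variable {F V : Type} [Field F] [AddCommGroup V] [Module F V] {S : Sp F V}

theorem an_conj {g h : V ≃ₗ[F] V} (hg : g ∈ S.G) {L : Submodule F V} (hh : S.An L h) :
    S.An (g • L) (g * h * g⁻¹) := by
  refine ⟨hh.1.conj hg, fun v => ?_, fun v hv => ?_⟩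
  · obtain ⟨v, rfl⟩ := g.surjective v
    rw [LinearEquiv.mul_apply, LinearEquiv.mul_apply,
      show g⁻¹ (g v) = v from g.symm_apply_apply v, ← map_sub]
    exact smul_mem_smul.2 (hh.2.1 v)
  · obtain ⟨v, rfl⟩ := g.surjective v
    rw [LinearEquiv.mul_apply, LinearEquiv.mul_apply,
      show g⁻¹ (g v) = v from g.symm_apply_apply v, hg] at hv
    rintro _ ⟨s, hs, rfl⟩
    exact (hg v s).trans (hh.2.2 v hv s hs)

theorem le_span [Finite V] {L : Submodule F V} (hL : dm L = 2) {z u : V} (hz : z ≠ 0) (zL : z ∈ L)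
    (uL : u ∈ L) (hu : u ∉ F ∙ z) : L ≤ Submodule.span F {z, u} := by
  have li : LinearIndependent F ![z, u] := (LinearIndependent.pair_iff' hz).2 fun a e =>
    hu (e ▸ Submodule.smul_mem _ a (Submodule.mem_span_singleton_self z))
  have := finrank_span_eq_card li
  rw [Matrix.range_cons_cons_empty, Fintype.card_fin] at this
  refine (Submodule.eq_of_le_of_finrank_eq ?_ (this.trans hL.symm)).ge
  rw [Submodule.span_le]
  rintro _ (rfl | rfl) <;> assumption

/-- elements of `K` supported on `T` -/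
def sup (S : Sp F V) (K : Subgroup (V ≃ₗ[F] V)) (T : Submodule F V) : Subgroup (V ≃ₗ[F] V) where
  carrier := {g | g ∈ K ∧ S.Supp T g}
  one_mem' := ⟨one_mem _, fun _ _ => rfl⟩
  mul_mem' := fun ⟨a, b⟩ ⟨c, d⟩ => ⟨mul_mem a c, fun v hv => by
    rw [LinearEquiv.mul_apply, d v hv, b v hv]⟩
  inv_mem' := fun {g} ⟨a, b⟩ => ⟨inv_mem a, fun v hv => by
    conv_lhs => rw [← b v hv]
    exact g.symm_apply_apply v⟩

theorem perp [Finite F] [Finite V] (neg : NegStmt) (rho : RhoStmt) (mj : MjStmt)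
    {K : Subgroup (V ≃ₗ[F] V)} (hK : K ≤ S.G) (nq : S.NoQ K) (nj : S.NoJ K) {L L' : Submodule F V}
    {g h : V ≃ₗ[F] V} (l : S.IsLn L) (l' : S.IsLn L') (gK : g ∈ K) (hK' : h ∈ K) (a : S.An L g)
    (a' : S.An L' h) {z u w : V} (hz : z ≠ 0) (zL : z ∈ L) (zL' : z ∈ L') (uL : u ∈ L)
    (wL : w ∈ L') : S.B u w ≠ 1 := by
  intro uw
  have zu := l.2 z zL u uL
  have zw := l'.2 z zL' w wL
  have wu : S.B w u = -1 := by rw [← uw, S.alt.neg_eq]
  have key : ∀ a b : F, a • u + b • w ∈ F ∙ z → a = 0 ∧ b = 0 := fun a b hab => by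
    obtain ⟨c, hc⟩ := Submodule.mem_span_singleton.1 hab
    have e1 := congrArg (fun x => S.B x w) hc
    have e2 := congrArg (fun x => S.B x u) hc
    simp only [map_add, map_smul, LinearMap.add_apply, LinearMap.smul_apply, smul_eq_mul, uw, zu,
      zw, wu, S.alt.self_eq_zero] at e1 e2
    exact ⟨by linear_combination -e1, by linear_combination e2⟩
  have s1 : S.Supp (Submodule.span F {z, u, w}) g := fun v hv => a.1 v fun s hs => hv s
    (Submodule.span_mono (by rintro _ (rfl | rfl) <;> simp)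
      (le_span l.1 hz zL uL (fun m => one_ne_zero (key 1 0 (by simpa using m)).1) hs))
  have s2 : S.Supp (Submodule.span F {z, u, w}) h := fun v hv => a'.1 v fun s hs => hv s
    (Submodule.span_mono (by rintro _ (rfl | rfl) <;> simp)
      (le_span l'.1 hz zL' wL (fun m => one_ne_zero (key 0 1 (by simpa using m)).2) hs))
  obtain ⟨ρ, hρ⟩ := rho S (sup S K (Submodule.span F {z, u, w})) (fun x hx => hK hx.1) z u w uw
    zu zw fun x hx => hx.2
  have ne : ∀ (x : sup S K (Submodule.span F {z, u, w})) (N : Submodule F V), z ∈ N →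
      S.An N x → ρ x ≠ 1 := fun x N zN ax e => by
    have e1 := hρ x ![1, 0]
    have e2 := hρ x ![0, 1]
    rw [e] at e1 e2
    have := (mj S K hK nq z u w hz uw zu zw x x.2.1 x.2.2).1 (by simpa using e1)
      (by simpa using e2)
    refine hz (S.nd.2 z fun v => ax.2.2 v ?_ z zN)
    rw [this]
    exact S.alt.self_eq_zero v
  have fx : ∀ (x : sup S K (Submodule.span F {z, u, w})) (c : Fin 2 → F),
      (x : V ≃ₗ[F] V) (c 0 • u + c 1 • w) = c 0 • u + c 1 • w →
      (ρ x : Matrix (Fin 2) (Fin 2) F).mulVec c = c := fun x c e => by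
    have e1 := hρ x c
    rw [e, add_sub_add_comm, ← sub_smul, ← sub_smul] at e1
    have := key _ _ e1
    ext i
    fin_cases i
    exacts [(sub_eq_zero.1 this.1).symm, (sub_eq_zero.1 this.2).symm]
  obtain ⟨j, hj⟩ := (neg F S.odd ρ.range).1 _ ⟨⟨g, gK, s1⟩, rfl⟩ _ ⟨⟨h, hK', s2⟩, rfl⟩ ![1, 0] ![0, 1]
    (ne _ L zL a) (ne _ L' zL' a') (by simp) (by simp)
    (fun m => by
      obtain ⟨c, hc⟩ := Submodule.mem_span_singleton.1 m
      simpa using congrFun hc 1)
    (fx _ _ (by simpa using a.1 u (l.2 u uL))) (fx _ _ (by simpa using a'.1 w (l'.2 w wL)))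
  have e1 := hρ j ![1, 0]
  have e2 := hρ j ![0, 1]
  rw [hj] at e1 e2
  obtain ⟨m, m1, m2⟩ := (mj S K hK nq z u w hz uw zu zw j j.2.1 j.2.2).2
    (by simpa [Matrix.neg_mulVec] using e1) (by simpa [Matrix.neg_mulVec] using e2)
  exact nj m m1 j j.2.1 m2

theorem na (neg : NegStmt) (rho : RhoStmt) (mj : MjStmt) (w1 : W1Stmt) (w2 : W2Stmt) : NaStmt := by
  intro F V _ _ _ _ _ S K hK pt o2 o3 nq nj L0 l0 g0 g0K a0
  let M : V → Set (Submodule F V) := fun z => {L | (S.IsLn L ∧ ∃ g ∈ K, S.An L g) ∧ z ∈ L}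
  have mi : ∀ g ∈ K, ∀ x, ∀ L ∈ M x, g • L ∈ M (g x) := fun g hg x L ⟨⟨l, h, hh, a⟩, xL⟩ =>
    ⟨⟨l.smul (hK hg), _, mul_mem (mul_mem hg hh) (inv_mem hg), an_conj (hK hg) a⟩,
      smul_mem_smul.2 xL⟩
  have le : ∀ g ∈ K, ∀ x, g • sSup (M x) ≤ sSup (M (g x)) := fun g hg x => by
    rw [smul_def, Submodule.map_le_iff_le_comap]
    exact sSup_le fun L hL => Submodule.map_le_iff_le_comap.1 (le_sSup (mi g hg x L hL))
  have inv : ∀ g ∈ K, ∀ x, sSup (M (g x)) = g • sSup (M x) := fun g hg x => by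
    refine le_antisymm ?_ (le g hg x)
    have := (smul_le_smul (g := g)).2 (le g⁻¹ (inv_mem hg) (g x))
    rwa [smul_inv_smul, show g⁻¹ (g x) = x from g.symm_apply_apply x] at this
  have sm : ∀ (c : F) x, c ≠ 0 → M (c • x) = M x := fun c x hc =>
    Set.ext fun L => and_congr_right fun _ => L.smul_mem_iff hc
  obtain ⟨z, zL, hz⟩ := L0.exists_mem_ne_zero_of_ne_bot fun e => by
    have := l0.1
    rw [e, dm, finrank_bot] at this
    omega
  have m0 : L0 ∈ M z := ⟨⟨l0, g0, g0K, a0⟩, zL⟩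
  have tr : ∀ x, x ≠ 0 → ∃ g ∈ K, M (g z) = M x := fun x hx => by
    obtain ⟨g, hg, c, e⟩ := pt z x hz hx
    refine ⟨g, hg, e ▸ sm c x fun c0 => hz ?_⟩
    rwa [c0, zero_smul, map_eq_zero_iff _ g.injective] at e
  have iso : ∀ x, x ≠ 0 → S.Iso (sSup (M x)) := fun x hx u hu v hv => by
    refine (sSup_le fun L' hL' w wL => ?_ : sSup (M x) ≤ LinearMap.ker (S.B u)) hv
    refine (sSup_le fun L hL u uL => ?_ : sSup (M x) ≤ LinearMap.ker (S.B.flip w)) hu
    obtain ⟨⟨l, g, gK, a⟩, xL⟩ := hL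
    obtain ⟨⟨l', h, hK', a'⟩, xL'⟩ := hL'
    by_contra ne
    refine perp neg rho mj hK nq nj l l' gK hK' a a' hx xL xL' uL
      (L'.smul_mem (S.B u w)⁻¹ wL) ?_
    rw [map_smul, smul_eq_mul]
    exact inv_mul_cancel₀ ne
  have ws : S.WS K (fun x => sSup (M x)) (dm (sSup (M z))) := by
    refine ⟨fun g hg x _ => inv g hg x, fun c x hc _ => by rw [sm c x hc], fun x hx => ?_, iso,
      fun x hx => ?_, l0.1 ▸ Submodule.finrank_mono (le_sSup m0)⟩
    · obtain ⟨g, hg, e⟩ := tr x hx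
      have := e ▸ mi g hg z L0 m0
      exact le_sSup this this.2
    · obtain ⟨g, hg, e⟩ := tr x hx
      rw [← e, inv g hg, dm_smul]
  have bd : dm (sSup (M z)) ≤ S.k := by
    have h1 : sSup (M z) ≤ S.B.orthogonal (sSup (M z)) := fun v hv u hu => iso z hz u hu v hv
    have h2 := Submodule.finrank_mono h1
    rw [LinearMap.BilinForm.finrank_orthogonal S.nd, S.dim] at h2
    unfold dm
    omega
  rcases bd.lt_or_eq with h | h
  · exact w1 S K hK pt o2 o3 _ _ ws h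
  · exact (w2 S K hK pt _ (h ▸ ws)).2 L0 l0 g0 g0K a0

end Cfsg.Agent.H4.P3Na
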