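import Cfsg.Agent.H4.PfDefs
import Cfsg.Agent.H26.NdB
import Cfsg.Agent.H24.Ito

/-!
Pálfy's theorem, reduction I: Sylow subgroups of a quotient acting on linear characters.
-/

set_option autoImplicit false

namespace Cfsg.Agent.H4.Pf

open Cfsg Subgroup H24 H11 H26.ND
open scoped commutatorElement

universe u

variable {G : Type u} [Group G]

/-- the preimage of a Sylow subgroup of `G / N` -/
def pre {N : Subgroup G} [N.Normal] {p : ℕ} (P : Sylow p (G ⧸ N)) : Subgroup G :=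
  (P : Subgroup (G ⧸ N)).comap (QuotientGroup.mk' N)

theorem mem_pre {N : Subgroup G} [N.Normal] {p : ℕ} {P : Sylow p (G ⧸ N)} {g : G} :
    g ∈ pre P ↔ (g : G ⧸ N) ∈ (P : Subgroup (G ⧸ N)) := Iff.rfl

theorem le_pre {N : Subgroup G} [N.Normal] {p : ℕ} (P : Sylow p (G ⧸ N)) : N ≤ pre P :=
  fun n hn => mem_pre.2 (by rw [(QuotientGroup.eq_one_iff n).2 hn]; exact one_mem _)

theorem pre_le_iff {N I : Subgroup G} [N.Normal] (h : N ≤ I) {p : ℕ} {P : Sylow p (G ⧸ N)} :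
    pre P ≤ I ↔ (P : Subgroup (G ⧸ N)) ≤ I.map (QuotientGroup.mk' N) := by
  refine ⟨fun e x hx => ?_, fun e g hg => ?_⟩
  · obtain ⟨g, rfl⟩ := QuotientGroup.mk_surjective x
    exact ⟨g, e hx, rfl⟩
  · have := comap_mono (f := QuotientGroup.mk' N) e hg
    rwa [comap_map_eq, QuotientGroup.ker_mk', sup_of_le_left h] at this

theorem pre_index [Finite G] {N : Subgroup G} [N.Normal] {p : ℕ} [Fact p.Prime]
    (P : Sylow p (G ⧸ N)) : ¬ p ∣ (pre P).index := by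
  rw [pre, index_comap_of_surjective _ (QuotientGroup.mk'_surjective N)]
  exact P.not_dvd_index

theorem pre_pow {N : Subgroup G} [N.Normal] {p : ℕ} (P : Sylow p (G ⧸ N)) {g : G}
    (hg : g ∈ pre P) : ∃ k, g ^ p ^ k ∈ N := by
  obtain ⟨k, hk⟩ := P.isPGroup' ⟨_, hg⟩
  exact ⟨k, (QuotientGroup.eq_one_iff _).1 (congrArg Subtype.val hk)⟩

theorem syl_le {X : Type*} [Group X] [Finite X] {p : ℕ} [Fact p.Prime] {S : Subgroup X}
    (h : ¬ p ∣ S.index) : ∃ P : Sylow p X, (P : Subgroup X) ≤ S := by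
  obtain ⟨P⟩ : Nonempty (Sylow p X) := inferInstance
  obtain ⟨x, hx⟩ := P.isPGroup'.nonempty_fixed_point_of_prime_not_dvd_card (X ⧸ S) h
  obtain ⟨x, rfl⟩ := QuotientGroup.mk_surjective x
  refine ⟨x⁻¹ • P, ?_⟩
  rintro _ ⟨g, hg, rfl⟩
  have : ((g * x : X) : X ⧸ S) = x := hx ⟨g, hg⟩
  have := QuotientGroup.eq.1 this.symm
  simpa [mul_assoc] using this

theorem ex_syl [Finite G] {N I : Subgroup G} [N.Normal] (h : N ≤ I) {p : ℕ} [Fact p.Prime]
    (hp : ¬ p ∣ I.index) : ∃ P : Sylow p (G ⧸ N), pre P ≤ I := by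
  obtain ⟨P, hP⟩ := syl_le (S := I.map (QuotientGroup.mk' N)) (p := p)
    fun e => hp (e.trans (index_map_dvd _ (QuotientGroup.mk'_surjective N)))
  exact ⟨P, (pre_le_iff h).2 hP⟩

theorem uq_syl [Finite G] [Group.IsSolvable G] {N I : Subgroup G} [N.Normal] (h : N ≤ I) {p : ℕ}
    [hp : Fact p.Prime] (hd : ∀ β, IsIrrCharacter I β → N.subgroupOf I ≤ charKer β →
      ¬ p ∣ charDegree β) {P P' : Sylow p (G ⧸ N)} (h1 : pre P ≤ I) (h2 : pre P' ≤ I) :
    P = P' ∧ ⁅pre P, pre P⁆ ≤ N := by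
  rw [pre_le_iff h] at h1 h2
  let f : I ⧸ N.subgroupOf I →* I.map (QuotientGroup.mk' N) :=
    QuotientGroup.lift _ ((QuotientGroup.mk' N).subgroupMap I) fun x hx =>
      Subtype.ext ((QuotientGroup.eq_one_iff _).2 hx)
  have hf : Function.Surjective f := fun y => by
    obtain ⟨x, rfl⟩ := (QuotientGroup.mk' N).subgroupMap_surjective I y
    exact ⟨x, rfl⟩
  obtain ⟨n, c⟩ := ito_sylow_normal (isPSolvable_of_isSolvable hp.out _ inferInstance) (fun d hd' => by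
    obtain ⟨β, b1, b2, rfl⟩ := (mem_cd_quotient_iff _).1 (cd_subset_of_surjective f hf hd')
    exact hd β b1 b2) (P.subtype h1)
  have := Sylow.unique_of_normal _ n
  refine ⟨Sylow.subtype_injective (Subsingleton.elim (P.subtype h1) (P'.subtype h2)),
    commutator_le.2 fun a ha b hb => ?_⟩
  rw [← QuotientGroup.eq_one_iff]
  exact (map_commutatorElement (QuotientGroup.mk' N) a b).trans
    (commutatorElement_eq_one_iff_mul_comm.2
      (congrArg Subtype.val (c ⟨_, h1 ha⟩ ha ⟨_, h1 hb⟩ hb)))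

/-- the action of `G / N` on the linear characters of `A` -/
@[reducible] noncomputable def act (A N : Subgroup G) [A.Normal] [N.Normal]
    (h : ∀ n ∈ N, ∀ μ : Lin A, conjHom A n μ = μ) : DistribMulAction (G ⧸ N) (Additive (Lin A)) where
  smul x μ := Quotient.liftOn' x (fun g => Additive.ofMul (conjHom A g⁻¹ μ.toMul)) fun a b e => by
    have e1 : a * (a⁻¹ * b)⁻¹ * a⁻¹ ∈ N :=
      ‹N.Normal›.conj_mem _ (inv_mem (QuotientGroup.leftRel_apply.1 e)) a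
    have e2 : b⁻¹ = (a⁻¹ * b)⁻¹ * a⁻¹ := by group
    rw [e2, ← conjHom_conjHom, h _ (inv_mem (QuotientGroup.leftRel_apply.1 e))]
  one_smul μ := by
    change Additive.ofMul (conjHom A (1 : G)⁻¹ μ.toMul) = μ
    rw [inv_one, conjHom_one]; rfl
  mul_smul x y μ := by
    obtain ⟨x, rfl⟩ := QuotientGroup.mk_surjective x
    obtain ⟨y, rfl⟩ := QuotientGroup.mk_surjective y
    change Additive.ofMul (conjHom A (x * y)⁻¹ μ.toMul) =
      Additive.ofMul (conjHom A x⁻¹ (conjHom A y⁻¹ μ.toMul))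
    rw [conjHom_conjHom, mul_inv_rev]
  smul_zero x := by
    obtain ⟨x, rfl⟩ := QuotientGroup.mk_surjective x
    exact congrArg Additive.ofMul (map_one (conjHom A x⁻¹))
  smul_add x μ ν := by
    obtain ⟨x, rfl⟩ := QuotientGroup.mk_surjective x
    exact congrArg Additive.ofMul (map_mul (conjHom A x⁻¹) μ.toMul ν.toMul)

theorem act_fix {A N : Subgroup G} [A.Normal] [N.Normal]
    (h : ∀ n ∈ N, ∀ μ : Lin A, conjHom A n μ = μ) {p : ℕ} (P : Sylow p (G ⧸ N))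
    (μ : Additive (Lin A)) : (letI := act A N h; ∀ g ∈ (P : Subgroup (G ⧸ N)), g • μ = μ) ↔
      pre P ≤ H14.inertia A (lin μ.toMul) := by
  refine ⟨fun e g hg => mem_inertia_lin A |>.2 ?_, fun e x hx => ?_⟩
  · have : Additive.ofMul (conjHom A g⁻¹⁻¹ μ.toMul) = μ := e _ (mem_pre.1 (inv_mem hg))
    rw [inv_inv] at this
    exact congrArg Additive.toMul this
  · obtain ⟨g, rfl⟩ := QuotientGroup.mk_surjective x
    exact congrArg Additive.ofMul ((mem_inertia_lin A).1 (e (inv_mem (mem_pre.2 hx))))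

/-- each non-trivial linear character of `W` is fixed by a unique Sylow `p`-subgroup of `G / N`,
and this subgroup is abelian -/
def Good (p : ℕ) (W N : Subgroup G) [W.Normal] [N.Normal] : Prop :=
  ∀ μ : Lin W, μ ≠ 1 → (∃ P : Sylow p (G ⧸ N), pre P ≤ H14.inertia W (lin μ)) ∧
    ∀ P P' : Sylow p (G ⧸ N), pre P ≤ H14.inertia W (lin μ) → pre P' ≤ H14.inertia W (lin μ) →
      P = P' ∧ ⁅pre P, pre P⁆ ≤ N

/-- all Sylow `p`-subgroups of `G / N` act trivially -/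
def Tv (p : ℕ) (W N : Subgroup G) [W.Normal] [N.Normal] : Prop :=
  ∀ (P : Sylow p (G ⧸ N)) (μ : Lin W), pre P ≤ H14.inertia W (lin μ)

theorem Good.uq {p : ℕ} {W N : Subgroup G} [W.Normal] [N.Normal] (g : Good p W N)
    (h : ∀ n ∈ N, ∀ μ : Lin W, conjHom W n μ = μ) :
    letI := act W N h; Uq p (G ⧸ N) (Additive (Lin W)) := by
  intro v hv
  obtain ⟨⟨P, hP⟩, h2⟩ := g v.toMul hv
  exact ⟨P, (act_fix h P v).2 hP, fun P' hP' => (h2 P' P ((act_fix h P' v).1 hP') hP).1⟩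

theorem card_lin_dvd [Finite G] (W : Subgroup G) : Nat.card (Lin W) ∣ Nat.card W :=
  card_Lin W ▸ index_dvd_card _

theorem tv_or (m : MStmt.{u}) [Finite G] [Group.IsSolvable G] {p q s : ℕ} [Fact p.Prime]
    [Fact q.Prime] [hs : Fact s.Prime] (hpq : p ≠ q) {W N : Subgroup G} [W.Normal] [N.Normal]
    (hW : IsPGroup s W) (h : ∀ n ∈ N, ∀ μ : Lin W, conjHom W n μ = μ) (gp : Good p W N)
    (gq : Good q W N) (hn : ∀ d ∈ charDegrees G, ¬ p * q ∣ d) : Tv p W N ∨ Tv q W N := by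
  letI := act W N h
  by_contra hc
  rw [not_or, Tv, Tv] at hc
  push Not at hc
  obtain ⟨⟨P, μ, h1⟩, Q, ν, h2⟩ := hc
  obtain ⟨k, hk⟩ := hW.exists_card_eq
  obtain ⟨j, -, hj⟩ := (Nat.dvd_prime_pow hs.out).1 (hk ▸ card_lin_dvd W)
  have h3 := mt (act_fix h P (Additive.ofMul μ)).1 h1
  have h4 := mt (act_fix h Q (Additive.ofMul ν)).1 h2
  push Not at h3 h4
  obtain ⟨d, d1, d2⟩ := m (G ⧸ N) (Additive (Lin W)) s j p q hs.out hj hpq (gp.uq h) (gq.uq h)
    ⟨P, h3.imp fun _ e => ⟨e.1, _, e.2⟩⟩ ⟨Q, h4.imp fun _ e => ⟨e.1, _, e.2⟩⟩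
  exact hn d (cd_quotient_subset N d1) d2

theorem Tv.out [Finite G] [Group.IsSolvable G] {p : ℕ} [Fact p.Prime] {W N : Subgroup G} [W.Normal]
    [N.Normal] (t : Tv p W N) (g : Good p W N) (h0 : W ≠ ⊥) (hab : ∀ a ∈ W, ∀ b ∈ W, a * b = b * a)
    (P : Sylow p (G ⧸ N)) : (∀ P' : Sylow p (G ⧸ N), P' = P) ∧ (pre P).Normal ∧
      ⁅pre P, pre P⁆ ≤ N ∧ ∀ x ∈ pre P, ∀ w ∈ W, x * w = w * x := by
  obtain ⟨μ, hμ⟩ := exists_lin_ne h0
  have h1 : ∀ P' : Sylow p (G ⧸ N), P' = P := fun P' => ((g μ hμ).2 P' P (t _ _) (t _ _)).1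
  have : Subsingleton (Sylow p (G ⧸ N)) := ⟨fun a b => (h1 a).trans (h1 b).symm⟩
  exact ⟨h1, (P.normal_of_subsingleton).comap _, ((g μ hμ).2 P P (t _ _) (t _ _)).2,
    fun x hx w hw => comm_of_forall_conjHom W hab (fun ν => (mem_inertia_lin W).1 (t P ν hx)) hw⟩

end Cfsg.Agent.H4.Pf
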