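import Cfsg.Agent.H4.PfA
import Cfsg.Agent.H24.PKer

/-!
Pálfy's theorem, reduction II: the minimal normal subgroup has order prime to `r`.
-/

set_option autoImplicit false

namespace Cfsg.Agent.H4.Pf

open Cfsg Subgroup H24 H11 H26.ND
open scoped commutatorElement

universe u

variable {G : Type u} [Group G]

theorem syl_sup [Finite G] [Group.IsSolvable G] {r : ℕ} [hr : Fact r.Prime] (W : Subgroup G)
    [W.Normal] (h : ∀ d ∈ charDegrees (G ⧸ W), ¬ r ∣ d) (R : Sylow r G) :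
    ((R : Subgroup G) ⊔ W).Normal ∧ ⁅(R : Subgroup G), (R : Subgroup G)⁆ ≤ W := by
  obtain ⟨n, c⟩ := ito_sylow_normal (isPSolvable_of_isSolvable hr.out _ inferInstance) h
    (R.mapSurjective (QuotientGroup.mk'_surjective W))
  have := n.comap (QuotientGroup.mk' W)
  rw [Sylow.coe_mapSurjective, comap_map_eq, QuotientGroup.ker_mk'] at this
  refine ⟨this, commutator_le.2 fun a ha b hb => ?_⟩
  rw [← QuotientGroup.eq_one_iff]
  exact (map_commutatorElement (QuotientGroup.mk' W) a b).trans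
    (commutatorElement_eq_one_iff_mul_comm.2 (c _ ⟨a, ha, rfl⟩ _ ⟨b, hb, rfl⟩))

theorem good_of [Finite G] [Group.IsSolvable G] {l : ℕ} [Fact l.Prime] {W N : Subgroup G}
    [W.Normal] [N.Normal] (h : ∀ μ : Lin W, μ ≠ 1 → N ≤ H14.inertia W (lin μ) ∧
      ¬ l ∣ (H14.inertia W (lin μ)).index ∧ ∃ I : Subgroup G, H14.inertia W (lin μ) ≤ I ∧
      ∀ β, IsIrrCharacter I β → N.subgroupOf I ≤ charKer β → ¬ l ∣ charDegree β) : Good l W N := by
  intro μ hμ
  obtain ⟨h1, h2, I, h3, h4⟩ := h μ hμ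
  exact ⟨ex_syl h1 h2, fun P P' a b => uq_syl (h1.trans h3) h4 (a.trans h3) (b.trans h3)⟩

theorem caseB (m : MStmt.{u}) [Finite G] [Group.IsSolvable G] {p q r s : ℕ} [hp : Fact p.Prime]
    [hq : Fact q.Prime] [hr : Fact r.Prime] [Fact s.Prime] (hpq : p ≠ q) (hqr : q ≠ r) (hpr : p ≠ r)
    (hsr : s ≠ r) {W : Subgroup G} [hW : W.Normal] (h0 : W ≠ ⊥)
    (hmin : ∀ L : Subgroup G, L.Normal → L ≤ W → L = ⊥ ∨ L = W)
    (hab : ∀ a ∈ W, ∀ b ∈ W, a * b = b * a) (hs : IsPGroup s W)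
    (h : ∀ d ∈ charDegrees (G ⧸ W), ¬ r ∣ d) (ρp : ∃ d ∈ charDegrees G, p ∣ d)
    (ρq : ∃ d ∈ charDegrees G, q ∣ d) (ρr : ∃ d ∈ charDegrees G, r ∣ d)
    (n1 : ∀ d ∈ charDegrees G, ¬ p * q ∣ d) (n2 : ∀ d ∈ charDegrees G, ¬ q * r ∣ d)
    (n3 : ∀ d ∈ charDegrees G, ¬ p * r ∣ d) : False := by
  have dj : ∀ R : Sylow r G, ∀ x ∈ W, x ∈ (R : Subgroup G) → x = 1 := fun R x a b =>
    disjoint_def.1 (IsPGroup.disjoint_of_ne s r hsr _ _ hs R.isPGroup') a b
  have fr : ∀ (R : Sylow r G) (g : G), ∃ a ∈ W, ∃ y ∈ normalizer (R : Set G), g = a * y := by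
    intro R g
    have := (syl_sup W h R).1
    have h1 := Sylow.normalizer_sup_eq_top' R (N := (R : Subgroup G) ⊔ W) le_sup_left
    rw [← sup_assoc, sup_of_le_left (show (R : Subgroup G) ≤ normalizer (R : Set G) from
      le_normalizer), sup_comm] at h1
    have h2 := mem_top g
    rw [← h1] at h2
    obtain ⟨a, ha, y, hy, e⟩ := mem_sup_of_normal_left.1 h2
    exact ⟨a, ha, y, hy, e.symm⟩
  have ce : ∀ R : Sylow r G, W ⊓ centralizer ((R : Subgroup G) : Set G) = ⊥ := by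
    intro R
    refine (hmin (W ⊓ centralizer ((R : Subgroup G) : Set G)) ⟨fun w hw g =>
      mem_inf.2 ⟨hW.conj_mem w hw.1 g, ?_⟩⟩ inf_le_left).resolve_right fun e => ?_
    · obtain ⟨a, ha, y, hy, rfl⟩ := fr R g
      have h1 : y * w * y⁻¹ ∈ centralizer ((R : Subgroup G) : Set G) := fun x hx => by
        have := hw.2 _ ((mem_normalizer_iff''.1 hy x).1 hx)
        calc _ = y * (y⁻¹ * x * y * w) * y⁻¹ := by group
          _ = _ := by rw [this]; group
      have h2 : a * y * w * (a * y)⁻¹ = y * w * y⁻¹ := by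
        calc _ = a * (y * w * y⁻¹) * a⁻¹ := by group
          _ = _ := by rw [hab a ha _ (hW.conj_mem w hw.1 y), mul_inv_cancel_right]
      exact h2 ▸ h1
    · have : (R : Subgroup G).Normal := ⟨fun x hx g => by
        obtain ⟨a, ha, y, hy, rfl⟩ := fr R g
        have h1 := (mem_normalizer_iff.1 hy x).1 hx
        have h2 : a ∈ centralizer ((R : Subgroup G) : Set G) := (e.ge ha).2
        have h3 : a * y * x * (a * y)⁻¹ = y * x * y⁻¹ := by
          calc _ = a * (y * x * y⁻¹) * a⁻¹ := by group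
            _ = _ := by rw [← h2 _ h1, mul_inv_cancel_right]
        exact h3 ▸ h1⟩
      obtain ⟨d, d1, d2⟩ := ρr
      exact not_dvd_cd_of_normal_abelian (R : Subgroup G) (fun x hx y hy =>
        commutatorElement_eq_one_iff_mul_comm.1 (dj R _
          ((syl_sup W h R).2 (commutator_mem_commutator hx hy))
          (mul_mem (mul_mem (mul_mem hx hy) (inv_mem hx)) (inv_mem hy)))) R.not_dvd_index d d1 d2
  obtain ⟨R⟩ : Nonempty (Sylow r G) := inferInstance
  have cp : W ⊓ normalizer (R : Set G) = ⊥ := by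
    refine eq_bot_iff.2 (ce R ▸ fun w hw => ⟨hw.1, fun x hx => ?_⟩)
    exact (commutatorElement_eq_one_iff_mul_comm.1 (dj R ⁅w, x⁆ (cm_mem' W x hw.1)
      (mul_mem ((mem_normalizer_iff.1 hw.2 x).1 hx) (inv_mem hx)))).symm
  have hWI : ∀ μ : Lin W, W ≤ H14.inertia W (lin μ) := fun μ n hn =>
    (mem_inertia_lin W).2 (conjHom_of_mem W hn μ)
  have gd : ∀ (l : ℕ) [Fact l.Prime], l ≠ r → (∀ d ∈ charDegrees G, ¬ l * r ∣ d) → Good l W W := by
    intro l hl hlr n
    refine good_of fun μ hμ => ?_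
    have h1 : r ∣ (H14.inertia W (lin μ)).index := by
      by_contra e
      obtain ⟨R', hR'⟩ := syl_le e
      refine hμ (lin_injective ((eq_one_of_inv_of_inf_centralizer_eq_bot R'.isPGroup'
        (le_normalizer_of_normal) (ce R') (θ := ⟨lin μ, isIrr_lin μ⟩) ?_).trans (map_one lin).symm))
      intro x hx g g' e
      have := (H14.mem_inertia' W).1 (hR' hx) g
      exact (congrArg (lin μ) (Subtype.ext e)).trans this
    obtain ⟨ψ, hψ⟩ := exists_ext W _ (fr R) cp μ
    have e : (fun n : W => lin ψ ⟨n, hWI μ n.2⟩) = lin μ := funext fun n => by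
      rw [lin_apply, lin_apply, hψ]
    have h2 : ∀ β, IsIrrCharacter (H14.inertia W (lin μ)) β → W.subgroupOf _ ≤ charKer β →
        ¬ l ∣ (H14.inertia W (lin μ)).index * charDegree β := by
      intro β b1 b2 hd
      have := index_mul_mem_cd_of_extension W _ (hWI μ) (isCharacter_of_irr (isIrr_lin ψ))
        (by rw [e]; exact isIrr_lin μ) (by rw [e]) b1 b2
      rw [deg_lin, one_mul] at this
      exact n _ this (((Nat.coprime_primes hl.out hr.out).2 hlr).mul_dvd_of_dvd_of_dvd hd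
        (h1.mul_right _))
    exact ⟨hWI μ, fun hd => h2 (lin 1) (isIrr_lin 1) (by rw [charKer_lin]; exact fun _ _ => rfl)
      (hd.mul_right _), _, le_rfl, fun β b1 b2 hd => h2 β b1 b2 (hd.mul_left _)⟩
  have fin : ∀ (l : ℕ) [Fact l.Prime], Good l W W → Tv l W W → ¬ ∃ d ∈ charDegrees G, l ∣ d := by
    rintro l _ g t ⟨d, d1, d2⟩
    obtain ⟨P⟩ : Nonempty (Sylow l (G ⧸ W)) := inferInstance
    obtain ⟨-, k1, k2, k3⟩ := t.out g h0 hab P
    refine not_dvd_cd_of_normal_abelian (pre P) (fun x hx y hy => ?_) (pre_index P) d d1 d2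
    obtain ⟨a, ha, x, hx', rfl⟩ := fr R x
    obtain ⟨b, hb, y, hy', rfl⟩ := fr R y
    have x1 := (mul_mem_cancel_left (le_pre P ha)).1 hx
    have y1 := (mul_mem_cancel_left (le_pre P hb)).1 hy
    have e : x * y = y * x := commutatorElement_eq_one_iff_mul_comm.1 (mem_bot.1 (cp ▸
      mem_inf.2 ⟨k2 (commutator_mem_commutator x1 y1),
        mul_mem (mul_mem (mul_mem hx' hy') (inv_mem hx')) (inv_mem hy')⟩))
    exact (Commute.mul_left (Commute.mul_right (hab a ha b hb) (k3 y y1 a ha).symm)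
      (Commute.mul_right (k3 x x1 b hb) e)).eq
  have gp := gd p hpr n3
  have gq := gd q hqr n2
  rcases tv_or m hpq hs (fun n hn μ => conjHom_of_mem W hn μ) gp gq n1 with t | t
  exacts [fin p gp t ρp, fin q gq t ρq]

end Cfsg.Agent.H4.Pf
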