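import Cfsg.Agent.H4.PfB
import Cfsg.Agent.H4.CoprimeAction
import Cfsg.Agent.H3.Acd1
import Cfsg.Agent.H1.Nilp
import Cfsg.Agent.S4449

/-!
Pálfy's theorem, reduction III: a normal non-abelian Sylow `r`-subgroup.
-/

set_option autoImplicit false

namespace Cfsg.Agent.H4.Pf

open Cfsg Subgroup H24 H11 H26.ND
open scoped commutatorElement

universe u

variable {G : Type u} [Group G] [Finite G]

theorem cnt_pow {X V : Type u} [Group X] [Finite X] [AddCommGroup V] [Finite V]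
    [DistribMulAction X V] {q r a : ℕ} [Fact q.Prime] (hr : r.Prime) (hV : Nat.card V = r ^ a)
    (h : Uq q X V) : ∃ c, r ^ a - 1 = Nat.card (Sylow q X) * (r ^ c - 1) := by
  obtain ⟨Q⟩ : Nonempty (Sylow q X) := inferInstance
  let F : AddSubgroup V :=
    { carrier := {v | v ∈ (⊤ : AddSubgroup V) ∧ ∀ g ∈ (Q : Subgroup X), g • v = v}
      add_mem' := fun ha hb => ⟨trivial, fun g hg => by rw [smul_add, ha.2 g hg, hb.2 g hg]⟩
      zero_mem' := ⟨trivial, fun g _ => smul_zero g⟩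
      neg_mem' := fun ha => ⟨trivial, fun g hg => by rw [smul_neg, ha.2 g hg]⟩ }
  obtain ⟨c, -, hc⟩ := (Nat.dvd_prime_pow hr).1 (hV ▸ F.card_addSubgroup_dvd_card)
  have := cnt X V q h Q ⊤ fun _ _ _ => trivial
  rw [AddSubgroup.card_top, hV] at this
  exact ⟨c, this.trans (congrArg (fun n => _ * (n - 1)) hc)⟩

/-- a normal Sylow `r`-subgroup -/
structure NS (r : ℕ) (N : Subgroup G) : Prop where
  pG : IsPGroup r N
  idx : ¬ r ∣ N.index

variable [Group.IsSolvable G] {r l : ℕ} [hr : Fact r.Prime] [hl : Fact l.Prime] {N : Subgroup G}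
  [hN : N.Normal]

omit [Group.IsSolvable G] hN in
theorem NS.cop (H : NS r N) : (Nat.card N).Coprime N.index := by
  obtain ⟨k, hk⟩ := H.pG.exists_card_eq
  exact hk ▸ ((Nat.Prime.coprime_iff_not_dvd hr.out).2 H.idx).pow_left k

omit [Group.IsSolvable G] in
theorem NS.nl (H : NS r N) (hlr : l ≠ r) (n : ∀ d ∈ charDegrees G, ¬ l * r ∣ d) {θ : N → ℂ}
    (hθ : IsIrrCharacter N θ) (h1 : charDegree θ ≠ 1) : r ∣ charDegree θ ∧
    ¬ l ∣ (H14.inertia N θ).index ∧ ∀ β, IsIrrCharacter (H14.inertia N θ) β →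
      N.subgroupOf _ ≤ charKer β → ¬ l ∣ charDegree β := by
  obtain ⟨k, hk⟩ := exists_deg_eq_pow_of_isPGroup H.pG hθ
  have h2 : r ∣ charDegree θ := hk ▸ dvd_pow_self r (by rintro rfl; exact h1 hk)
  have c := (Nat.coprime_primes hl.out hr.out).2 hlr
  refine ⟨h2, fun hd => ?_, fun β b1 b2 hd => n _ (index_inertia_mul_mem_cd_of_hall N H.cop hθ b1 b2)
    (c.mul_dvd_of_dvd_of_dvd ((hd.mul_left _).mul_left _) ((h2.mul_right _).mul_left _))⟩
  obtain ⟨d, d1, d2⟩ := index_inertia_dvd_cd N hθ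
  exact n d d1 ((Nat.mul_dvd_mul hd h2).trans d2)

theorem NS.good (H : NS r N) (hlr : l ≠ r) (n : ∀ d ∈ charDegrees G, ¬ l * r ∣ d)
    (hc : ∀ a ∈ N, ∀ w ∈ ⁅N, N⁆, a * w = w * a) : Good l ⁅N, N⁆ N := by
  classical
  have := Fintype.ofFinite G
  refine good_of fun μ hμ => ?_
  have hT : N ≤ H14.inertia _ (lin μ) := fun a ha => (H14.mem_inertia' _).2 fun w =>
    congrArg (lin μ) (Subtype.ext (by simp [hc a ha w w.2]))
  obtain ⟨Y, hY⟩ := exists_right_complement'_of_coprime H.cop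
  obtain ⟨θ, t1, t2⟩ := S4449.result N (Y ⊓ H14.inertia _ (lin μ)) ⁅N, N⁆
    (fun s _ g hg => hN.conj_mem g hg s) (cc_le N)
    (fun g _ w hw => (inferInstance : (⁅N, N⁆ : Subgroup G).Normal).conj_mem w hw g)
    (fun g _ w hw => (inferInstance : (⁅N, N⁆ : Subgroup G).Normal).conj_mem w hw g)
    (H.cop.coprime_dvd_right (hY.symm.index_eq_card ▸ card_dvd_of_le inf_le_left)) inferInstance
    ⟨lin μ, isIrr_lin μ⟩ fun s hs g g' e =>
      (congrArg (lin μ) (Subtype.ext e)).trans ((H14.mem_inertia' _).1 hs.2 g)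
  have h1 : charDegree θ.1 ≠ 1 := by
    intro e
    obtain ⟨ν, hν⟩ := exists_eq_lin (isCharacter_of_irr θ.2) e
    have e2 : (fun w : (⁅N, N⁆ : Subgroup G) => θ.1 ⟨w, cc_le N w.2⟩) = lin 1 := funext fun w => by
      rw [hν, lin_apply, lin_comm ν w.2]; rfl
    exact hμ (lin_injective (irr_eq_of_classInner_ne_zero (isIrr_lin 1) (isIrr_lin μ)
      (e2 ▸ t1))).symm
  obtain ⟨k1, -, k3⟩ := H.nl hlr n θ.2 h1
  refine ⟨hT, fun hd => ?_, _, fun g hg => ?_, k3⟩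
  · obtain ⟨χ, c1, c2⟩ := H14.exists_irr_over N θ.2
    have c3 := index_inertia_mul_deg_dvd _ c1 (isIrr_lin μ) (over_trans (cc_le N)
      (isCharacter_of_irr c1) θ.2 (isCharacter_of_irr (isIrr_lin μ)) c2 t1)
    exact n _ (deg_mem_cd c1) (((Nat.coprime_primes hl.out hr.out).2 hlr).mul_dvd_of_dvd_of_dvd
      ((hd.mul_right _).trans c3) (k1.trans (deg_dvd_of_over _ c1 θ.2 c2)))
  · obtain ⟨⟨a, y⟩, rfl⟩ := hY.2 g
    exact mul_mem (H14.le_inertia N (isClassFunction_of_isCharacter (isCharacter_of_irr θ.2)) a.2)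
      ((H14.mem_inertia' N).2 fun x => t2 y ⟨y.2, (mul_mem_cancel_left (hT a.2)).1 hg⟩ x _ rfl)

omit [Group.IsSolvable G] in
theorem pre_eq {P₀ : Sylow l (G ⧸ N)} (h : ∀ P' : Sylow l (G ⧸ N), P' = P₀) (P : Sylow l G) :
    pre P₀ = (P : Subgroup G) ⊔ N := by
  rw [← h (P.mapSurjective (QuotientGroup.mk'_surjective N)), pre, Sylow.coe_mapSurjective,
    comap_map_eq, QuotientGroup.ker_mk']

omit [Group.IsSolvable G] in
theorem NS.inv (H : NS r N) (hlr : l ≠ r) (n : ∀ d ∈ charDegrees G, ¬ l * r ∣ d)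
    {P₀ : Sylow l (G ⧸ N)} (h : ∀ P' : Sylow l (G ⧸ N), P' = P₀) {θ : N → ℂ}
    (hθ : IsIrrCharacter N θ) (h1 : charDegree θ ≠ 1) : pre P₀ ≤ H14.inertia N θ := by
  obtain ⟨P', hP'⟩ := ex_syl (H14.le_inertia N
    (isClassFunction_of_isCharacter (isCharacter_of_irr hθ))) (H.nl hlr n hθ h1).2.1
  exact h P' ▸ hP'

omit [Group.IsSolvable G] in
theorem NS.moved (H : NS r N) (hlr : l ≠ r) (n : ∀ d ∈ charDegrees G, ¬ l * r ∣ d)
    {P₀ : Sylow l (G ⧸ N)} (h : ∀ P' : Sylow l (G ⧸ N), P' = P₀) [(pre P₀).Normal]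
    (hab : ⁅pre P₀, pre P₀⁆ ≤ N) (ρ : ∃ d ∈ charDegrees G, l ∣ d) :
    ∃ μ : Lin N, ¬ pre P₀ ≤ H14.inertia N (lin μ) := by
  by_contra hc
  push Not at hc
  obtain ⟨P⟩ : Nonempty (Sylow l G) := inferInstance
  have e := pre_eq h P
  have h1 : (P : Subgroup G) ≤ pre P₀ := e ▸ le_sup_left
  obtain ⟨k, hk⟩ := H.pG.exists_card_eq
  have h2 := le_centralizer_of_forall_le_inertia N P.isPGroup'
    (hk ▸ ((Nat.coprime_primes hr.out hl.out).2 hlr.symm).pow_left k) fun θ hθ => by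
      by_cases h3 : charDegree θ = 1
      · obtain ⟨ν, rfl⟩ := exists_eq_lin (isCharacter_of_irr hθ) h3
        exact h1.trans (hc ν)
      · exact h1.trans (H.inv hlr n h hθ h3)
  obtain ⟨d, d1, d2⟩ := ρ
  refine not_dvd_cd_of_normal_abelian (pre P₀ ⊓ centralizer (N : Set G)) (fun x hx y hy => ?_)
    (fun hd => P.not_dvd_index (hd.trans (index_dvd_of_le (le_inf h1 h2)))) d d1 d2
  rw [sup_comm] at e
  obtain ⟨a, ha, x, hx', rfl⟩ := mem_sup_of_normal_left.1 (e.le hx.1)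
  obtain ⟨b, hb, y, hy', rfl⟩ := mem_sup_of_normal_left.1 (e.le hy.1)
  have e1 : x * y = y * x := commutatorElement_eq_one_iff_mul_comm.1
    (disjoint_def.1 (IsPGroup.disjoint_of_ne r l hlr.symm _ _ H.pG P.isPGroup')
      (hab (commutator_mem_commutator (h1 hx') (h1 hy')))
      (mul_mem (mul_mem (mul_mem hx' hy') (inv_mem hx')) (inv_mem hy')))
  exact (Commute.mul_left (hy.2 a ha) (Commute.mul_right (h2 hx' b hb).symm e1)).eq

theorem NS.fixq {p q : ℕ} [hp : Fact p.Prime] [hq : Fact q.Prime] (H : NS r N) (hpq : p ≠ q)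
    (n : ∀ d ∈ charDegrees G, ¬ p * q ∣ d) {P₀ : Sylow p (G ⧸ N)}
    (h : ∀ P' : Sylow p (G ⧸ N), P' = P₀) {μ : Lin N} (hμ : ¬ pre P₀ ≤ H14.inertia N (lin μ)) :
    ∃! Q : Sylow q (G ⧸ N), pre Q ≤ H14.inertia N (lin μ) := by
  have h0 : N ≤ H14.inertia N (lin μ) := fun a ha => (mem_inertia_lin N).2 (conjHom_of_mem N ha μ)
  have h1 : p ∣ (H14.inertia N (lin μ)).index := by
    by_contra e
    obtain ⟨P', hP'⟩ := ex_syl h0 e
    exact hμ (h P' ▸ hP')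
  have c := (Nat.coprime_primes hp.out hq.out).2 hpq
  obtain ⟨d, d1, d2⟩ := index_inertia_dvd_cd N (isIrr_lin μ)
  obtain ⟨Q, hQ⟩ := ex_syl h0 (p := q) fun hd =>
    n d d1 (((c.mul_dvd_of_dvd_of_dvd h1 hd).mul_right _).trans d2)
  exact ⟨Q, hQ, fun Q' hQ' => (uq_syl h0 (fun β b1 b2 hd => n _
    (index_inertia_mul_mem_cd_of_hall N H.cop (isIrr_lin μ) b1 b2)
    (Nat.mul_dvd_mul h1 (hd.mul_left _))) hQ' hQ).1⟩

end Cfsg.Agent.H4.Pf
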