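import Cfsg.Agent.H4.PfC
import Cfsg.Agent.H3.Fitting
import Cfsg.Agent.H2.SchurZassenhaus

/-!
Pálfy's theorem, reduction IV: the case `s = r` and the induction.
-/

set_option autoImplicit false

namespace Cfsg.Agent.H4.Pf

open Cfsg Subgroup H24 H11 H26.ND
open scoped commutatorElement

universe u

variable {G : Type u} [Group G] [Finite G]

theorem NS.last [Group.IsSolvable G] {p q r : ℕ} [hp : Fact p.Prime] [hq : Fact q.Prime]
    [hr : Fact r.Prime] {N : Subgroup G} [hN : N.Normal] (H : NS r N) (hpq : p ≠ q) (hpr : p ≠ r)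
    (n1 : ∀ d ∈ charDegrees G, ¬ p * q ∣ d) (n3 : ∀ d ∈ charDegrees G, ¬ p * r ∣ d)
    (h0 : ⁅N, N⁆ ≠ ⊥) (hc : ∀ a ∈ N, ∀ w ∈ ⁅N, N⁆, a * w = w * a) (gq : Good q ⁅N, N⁆ N)
    (tq : ¬ Tv q ⁅N, N⁆ N) {P₀ : Sylow p (G ⧸ N)} (h : ∀ P' : Sylow p (G ⧸ N), P' = P₀)
    [(pre P₀).Normal] (hw : ∀ x ∈ pre P₀, ∀ w ∈ ⁅N, N⁆, x * w = w * x)
    (hm : ∃ μ : Lin N, ¬ pre P₀ ≤ H14.inertia N (lin μ)) : False := by
  set W := ⁅N, N⁆ with hW
  obtain ⟨P⟩ : Nonempty (Sylow p G) := inferInstance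
  have e := pre_eq h P
  have hP : (P : Subgroup G) ≤ pre P₀ := e ▸ le_sup_left
  have := (inferInstance : (pre P₀).Normal).map _ (QuotientGroup.mk'_surjective W)
  let C : Subgroup G := N ⊓ (centralizer ((pre P₀).map (QuotientGroup.mk' W) : Set (G ⧸ W))).comap
    (QuotientGroup.mk' W)
  have hC : ∀ y, y ∈ C ↔ y ∈ N ∧ ∀ g ∈ pre P₀, ⁅g, y⁆ ∈ W := by
    intro y
    refine and_congr_right fun _ => ⟨fun e g hg => ?_, fun e => ?_⟩
    · rw [← QuotientGroup.eq_one_iff]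
      exact (map_commutatorElement (QuotientGroup.mk' W) g y).trans
        (commutatorElement_eq_one_iff_mul_comm.2 (e _ ⟨g, hg, rfl⟩))
    · rintro _ ⟨g, hg, rfl⟩
      exact commutatorElement_eq_one_iff_mul_comm.1 ((map_commutatorElement _ g y).symm.trans
        ((QuotientGroup.eq_one_iff _).2 (e g hg)))
  have WC : W ≤ C := fun w h1 => (hC w).2 ⟨cc_le N h1, fun g _ => cm_mem W g h1⟩
  obtain ⟨k, hk⟩ := H.pG.exists_card_eq
  have cop : ⁅N, (P : Subgroup G)⁆ ⊔ N ⊓ centralizer ((P : Subgroup G) : Set G) = N := by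
    obtain ⟨j, hj⟩ := P.isPGroup'.exists_card_eq
    exact commutator_sup_centralizer le_normalizer_of_normal
      (hj ▸ hk ▸ ((Nat.coprime_primes hp.out hr.out).2 hpr).pow j k) (Or.inl inferInstance)
  have cC : N ⊓ centralizer ((P : Subgroup G) : Set G) ≤ C := fun y hy => (hC y).2 ⟨hy.1, fun g hg =>
    (mk_comm_iff W y g).1 ((e.le.trans (sup_le (fun a ha => (mk_comm_iff W y a).2 (by
      rw [commutatorElement_eq_one_iff_mul_comm.2 (hy.2 a ha)]; exact one_mem _))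
      fun a ha => (mk_comm_iff W y a).2 (commutator_mem_commutator ha hy.1))) hg)⟩
  obtain ⟨y, hy, g, hg, hx⟩ : ∃ y ∈ N, ∃ g ∈ (P : Subgroup G), ⁅y, g⁆ ∉ C := by
    by_contra hn
    push Not at hn
    have h1 : N ≤ C := cop.ge.trans (sup_le (commutator_le.2 hn) cC)
    obtain ⟨μ, hμ⟩ := hm
    refine hμ fun g hg => (mem_inertia_lin N).2 (mul_inv_eq_one.1 (Lin.ext fun a => ?_))
    rw [← lin_cm N μ g a.2]
    exact lin_comm μ (((hC a).1 (h1 a.2)).2 g hg) _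
  have xN : ⁅y, g⁆ ∈ N := cm_mem' N g hy
  have van : ∀ θ, IsIrrCharacter N θ → charDegree θ ≠ 1 → ∀ x : N, (x : G) ∉ C → θ x = 0 := by
    intro θ hθ h1 x hx
    by_contra h2
    refine hx ((hC x).2 ⟨x.2, fun a ha => lin_sep (cm_mem N a x.2) fun μ => ?_⟩)
    have h3 := (H14.mem_inertia' N).1 (H.inv hpr n3 h hθ h1 ha) x
    have h4 := (H14.mem_inertia' N).1 (H.inv hpr n3 h (isIrr_lin_mul μ hθ)
      (by rwa [deg_lin_mul]) ha) x
    rw [Pi.mul_apply, Pi.mul_apply, h3, mul_left_inj' h2, lin_apply, lin_apply, Units.val_inj] at h4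
    rw [lin_cm N μ a x.2, Lin.mul_apply, Lin.inv_apply, conjHom_apply, h4, mul_inv_cancel]
  have CD : C ≤ N ⊓ centralizer {⁅y, g⁆} := fun c h1 => ⟨h1.1, mem_centralizer_singleton_iff.2 (by
    obtain ⟨c1, c2⟩ := (hC c).1 h1
    have h2 := hw g (hP hg) _ (commutator_mem_commutator (inv_mem hy) c1)
    have h3 := hc _ (hN.conj_mem _ (inv_mem hy) g) _ (c2 g (hP hg))
    have h4 := hc _ c1 _ (c2 g (hP hg))
    generalize hz : ⁅g, c⁆ = z at h3 h4
    have h5 : g * c * g⁻¹ = z * c := by rw [← hz, commutatorElement_def]; group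
    have h6 : g * y⁻¹ * g⁻¹ * c * (g * y⁻¹ * g⁻¹)⁻¹ = y⁻¹ * c * y := by
      calc _ = z⁻¹ * (z * (g * y⁻¹ * g⁻¹)) * c * (g * y⁻¹ * g⁻¹)⁻¹ := by group
        _ = z⁻¹ * ((g * y⁻¹ * g⁻¹) * (z * c) * (g * y⁻¹ * g⁻¹)⁻¹ * (z * c)⁻¹) * (z * c) := by
            rw [← h3]; group
        _ = z⁻¹ * (g * ⁅y⁻¹, c⁆ * g⁻¹) * (z * c) := by rw [← h5, commutatorElement_def]; group
        _ = z⁻¹ * ⁅y⁻¹, c⁆ * z * c := by rw [h2]; group
        _ = _ := by
          rw [mul_assoc z⁻¹, ← hc z (cc_le N (hz ▸ c2 g (hP hg))) _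
            (commutator_mem_commutator (inv_mem hy) c1), commutatorElement_def]; group
    calc _ = y * (y⁻¹ * c * y) * (g * y⁻¹ * g⁻¹) := by rw [commutatorElement_def]; group
      _ = _ := by rw [← h6, commutatorElement_def]; group)⟩
  have c1 : Nat.card W ≤ (N ⊓ centralizer {⁅y, g⁆}).relIndex N := by
    choose f f1 f2 using fun w : W => camina WC van xN hx w.2
    refine Nat.card_le_card_of_injective (fun w => ((⟨f w, f1 w⟩ : N) : N ⧸ subgroupOf _ N))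
      fun a b e => Subtype.ext (mul_left_cancel (a := ⁅y, g⁆) ?_)
    have := mem_centralizer_singleton_iff.1 (QuotientGroup.eq.1 e).2
    rw [← f2, ← f2]
    change (f a)⁻¹ * f b * ⁅y, g⁆ = ⁅y, g⁆ * ((f a)⁻¹ * f b) at this
    calc _ = f a * (⁅y, g⁆ * ((f a)⁻¹ * f b)) * (f b)⁻¹ := by group
      _ = _ := by rw [← this]; group
  have c2 : Nat.card (Lin W) < C.relIndex N := by
    by_contra e
    exact hx (le_of_relIndex_le CD inf_le_left ((not_lt.1 e).trans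
      ((Nat.le_of_dvd Nat.card_pos (card_lin_dvd W)).trans c1))
      ⟨xN, mem_centralizer_singleton_iff.2 rfl⟩)
  have a1 : ∀ n ∈ N, ∀ μ : Lin W, conjHom W n μ = μ := fun a ha μ => Lin.ext fun w => by
    rw [conjHom_apply]
    exact congrArg μ.hom (Subtype.ext (by simp [hc a ha w w.2]))
  have a2 : ∀ n ∈ N, ∀ μ : Lin N, conjHom N n μ = μ := fun a ha μ => conjHom_of_mem N ha μ
  obtain ⟨b, -, hb⟩ := (Nat.dvd_prime_pow hr.out).1
    (hk ▸ (card_lin_dvd W).trans (card_dvd_of_le (cc_le N)))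
  obtain ⟨a, -, ha⟩ := (Nat.dvd_prime_pow hr.out).1 (hk ▸ relIndex_dvd_card C N)
  obtain ⟨d, hd⟩ := (letI := act W N a1; cnt_pow (V := Additive (Lin W)) hr.out hb (gq.uq a1))
  letI := act N N a2
  have hB : H12.RO.Inv (G ⧸ N) (linOver (C.subgroupOf N)).toAddSubgroup := by
    intro x μ hμ
    obtain ⟨x, rfl⟩ := QuotientGroup.mk_surjective x
    exact conjHom_mem_linOver x⁻¹ hμ
  letI := H12.RO.subAct hB
  obtain ⟨c, hc'⟩ := cnt_pow (X := G ⧸ N) (V := (linOver (C.subgroupOf N)).toAddSubgroup) (q := q)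
    (a := a) hr.out (by
      refine (H3.Acd.card_linOver (C.subgroupOf N)).trans ?_
      rw [sup_of_le_right (commutator_le_subgroupOf_iff.2 WC)]
      exact ha) fun v hv => by
      have h1 : ¬ pre P₀ ≤ H14.inertia N (lin v.1.toMul) := fun e1 => hv (Subtype.ext (by
        have h2 : N ≤ v.1.toMul.hom.ker.map N.subtype := by
          refine cop.ge.trans (sup_le (commutator_le.2 fun s hs t ht => ?_) fun s hs =>
            ⟨⟨s, hs.1⟩, v.2 (cC hs), rfl⟩)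
          refine (inv_mem_iff).1 ⟨⟨⁅t, s⁆, cm_mem N t hs⟩, ?_, (commutatorElement_inv s t).symm⟩
          change v.1.toMul.hom _ = 1
          rw [lin_cm N _ t hs, (mem_inertia_lin N).1 (e1 (hP ht)), mul_inv_cancel]; rfl
        refine Lin.ext fun s => ?_
        obtain ⟨t, ht, e2⟩ := h2 s.2
        exact (Subtype.ext e2 : t = s) ▸ ht))
      obtain ⟨Q, q1, q2⟩ := H.fixq hpq n1 h h1
      exact ⟨Q, fun x hx => Subtype.ext ((act_fix a2 Q v.1).2 q1 x hx), fun Q' hQ' =>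
        q2 Q' ((act_fix a2 Q' v.1).1 fun x hx => congrArg Subtype.val (hQ' x hx))⟩
  obtain ⟨μ, hμ⟩ := exists_lin_ne h0
  have b0 : 1 < Nat.card (Lin W) := Finite.one_lt_card_iff_nontrivial.2 ⟨μ, 1, hμ⟩
  refine arith hr.out (Nat.pos_of_ne_zero (by rintro rfl; exact b0.ne' hb))
    ((Nat.pow_lt_pow_iff_right hr.out.one_lt).1 (ha ▸ hb ▸ c2)) ?_ hc' hd
  refine Finite.one_lt_card_iff_nontrivial.2 (not_subsingleton_iff_nontrivial.1 fun s => tq ?_)
  intro Q ν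
  by_cases hν : ν = 1
  · exact fun x _ => (mem_inertia_lin W).2 (by rw [hν, map_one])
  obtain ⟨Q', hQ'⟩ := (gq ν hν).1
  exact Subsingleton.elim Q' Q ▸ hQ'

theorem caseA (m : MStmt.{u}) [Group.IsSolvable G] {p q r : ℕ} [hp : Fact p.Prime]
    [hq : Fact q.Prime] [hr : Fact r.Prime] (hpq : p ≠ q) (hqr : q ≠ r) (hpr : p ≠ r)
    {W : Subgroup G} [hW : W.Normal] (h0 : W ≠ ⊥)
    (hmin : ∀ L : Subgroup G, L.Normal → L ≤ W → L = ⊥ ∨ L = W)
    (hab : ∀ a ∈ W, ∀ b ∈ W, a * b = b * a) (hs : IsPGroup r W)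
    (h : ∀ d ∈ charDegrees (G ⧸ W), ¬ r ∣ d) (ρp : ∃ d ∈ charDegrees G, p ∣ d)
    (ρq : ∃ d ∈ charDegrees G, q ∣ d) (ρr : ∃ d ∈ charDegrees G, r ∣ d)
    (n1 : ∀ d ∈ charDegrees G, ¬ p * q ∣ d) (n2 : ∀ d ∈ charDegrees G, ¬ q * r ∣ d)
    (n3 : ∀ d ∈ charDegrees G, ¬ p * r ∣ d) : False := by
  obtain ⟨R⟩ : Nonempty (Sylow r G) := inferInstance
  obtain ⟨hN, h1⟩ := syl_sup W h R
  rw [sup_of_le_left (hs.le_sylow_of_normal R)] at hN
  have H : NS r (R : Subgroup G) := ⟨R.isPGroup', R.not_dvd_index⟩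
  generalize (R : Subgroup G) = N at hN h1 H
  obtain rfl : ⁅N, N⁆ = W := (hmin _ inferInstance h1).resolve_left fun e => by
    obtain ⟨d, d1, d2⟩ := ρr
    exact not_dvd_cd_of_normal_abelian N (fun x hx y hy => commutatorElement_eq_one_iff_mul_comm.1
      (mem_bot.1 (e ▸ commutator_mem_commutator hx hy))) H.idx d d1 d2
  have hc : ∀ a ∈ N, ∀ w ∈ ⁅N, N⁆, a * w = w * a := fun a ha w hw =>
    (((hmin (⁅N, N⁆ ⊓ centralizer (N : Set G)) inferInstance inf_le_left).resolve_left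
      (H1.inf_centralizer_ne_bot_of_isPGroup hs H.pG le_normalizer_of_normal h0)).ge hw).2 a ha
  have gp := H.good hpr n3 hc
  have gq := H.good hqr n2 hc
  have n1' : ∀ d ∈ charDegrees G, ¬ q * p ∣ d := mul_comm p q ▸ n1
  obtain ⟨P⟩ : Nonempty (Sylow p (G ⧸ N)) := inferInstance
  obtain ⟨Q⟩ : Nonempty (Sylow q (G ⧸ N)) := inferInstance
  by_cases tp : Tv p ⁅N, N⁆ N <;> by_cases tq : Tv q ⁅N, N⁆ N
  · obtain ⟨p1, p2, p3, -⟩ := tp.out gp h0 hab P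
    obtain ⟨q1, q2, q3, -⟩ := tq.out gq h0 hab Q
    obtain ⟨μ, hμ⟩ := H.moved hpr n3 p1 p3 ρp
    obtain ⟨ν, hν⟩ := H.moved hqr n2 q1 q3 ρq
    have key : ∀ κ : Lin N, ¬ pre P ≤ H14.inertia N (lin κ) → pre Q ≤ H14.inertia N (lin κ) :=
      fun κ e => by
        obtain ⟨Q', hQ', -⟩ := H.fixq hpq n1 p1 e
        exact q1 Q' ▸ hQ'
    have h2 : pre P ≤ H14.inertia N (lin ν) := by_contra fun e => hν (key ν e)
    refine hν fun x hx => (mem_inertia_lin N).2 ?_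
    have h3 := (mem_inertia_lin N).1 (key (μ * ν) (fun e => hμ fun y hy => (mem_inertia_lin N).2 (by
      have := (mem_inertia_lin N).1 (e hy)
      rwa [map_mul, (mem_inertia_lin N).1 (h2 hy), mul_left_inj] at this)) hx)
    rwa [map_mul, (mem_inertia_lin N).1 (key μ hμ hx), mul_right_inj] at h3
  · obtain ⟨p1, p2, p3, p4⟩ := tp.out gp h0 hab P
    exact H.last hpq hpr n1 n3 h0 hc gq tq p1 p4 (H.moved hpr n3 p1 p3 ρp)
  · obtain ⟨p1, p2, p3, p4⟩ := tq.out gq h0 hab Q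
    exact H.last hpq.symm hqr n1' n2 h0 hc gp tp p1 p4 (H.moved hqr n2 p1 p3 ρq)
  · exact (tv_or m hpq hs (fun a ha μ => Lin.ext fun w => by
      rw [conjHom_apply]
      exact congrArg μ.hom (Subtype.ext (by simp [hc a ha w w.2]))) gp gq n1).elim tp tq

theorem palfy (m : MStmt.{u}) (n : ℕ) : ∀ (G : Type u) [Group G] [Finite G] [Group.IsSolvable G],
    Nat.card G = n → ∀ p q r : ℕ, p.Prime → q.Prime → r.Prime → p ≠ q → q ≠ r → p ≠ r →
    (∃ d ∈ charDegrees G, p ∣ d) → (∃ d ∈ charDegrees G, q ∣ d) → (∃ d ∈ charDegrees G, r ∣ d) →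
    (∀ d ∈ charDegrees G, ¬ p * q ∣ d) → (∀ d ∈ charDegrees G, ¬ q * r ∣ d) →
    (∀ d ∈ charDegrees G, ¬ p * r ∣ d) → False := by
  induction n using Nat.strong_induction_on with
  | _ n ih =>
  intro G _ _ _ hn p q r hp hq hr hpq hqr hpr ρp ρq ρr n1 n2 n3
  have h0 : (⊤ : Subgroup G) ≠ ⊥ := fun e => by
    obtain ⟨d, d1, d2⟩ := ρp
    have := d2.trans (dvd_card_of_mem_cd d1)
    rw [← card_top, e, card_bot] at this
    exact hp.not_dvd_one this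
  obtain ⟨W, s, hs, hW, w0, -, w1, hmin⟩ :=
    H3.exists_minimal_normal_elementary_le (⊤ : Subgroup G) inferInstance h0
  obtain ⟨⟨⟨w2⟩⟩, s, hs, w3⟩ := H2.minimal_normal_solvable W w0 inferInstance hmin
  have hab : ∀ a ∈ W, ∀ b ∈ W, a * b = b * a := fun a ha b hb =>
    congrArg Subtype.val (w2 ⟨a, ha⟩ ⟨b, hb⟩)
  have := Fact.mk hs
  have core : ∀ p q r : ℕ, p.Prime → q.Prime → r.Prime → p ≠ q → q ≠ r → p ≠ r →
      (∃ d ∈ charDegrees G, p ∣ d) → (∃ d ∈ charDegrees G, q ∣ d) → (∃ d ∈ charDegrees G, r ∣ d) →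
      (∀ d ∈ charDegrees G, ¬ p * q ∣ d) → (∀ d ∈ charDegrees G, ¬ q * r ∣ d) →
      (∀ d ∈ charDegrees G, ¬ p * r ∣ d) → ∃ d ∈ charDegrees (G ⧸ W), r ∣ d := by
    intro p q r hp hq hr hpq hqr hpr ρp ρq ρr n1 n2 n3
    have := Fact.mk hp
    have := Fact.mk hq
    have := Fact.mk hr
    by_contra h
    push Not at h
    by_cases hsr : s = r
    · exact caseA m hpq hqr hpr w0 hmin hab (hsr ▸ w3) h ρp ρq ρr n1 n2 n3
    · exact caseB m hpq hqr hpr hsr w0 hmin hab w3 h ρp ρq ρr n1 n2 n3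
  have sub := cd_quotient_subset W
  refine ih _ ?_ (G ⧸ W) rfl p q r hp hq hr hpq hqr hpr
    (core q r p hq hr hp hqr hpr.symm hpq.symm ρq ρr ρp n2 (mul_comm p r ▸ n3) (mul_comm p q ▸ n1))
    (core p r q hp hr hq hpr hqr.symm hpq ρp ρr ρq n3 (mul_comm q r ▸ n2) n1)
    (core p q r hp hq hr hpq hqr hpr ρp ρq ρr n1 n2 n3)
    (fun d hd => n1 d (sub hd)) (fun d hd => n2 d (sub hd)) fun d hd => n3 d (sub hd)
  rw [← hn, ← W.index_mul_card]
  exact lt_mul_of_one_lt_right (Nat.pos_of_ne_zero W.index_ne_zero_of_finite)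
    (W.one_lt_card_iff_ne_bot.2 w0)

end Cfsg.Agent.H4.Pf
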