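import Cfsg.Agent.H4.MwReg
import Cfsg.Agent.H24.Deg

/-!
Pálfy's three primes theorem (S4847): statements of the linear pieces.
Notes: `stubs/notes/h4_palfy.md`.
-/

set_option autoImplicit false

namespace Cfsg.Agent.H4.Pf

open Cfsg Cfsg.Agent.H12.RO

universe u

/-- every non-zero vector is fixed by exactly one Sylow `p`-subgroup -/
def Uq (p : ℕ) (G V : Type*) [Group G] [AddCommGroup V] [DistribMulAction G V] : Prop :=
  ∀ v : V, v ≠ 0 → ∃! P : Sylow p G, ∀ g ∈ (P : Subgroup G), g • v = v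

/-- CNT: the basic count, for every invariant subgroup -/
def CntStmt : Prop :=
  ∀ (G V : Type u) [Group G] [Finite G] [AddCommGroup V] [Finite V] [DistribMulAction G V]
    (p : ℕ) [Fact p.Prime], Uq p G V → ∀ (P : Sylow p G) (A : AddSubgroup V), Inv G A →
    Nat.card A - 1 = Nat.card (Sylow p G) *
      ({v : V | v ∈ A ∧ ∀ g ∈ (P : Subgroup G), g • v = v}.ncard - 1)

/-- N: no non-scalar element of prime order in the symplectic part -/
def NStmt : Prop :=
  ∀ (G V K : Type u) [Group G] [Finite G] [AddCommGroup V] [Finite V] [Nontrivial V]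
    [DistribMulAction G V] [Field K] [Finite K] [Module K V] (σ : G →* RingAut K)
    (U To E : Subgroup G), Str G V K σ U To E → ∀ (p : ℕ) [Fact p.Prime], p ∣ Nat.card G →
    Uq p G V → (∀ P : Sylow p G, (P : Subgroup G) ≤ σ.ker) →
    To ≤ U ∧ ∀ t ∈ E, t ^ 2 = 1 → t ∈ U

/-- M: two primes with the unique Sylow property are adjacent -/
def MStmt : Prop :=
  ∀ (G V : Type u) [Group G] [Finite G] [Group.IsSolvable G] [AddCommGroup V] [Finite V]
    [DistribMulAction G V] (s k p q : ℕ) [Fact p.Prime] [Fact q.Prime], s.Prime →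
    Nat.card V = s ^ k → p ≠ q → Uq p G V → Uq q G V →
    (∃ (P : Sylow p G), ∃ g ∈ (P : Subgroup G), ∃ v : V, g • v ≠ v) →
    (∃ (Q : Sylow q G), ∃ g ∈ (Q : Subgroup G), ∃ v : V, g • v ≠ v) →
    ∃ d ∈ charDegrees G, p * q ∣ d

theorem cnt : CntStmt.{u} := by
  classical
  intro G V _ _ _ _ _ p _ h P A hA
  have := Fintype.ofFinite V
  have := Fintype.ofFinite (Sylow p G)
  let F : Sylow p G → Finset V := fun Q =>
    Finset.univ.filter fun v => v ≠ 0 ∧ v ∈ A ∧ ∀ g ∈ (Q : Subgroup G), g • v = v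
  have h1 : (Finset.univ.filter fun v : V => v ≠ 0 ∧ v ∈ A) = Finset.univ.biUnion F := by
    ext v
    simp only [F, Finset.mem_filter, Finset.mem_univ, true_and, Finset.mem_biUnion]
    exact ⟨fun hv => (h v hv.1).exists.imp fun Q hQ => ⟨hv.1, hv.2, hQ⟩,
      fun ⟨_, hv⟩ => ⟨hv.1, hv.2.1⟩⟩
  have h2 : ∀ Q, (F Q).card = (F P).card := by
    intro Q
    obtain ⟨x, rfl⟩ := MulAction.exists_smul_eq G P Q
    symm
    refine Finset.card_bij' (fun v _ => x • v) (fun v _ => x⁻¹ • v) ?_ ?_ (by simp) (by simp)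
    · intro v hv
      simp only [F, Finset.mem_filter, Finset.mem_univ, true_and] at hv ⊢
      refine ⟨(smul_ne_zero_iff_ne x).2 hv.1, hA x v hv.2.1, ?_⟩
      rintro _ ⟨g, hg, rfl⟩
      change (x * g * x⁻¹) • x • v = _
      rw [mul_smul, inv_smul_smul, mul_smul, hv.2.2 g hg]
    · intro v hv
      simp only [F, Finset.mem_filter, Finset.mem_univ, true_and] at hv ⊢
      refine ⟨(smul_ne_zero_iff_ne _).2 hv.1, hA _ v hv.2.1, fun g hg => ?_⟩
      have : (x * g * x⁻¹) • v = v := hv.2.2 _ ⟨g, hg, rfl⟩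
      rw [mul_smul, mul_smul] at this
      rw [eq_inv_smul_iff, this]
  have h3 : (Finset.univ.filter fun v : V => v ≠ 0 ∧ v ∈ A).card = Nat.card A - 1 := by
    rw [← Set.ncard_coe_finset, show ((Finset.univ.filter fun v : V => v ≠ 0 ∧ v ∈ A : Finset V) :
      Set V) = (A : Set V) \ {0} by ext; simp [and_comm],
      Set.ncard_diff_singleton_of_mem A.zero_mem]
    rfl
  have h4 : (F P).card = {v : V | v ∈ A ∧ ∀ g ∈ (P : Subgroup G), g • v = v}.ncard - 1 := by
    rw [← Set.ncard_coe_finset, show (F P : Set V) =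
      {v : V | v ∈ A ∧ ∀ g ∈ (P : Subgroup G), g • v = v} \ {0} by ext; simp [F]; tauto,
      Set.ncard_diff_singleton_of_mem (by exact ⟨A.zero_mem, fun g _ => smul_zero g⟩)]
  rw [← h3, h1, Finset.card_biUnion, Finset.sum_congr rfl fun Q _ => h2 Q, Finset.sum_const,
    Finset.card_univ, smul_eq_mul, h4, Nat.card_eq_fintype_card]
  intro Q _ Q' _ hne
  refine Finset.disjoint_left.2 fun v h1 h2 => hne ?_
  simp only [F, Finset.mem_filter, Finset.mem_univ, true_and] at h1 h2
  exact (h v h1.1).unique h1.2.2 h2.2.2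

end Cfsg.Agent.H4.Pf
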