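import Cfsg.Agent.H79.RbDefs
import Cfsg.Agent.H11.Basic

/-!
# Integrality of the structure constants of the spin characters
-/

set_option autoImplicit false

open Cfsg Equiv Finset

namespace Cfsg.Agent.H4.RbStr

open Cfsg.Agent.H79.RB

theorem sum_char {G : Type} [Group G] [Fintype G] {χ : G → ℂ} (h : IsCharacter G χ) :
    ∃ m : ℕ, ∑ g, χ g = Nat.card G * m := by
  obtain ⟨n, ρ, rfl⟩ := h
  have hc : (Fintype.card G : ℂ) ≠ 0 := Nat.cast_ne_zero.2 Fintype.card_ne_zero
  letI inv : Invertible (Nat.card G : ℂ) := invertibleOfNonzero (by rwa [Nat.card_eq_fintype_card])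
  refine ⟨Module.finrank ℂ ρ.invariants, ?_⟩
  have := Representation.card_inv_mul_sum_char_eq_finrank ρ
  rw [← this, ← mul_assoc, mul_inv_cancel₀ (by rwa [Nat.card_eq_fintype_card]), one_mul]

/-- The abstract setting. -/
structure St {A B C : Type} [Group A] [Group B] [Group C] (εA : A →* ℤˣ) (εB : B →* ℤˣ)
    (εC : C →* ℤˣ) (i : A →* C) (j : B →* C) (h : C → ℂ) : Prop where
  si : ∀ x, εC (i x) = εA x
  sj : ∀ y, εC (j y) = εB y
  comm : ∀ x y, εA x = 1 ∨ εB y = 1 → Commute (i x) (j y)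
  anti : ∀ x y, εA x = -1 → εB y = -1 → ∀ c, h (j y * i x * c) = -h (i x * j y * c)
  ch : IsCharacter C h

variable {A B C : Type} [Group A] [Group B] [Group C] [Fintype A] [Fintype B]
  {εA : A →* ℤˣ} {εB : B →* ℤˣ} {εC : C →* ℤˣ} {i : A →* C} {j : B →* C} {h : C → ℂ}

omit [Fintype A] [Fintype B] in
theorem St.symm (H : St εA εB εC i j h) : St εB εA εC j i h :=
  ⟨H.sj, H.si, fun y x hh => (H.comm x y hh.symm).symm,
    fun y x hy hx c => by rw [H.anti x y hx hy c, neg_neg], H.ch⟩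

/-- The sum over the pairs of even elements. -/
noncomputable def SS (εA : A →* ℤˣ) (εB : B →* ℤˣ) (i : A →* C) (j : B →* C) (h : C → ℂ)
    (f : A → ℂ) (g : B → ℂ) : ℂ :=
  ∑ x ∈ univ.filter (fun x => εA x = 1), ∑ y ∈ univ.filter (fun y => εB y = 1),
    f x * g y * h (i x * j y)

theorem SS_symm (H : St εA εB εC i j h) (f : A → ℂ) (g : B → ℂ) :
    SS εB εA j i h g f = SS εA εB i j h f g := by
  rw [SS, SS, sum_comm]
  refine sum_congr rfl fun x hx => sum_congr rfl fun y _ => ?_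
  rw [(H.comm x y (Or.inl (mem_filter.1 hx).2)).eq, mul_comm (g y)]

open Classical in
theorem SS_eq (f : A → ℂ) (g : B → ℂ) : SS εA εB i j h f g =
    ∑ x ∈ univ.filter (fun x => εA x = 1), ∑ y : εB.ker, f x * g y * h (i x * j y) := by
  refine sum_congr rfl fun x _ => ?_
  exact sum_subtype _ (by simp [MonoidHom.mem_ker]) fun y => f x * g y * h (i x * j y)

open Classical in
omit [Fintype B] in
theorem avg [Finite B] (H : St εA εB εC i j h) [Fintype εB.ker] {f : A → ℂ} (hf : IsCharacter A f)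
    {g : εB.ker → ℂ} (hg : IsCharacter _ g)
    (h0 : ∀ x, εA x = -1 → ∑ y : εB.ker, f x * g y * h (i x * j y) = 0) :
    ∃ m : ℕ, ∑ x ∈ univ.filter (fun x => εA x = 1), ∑ y : εB.ker, f x * g y * h (i x * j y) =
      (Nat.card A : ℂ) * Nat.card εB.ker * m := by
  let φ : A × εB.ker →* C := MonoidHom.noncommCoprod i (j.comp εB.ker.subtype)
    fun x y => H.comm x y (Or.inr y.2)
  obtain ⟨m, hm⟩ := sum_char (H11.isCharacter_mul (H11.isCharacter_mul
    (H11.isCharacter_comp hf (MonoidHom.fst A εB.ker))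
    (H11.isCharacter_comp hg (MonoidHom.snd A εB.ker))) (H11.isCharacter_comp H.ch φ))
  refine ⟨m, ?_⟩
  rw [Nat.card_prod, Nat.cast_mul, Fintype.sum_prod_type] at hm
  rw [← hm]
  refine sum_subset (filter_subset _ _) fun x _ hx => h0 x ?_
  rcases Int.units_eq_one_or (εA x) with h1 | h1
  · exact absurd (by simpa using h1) hx
  · exact h1

/-- Conjugation on the even part. -/
def cjE (εB : B →* ℤˣ) (s : B) : εB.ker ≃ εB.ker := (MulAut.conjNormal s : MulAut εB.ker).toEquiv

omit [Fintype B] in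
theorem cjE_coe (s : B) (y : εB.ker) : (cjE εB s y : B) = s * y * s⁻¹ := rfl

omit [Fintype B] in
theorem idx {s : B} (hs : εB s = -1) : εB.ker.index = 2 := by
  rw [Subgroup.index_ker, show εB.range = ⊤ from ?_, Subgroup.card_top, Nat.card_eq_fintype_card,
    Fintype.card_units_int]
  rw [eq_top_iff]
  intro u _
  rcases Int.units_eq_one_or u with rfl | rfl
  · exact one_mem _
  · exact ⟨s, hs⟩

theorem two_odd (H : St εA εB εC i j h) {f : A → ℂ} (hf : IsCharacter A f) {g : B → ℂ}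
    (hg : IsCharacter B g) {s : B} (hs : εB s = -1) :
    ∃ m : ℕ, 2 * SS εA εB i j h f g = (Nat.card A : ℂ) * Nat.card B * m := by
  classical
  obtain ⟨m, hm⟩ := avg H hf (H11.isCharacter_comp hg εB.ker.subtype) fun x hx => by
    have h1 : ∑ y : εB.ker, f x * g y * h (i x * j y) =
        -∑ y : εB.ker, f x * g y * h (i x * j y) := by
      conv_lhs => rw [← (cjE εB s).sum_comp]
      rw [← sum_neg_distrib]
      refine sum_congr rfl fun y _ => ?_
      have h2 := H.anti x s hx hs (j y * (j s)⁻¹)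
      have h3 := H11.isClassFunction_of_isCharacter H.ch (i x * j y) (j s)
      rw [cjE_coe, H11.isClassFunction_of_isCharacter hg y s, map_mul, map_mul, map_inv,
        show i x * (j s * j y * (j s)⁻¹) = i x * j s * (j y * (j s)⁻¹) by group,
        ← neg_neg (h (i x * j s * _)), ← h2,
        show j s * i x * (j y * (j s)⁻¹) = j s * (i x * j y) * (j s)⁻¹ by group, h3]
      ring
    have h2 : (2 : ℂ) * ∑ y : εB.ker, f x * g y * h (i x * j y) = 0 := by
      linear_combination h1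
    exact (mul_eq_zero.1 h2).resolve_left two_ne_zero
  refine ⟨m, ?_⟩
  have hc := εB.ker.card_mul_index
  rw [idx hs] at hc
  rw [SS_eq, ← hc]
  simp only [Subgroup.coe_subtype] at hm
  push_cast
  linear_combination 2 * hm

theorem one_ev (h2 : Ix2Stmt) (H : St εA εB εC i j h) {f : A → ℂ} (hf : IsCharacter A f)
    {g : B → ℂ} (hg : IsCharacter B g) (eg : ∀ y, εB y = -1 → g y = 0)
    (e : (∀ x, εA x = -1 → f x = 0) ∨ ∀ c, εC c = -1 → h c = 0) :
    ∃ m : ℕ, SS εA εB i j h f g = (Nat.card A : ℂ) * Nat.card B * m := by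
  classical
  have z : ∀ g' : εB.ker → ℂ, ∀ x, εA x = -1 → ∑ y : εB.ker, f x * g' y * h (i x * j y) = 0 := by
    intro g' x hx
    refine sum_eq_zero fun y _ => ?_
    rcases e with e | e
    · rw [e x hx, zero_mul, zero_mul]
    · rw [e _ (by rw [map_mul, H.si, H.sj, hx, show εB y = 1 from y.2, mul_one]), mul_zero]
  by_cases hs : ∃ s, εB s = -1
  · obtain ⟨s, hs⟩ := hs
    have hn : ∀ y, y ∉ εB.ker ↔ εB y = -1 := fun y => by
      rw [MonoidHom.mem_ker]
      rcases Int.units_eq_one_or (εB y) with h1 | h1 <;> simp [h1]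
    obtain ⟨g1, hg1, hd⟩ := h2 B εB.ker (idx hs) g hg (fun y hy => eg y ((hn y).1 hy)) s
      ((hn s).2 hs)
    obtain ⟨m, hm⟩ := avg H hf hg1 (z g1)
    refine ⟨m, ?_⟩
    have hc := εB.ker.card_mul_index
    rw [idx hs] at hc
    have h3 : SS εA εB i j h f g = 2 * ∑ x ∈ univ.filter (fun x => εA x = 1),
        ∑ y : εB.ker, f x * g1 y * h (i x * j y) := by
      rw [SS_eq, mul_sum]
      refine sum_congr rfl fun x hx => ?_
      have h4 : ∑ y : εB.ker, f x * g1 y * h (i x * j y) =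
          ∑ y : εB.ker, f x * g1 (cjE εB s y) * h (i x * j y) := by
        conv_lhs => rw [← (cjE εB s).sum_comp]
        refine sum_congr rfl fun y _ => ?_
        have h5 := H11.isClassFunction_of_isCharacter H.ch (i x * j y) (j s)
        have c := H.comm x s (Or.inl (mem_filter.1 hx).2)
        rw [cjE_coe, map_mul, map_mul, map_inv, ← h5,
          show i x * (j s * j y * (j s)⁻¹) = i x * j s * (j y * (j s)⁻¹) by group, c.eq]
        congr 2
        group
      rw [two_mul]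
      conv_rhs => lhs; rw [h4]
      rw [← sum_add_distrib]
      refine sum_congr rfl fun y _ => ?_
      rw [hd y (cjE εB s y) rfl]
      ring
    rw [h3, hm, ← hc]
    push_cast
    ring
  · obtain ⟨m, hm⟩ := avg H hf (H11.isCharacter_comp hg εB.ker.subtype) (z _)
    refine ⟨m, ?_⟩
    have ht : εB.ker = ⊤ := by
      rw [eq_top_iff]
      intro y _
      exact (Int.units_eq_one_or (εB y)).resolve_right fun h1 => hs ⟨y, h1⟩
    have hc : Nat.card εB.ker = Nat.card B := by rw [ht, Subgroup.card_top]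
    rw [SS_eq, ← hc]
    exact hm

theorem main (h2 : Ix2Stmt) (H : St εA εB εC i j h) {f : A → ℂ} (hf : IsCharacter A f)
    {g : B → ℂ} (hg : IsCharacter B g) :
    IsInt (2 * (((Nat.card A : ℂ) * Nat.card B)⁻¹ * SS εA εB i j h f g)) ∧
      (((∀ x, εA x = -1 → f x = 0) ∧ ∀ y, εB y = -1 → g y = 0) ∨
        ((∀ x, εA x = -1 → f x = 0) ∧ ∀ c, εC c = -1 → h c = 0) ∨
        ((∀ y, εB y = -1 → g y = 0) ∧ ∀ c, εC c = -1 → h c = 0) →
        IsInt (((Nat.card A : ℂ) * Nat.card B)⁻¹ * SS εA εB i j h f g)) := by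
  have hA : (Nat.card A : ℂ) ≠ 0 := Nat.cast_ne_zero.2 Nat.card_pos.ne'
  have hB : (Nat.card B : ℂ) ≠ 0 := Nat.cast_ne_zero.2 Nat.card_pos.ne'
  constructor
  · by_cases hs : ∃ s, εB s = -1
    · obtain ⟨s, hs⟩ := hs
      obtain ⟨m, hm⟩ := two_odd H hf hg hs
      exact ⟨m, by rw [mul_left_comm, hm]; push_cast; field_simp⟩
    by_cases hr : ∃ s, εA s = -1
    · obtain ⟨s, hs⟩ := hr
      obtain ⟨m, hm⟩ := two_odd H.symm hg hf hs
      exact ⟨m, by rw [mul_left_comm, ← SS_symm H, hm]; push_cast; field_simp⟩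
    obtain ⟨m, hm⟩ := one_ev h2 H hf hg (fun y hy => absurd ⟨y, hy⟩ hs)
      (Or.inl fun x hx => absurd ⟨x, hx⟩ hr)
    exact ⟨2 * m, by rw [hm]; push_cast; field_simp⟩
  · rintro (⟨e1, e2⟩ | ⟨e1, e2⟩ | ⟨e1, e2⟩)
    · obtain ⟨m, hm⟩ := one_ev h2 H hf hg e2 (Or.inl e1)
      exact ⟨m, by rw [hm]; push_cast; field_simp⟩
    · obtain ⟨m, hm⟩ := one_ev h2 H.symm hg hf e1 (Or.inr e2)
      exact ⟨m, by rw [← SS_symm H, hm]; push_cast; field_simp⟩
    · obtain ⟨m, hm⟩ := one_ev h2 H hf hg e1 (Or.inr e2)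
      exact ⟨m, by rw [hm]; push_cast; field_simp⟩

theorem strStmt (hM : MonStmt) (h2 : Ix2Stmt) : StrStmt := by
  intro F a b f g h hf hg hh hs
  have hd : ∀ x y, (F.π (a + b) (F.i1 a b x)).Disjoint (F.π (a + b) (F.i2 a b y)) ∧
      Perm.sign (F.π (a + b) (F.i1 a b x)) = Perm.sign (F.π a x) ∧
      Perm.sign (F.π (a + b) (F.i2 a b y)) = Perm.sign (F.π b y) := fun x y => by
    rw [F.π_i1, F.π_i2]
    exact (hM.2.2.2 a b _ _).2
  have H : St (Perm.sign.comp (F.π a)) (Perm.sign.comp (F.π b)) (Perm.sign.comp (F.π (a + b)))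
      (F.i1 a b) (F.i2 a b) h := by
    refine ⟨fun x => (hd x 1).2.1, fun y => (hd 1 y).2.2, fun x y hxy => ?_,
      fun x y hx hy c => ?_, hh⟩
    · have h1 := F.sc _ _ _ (hd x y).1
      rw [(hd x y).2.1, (hd x y).2.2, if_neg, one_mul] at h1
      · exact h1
      · rintro ⟨h3, h4⟩
        rcases hxy with h5 | h5
        · exact absurd (h3.symm.trans h5) (by decide)
        · exact absurd (h4.symm.trans h5) (by decide)
    · have h1 := F.sc _ _ _ (hd x y).1
      rw [(hd x y).2.1, (hd x y).2.2, if_pos ⟨hx, hy⟩] at h1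
      rw [h1, mul_assoc (F.z _), hs.2, neg_neg]
  exact main h2 H hf hg

end Cfsg.Agent.H4.RbStr
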