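import Cfsg.Agent.H85.Basic
import Cfsg.Agent.H69.Frob
import Cfsg.Agent.S3762

/-! Vectors fixed by no conjugate of an element of a normal `p`-subgroup, `p` odd. -/

set_option autoImplicit false
set_option linter.unusedSectionVars false

namespace Cfsg.Agent.H4.RO

open Subgroup Cfsg.Agent.H85
open scoped commutatorElement

universe u

variable {H : Type*} {V : Type*} [Group H] [CommGroup V] (φ : H →* MulAut V)

/-- fixed points -/
def fx (B : Subgroup H) : Subgroup V where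
  carrier := {v | ∀ b ∈ B, φ b v = v}
  mul_mem' h k b hb := by rw [map_mul, h b hb, k b hb]
  one_mem' b _ := map_one _
  inv_mem' h b hb := by rw [map_inv, h b hb]

/-- the vectors fixed by all conjugates of `a` -/
def fc (a : H) : Subgroup V where
  carrier := {v | ∀ h, φ (h * a * h⁻¹) v = v}
  mul_mem' h k b := by rw [map_mul, h b, k b]
  one_mem' b := map_one _
  inv_mem' h b := by rw [map_inv, h b]

/-- restriction of the action -/
def res (M : Subgroup H) (U : Subgroup V) (h : ∀ m ∈ M, ∀ u ∈ U, φ m u ∈ U) : M →* MulAut U where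
  toFun m :=
    { toFun := fun u => ⟨φ m u, h m m.2 u u.2⟩
      invFun := fun u => ⟨φ m⁻¹ u, h _ (inv_mem m.2) u u.2⟩
      left_inv := fun u => Subtype.ext (by simp)
      right_inv := fun u => Subtype.ext (by simp)
      map_mul' := fun u v => Subtype.ext (by simp) }
  map_one' := by ext; simp
  map_mul' _ _ := by ext; simp

variable {φ}

theorem ap (x y : H) (v : V) : φ x (φ y v) = φ (x * y) v := by simp

theorem fx_cj {B : Subgroup H} {v : V} (hv : v ∈ fx φ B) (h : H) : φ h v ∈ fx φ (cj h B) := by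
  rintro _ ⟨b, hb, rfl⟩
  rw [ap]
  simp [hv b hb]

theorem fc_inv {a : H} {v : V} (hv : v ∈ fc φ a) (g : H) : φ g v ∈ fc φ a := fun h => by
  rw [ap, show h * a * h⁻¹ * g = g * (g⁻¹ * h * a * (g⁻¹ * h)⁻¹) by group, ← ap, hv]

theorem indep {ι : Type*} [Finite ι] (W : ι → Subgroup V)
    (h : ∀ i j, i ≠ j → ∃ x : MulAut V, (∀ k, ∀ v ∈ W k, x v ∈ W k) ∧ (∀ v ∈ W j, x v = v) ∧
      ∀ v ∈ W i, x v = v → v = 1) : iSupIndep W := by
  classical
  intro i
  have key : ∀ s : Finset ι, i ∉ s → ∀ v ∈ W i, v ∈ ⨆ k ∈ s, W k → v = 1 := fun s => by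
    induction s using Finset.induction_on with
    | empty => simp
    | insert j s hj ih =>
      intro hi v h1 h2
      rw [Finset.mem_insert, not_or] at hi
      rw [Finset.iSup_insert, mem_sup] at h2
      obtain ⟨y, hy, z, hz, rfl⟩ := h2
      obtain ⟨x, x1, x2, x3⟩ := h i j hi.1
      have h3 : (⨆ k ∈ s, W k) ≤ (⨆ k ∈ s, W k).comap x.toMonoidHom :=
        iSup₂_le fun k hk v hv => (le_iSup₂ (f := fun k (_ : k ∈ s) => W k) k hk) (x1 k v hv)
      refine x3 _ h1 (mul_inv_eq_one.1 (ih hi.2 _ (mul_mem (x1 i _ h1) (inv_mem h1)) ?_))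
      rw [map_mul, x2 y hy, mul_inv, mul_mul_mul_comm, mul_inv_cancel, one_mul]
      exact mul_mem (h3 hz) (inv_mem hz)
  have := Fintype.ofFinite ι
  refine disjoint_def.2 fun {v} h1 h2 => key (Finset.univ.erase i) (by simp) v h1 ?_
  simpa using h2

/-- the conjugates of `B` -/
abbrev Om (B : Subgroup H) := Set.range fun h : H => cj h B

theorem indep_cj [Finite H] {A B : Subgroup H} [A.Normal] (hA : ∀ x ∈ A, ∀ y ∈ A, x * y = y * x)
    (hB : B ≤ A) (hm : ∀ x ∈ A, x ∉ B → ∀ v ∈ fx φ B, φ x v = v → v = 1) :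
    iSupIndep fun C : Om B => fx φ (C : Subgroup H) := by
  refine indep _ ?_
  rintro ⟨_, g, rfl⟩ ⟨_, h, rfl⟩ e
  have le : ∀ k, cj k B ≤ A := fun k => (cj_mono k hB).trans (cj_normal k A).le
  obtain ⟨x, x1, x2⟩ := SetLike.not_le_iff_exists.1 fun k : cj h B ≤ cj g B =>
    e (Subtype.ext (eq_of_le_of_card_ge k (by rw [card_cj, card_cj])).symm)
  refine ⟨φ x, ?_, fun v hv => hv x x1, fun v hv k => ?_⟩
  · rintro ⟨_, k, rfl⟩ v hv b hb
    rw [ap, hA b (le k hb) x (le h x1), ← ap, hv b hb]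
  · have h1 := fx_cj hv g⁻¹
    rw [cj_inv_cj] at h1
    have := hm (g⁻¹ * x * g) (by simpa using Normal.conj_mem ‹_› x (le h x1) g⁻¹)
      (fun k => x2 (mem_cj.2 k)) _ h1 (by rw [ap]; simp [k])
    simpa using this

/-- a group of odd order and class at most two with semiregular centre has a regular orbit -/
theorem reg [Finite H] [Nontrivial V] (ho : Odd (Nat.card H)) (h2 : commutator H ≤ center H)
    (hZ : ∀ z ∈ center H, z ≠ 1 → ∀ v, φ z v = v → v = 1) : ∃ v, ∀ x, φ x v = v → x = 1 := by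
  classical
  obtain ⟨B, ⟨B1, w0, w1, w2⟩, hB⟩ := Set.Finite.exists_maximal (s := {B : Subgroup H |
    (∀ x ∈ B, ∀ y ∈ B, x * y = y * x) ∧ ∃ w ∈ fx φ B, w ≠ 1}) (Set.toFinite _)
    ⟨⊥, by simp, (exists_ne (1 : V)).imp fun _ h => ⟨by rintro _ rfl; simp, h⟩⟩
  have hm : ∀ x, (∀ b ∈ B, b * x = x * b) → x ∉ B → ∀ v ∈ fx φ B, φ x v = v → v = 1 := by
    intro x h1 h3 v hv e
    by_contra v1
    have c1 : B ⊔ zpowers x ≤ centralizer (B : Set H) ⊓ centralizer {x} :=
      sup_le (fun b hb => ⟨fun y hy => B1 y hy b hb, mem_centralizer_singleton_iff.2 (h1 b hb)⟩)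
        (zpowers_le.2 ⟨h1, mem_centralizer_singleton_iff.2 rfl⟩)
    refine h3 (hB (y := B ⊔ zpowers x) ⟨fun y hy => ?_, v, ?_, v1⟩ le_sup_left
      (mem_sup_right (mem_zpowers x)))
    · exact sup_le (c := centralizer {y}) (fun b hb => mem_centralizer_singleton_iff.2
        ((c1 hy).1 b hb)) (zpowers_le.2 (mem_centralizer_singleton_iff.2
          (mem_centralizer_singleton_iff.1 (c1 hy).2).symm)) |> fun k z hz =>
        (mem_centralizer_singleton_iff.1 (k hz)).symm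
    · exact sup_le (c := (MulAction.stabilizer (MulAut V) v).comap φ) hv (zpowers_le.2 e)
  have tr : ∀ h x, ∀ b ∈ cj h B, x * b * x⁻¹ ∈ cj h B → b * x = x * b := fun h x b h1 h3 => by
    by_contra e
    have := hZ _ (h2 (commutator_mem_commutator (mem_top x) (mem_top b))) (fun k =>
      e (commutatorElement_eq_one_iff_mul_comm.1 k).symm) _
      (fx_cj w1 h _ (mul_mem h3 (inv_mem h1)))
    exact w2 (by simpa using this)
  have hA : (B ⊔ center H).Normal := ⟨fun n hn g => by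
    rw [show g * n * g⁻¹ = ⁅g, n⁆ * n by group]
    exact mul_mem (mem_sup_right (h2 (commutator_mem_commutator (mem_top g) (mem_top n)))) hn⟩
  have cA : B ⊔ center H ≤ centralizer (B : Set H) :=
    sup_le (fun b hb y hy => B1 y hy b hb) (center_le_centralizer _)
  have hI := indep_cj (φ := φ) (A := B ⊔ center H) (B := B) (fun x hx y hy =>
    (sup_le (c := centralizer {x}) (fun b hb => mem_centralizer_singleton_iff.2 (cA hx b hb))
      (center_le_centralizer _) hy x rfl)) le_sup_left fun x hx => hm x (cA hx)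
  obtain ⟨D, hD, Dm⟩ := Set.Finite.exists_minimal (s := {D : Finset (Om B) |
    ∀ x, (∀ C ∈ D, x ∈ (C : Subgroup H)) → x = 1}) (Set.toFinite _) ⟨(Set.toFinite Set.univ).toFinset,
      fun x hx => by
        have h1 : x ∈ B := by simpa [cj_one] using hx ⟨_, 1, rfl⟩ (by simp)
        by_contra e
        refine w2 (hZ x (mem_center_iff.2 fun g => ?_) e _ (w1 x h1))
        simpa using tr 1 g⁻¹ x (by rwa [cj_one]) (by
          simpa [cj_one] using mem_cj.1 (hx ⟨_, g, rfl⟩ (by simp))) |> fun k => by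
            calc g * x = g * (x * g⁻¹) * g := by group
              _ = _ := by rw [k]; group⟩
  choose t ht using fun C : Om B => show ∃ h, cj h B = C from C.2
  have wm : ∀ C : Om B, φ (t C) w0 ∈ fx φ (C : Subgroup H) := fun C => ht C ▸ fx_cj w1 _
  refine ⟨∏ C ∈ D, φ (t C) w0, fun x e => ?_⟩
  let σ : Om B → Om B := fun C => ⟨cj x C, x * t C, by rw [← ht C]; exact cj_mul _ _ _⟩
  have σi : Function.Injective σ := fun C C' k => Subtype.ext (cj_inj x (congrArg Subtype.val k))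
  have out : ∀ C C' : Om B, C' ≠ C → ∀ v ∈ fx φ (C' : Subgroup H),
      v ∈ ⨆ (j : Om B) (_ : j ≠ C), fx φ (j : Subgroup H) := fun C C' k v hv =>
    (le_iSup₂ (f := fun (j : Om B) (_ : j ≠ C) => fx φ (j : Subgroup H)) C' k) hv
  have sp : ∀ C ∈ D, φ x (φ (t C) w0) * ∏ C' ∈ D.erase C, φ x (φ (t C') w0) =
      ∏ C' ∈ D, φ (t C') w0 := fun C hC => by
    rw [← e, map_prod, Finset.mul_prod_erase D (fun C' => φ x (φ (t C') w0)) hC]
  have r1 : ∀ C, ∏ C' ∈ D.erase C, φ x (φ (t C') w0) ∈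
      ⨆ (j : Om B) (_ : j ≠ σ C), fx φ (j : Subgroup H) := fun C => prod_mem fun C' k =>
    out _ (σ C') (fun e => (Finset.mem_erase.1 k).1 (σi e)) _ (fx_cj (wm C') x)
  have s1 : ∀ C ∈ D, σ C ∈ D := fun C hC => by
    by_contra k
    have := disjoint_def.1 (hI (σ C)) (fx_cj (wm C) x) (by
      rw [eq_mul_inv_of_mul_eq (sp C hC)]
      exact mul_mem (prod_mem fun C' k' => out _ C' (fun e => k (by rwa [← e])) _ (wm C')) (inv_mem (r1 C)))
    exact w2 (by simpa using this)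
  have s2 : ∀ C ∈ D, σ C = C := fun C hC => by
    by_contra k
    have k2 : σ (σ C) ≠ C := fun e => k (Subtype.ext (cj_eq_of_mem_normalizer (by
      have h1 : x * x ∈ normalizer ((C : Subgroup H) : Set H) := cj_eq_iff_mem_normalizer.1 (by
        rw [cj_mul]; exact congrArg Subtype.val e)
      obtain ⟨m, hm⟩ := ho
      have h3 : x = ((x * x) ^ m)⁻¹ := by
        rw [eq_inv_iff_mul_eq_one, ← sq, ← pow_mul, ← pow_succ', ← hm, pow_card_eq_one']
      exact h3 ▸ inv_mem (pow_mem h1 m))))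
    have := Dm (y := D.erase (σ (σ C))) (fun y hy => hD y fun C' k' => by
      by_cases e : C' = σ (σ C)
      · have h1 := hy C (Finset.mem_erase.2 ⟨k2.symm, hC⟩)
        have h3 := hy (σ C) (Finset.mem_erase.2 ⟨fun e => k (σi e).symm, s1 C hC⟩)
        have h4 := tr (t C) x⁻¹ y (by rwa [ht C]) (by rw [ht C, inv_inv]; exact mem_cj.1 h3)
        rw [e]
        refine mem_cj.2 ?_
        rwa [← h4, inv_mul_cancel_right]
      · exact hy C' (Finset.mem_erase.2 ⟨e, k'⟩)) (Finset.erase_subset _ _) (s1 _ (s1 C hC))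
    simp at this
  refine hD x fun C hC => ?_
  have h1 := disjoint_def.1 (hI C) (x := φ x (φ (t C) w0) * (φ (t C) w0)⁻¹)
    (mul_mem ((congrArg (fun j : Om B => fx φ (j : Subgroup H)) (s2 C hC)).le (fx_cj (wm C) x))
      (inv_mem (wm C))) (by
      rw [eq_mul_inv_of_mul_eq (sp C hC), ← Finset.mul_prod_erase D _ hC, mul_right_comm,
        mul_right_comm (φ (t C) w0), mul_inv_cancel, one_mul]
      exact mul_mem (prod_mem fun C' k' => out _ C' (Finset.mem_erase.1 k').1 _ (wm C'))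
        (inv_mem (by have := r1 C; rwa [s2 C hC] at this)))
  by_contra k
  refine w2 (hm ((t C)⁻¹ * x * t C) (fun b hb => ?_) (fun e => k (ht C ▸ mem_cj.2 e)) _ w1 ?_)
  · have h3 : t C * b * (t C)⁻¹ ∈ cj (t C) B := conj_mem_cj hb
    have := tr (t C) x _ h3 (by
      have h4 := conj_mem_cj (g := x) h3
      rw [ht C] at h4 ⊢
      exact (congrArg Subtype.val (s2 C hC)).le h4)
    calc _ = (t C)⁻¹ * (t C * b * (t C)⁻¹ * x) * t C := by group
      _ = _ := by rw [this]; group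
  · rw [← ap, ← ap, mul_inv_eq_one.1 h1, ap]; simp

theorem stab [Finite V] {p k : ℕ} (hV : (Nat.card V).Coprime p) {a : H} (ha : φ (a ^ p ^ k) = 1)
    (h : ∀ u, φ a (φ a u * u⁻¹) = φ a u * u⁻¹) : φ a = 1 := by
  ext u
  have key : ∀ n : ℕ, φ (a ^ n) u = (φ a u * u⁻¹) ^ n * u := fun n => by
    induction n with
    | zero => simp
    | succ n ih => rw [pow_succ', ← ap, ih, map_mul, map_pow, h u, pow_succ, mul_assoc,
        inv_mul_cancel_right]
  have h1 := key (p ^ k)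
  rw [ha] at h1
  have h2 : (φ a u * u⁻¹) ^ p ^ k = 1 := by simpa using h1
  exact mul_inv_eq_one.1 (orderOf_eq_one_iff.1 (Nat.eq_one_of_dvd_coprimes (hV.pow_right k)
    (orderOf_dvd_natCard _) (orderOf_dvd_of_pow_eq_one h2)))

theorem irr [Finite H] [Finite V] {p : ℕ} [Fact p.Prime] {P : Subgroup H} [P.Normal]
    (hP : IsPGroup p P) (hV : (Nat.card V).Coprime p) {a : H} (ha : a ∈ P) (a1 : φ a ≠ 1)
    (h : ∀ W : Subgroup V, (∀ g, ∀ v ∈ W, φ g v ∈ W) → W ≠ ⊤ → ∀ v ∈ W, φ a v = v)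
    (W : Subgroup V) (hW : ∀ g, ∀ v ∈ W, φ g v ∈ W) (W1 : W ≠ ⊤) : W = ⊥ := by
  have RP : normalClosure {a} ≤ P := normalClosure_le_normal (by simpa)
  have := Fintype.ofFinite (normalClosure {a} : Subgroup H)
  let N : V →* V := ∏ r : (normalClosure {a} : Subgroup H), (φ r).toMonoidHom
  have hN : ∀ v, N v = ∏ r : (normalClosure {a} : Subgroup H), φ r v := fun v =>
    MonoidHom.finset_prod_apply _ _ _
  have hK : N.ker = ⊤ := by
    by_contra e
    obtain ⟨k, hk⟩ := hP ⟨a, ha⟩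
    refine a1 (stab hV (k := k) (by rw [show a ^ p ^ k = 1 from congrArg Subtype.val hk, map_one])
      fun u => h N.ker (fun g v hv => ?_) e _ ?_)
    · rw [MonoidHom.mem_ker, hN] at hv ⊢
      rw [← map_one (φ g), ← hv, map_prod]
      exact (Fintype.prod_equiv (MulAut.conjNormal g).toEquiv _ _ fun r => by simp).symm
    · rw [MonoidHom.mem_ker, map_mul, map_inv, mul_inv_eq_one, hN, hN]
      exact Fintype.prod_equiv (Equiv.mulRight ⟨a, subset_normalClosure rfl⟩) _ _ fun r => by simp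
  refine eq_bot_iff.2 fun w hw => ?_
  have h1 : normalClosure {a} ≤ (MulAction.stabilizer (MulAut V) w).comap φ := by
    refine (closure_le _).2 fun x hx => ?_
    obtain ⟨_, rfl, k⟩ := Group.mem_conjugatesOfSet_iff.1 hx
    obtain ⟨g, rfl⟩ := isConj_iff.1 k
    show φ _ w = w
    rw [← ap, ← ap, h W hW W1 _ (hW _ w hw), ap]; simp
  have h2 : N w = 1 := (hK.ge (mem_top w) :)
  rw [hN, Finset.prod_congr rfl fun (r : normalClosure {a}) _ => show φ r w = w from h1 r.2,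
    Finset.prod_const, Finset.card_univ,
    ← Nat.card_eq_fintype_card] at h2
  obtain ⟨k, hk⟩ := (hP.to_le RP).exists_card_eq
  exact orderOf_eq_one_iff.1 (Nat.eq_one_of_dvd_coprimes (hV.pow_right k)
    (orderOf_dvd_natCard _) (hk ▸ orderOf_dvd_of_pow_eq_one h2))

theorem class_two {P : Type*} [Group P] [Finite P] {p : ℕ} [Fact p.Prime] (hp : p ≠ 2)
    (hP : IsPGroup p P)
    (h : ∀ A : Subgroup P, A.Characteristic → IsMulCommutative A → IsCyclic A) :
    commutator P ≤ center P := by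
  obtain ⟨E, R, h1, h2, h3, h4⟩ := S3762.result hP h
  have hR : IsCyclic R := h4.resolve_right fun k => hp k.1
  have cR : R ≤ center P := fun r hr => mem_center_iff.2 fun g =>
    (sup_le (c := centralizer {r}) (fun e he => mem_centralizer_singleton_iff.2 (h1 e he r hr))
      (fun s hs => mem_centralizer_singleton_iff.2 (congrArg Subtype.val
        (hR.commGroup.mul_comm ⟨s, hs⟩ ⟨r, hr⟩))) (h2.ge (mem_top g)) r rfl).symm
  have dec : ∀ g, ∃ e ∈ E, ∃ r ∈ R, e * r = g := fun g => (mem_sup_of_le_normalizer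
    (cR.trans ((center_le_centralizer _).trans (centralizer_le_normalizer _)))).1 (h2.ge (mem_top g))
  refine commutator_le.2 fun x _ y _ => ?_
  obtain ⟨e, he, r, hr, rfl⟩ := dec x
  obtain ⟨f, hf, s, hs, rfl⟩ := dec y
  have e1 : ⁅e * r, f * s⁆ = ⁅e, f⁆ := by
    have k1 := mem_center_iff.1 (cR hr)
    have k2 := mem_center_iff.1 (cR hs)
    calc _ = e * (r * (f * s)) * r⁻¹ * (e⁻¹ * s⁻¹ * f⁻¹) := by group
      _ = e * f * (s * e⁻¹) * s⁻¹ * f⁻¹ := by rw [← k1]; group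
      _ = _ := by rw [← k2]; group
  rw [e1]
  rcases h3 with rfl | h3
  · rw [mem_bot.1 he]; simp
  have k := mem_center_iff.1 (h3.1.2.2.le
    (commutator_mem_commutator (mem_top (⟨e, he⟩ : E)) (mem_top ⟨f, hf⟩)))
  refine mem_center_iff.2 fun g => ?_
  obtain ⟨c, hc, d, hd, rfl⟩ := dec g
  have k1 : c * ⁅e, f⁆ = ⁅e, f⁆ * c := congrArg Subtype.val (k ⟨c, hc⟩)
  rw [mul_assoc, ← mem_center_iff.1 (cR hd), ← mul_assoc, k1, mul_assoc]

theorem inf_normal [Finite H] {p : ℕ} [Fact p.Prime] {P M : Subgroup H} [P.Normal]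
    (hP : IsPGroup p P) (hM : IsCoatom M) : (P ⊓ M).Normal := by
  by_cases h : P ≤ M
  · rwa [inf_eq_left.2 h]
  obtain ⟨x, ⟨x1, x2⟩, x3⟩ := SetLike.exists_of_lt (lt_inf_normalizer_of_lt hP
    (inf_lt_left.2 h : P ⊓ M < P))
  refine normalizer_eq_top_iff.1 (hM.2 _ (lt_of_le_not_ge
    (le_normalizer_inf (le_normalizer_of_normal) le_normalizer) fun k => x3 ⟨x1, k x2⟩))

/-- the statement for modules of order `n` -/
def Cl (p n : ℕ) : Prop :=
  ∀ (H V : Type u) [Group H] [Finite H] [CommGroup V] [Finite V] (φ : H →* MulAut V)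
    (P : Subgroup H) [P.Normal], (∀ x ∈ P, ∃ k, φ (x ^ p ^ k) = 1) → (Nat.card V).Coprime p →
    Nat.card V = n → ∀ a ∈ P, φ a ≠ 1 → ∃ v, ∀ h, φ (h * a * h⁻¹) v ≠ v

theorem step {p : ℕ} [hp : Fact p.Prime] (hp2 : p ≠ 2) {H V : Type u} [Group H] [Finite H]
    [CommGroup V] [Finite V] {φ : H →* MulAut V} (hφ : Function.Injective φ) {P : Subgroup H}
    [P.Normal] (hP : IsPGroup p P) (hV : (Nat.card V).Coprime p)
    (ih : ∀ m < Nat.card V, Cl.{u} p m) {a : H} (ha : a ∈ P) (a1 : a ≠ 1) :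
    ∃ v, ∀ h, φ (h * a * h⁻¹) v ≠ v := by
  classical
  have a2 : ∀ x, φ x = 1 → x = 1 := fun x e => hφ (e.trans (map_one φ).symm)
  have sub : ∀ (M : Subgroup H) (U : Subgroup V), (∀ m ∈ M, ∀ u ∈ U, φ m u ∈ U) → U ≠ ⊤ →
      ∀ b ∈ P, b ∈ M → ∀ u ∈ U, φ b u ≠ u → ∃ u ∈ U, ∀ m ∈ M, φ (m * b * m⁻¹) u ≠ u := by
    intro M U h1 h2 b b1 b2 u u1 u2
    obtain ⟨v, hv⟩ := ih _ (lt_of_le_of_ne (card_le_card_group U) fun e =>
      h2 (eq_top_of_card_eq U e)) M U (res φ M U h1) (P.subgroupOf M) (fun x hx => by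
        obtain ⟨k, hk⟩ := hP ⟨x, hx⟩
        have h3 : (x : H) ^ p ^ k = 1 := congrArg Subtype.val hk
        exact ⟨k, by rw [show x ^ p ^ k = 1 from Subtype.ext h3, map_one]⟩)
      (hV.of_dvd_left (card_subgroup_dvd_card U)) rfl ⟨b, b2⟩ b1
      fun e => u2 (by simpa [res] using congrArg Subtype.val (DFunLike.congr_fun e ⟨u, u1⟩))
    exact ⟨v, v.2, fun m hm e => hv ⟨m, hm⟩ (Subtype.ext e)⟩
  by_cases h0 : ∀ W : Subgroup V, (∀ g, ∀ v ∈ W, φ g v ∈ W) → W ≠ ⊤ → ∀ v ∈ W, φ a v = v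
  swap
  · push Not at h0
    obtain ⟨W, h1, h2, v, h3, h4⟩ := h0
    obtain ⟨u, -, hu⟩ := sub ⊤ W (fun m _ => h1 m) h2 a ha (mem_top a) v h3 h4
    exact ⟨u, fun h => hu h (mem_top h)⟩
  have hI := irr hP hV ha (fun e => a1 (a2 a e)) h0
  by_cases h1 : ∀ A : Subgroup H, A.Normal → A ≤ P → (∀ x ∈ A, ∀ y ∈ A, x * y = y * x) →
      ∀ x ∈ A, x ≠ 1 → ∀ v, φ x v = v → v = 1
  · have : Nontrivial V := not_subsingleton_iff_nontrivial.1 fun _ =>
      a1 (a2 a (MulEquiv.ext fun _ => Subsingleton.elim _ _))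
    have od : ∀ A : Subgroup P, Odd (Nat.card A) := fun A => by
      obtain ⟨k, hk⟩ := (hP.to_subgroup A).exists_card_eq
      exact hk ▸ (hp.out.odd_of_ne_two hp2).pow
    have h2 : ∀ A : Subgroup P, A.Characteristic → IsMulCommutative A → ∀ x ∈ A, x ≠ 1 →
        ∀ v, φ (x : P) v = v → v = 1 := fun A _ _ x hx x1 =>
      h1 (A.map P.subtype) inferInstance (map_subtype_le _) (by
        rintro _ ⟨x, hx, rfl⟩ _ ⟨y, hy, rfl⟩
        exact congrArg Subtype.val (setLike_mul_comm hx hy)) x ⟨x, hx, rfl⟩ (by simpa using x1)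
    obtain ⟨v, hv⟩ := reg (φ := φ.comp P.subtype) (card_top (G := P) ▸ od ⊤)
      (class_two hp2 hP fun A k k' => H69.ext_odd_regular_pgroup_cyclic
        ((φ.comp P.subtype).comp A.subtype) (hP.to_subgroup A) (od A) fun x x1 =>
          h2 A k k' x x.2 (by simpa using x1)) (h2 _ inferInstance inferInstance)
    exact ⟨v, fun h e => a1 (by
      simpa using congrArg Subtype.val (hv ⟨_, Normal.conj_mem ‹_› a ha h⟩ e))⟩
  push Not at h1
  obtain ⟨A, hA, -, A2, x, x1, x2, w, w1, w2⟩ := h1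
  obtain ⟨B, xB, ⟨B1, w0, w3, w4⟩, hB⟩ := Set.Finite.exists_le_maximal (s := {B : Subgroup H |
    B ≤ A ∧ ∃ w ∈ fx φ B, w ≠ 1}) (Set.toFinite _) (a := zpowers x) ⟨zpowers_le.2 x1, w,
      (zpowers_le (H := (MulAction.stabilizer (MulAut V) w).comap φ)).2 w1, w2⟩
  have hJ := indep_cj (φ := φ) A2 B1 fun y y1 y2 v v1 v2 => by
    by_contra e
    exact y2 (hB (y := B ⊔ zpowers y) ⟨sup_le B1 (zpowers_le.2 y1), v,
      sup_le (c := (MulAction.stabilizer (MulAut V) v).comap φ) v1 (zpowers_le.2 v2), e⟩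
      le_sup_left (mem_sup_right (mem_zpowers y)))
  obtain ⟨M, hM, BM⟩ := (eq_top_or_exists_le_coatom (normalizer (B : Set H))).resolve_left fun e => by
    have := normalizer_eq_top_iff.1 e
    by_cases k : fx φ B = ⊤
    · exact x2 (a2 x (MulEquiv.ext fun v => k.ge (mem_top v) x (xB (mem_zpowers x))))
    · exact w4 (mem_bot.1 ((hI _ (fun g v hv => cj_normal g B ▸ fx_cj hv g) k).le w3))
  let U : Subgroup V := ⨆ C ∈ {C : Om B | ∃ m ∈ M, cj m B = C}, fx φ (C : Subgroup H)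
  let U' : Subgroup V := ⨆ C ∈ {C : Om B | ∃ m ∉ M, cj m B = C}, fx φ (C : Subgroup H)
  have dj : Disjoint U U' := hJ.disjoint_biSup_biSup' (hs := Set.toFinite _) (Set.disjoint_left.2 (by
    rintro C ⟨m, m1, m2⟩ ⟨s, s1, s2⟩
    refine s1 ((mul_mem_cancel_left (inv_mem m1)).1 (BM (cj_eq_iff_mem_normalizer.1 ?_)))
    rw [cj_mul, s2, ← m2, cj_inv_cj]))
  have f1 : ∀ m ∈ M, ∀ u ∈ U, φ m u ∈ U := fun m hm =>
    iSup₂_le (a := U.comap (φ m).toMonoidHom) (by
      rintro C ⟨s, s1, s2⟩ v hv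
      exact le_iSup₂ (f := fun (C : Om B) (_ : C ∈ {C : Om B | ∃ m ∈ M, cj m B = C}) =>
        fx φ (C : Subgroup H)) ⟨_, m * s, rfl⟩ ⟨_, mul_mem hm s1, rfl⟩
        (by rw [← s2] at hv; simp only [cj_mul]; exact fx_cj hv m))
  have f2 : ∀ m ∉ M, ∀ u ∈ U, φ m u ∈ U' := fun m hm =>
    iSup₂_le (a := U'.comap (φ m).toMonoidHom) (by
      rintro C ⟨s, s1, s2⟩ v hv
      exact le_iSup₂ (f := fun (C : Om B) (_ : C ∈ {C : Om B | ∃ m ∉ M, cj m B = C}) =>
        fx φ (C : Subgroup H)) ⟨_, m * s, rfl⟩ ⟨_, fun k => hm ((mul_mem_cancel_right s1).1 k), rfl⟩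
        (by rw [← s2] at hv; simp only [cj_mul]; exact fx_cj hv m))
  have f3 : w0 ∈ U := le_iSup₂ (f := fun (C : Om B)
    (_ : C ∈ {C : Om B | ∃ m ∈ M, cj m B = C}) => fx φ (C : Subgroup H)) ⟨_, 1, rfl⟩
      ⟨1, one_mem _, rfl⟩ (by simpa only [cj_one] using w3)
  have f4 : U ≠ ⊤ := fun e => by
    obtain ⟨s, -, hs⟩ := SetLike.exists_of_lt hM.1.lt_top
    exact w4 (by simpa using disjoint_def.1 dj (e.ge (mem_top _)) (f2 s hs _ f3))
  have hD := inf_normal hP hM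
  by_cases aM : a ∈ M
  swap
  · refine ⟨w0, fun h e => w4 (disjoint_def.1 dj f3 (e ▸ f2 _ (fun k => aM ?_) _ f3))⟩
    simpa [mul_assoc] using (hD.conj_mem _ ⟨Normal.conj_mem ‹_› a ha h, k⟩ h⁻¹).2
  obtain ⟨u0, u1, g, u2⟩ : ∃ u ∈ U, ∃ g, φ (g * a * g⁻¹) u ≠ u := by
    by_contra! k
    by_cases e : fc φ a = ⊤
    · exact a1 (a2 a (MulEquiv.ext fun v => by simpa using e.ge (mem_top v) 1))
    · exact w4 (mem_bot.1 ((hI _ (fun g v hv => fc_inv hv g) e).le (k w0 f3)))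
  have bD := hD.conj_mem a ⟨ha, aM⟩ g
  obtain ⟨u, u3, u4⟩ := sub M U f1 f4 _ bD.1 bD.2 u0 u1 u2
  have := Fintype.ofFinite (H ⧸ M)
  refine ⟨∏ i : H ⧸ M, φ i.out u, fun h e => ?_⟩
  obtain ⟨k, rfl⟩ : ∃ k, h = k * g := ⟨h * g⁻¹, by simp⟩
  set b := g * a * g⁻¹
  have e1 : ∏ i : H ⧸ M, φ (b * (k⁻¹ * i.out)) u = ∏ i : H ⧸ M, φ (k⁻¹ * i.out) u := by
    simp only [← ap, ← map_prod]
    conv_rhs => rw [← e]
    rw [ap, ap]
    congr 2
    simp only [b]; group
  have m1 : k⁻¹ * (k : H ⧸ M).out ∈ M := QuotientGroup.eq.1 (QuotientGroup.out_eq' _).symm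
  have m2 : ∀ i ∈ Finset.univ.erase (k : H ⧸ M), k⁻¹ * i.out ∉ M := fun i hi e =>
    (Finset.mem_erase.1 hi).1 ((QuotientGroup.out_eq' i).symm.trans (QuotientGroup.eq.2 e).symm)
  rw [← Finset.mul_prod_erase _ _ (Finset.mem_univ (k : H ⧸ M)),
    ← Finset.mul_prod_erase _ _ (Finset.mem_univ (k : H ⧸ M))] at e1
  have b2 : b ∈ M := bD.2
  have e2 := disjoint_def.1 dj (mul_mem (f1 _ (mul_mem b2 m1) u u3) (inv_mem (f1 _ m1 u u3))) (by
    rw [eq_mul_inv_of_mul_eq e1, mul_right_comm, mul_right_comm (φ _ u), mul_inv_cancel, one_mul]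
    exact mul_mem (prod_mem fun i hi => f2 _ (m2 i hi) u u3) (inv_mem (prod_mem fun i hi =>
      f2 _ (fun e => m2 i hi ((mul_mem_cancel_left b2).1 e)) u u3)))
  refine u4 _ (inv_mem m1) ?_
  rw [inv_inv, mul_assoc, ← ap, mul_inv_eq_one.1 e2, ap]; simp

theorem cl {p : ℕ} [Fact p.Prime] (hp2 : p ≠ 2) (n : ℕ) : Cl.{u} p n := by
  induction n using Nat.strong_induction_on with
  | _ n ih =>
  intro H V _ _ _ _ φ P _ hP hV hn a ha a1
  have : (P.map φ.rangeRestrict).Normal := Normal.map ‹_› _ φ.rangeRestrict_surjective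
  obtain ⟨v, hv⟩ := step hp2 (φ := φ.range.subtype) Subtype.val_injective
    (P := P.map φ.rangeRestrict) (by
      rintro ⟨_, x, hx, rfl⟩
      obtain ⟨k, hk⟩ := hP x hx
      exact ⟨k, Subtype.ext (Subtype.ext (by simpa using hk))⟩) hV (hn ▸ ih)
    (mem_map_of_mem _ ha) fun e => a1 (congrArg Subtype.val e)
  exact ⟨v, fun h e => hv (φ.rangeRestrict h) (by simpa using e)⟩

end Cfsg.Agent.H4.RO
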