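import Cfsg.Agent.H35.S4Defs

/-!
# Type II for `Sp₄(q)`: elementary facts on the doubled root groups and their coordinates
-/

set_option autoImplicit false

namespace Cfsg.Agent.H4.S4Pre1

open Cfsg Cfsg.Agent.H63 Cfsg.Agent.H63.SL Subgroup Cfsg.Agent.H35.S4
open scoped commutatorElement

universe u v

section Abstract

variable {G : Type u} [Group G]

/-- The Weyl element `n = u w u` is read off from the action of `u`. -/
theorem theta (V M W : Subgroup G) (u w n : G) (hn : n = u * w * u) (hn2 : n * n = 1)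
    (hw : n * u * n⁻¹ = w)
    (hV : ∀ π ∈ V, ∃ r ∈ M, ∃ r' ∈ W, u * π * u⁻¹ = π * r * r')
    (uM : ∀ r ∈ M, Commute u r) (uW : ∀ r ∈ W, Commute u r)
    (nV : ∀ a ∈ V, n * a * n⁻¹ ∈ W) (nW : ∀ a ∈ W, n * a * n⁻¹ ∈ V)
    (nM : ∀ a ∈ M, n * a * n⁻¹ ∈ M)
    (cVM : ∀ a ∈ V, ∀ b ∈ M, Commute a b) (cVW : ∀ a ∈ V, ∀ b ∈ W, Commute a b)
    (cMW : ∀ a ∈ M, ∀ b ∈ W, Commute a b)
    (ind : ∀ a ∈ V, ∀ b ∈ M, ∀ c ∈ W, a * b * c = 1 → a = 1 ∧ b = 1 ∧ c = 1)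
    {π r r' : G} (hπ : π ∈ V) (hr : r ∈ M) (hr' : r' ∈ W) (h : u * π * u⁻¹ = π * r * r') :
    r' = n * π * n⁻¹ := by
  have hni : n⁻¹ = n := inv_eq_of_mul_eq_one_right hn2
  have cc : ∀ g, n * (n * g * n⁻¹) * n⁻¹ = g := fun g => by
    calc n * (n * g * n⁻¹) * n⁻¹ = (n * n) * g * (n * n)⁻¹ := by group
      _ = g := by rw [hn2]; group
  have wc : ∀ g, w * g * w⁻¹ = n * (u * (n * g * n⁻¹) * u⁻¹) * n⁻¹ := fun g => by
    rw [← hw]
    calc n * u * n⁻¹ * g * (n * u * n⁻¹)⁻¹ = n * (u * (n⁻¹ * g * n) * u⁻¹) * n⁻¹ := by group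
      _ = _ := by rw [show n⁻¹ * g * n = n * g * n⁻¹ by rw [hni]]
  have w1 : w * π * w⁻¹ = π := by
    rw [wc, (uW _ (nV _ hπ)).eq, mul_inv_cancel_right, cc]
  have w2 : w * r * w⁻¹ = r := by
    rw [wc, (uM _ (nM _ hr)).eq, mul_inv_cancel_right, cc]
  obtain ⟨s, hs, s', hs', h3⟩ := hV _ (nW _ hr')
  have w3 : w * r' * w⁻¹ = r' * (n * s * n⁻¹) * (n * s' * n⁻¹) := by
    rw [wc, h3]
    calc n * (n * r' * n⁻¹ * s * s') * n⁻¹
        = (n * (n * r' * n⁻¹) * n⁻¹) * (n * s * n⁻¹) * (n * s' * n⁻¹) := by group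
      _ = _ := by rw [cc]
  have hcs := nM _ hs
  have hcs' := nW _ hs'
  generalize n * s * n⁻¹ = a at w3 hcs
  generalize n * s' * n⁻¹ = b at w3 hcs'
  have hρ : π * b ∈ V := V.mul_mem hπ hcs'
  obtain ⟨s1, hs1, s1', hs1', h4⟩ := hV _ hρ
  have e1 : π * r * (r' * a * b) = π * b * (r * a) * r' := by
    have k1 : r' * a * b = b * (a * r') := by
      rw [← (cMW _ hcs _ hr').eq]
      exact (((cVM _ hcs' _ hcs).mul_right (cVW _ hcs' _ hr')).eq).symm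
    rw [k1]
    have k2 : r * b = b * r := ((cVM _ hcs' _ hr).eq).symm
    calc π * r * (b * (a * r')) = π * (r * b) * (a * r') := by group
      _ = _ := by rw [k2]; group
  have e2 : n * π * n⁻¹ = π * b * (s1 * (r * a)) * (s1' * r') := by
    have k1 : u * (r * a) * u⁻¹ = r * a := by
      rw [(uM _ (M.mul_mem hr hcs)).eq, mul_inv_cancel_right]
    have k2 : u * r' * u⁻¹ = r' := by rw [(uW _ hr').eq, mul_inv_cancel_right]
    have k3 : s1' * (r * a) = (r * a) * s1' := ((cMW _ (M.mul_mem hr hcs) _ hs1').eq).symm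
    calc n * π * n⁻¹ = u * (w * (u * π * u⁻¹) * w⁻¹) * u⁻¹ := by rw [hn]; group
      _ = u * ((w * π * w⁻¹) * (w * r * w⁻¹) * (w * r' * w⁻¹)) * u⁻¹ := by rw [h]; group
      _ = u * (π * b * (r * a) * r') * u⁻¹ := by rw [w1, w2, w3, e1]
      _ = (u * (π * b) * u⁻¹) * (u * (r * a) * u⁻¹) * (u * r' * u⁻¹) := by group
      _ = π * b * s1 * (s1' * (r * a)) * r' := by rw [h4, k1, k2]; group
      _ = _ := by rw [k3]; group
  obtain ⟨k1, -, k3⟩ := ind _ hρ _ (M.mul_mem hs1 (M.mul_mem hr hcs)) _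
    (W.mul_mem (W.mul_mem hs1' hr') (W.inv_mem (nV _ hπ))) (by
      rw [← mul_assoc, ← e2, mul_inv_cancel])
  rw [k1] at h4
  obtain ⟨-, -, k4⟩ := ind 1 V.one_mem _ hs1 _ hs1' (by rw [← h4]; group)
  rw [k4, one_mul] at k3
  exact mul_inv_eq_one.mp k3

end Abstract

variable {F : Type v} [Field F] {G : Type u} [Group G] {L : Subgroup G} {x : ZMod 8 → F → G}
  {t : G} {Xh : ZMod 8 → Subgroup G}

theorem x0 (hP : Pin2 x) (i : ZMod 8) : x i 0 = 1 := by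
  have := hP.add i 0 0
  rw [add_zero] at this
  exact (mul_eq_left.mp this.symm)

theorem aa (hP : Pin2 x) (a : F) : a + a = 0 := by rw [← two_mul, hP.two, zero_mul]

theorem xsq (hP : Pin2 x) (i : ZMod 8) (a : F) : x i a * x i a = 1 := by
  rw [← hP.add, aa hP, x0 hP]

theorem xinj (hP : Pin2 x) {i : ZMod 8} {a b : F} (h : x i a = x i b) : a = b := by
  have h1 : x i (a + b) = 1 := by rw [hP.add, h, xsq hP]
  have h2 := hP.inj i _ h1
  calc a = a + (b + b) := by rw [aa hP, add_zero]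
    _ = (a + b) + b := by ring
    _ = b := by rw [h2, zero_add]

theorem sq (hP : Pin2 x) (hX : Com2 L x t Xh) {i : ZMod 8} {p : G} (hp : p ∈ Xh i) : p * p = 1 := by
  obtain ⟨-, -, ⟨a, -, h⟩, -⟩ := (hX.mem i p).mp hp
  rw [h, zero_mul, x0 hP]

theorem pinv (hP : Pin2 x) (hX : Com2 L x t Xh) {i : ZMod 8} {p : G} (hp : p ∈ Xh i) : p⁻¹ = p :=
  inv_eq_of_mul_eq_one_right (sq hP hX hp)

theorem lam (hX : Com2 L x t Xh) {i : ZMod 8} {p : G} (hp : p ∈ Xh i) :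
    ∃ a, p * t * p⁻¹ = t * x i a := by
  obtain ⟨-, -, ⟨a, h, -⟩, -⟩ := (hX.mem i p).mp hp
  exact ⟨a, h⟩

theorem com0 (hP : Pin2 x) (hX : Com2 L x t Xh) {i : ZMod 8} {p q : G} (hp : p ∈ Xh i)
    (hq : q ∈ Xh i) : Commute p q := by
  have h := pinv hP hX ((Xh i).mul_mem hp hq)
  rw [mul_inv_rev, pinv hP hX hp, pinv hP hX hq] at h
  exact h.symm

theorem com1 (hX : Com2 L x t Xh) {i : ZMod 8} {p q : G} (hp : p ∈ Xh i)
    (hq : q ∈ Xh (i + 1)) : Commute p q :=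
  ((mem_centralizer_iff.mp (hX.c1 i hp)) q hq).symm

theorem com2 (hX : Com2 L x t Xh) {i : ZMod 8} {p q : G} (hp : p ∈ Xh i)
    (hq : q ∈ Xh (i + 2)) : Commute p q :=
  ((mem_centralizer_iff.mp (hX.c2 i hp)) q hq).symm

/-- Independence of three consecutive doubled root groups. -/
theorem ind (hC : Ctx L x t) (hX : Com2 L x t Xh) (i : ZMod 8) {a b c : G} (ha : a ∈ Xh i)
    (hb : b ∈ Xh (i + 1)) (hc : c ∈ Xh (i + 2)) (h : a * b * c = 1) : a = 1 ∧ b = 1 ∧ c = 1 := by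
  have hP := hC.mod.pin
  obtain ⟨α, hα⟩ := lam hX ha
  obtain ⟨β, hβ⟩ := lam hX hb
  obtain ⟨γ, hγ⟩ := lam hX hc
  have c1 : Commute b (x (i + 2) γ) := com1 hX hb (by
    rw [add_assoc, show (1 : ZMod 8) + 1 = 2 from rfl]; exact hX.le _ _)
  have c2 : Commute a (x (i + 1) β * x (i + 2) γ) :=
    (com1 hX ha (hX.le _ _)).mul_right (com2 hX ha (hX.le _ _))
  have e : t = t * (x i α * x (i + 1) β * x (i + 2) γ) := by
    calc t = (a * b * c) * t * (a * b * c)⁻¹ := by rw [h]; group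
      _ = a * (b * (c * t * c⁻¹) * b⁻¹) * a⁻¹ := by group
      _ = a * ((b * t * b⁻¹) * (b * x (i + 2) γ * b⁻¹)) * a⁻¹ := by rw [hγ]; group
      _ = (a * t * a⁻¹) * (a * (x (i + 1) β * x (i + 2) γ) * a⁻¹) := by
        rw [hβ, c1.eq, mul_inv_cancel_right]; group
      _ = _ := by rw [hα, c2.eq, mul_inv_cancel_right]; group
  have e' : x i α * x (i + 1) β * x (i + 2) γ = 1 := (mul_eq_left.mp e.symm)
  obtain ⟨h1, h2, h3, -⟩ := hC.kp.uniq i α β γ 0 (by rw [e', x0 hP, one_mul])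
  have fx : ∀ k p, p ∈ Xh k → p * t * p⁻¹ = t * x k 0 → ∃ a, p = x k a := fun k p hp hp' => by
    refine hX.fix k p hp ?_
    rw [x0 hP, mul_one, mul_inv_eq_iff_eq_mul] at hp'
    exact hp'
  obtain ⟨a', rfl⟩ := fx _ a ha (h1 ▸ hα)
  obtain ⟨b', rfl⟩ := fx _ b hb (h2 ▸ hβ)
  obtain ⟨c', rfl⟩ := fx _ c hc (h3 ▸ hγ)
  obtain ⟨k1, k2, k3, -⟩ := hC.kp.uniq i a' b' c' 0 (by rw [h, x0 hP, one_mul])
  rw [k1, k2, k3, x0 hP, x0 hP, x0 hP]
  exact ⟨rfl, rfl, rfl⟩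

theorem uq (hC : Ctx L x t) (hX : Com2 L x t Xh) {r r' s s' : G} (hr : r ∈ Xh 2) (hr' : r' ∈ Xh 2)
    (hs : s ∈ Xh 3) (hs' : s' ∈ Xh 3) (h : r * s = r' * s') : r = r' ∧ s = s' := by
  obtain ⟨h1, h2, -⟩ := ind hC hX 2 ((Xh 2).mul_mem ((Xh 2).inv_mem hr') hr)
    ((Xh 3).mul_mem hs ((Xh 3).inv_mem hs')) (one_mem _) (by
      calc r'⁻¹ * r * (s * s'⁻¹) * 1 = r'⁻¹ * (r * s) * s'⁻¹ := by group
        _ = 1 := by rw [h]; group)
  exact ⟨(inv_mul_eq_one.mp h1).symm, mul_inv_eq_one.mp h2⟩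

theorem tconj (hC : Ctx L x t) (hX : Com2 L x t Xh) {i : ZMod 8} {p : G} (hp : p ∈ Xh i) {a : F}
    (h : p * t * p⁻¹ = t * x i a) : t * p * t⁻¹ = p * x i a := by
  have hP := hC.mod.pin
  have c : t * x i a * t⁻¹ = x i a := by
    rw [(hC.kb.tL _ (hC.kb.xL i a)).eq, mul_inv_cancel_right]
  calc t * p * t⁻¹ = p * (p * t * p⁻¹ * t⁻¹) := by
        rw [pinv hP hX hp, show p * (p * t * p * t⁻¹) = (p * p) * t * p * t⁻¹ by group,
          sq hP hX hp, one_mul]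
    _ = _ := by rw [h, c]

theorem same (hX : Com2 L x t Xh) {i : ZMod 8} {p q : G} (hp : p ∈ Xh i) (hq : q ∈ Xh i)
    (h : p * t * p⁻¹ = q * t * q⁻¹) : ∃ a, q = p * x i a := by
  obtain ⟨a, ha⟩ := hX.fix i _ ((Xh i).mul_mem ((Xh i).inv_mem hp) hq) (by
    show p⁻¹ * q * t = t * (p⁻¹ * q)
    calc p⁻¹ * q * t = p⁻¹ * (q * t * q⁻¹) * q := by group
      _ = _ := by rw [← h]; group)
  exact ⟨a, by rw [← ha]; group⟩

theorem lam_mul (hX : Com2 L x t Xh) (hP : Pin2 x) {i : ZMod 8} {p q : G} (hp : p ∈ Xh i)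
    {a b : F} (h : p * t * p⁻¹ = t * x i a) (h' : q * t * q⁻¹ = t * x i b) :
    p * q * t * (p * q)⁻¹ = t * x i (a + b) := by
  have c := com0 hP hX hp (hX.le i b)
  calc p * q * t * (p * q)⁻¹ = p * (q * t * q⁻¹) * p⁻¹ := by group
    _ = (p * t * p⁻¹) * (p * x i b * p⁻¹) := by rw [h']; group
    _ = _ := by rw [h, c.eq, mul_inv_cancel_right, hP.add, mul_assoc]

theorem hatN (hC : Ctx L x t) (hX : Com2 L x t Xh) (k : ZMod 8) {i : ZMod 8} {p : G}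
    (hp : p ∈ Xh i) : n2 x k * p * (n2 x k)⁻¹ ∈ Xh (2 * k + 4 - i) :=
  (hX.mem _ _).mpr (hC.kb.hatN k 0 i p ((hX.mem _ _).mp hp))

theorem nn (hC : Ctx L x t) (k : ZMod 8) (g : G) :
    n2 x k * (n2 x k * g * (n2 x k)⁻¹) * (n2 x k)⁻¹ = g := by
  calc _ = (n2 x k * n2 x k) * g * (n2 x k * n2 x k)⁻¹ := by group
    _ = g := by rw [hC.kb.nsq]; group

theorem theta4 (hC : Ctx L x t) (hX : Com2 L x t Xh) (h3 : C3 Xh) {π r r' : G} (hπ : π ∈ Xh 1)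
    (hr : r ∈ Xh 2) (hr' : r' ∈ Xh 3) (h : ⁅π, x 4 1⁆ = r * r') :
    r' = n2 x 4 * π * (n2 x 4)⁻¹ := by
  have hP := hC.mod.pin
  have key : ∀ π ∈ Xh 1, ∀ z, ⁅π, x 4 1⁆ = z → x 4 1 * π * (x 4 1)⁻¹ = π * z := by
    intro π hπ z hz
    rw [← hz, commutatorElement_def, pinv hP hX hπ,
      show π * (π * x 4 1 * π * (x 4 1)⁻¹) = (π * π) * x 4 1 * π * (x 4 1)⁻¹ by group,
      sq hP hX hπ, one_mul]
  refine theta (Xh 1) (Xh 2) (Xh 3) (x 4 1) (x (4 + 4) 1) (n2 x 4) rfl (hC.kb.nsq 4)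
    (hC.kp.nn 4 4 1) ?_ (fun r hr => (com2 hX hr (hX.le 4 1)).symm)
    (fun r hr => (com1 hX hr (hX.le 4 1)).symm) (fun a ha => hatN hC hX 4 ha)
    (fun a ha => hatN hC hX 4 ha) (fun a ha => hatN hC hX 4 ha)
    (fun a ha b hb => com1 hX ha hb) (fun a ha b hb => com2 hX ha hb)
    (fun a ha b hb => com1 hX ha hb) (fun a ha b hb c hc => ind hC hX 1 ha hb hc) hπ hr hr' ?_
  · intro π hπ
    obtain ⟨r, hr, r', hr', h⟩ := h3 π hπ _ (hX.le 4 1)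
    exact ⟨r, hr, r', hr', by rw [key π hπ _ h, mul_assoc]⟩
  · rw [key π hπ _ h, mul_assoc]

theorem theta1 (hC : Ctx L x t) (hX : Com2 L x t Xh) (h3 : C3 Xh) {P r r' : G} (hπ : P ∈ Xh 4)
    (hr : r ∈ Xh 2) (hr' : r' ∈ Xh 3) (h : ⁅x 1 1, P⁆ = r * r') :
    r = n2 x 1 * P * (n2 x 1)⁻¹ := by
  have key : ∀ P ∈ Xh 4, ∀ r ∈ Xh 2, ∀ r' ∈ Xh 3, ⁅x 1 1, P⁆ = r * r' →
      x 1 1 * P * (x 1 1)⁻¹ = P * r' * r := by
    intro P hP r hr r' hr' hz
    have c1 : Commute r P := com2 hX hr hP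
    have c2 : Commute r' P := com1 hX hr' hP
    have c3 : Commute r r' := com1 hX hr hr'
    calc x 1 1 * P * (x 1 1)⁻¹ = ⁅x 1 1, P⁆ * P := by rw [commutatorElement_def]; group
      _ = _ := by rw [hz, (c1.mul_left c2).eq, c3.eq, mul_assoc]
  refine theta (Xh 4) (Xh 3) (Xh 2) (x 1 1) (x (1 + 4) 1) (n2 x 1) rfl (hC.kb.nsq 1)
    (hC.kp.nn 1 1 1) ?_ (fun r hr => com2 hX (hX.le 1 1) hr)
    (fun r hr => com1 hX (hX.le 1 1) hr) (fun a ha => hatN hC hX 1 ha)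
    (fun a ha => hatN hC hX 1 ha) (fun a ha => hatN hC hX 1 ha)
    (fun a ha b hb => (com1 hX hb ha).symm) (fun a ha b hb => (com2 hX hb ha).symm)
    (fun a ha b hb => (com1 hX hb ha).symm) ?_ hπ hr' hr (key P hπ r hr r' hr' h)
  · intro P hP
    obtain ⟨r, hr, r', hr', h⟩ := h3 _ (hX.le 1 1) P hP
    exact ⟨r', hr', r, hr, key P hP r hr r' hr' h⟩
  · intro a ha b hb c hc h
    have c1 : Commute c a := com2 hX hc ha
    have c2 : Commute b a := com1 hX hb ha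
    have c3 : Commute c b := com1 hX hc hb
    obtain ⟨k1, k2, k3⟩ := ind hC hX 2 hc hb ha (by
      rw [(c1.mul_left c2).eq, c3.eq, ← mul_assoc, h])
    exact ⟨k3, k2, k1⟩

/-- Coordinates on a doubled root group. -/
structure Crd (L : Subgroup G) (x : ZMod 8 → F → G) (t : G) (Xh : ZMod 8 → Subgroup G)
    (i : ZMod 8) (e : F × F → G) : Prop where
  mem : ∀ p, p ∈ Xh i ↔ ∃ a, p = e a
  add : ∀ a b, e (a + b) = e a * e b
  inj : ∀ a, e a = 1 → a = 0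
  res : ∀ a, e (a, 0) = x i a
  mov : ∀ a, e a * t * (e a)⁻¹ = t * x i a.2
  tor : ∀ h ∈ L, ∀ α β, Tor x h α β → ∀ a, h * e a * h⁻¹ = e ((wt α β i : F) • a)

namespace Crd

variable {i : ZMod 8} {e : F × F → G}

theorem mem' (h : Crd L x t Xh i e) (a : F × F) : e a ∈ Xh i := (h.mem _).mpr ⟨a, rfl⟩

theorem zero (h : Crd L x t Xh i e) : e 0 = 1 := by
  have := h.add 0 0
  rw [add_zero] at this
  exact (mul_eq_left.mp this.symm)

theorem ext (h : Crd L x t Xh i e) {a b : F × F} (hab : e a = e b) : a = b := by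
  have h1 : e (a - b) * e b = e b := by rw [← h.add, sub_add_cancel, hab]
  exact sub_eq_zero.mp (h.inj _ (mul_eq_right.mp h1))

theorem conj (hC : Ctx L x t) (hX : Com2 L x t Xh) (h : Crd L x t Xh i e) (a : F × F) :
    t * e a * t⁻¹ = e (a.1 + a.2, a.2) := by
  rw [tconj hC hX (h.mem' a) (h.mov a), ← h.res, ← h.add]
  congr 1
  ext <;> simp

theorem transport (hC : Ctx L x t) (hX : Com2 L x t Xh) (h : Crd L x t Xh i e) (k : ZMod 8) :
    Crd L x t Xh (2 * k + 4 - i) fun a => n2 x k * e a * (n2 x k)⁻¹ where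
  mem p := by
    constructor
    · intro hp
      have h1 := hatN hC hX k hp
      rw [show 2 * k + 4 - (2 * k + 4 - i) = i by ring] at h1
      obtain ⟨a, ha⟩ := (h.mem _).mp h1
      exact ⟨a, by rw [← ha, nn hC]⟩
    · rintro ⟨a, rfl⟩
      exact hatN hC hX k (h.mem' a)
  add a b := by rw [h.add]; group
  inj a ha := h.inj a (by
    calc e a = (n2 x k)⁻¹ * (n2 x k * e a * (n2 x k)⁻¹) * n2 x k := by group
      _ = 1 := by rw [ha]; group)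
  res a := by rw [h.res, hC.kp.nn]
  mov a := by
    have c : n2 x k * t * (n2 x k)⁻¹ = t := by
      rw [← (hC.kb.tL _ (hC.kb.nL k)).eq, mul_inv_cancel_right]
    calc _ = n2 x k * (e a * ((n2 x k)⁻¹ * (n2 x k * t * (n2 x k)⁻¹) * n2 x k) * (e a)⁻¹) *
          (n2 x k)⁻¹ := by rw [c]; group
      _ = n2 x k * (e a * t * (e a)⁻¹) * (n2 x k)⁻¹ := by group
      _ = (n2 x k * t * (n2 x k)⁻¹) * (n2 x k * x i a.2 * (n2 x k)⁻¹) := by rw [h.mov]; group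
      _ = _ := by rw [c, hC.kp.nn]
  tor g hg α β hT a := by
    have hP := hC.mod.pin
    have h1 := hC.kb.nH k g (hC.kb.torH g hg α β hT)
    obtain ⟨α', β', hT'⟩ := hC.kp.memH _ h1
    have cj : ∀ z, g * (n2 x k * z * (n2 x k)⁻¹) * g⁻¹ =
        n2 x k * ((n2 x k * g * (n2 x k)⁻¹) * z * (n2 x k * g * (n2 x k)⁻¹)⁻¹) * (n2 x k)⁻¹ := by
      intro z
      calc _ = (n2 x k * (n2 x k * g * (n2 x k)⁻¹) * (n2 x k)⁻¹) * (n2 x k * z * (n2 x k)⁻¹) *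
            (n2 x k * (n2 x k * g * (n2 x k)⁻¹) * (n2 x k)⁻¹)⁻¹ := by rw [nn hC]
        _ = _ := by group
    have hw : (wt α' β' i : F) = wt α β (2 * k + 4 - i) := by
      have h2 := cj (x i 1)
      rw [hT', hC.kp.nn, hC.kp.nn, hT, mul_one, mul_one] at h2
      exact (xinj hP h2).symm
    rw [cj, h.tor _ h1.1 α' β' hT', hw]

end Crd

theorem crd1 (hC : Ctx L x t) (hX : Com2 L x t Xh) {p : F → G} (hp : Par L x t 1 p) :
    Crd L x t Xh 1 fun a => x 1 a.1 * p a.2 := by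
  have hP := hC.mod.pin
  have hm : ∀ b, p b ∈ Xh 1 := fun b => (hX.mem _ _).mpr (hp.mem b)
  have p0 : p 0 = 1 := by
    have := hp.add 0 0
    rw [add_zero] at this
    exact (mul_eq_left.mp this.symm)
  have mv : ∀ a b, x 1 a * p b * t * (x 1 a * p b)⁻¹ = t * x 1 b := fun a b => by
    have h1 : x 1 a * t * (x 1 a)⁻¹ = t * x 1 0 := by
      rw [← (hC.kb.tL _ (hC.kb.xL 1 a)).eq, mul_inv_cancel_right, x0 hP, mul_one]
    rw [lam_mul hX hP (hX.le 1 a) h1 (hp.mov b), zero_add]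
  refine ⟨fun q => ⟨fun hq => ?_, ?_⟩, fun a b => ?_, fun a ha => ?_, fun a => ?_,
    fun a => mv _ _, fun g hg α β hT a => ?_⟩
  · obtain ⟨b, hb⟩ := lam hX hq
    obtain ⟨a, ha⟩ := same hX (hm b) hq (by rw [hb, hp.mov])
    exact ⟨(a, b), by rw [ha, (com0 hP hX (hm b) (hX.le 1 a)).eq]⟩
  · rintro ⟨a, rfl⟩
    exact (Xh 1).mul_mem (hX.le _ _) (hm _)
  · have c := com0 hP hX (hX.le 1 b.1) (hm a.2)
    simp only [Prod.fst_add, Prod.snd_add]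
    rw [hP.add, hp.add]
    calc _ = x 1 a.1 * (x 1 b.1 * p a.2) * p b.2 := by group
      _ = _ := by rw [c.eq]; group
  · have h1 := mv a.1 a.2
    rw [ha, one_mul, inv_one, mul_one] at h1
    have h2 : a.2 = 0 := hP.inj 1 _ (mul_eq_left.mp h1.symm)
    rw [h2, p0, mul_one] at ha
    exact Prod.ext (hP.inj 1 _ ha) h2
  · simp only [p0, mul_one]
  · calc _ = (g * x 1 a.1 * g⁻¹) * (g * p a.2 * g⁻¹) := by group
      _ = _ := by rw [hT, hp.tor g hg α β hT]; rfl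

end Cfsg.Agent.H4.S4Pre1
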