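import Cfsg.Agent.H56.SpDefs

/-! Involutions in the coset `F u` are conjugate to `u` under `F`. -/

set_option autoImplicit false

namespace Cfsg.Agent.H4.SpFi

open Subgroup MulAction Cfsg.Agent.H11.Cy Cfsg.Agent.H56.Sp

theorem fi : FiStmt := by
  intro G _ _ Ω _ _ p A _ hy x y hxy z hz u hu uz cm f hf gg
  have lf := hy.lf x y hxy
  have pg := hy.pg x y hxy
  obtain ⟨hiu, fpu⟩ := hy.cz.hi x y hxy z hz u hu uz cm
  obtain ⟨x', y', ne', hu'⟩ := hu
  have one : ∀ c ∈ Fl A x y, c * c = 1 → c = 1 ∨ c = z := fun c hc cc =>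
    or_iff_not_imp_left.2 fun c1 => lf.uq c z ⟨hc, c1, cc⟩ hz
  have hig : Hi A x y (f * u) := by
    refine ⟨mul_mem (le_normalizer hf) hiu.1, gg ▸ one_mem _, fun hK => hiu.2.2 ?_⟩
    have c : f * (f * u) = f * u * f := mem_centralizer_iff.1 hK f hf
    have ff : f * f = 1 := by
      have e : f * f = f * f * (u * u) := by rw [hu'.2.2, mul_one]
      rw [e, ← gg, show f * f * (u * u) = f * (f * u) * u by group, c]
      group
    have fK : f ∈ Kl A x y := by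
      rcases one f hf ff with rfl | rfl
      exacts [one_mem _, lf.cen _ hz]
    simpa using mul_mem (inv_mem fK) hK
  have fk : FK A x y (f * u) ↔ FK A x y u :=
    ⟨fun ⟨a, ha, k, hk, e⟩ => ⟨f⁻¹ * a, mul_mem (inv_mem hf) ha, k, hk, by
        rw [mul_assoc, ← e, inv_mul_cancel_left]⟩,
      fun ⟨a, ha, k, hk, e⟩ => ⟨f * a, mul_mem hf ha, k, hk, by rw [e, mul_assoc]⟩⟩
  have fpg : Fp A x y (f * u) := (pg.par _ hig).2 (fk.trans ((pg.par u hiu).1 fpu))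
  obtain ⟨f1, h1, hK⟩ := pg.cj _ _ hig hiu fpg fpu
  have hF : f1 * (f * u) * f1⁻¹ * u⁻¹ ∈ Fl A x y := by
    have := mul_mem (mul_mem h1 hf) ((mem_normalizer_iff.1 hiu.1 _).1 (inv_mem h1))
    rwa [show f1 * f * (u * f1⁻¹ * u⁻¹) = f1 * (f * u) * f1⁻¹ * u⁻¹ by group] at this
  have key : ∃ g ∈ Fl A x y, g * (f * u) * g⁻¹ = u := by
    rcases one _ hF (lf.fk _ hF hK) with e | e
    · exact ⟨f1, h1, mul_inv_eq_one.1 e⟩
    · obtain ⟨f2, h2, -, e2, -⟩ := pg.inv u hiu fpu z hz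
      refine ⟨f2⁻¹ * f1, mul_mem (inv_mem h2) h1, ?_⟩
      rw [mul_inv_eq_iff_eq_mul, ← cm, ← e2] at e
      rw [show f2⁻¹ * f1 * (f * u) * (f2⁻¹ * f1)⁻¹ = f2⁻¹ * (f1 * (f * u) * f1⁻¹) * f2 by group, e]
      group
  refine ⟨?_, key⟩
  obtain ⟨g, -, e⟩ := key
  have := hy.cz.cj g⁻¹ x' y' u hu'
  rw [show g⁻¹ * u * g⁻¹⁻¹ = f * u by conv_lhs => rw [← e]
                                      group] at this
  exact ⟨_, _, fun h => ne' (MulAction.injective _ h), this⟩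

end Cfsg.Agent.H4.SpFi
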