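import Cfsg.Agent.H4.SvDefs

/-! Assembly: the fixed spaces of `Sp₆(2)` and of its Sylow `2`-subgroup. -/

set_option autoImplicit false

namespace Cfsg.Agent.H4.SV

open H50.E83 Module

theorem chi_zero (g : T9) : chi 0 g = 1 := by
  change sg (lin 0 g) = 1
  have : lin 0 g = 0 := by simp [lin, bt]
  rw [this]; rfl

theorem mem_E0 {φ : T9 →* GK} {v : V} : v ∈ E φ 0 ↔ ∀ g, act (φ g) v = v := by
  simp [E, mem_eig, chi_zero]

theorem sp (c : CntStmt) (e1 : Emb1Stmt) (e2 : Emb2Stmt) (gen : GenStmt) (tr : TrStmt)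
    (ln : LinStmt) : SpStmt := by
  let φ0 : T9 →* X6 := MonoidHom.mk' (fun g => ⟨mat g, e1.1 g⟩) fun g h => Subtype.ext (e1.2.1 g h)
  let s0 : Fin 3 → X6 := fun i => ⟨smat i, e2.1 i⟩
  have inj : Function.Injective φ0 := fun g h e => e1.2.2 (congrArg Subtype.val e)
  have cfg : Cfg φ0 s0 := fun i g h => by
    rw [mul_inv_eq_iff_eq_mul]
    exact Subtype.ext (e2.2 i g h)
  refine ⟨φ0.range, c.2.2.1.of_surjective φ0.rangeRestrict φ0.rangeRestrict_surjective,
    fun φ hφ => ?_⟩
  have cfg1 : Cfg (φ.comp φ0) fun i => φ (s0 i) := fun i g h => by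
    simp only [MonoidHom.comp_apply]
    rw [← map_inv, ← map_mul, ← map_mul, cfg i g h]
  have cfg2 : Cfg (ι.comp (φ.comp φ0)) fun i => ι (φ (s0 i)) := fun i g h => by
    have := congrArg ι (cfg1 i g h)
    simpa only [MonoidHom.comp_apply, map_mul, map_inv] using this
  obtain ⟨h0, h1, h2, h4⟩ := tr _ _ (hφ.comp inj) cfg1
  have h := ln _ _ cfg2
  rw [h0, h1, h2, h4] at h
  constructor
  · have e : H50.E83.Fix ((ι.comp φ) '' φ0.range) = E (ι.comp (φ.comp φ0)) 0 := by
      ext v
      rw [mem_E0, mem_Fix]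
      constructor
      · intro hv g
        exact hv _ ⟨φ0 g, ⟨g, rfl⟩, rfl⟩
      · rintro hv _ ⟨_, ⟨g, rfl⟩, rfl⟩
        exact hv g
    rw [e, h0]
  · refine le_trans (by omega) (Submodule.finrank_mono (s := H50.E83.Fix (Set.range (ι.comp (φ.comp φ0)) ∪
      {x | ∃ i g, x = ι (φ (s0 i)) * (ι.comp (φ.comp φ0)) g * (ι (φ (s0 i)))⁻¹})) fun v hv => ?_)
    rw [mem_Fix] at hv ⊢
    let Y : Subgroup X6 :=
      { carrier := {y | act (ι (φ y)) v = v}
        one_mem' := by simp
        mul_mem' := fun {a b} ha hb => by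
          change act (ι (φ (a * b))) v = v
          rw [map_mul, map_mul, map_mul, Module.End.mul_apply, hb, ha]
        inv_mem' := fun {a} ha => by
          change act (ι (φ a⁻¹)) v = v
          have ha' : act (ι (φ a)) v = v := ha
          conv_lhs => rw [← ha']
          rw [← Module.End.mul_apply, ← map_mul, ← map_mul, ← map_mul, inv_mul_cancel, map_one,
            map_one, map_one, Module.End.one_apply] }
    have hY : Y = ⊤ := gen Y
      (fun y g e => by
        have : y = φ0 g := Subtype.ext e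
        rw [this]
        exact hv _ (Or.inl ⟨g, rfl⟩))
      (fun y i g e => by
        have : y = s0 i * φ0 g * (s0 i)⁻¹ := by
          rw [eq_mul_inv_iff_mul_eq]
          exact Subtype.ext e
        rw [this]
        change act (ι (φ (s0 i * φ0 g * (s0 i)⁻¹))) v = v
        refine hv _ (Or.inr ⟨i, g, ?_⟩)
        simp only [MonoidHom.comp_apply, map_mul, map_inv])
    rintro _ ⟨y, rfl⟩
    exact (hY ▸ Subgroup.mem_top y : y ∈ Y)

end Cfsg.Agent.H4.SV
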