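import Cfsg.Agent.H58.SWDefs

/-! Two commuting block systems. -/

set_option autoImplicit false
set_option linter.unusedVariables false
open Matrix Cfsg
open scoped commutatorElement

namespace Cfsg.Agent.H4.SwComa0

open Cfsg.Agent.H58.SW

variable {F : Type} [Field F] [Fintype F] [DecidableEq F] {n : ℕ}

theorem cj_mul (s : Gl n F) (x y : Mt n F) : cj s x * cj s y = cj s (x * y) := by
  simp only [cj, Matrix.mul_assoc, Units.inv_mul_cancel_left]

theorem cj_zero (s : Gl n F) : cj s (0 : Mt n F) = 0 := by simp [cj]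

theorem cj_one (s : Gl n F) : cj s (1 : Mt n F) = 1 := by simp [cj]

theorem cj_sum (s : Gl n F) (E : Finset (Mt n F)) (g : Mt n F → Mt n F) :
    cj s (∑ e ∈ E, g e) = ∑ e ∈ E, cj s (g e) := by
  simp only [cj, Finset.mul_sum, Finset.sum_mul]

theorem cj_smul (s : Gl n F) (a : F) (x : Mt n F) : cj s (a • x) = a • cj s x := by
  simp only [cj, Matrix.mul_smul, Matrix.smul_mul]

theorem cj_add (s : Gl n F) (x y : Mt n F) : cj s (x + y) = cj s x + cj s y := by
  simp only [cj, Matrix.mul_add, Matrix.add_mul]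

theorem cj_ne (s : Gl n F) {x : Mt n F} (h : x ≠ 0) : cj s x ≠ 0 := fun e => h (by
  have : ((s⁻¹ : Gl n F) : Mt n F) * cj s x * (s : Mt n F) = x := by
    simp only [cj, Matrix.mul_assoc, Units.inv_mul_cancel_left, Units.inv_mul, Matrix.mul_one]
  rw [← this, e, Matrix.mul_zero, Matrix.zero_mul])

theorem cj_rank (s : Gl n F) (x : Mt n F) : (cj s x).rank = x.rank := by
  rw [cj, Matrix.rank_mul_eq_left_of_isUnit_det _ _ (Matrix.isUnits_det_units _),
    Matrix.rank_mul_eq_right_of_isUnit_det _ _ (Matrix.isUnits_det_units _)]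

theorem cj_val (s x : Gl n F) : ((s * x * s⁻¹ : Gl n F) : Mt n F) = cj s x := rfl

theorem eq_of_rank {e f : Mt n F} (ee : e * e = e) (h : f * e = e) (h' : e * f = e)
    (rk : e.rank = f.rank) : f = e := by
  have le : LinearMap.range e.mulVecLin ≤ LinearMap.range f.mulVecLin := by
    rintro _ ⟨v, rfl⟩
    exact ⟨e *ᵥ v, by simp only [Matrix.mulVecLin_apply, Matrix.mulVec_mulVec, h]⟩
  have eq := Submodule.eq_of_le_of_finrank_eq le rk
  rw [← h']
  refine Matrix.ext_of_mulVec_single fun i => ?_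
  obtain ⟨w, hw⟩ : f *ᵥ Pi.single i 1 ∈ LinearMap.range e.mulVecLin := eq ▸ ⟨_, rfl⟩
  rw [Matrix.mulVecLin_apply] at hw
  rw [← Matrix.mulVec_mulVec, ← hw, Matrix.mulVec_mulVec, ee]

theorem coma0 (hKA : KAStmt) (hKT : KTStmt) (hS : StabStmt) (hE : EigStmt) : Coma0Stmt := by
  intro F _ _ _ n c r H Q L s X A E m ca AX mq ab db cm
  have ka := hKA F n c
  have kt := hKT F n c
  have AS : A ≤ c.St := mq.le.trans (L.qh.trans inf_le_left)
  obtain ⟨eg1, eg2, -⟩ := hE F n c H A E m AS db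
  have fam := db.blk.fam
  have mE : ∀ f ∈ E, f ∈ spanG A := fun f hf => db.sp ▸ Submodule.subset_span hf
  have cm1 : ∀ x ∈ A, ∀ f ∈ spanG A, Commute f (cj s x) := fun x hx f hf => by
    induction hf using Submodule.span_induction with
    | mem _ h =>
      obtain ⟨a, ha, rfl⟩ := h
      exact congrArg Units.val (cm x hx a ha).symm.eq
    | zero => exact Commute.zero_left _
    | add _ _ _ _ h1 h2 => exact h1.add_left h2
    | smul a _ _ h => exact h.smul_left a
  have cm2 : ∀ f ∈ E, ∀ g ∈ spanG A, Commute f (cj s g) := fun f hf g hg => by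
    induction hg using Submodule.span_induction with
    | mem _ h =>
      obtain ⟨a, ha, rfl⟩ := h
      exact cm1 a ha f (mE f hf)
    | zero => rw [cj_zero]; exact Commute.zero_right _
    | add _ _ _ _ h1 h2 => rw [cj_add]; exact h1.add_right h2
    | smul a _ _ h => rw [cj_smul]; exact h.smul_right a
  have ex : ∃ e ∈ E, ∃ e1 ∈ E, ∃ e2 ∈ E, e1 ≠ e2 ∧ e * cj s e1 ≠ 0 ∧ e * cj s e2 ≠ 0 := by
    by_contra hn
    push Not at hn
    refine ca.sH (hS F n c r H Q L E db.blk s ca.sS fun f hf => ?_)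
    obtain ⟨e, he, ne⟩ : ∃ e ∈ E, e * cj s f ≠ 0 := by
      by_contra h0
      push Not at h0
      refine cj_ne s (fam.ne0 f hf) ?_
      rw [← Matrix.one_mul (cj s f), ← fam.sum, Finset.sum_mul]
      exact Finset.sum_eq_zero h0
    have h1 : e * cj s f = e := by
      conv_rhs => rw [← Matrix.mul_one e, ← cj_one s, ← fam.sum, cj_sum s E fun x => x, Finset.mul_sum]
      exact (Finset.sum_eq_single_of_mem f hf fun g hg gf => hn e he f hf g hg gf.symm ne).symm
    rw [eq_of_rank (fam.idem e he) ((cm2 e he f (mE f hf)).eq ▸ h1) h1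
      (by rw [cj_rank, db.rk e he, db.rk f hf])]
    exact he
  obtain ⟨e, he, e1, h1, e2, h2, ne, n1, n2⟩ := ex
  obtain ⟨x, hx, lam, zv, xe, ne'⟩ := eg2 e1 h1 e2 h2 ne
  refine ⟨s * x * s⁻¹, lam, e, e1, e2, ca.sS.1, ca.cq x (AX hx), ?_, zv,
    fun f hf g hg => cm2 f hf g (mE g hg), he, h1, h2, n1, n2, ne', fun y hy => ?_⟩
  · rw [cj_val, xe, cj_sum]
    simp only [cj_smul]
  · have hh := ca.w _ ((ka.mem_hat H y).1 hy).2 x (AX hx)
    rw [MulAut.conj_apply] at hh
    obtain ⟨mu, -, hm⟩ := eg1 _ (A.mul_mem hx (kt.hatG H A mq.inv _ hh _ (A.inv_mem hx)))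
    refine ⟨mu, ?_⟩
    have : ⁅s * x * s⁻¹, y * (s * x * s⁻¹) * y⁻¹⁆ = s * (x * (s⁻¹ * (y * (s * x * s⁻¹) * y⁻¹) * s * x⁻¹ *
        (s⁻¹ * (y * (s * x * s⁻¹) * y⁻¹) * s)⁻¹)) * s⁻¹ := by
      rw [commutatorElement_def]; group
    rw [this, cj_val, hm, cj_sum]
    simp only [cj_smul]

theorem ex_mid {a b : Mt n F} (ha : a ≠ 0) (hb : b ≠ 0) : ∃ M : Mt n F, a * M * b ≠ 0 := by
  obtain ⟨i, j, hij⟩ : ∃ i j, a i j ≠ 0 := by
    by_contra h; push Not at h; exact ha (Matrix.ext h)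
  obtain ⟨k, l, hkl⟩ : ∃ i j, b i j ≠ 0 := by
    by_contra h; push Not at h; exact hb (Matrix.ext h)
  refine ⟨Matrix.single j k 1, fun h => mul_ne_zero hij hkl ?_⟩
  have := congrFun (congrFun h i) l
  rw [Matrix.mul_apply, Finset.sum_eq_single k] at this
  · simpa using this
  · intro x _ hx
    rw [Matrix.mul_single_apply_of_ne _ _ _ _ _ hx, zero_mul]
  · simp

theorem comaL (hKA : KAStmt) (hKT : KTStmt) (hKV : KVStmt) (hS : StabStmt) : ComaLStmt := by
  intro F _ _ _ n c r H Q L rp hu E s x lam e e1 e2 bk cd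
  have ka := hKA F n c
  have kt := hKT F n c
  have kv := hKV F n c
  have fam := bk.fam
  have ne : e1 ≠ e2 := fun h => cd.ne (h ▸ rfl)
  obtain ⟨M, hM⟩ := ex_mid cd.n1 cd.n2
  obtain ⟨ν, hν⟩ : ∃ ν, ν = e * cj s e1 * M * (e * cj s e2) := ⟨_, rfl⟩
  rw [← hν] at hM
  have c1 := (cd.cm e cd.he e1 cd.h1).eq
  have c2 := (cd.cm e cd.he e2 cd.h2).eq
  have l1 : e * ν = ν := by rw [hν]; simp only [← Matrix.mul_assoc, fam.idem e cd.he]
  have l2 : cj s e1 * ν = ν := by
    rw [hν, c1]; simp only [← Matrix.mul_assoc, cj_mul, fam.idem e1 cd.h1]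
  have r1 : ν * e = ν := by rw [hν, c2]; simp only [Matrix.mul_assoc, fam.idem e cd.he]
  have r2 : ν * cj s e2 = ν := by rw [hν]; simp only [Matrix.mul_assoc, cj_mul, fam.idem e2 cd.h2]
  have nn : ν * ν = 0 := by
    calc ν * ν = ν * cj s e2 * (cj s e1 * ν) := by rw [r2, l2]
      _ = 0 := by
        rw [Matrix.mul_assoc, ← Matrix.mul_assoc (cj s e2), cj_mul, fam.orth e2 cd.h2 e1 cd.h1 ne.symm,
          cj_zero, Matrix.zero_mul, Matrix.mul_zero]
  have xl : (x : Mt n F) * ν = lam e1 • ν := by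
    rw [cd.xe, Finset.sum_mul, Finset.sum_eq_single_of_mem e1 cd.h1, Matrix.smul_mul, l2]
    intro g hg ge
    rw [Matrix.smul_mul, ← l2, ← Matrix.mul_assoc, cj_mul, fam.orth g hg e1 cd.h1 ge, cj_zero,
      Matrix.zero_mul, smul_zero]
  have xr : ν * (x : Mt n F) = lam e2 • ν := by
    rw [cd.xe, Finset.mul_sum, Finset.sum_eq_single_of_mem e2 cd.h2, Matrix.mul_smul, r2]
    intro g hg ge
    rw [Matrix.mul_smul, ← r2, Matrix.mul_assoc, cj_mul, fam.orth e2 cd.h2 g hg ge.symm, cj_zero,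
      Matrix.mul_zero, smul_zero]
  obtain ⟨t, ht, td, -⟩ := kv.nil ν ⟨2, by rw [sq, nn]⟩
  have tS : t ∈ c.S := (ka.mem_S t).2 ⟨(ka.mem_St t).2 fun h => by simp [hu] at h, td⟩
  have tH : t ∈ c.hat H := hS F n c r H Q L E bk t tS fun g hg => by
    have : (t : Mt n F) * g = g * t := by
      rw [ht, Matrix.add_mul, Matrix.mul_add, Matrix.one_mul, Matrix.mul_one]
      congr 1
      by_cases h : g = e
      · rw [h, l1, r1]
      · rw [← r1, Matrix.mul_assoc, fam.orth e cd.he g hg (Ne.symm h), r1, ← l1, ← Matrix.mul_assoc g,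
          fam.orth g hg e cd.he h, Matrix.zero_mul, Matrix.mul_zero]
    rw [cj, this, Matrix.mul_assoc, Units.mul_inv, Matrix.mul_one]
    exact hg
  have wQ : t * x * t⁻¹ * x⁻¹ ∈ Q := Q.mul_mem (kt.hatG H Q L.inv t tH x cd.xq) (Q.inv_mem cd.xq)
  have z2 : lam e2 ≠ 0 := (cd.zv e2 cd.h2).1
  have key : ((t * x * t⁻¹ * x⁻¹ : Gl n F) : Mt n F) = 1 + (1 - lam e1 / lam e2) • ν := by
    have u : IsUnit ((x * t : Gl n F) : Mt n F) := Units.isUnit _
    refine u.mul_right_cancel ?_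
    rw [← Units.val_mul, show t * x * t⁻¹ * x⁻¹ * (x * t) = t * x by group, Units.val_mul,
      Units.val_mul, ht]
    simp only [Matrix.add_mul, Matrix.mul_add, Matrix.one_mul, Matrix.mul_one, Matrix.smul_mul,
      Matrix.mul_smul, xl, xr, nn, smul_zero, add_zero, smul_smul]
    rw [add_assoc, ← add_smul]
    congr 2
    field_simp
    ring
  have h1 := kv.nouni r H Q L rp _ wQ ⟨2, by
    rw [key, add_sub_cancel_left, sq, Matrix.smul_mul, Matrix.mul_smul, nn, smul_zero, smul_zero]⟩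
  rw [h1, Units.val_one, left_eq_add, smul_eq_zero, sub_eq_zero, eq_div_iff z2, one_mul] at key
  exact key.elim (fun h => cd.ne h.symm) hM

end Cfsg.Agent.H4.SwComa0
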