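import Cfsg.Agent.H97.U4Defs

/-! Project U4F, piece A3: the critical subgroups of `U T` containing `Z₂`. -/

set_option autoImplicit false

namespace Cfsg.Agent.H4.U4A3

open Cfsg.Agent.H97 Cfsg.Agent.H97.U4 Subgroup
open Cfsg.Agent.H97.U5 (Hm Cp zp ch_center)
open Cfsg.Agent.H96.VB hiding LA LB
open scoped commutatorElement

universe u

variable {K : Type u} [Field K] {T : Hm K} {p : ℕ} {P : Subgroup (U T)} {g k : U T} {t : K}

theorem cm_one {G : Type*} [Group G] {a b : G} : ⁅a, b⁆ = 1 ↔ a * b = b * a :=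
  commutatorElement_eq_one_iff_mul_comm

theorem pt_of_fix {l : K} (hl : T.σ l = l) (hk : k.t = l * t) : k ∈ Pt T t := by
  rw [mem_Pt, hk, map_mul, hl]; ring

theorem mem_Z1_of_fix (hg : g ∈ Z2 T) {l : K} (hl : T.σ l = l) (h : g.m = l * t) : g ∈ Z1 T t :=
  ⟨hg, by rw [h, map_mul, hl]; ring⟩

theorem Z_le_cm (h2 : Z2 T ≤ P) (hg : g ∈ P) (ht : g.t ≠ 0) : Z T ≤ ⁅P, P⁆ := fun z hz => by
  obtain ⟨w, rfl⟩ := exists_cm_xm hz ht
  exact commutator_mem_commutator hg (h2 (xm_Z2 w))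

theorem center_le_Z1 (h2 : Z2 T ≤ P) (hg : g ∈ P) (ht : g.t ≠ 0) :
    P ⊓ centralizer (P : Set (U T)) ≤ Z1 T g.t := fun z hz => by
  have hJ : z ∈ J T := cJ (T := T) ▸ centralizer_le h2 hz.2
  have e := (cm_J (g := g) hJ).1
  rw [cm_one.2 (hz.2 g hg)] at e
  exact mem_Z1_of_comm ⟨hJ, by simpa [ht] using e.symm⟩ (hz.2 g hg).symm

theorem skew_div {a b : K} (ha : a + T.σ a = 0) (hb : b + T.σ b = 0) : T.σ (a / b) = a / b := by
  rw [map_div₀, show T.σ a = -a by linear_combination ha, show T.σ b = -b by linear_combination hb,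
    neg_div_neg_eq]

theorem a3 : A3Stmt T p := fun P h hR h2 => by
  obtain ⟨g0, hg0, ht0⟩ := SetLike.not_le_iff_exists.1 hR
  have ht : g0.t ≠ 0 := ht0
  have cP : Ch P ⁅P, P⁆ := Ch.self.commutator Ch.self
  have hZ := Z_le_cm h2 hg0 ht
  have hC := center_le_Z1 h2 hg0 ht
  have ZC : Z T ≤ P ⊓ centralizer (P : Set (U T)) := fun z hz =>
    ⟨h2 (Z_le_Z2 hz), fun x _ => (comm_Z hz x).symm⟩
  by_cases hQ : P ≤ Q T
  · have hP1 : ⁅P, P⁆ ≤ Z T := commutator_le.2 fun x hx y hy => (cm_QQ (hQ hx) (hQ hy)).1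
    exact Or.inl (le_antisymm hQ fun y hy => h.chain1 cP (fun x hx => hZ (cm_QQ hy (hQ hx)).1)
      fun x hx => cm_one.2 (comm_Z (hP1 hx) y).symm)
  right
  obtain ⟨g1, hg1, hd1⟩ := SetLike.not_le_iff_exists.1 hQ
  have hd : g1.d ≠ 0 := hd1
  have Z1C : (∀ x ∈ P, ∃ l, T.σ l = l ∧ x.t = l * g0.t) →
      Z1 T g0.t ≤ P ⊓ centralizer (P : Set (U T)) :=
    fun e z hz => ⟨h2 hz.1, fun x hx => by
      obtain ⟨l, h1, h3⟩ := e x hx
      exact (Z1_comm ht hz (pt_of_fix h1 h3)).symm⟩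
  by_cases hb : ∀ x ∈ P, ∀ y ∈ P, x.t * y.d = y.t * x.d
  · exfalso
    have hd0 : g0.d ≠ 0 := fun e => by simpa [e, ht, hd] using hb g0 hg0 g1 hg1
    have hl := Z1C fun x hx => ⟨x.d / g0.d, skew_div x.hd g0.hd, by
      field_simp; linear_combination hb x hx g0 hg0⟩
    have hP1 : ⁅P, P⁆ ≤ Z T := commutator_le.2 fun x hx y hy =>
      ⟨cm_t x y, by rw [cm_m, hb x hx y hy, sub_self], cm_d x y⟩
    have hy : xt T (g0.t / g0.d) ∈ P := h.chain2 ch_center cP (fun x hx =>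
      hl (mem_Z1_of_fix (cm_Z2 _ _) (skew_div x.hd g0.hd) (by simp [cm_m]; ring)))
      (fun x hx => hZ (cm_Z (hC hx).1)) fun x hx => cm_one.2 (comm_Z (hP1 hx) _).symm
    simpa [ht, hd0] using hb _ hy g0 hg0
  push Not at hb
  obtain ⟨x0, hx0, y0, hy0, hxy⟩ := hb
  have ca : Ch P (Z T) → False := fun cZ => by
    have c2 : Ch P (Z2 T) := Ch.of_iff cZ.ivs.commP fun g => ⟨fun hg => ⟨h2 hg, fun x _ =>
      cm_Z' hg⟩, fun ⟨_, e⟩ => by
        have e1 := cm_m g x0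
        have e2 := cm_m g y0
        rw [(e x0 hx0).2.1] at e1
        rw [(e y0 hy0).2.1] at e2
        have s := sub_ne_zero.2 hxy
        exact ⟨(mul_eq_zero.1 (by linear_combination y0.t * e1 - x0.t * e2)).resolve_right s,
          (mul_eq_zero.1 (by linear_combination y0.d * e1 - x0.d * e2)).resolve_right s⟩⟩
    exact h.ne (top_le_iff.1 fun v _ => h.chain2 c2 cZ (fun x _ => cm_Z2 v x)
      (fun x hx => cm_Z hx) fun x hx => cm_one.2 (comm_Z hx v).symm)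
  by_cases hl : ∀ x ∈ P, ∃ l, T.σ l = l ∧ x.t = l * g0.t
  swap
  · exfalso
    push Not at hl
    obtain ⟨x, hx, e⟩ := hl
    refine ca ((le_antisymm (fun z hz => ?_) ZC) ▸ ch_center)
    have e1 := hC hz
    have e2 := mem_Z1_of_comm e1.1 (hz.2 x hx).symm
    refine ⟨e1.1.1, by_contra fun k => ?_, e1.1.2⟩
    obtain ⟨l, h1, h3⟩ := T.exists_fix ht (y := x.t) (mul_right_cancel₀ k (by
      linear_combination x.t * e1.2 - g0.t * e2.2))
    exact e l h1 h3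
  by_cases h0 : (2 : K) = 0
  swap
  · exfalso
    have hP1 : ⁅P, P⁆ ≤ Z1 T (T.ep * g0.t) := commutator_le.2 fun x hx y hy => by
      obtain ⟨l, h1, h3⟩ := hl x hx
      obtain ⟨n, h4, h5⟩ := hl y hy
      refine ⟨cm_Z2 x y, ?_⟩
      simp only [cm_m, h3, h5, map_mul, map_sub, h1, h4, T.σ_ep, U.σ_d]
      ring
    refine ca ((le_antisymm (fun z hz => ?_) (le_inf hZ ZC)) ▸ cP.inf ch_center)
    have e1 := hC hz.2
    have e2 := (hP1 hz.1).2
    rw [map_mul, T.σ_ep] at e2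
    have : 2 * T.ep * T.σ g0.t * z.m = 0 := by linear_combination T.ep * e1.2 - e2
    exact ⟨e1.1.1, by simpa [h0, T.ep_ne, ht] using this, e1.1.2⟩
  have fx : ∀ {a : K}, a + T.σ a = 0 → T.σ a = a := fun {a} e => by linear_combination e - a * h0
  refine ⟨h0, g0.t, ht, le_antisymm (fun x hx => ?_) fun v hv => h.chain1 ch_center
    (fun x hx => ?_) fun x hx => cm_one.2 (Z1_comm ht (hC hx) hv).symm⟩
  · obtain ⟨l, h1, h3⟩ := hl x hx
    exact pt_of_fix h1 h3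
  · obtain ⟨l, h1, h3⟩ := hl x hx
    obtain ⟨n, h4, h5⟩ := T.exists_fix ht (y := v.t) (by
      have : _ = _ := hv
      linear_combination this)
    refine Z1C hl (mem_Z1_of_fix (cm_Z2 v x) (l := n * x.d - l * v.d) ?_ ?_)
    · rw [map_sub, map_mul, map_mul, h1, h4, fx x.hd, fx v.hd]
    · rw [cm_m, h3, h5]; ring

end Cfsg.Agent.H4.U4A3
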