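import Cfsg.Agent.H97.U4Defs
import Cfsg.Agent.H31.U5Emb

/-! Project U4F, piece EMB: the Sylow subgroups of `PSU₄(q)` in coordinates. -/

set_option autoImplicit false
set_option linter.unusedSectionVars false
set_option linter.style.haveILetI false

namespace Cfsg.Agent.H4.U4Emb

open Cfsg.Agent.H31 Cfsg.Agent.H97.U4 Matrix Subgroup
open Cfsg.Agent.H97.U5 (Hm)
open Cfsg.Agent.H31.U5E (slEquiv hmQ)

universe u

variable {K : Type u} [Field K]

/-- the form with antidiagonal Gram matrix -/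
def aB (σ : K →+* K) : (Fin 4 → K) →ₛₗ[σ] (Fin 4 → K) →ₗ[K] K :=
  (stdB σ (Fin 4)).comp (LinearMap.funLeft K K Fin.rev)

theorem aB_apply (σ : K →+* K) (x y : Fin 4 → K) : aB σ x y = ∑ i, σ (x i.rev) * y i := rfl

theorem isHerm_aB {σ : K →+* K} (h : IsInvol σ) : IsHerm (aB σ) := by
  refine ⟨⟨h, fun x y => ?_⟩, fun x hx => funext fun i => ?_⟩
  · rw [aB_apply, aB_apply, map_sum, ← Equiv.sum_comp Fin.revPerm]
    simp [h.invol, mul_comm]
  · simpa using congrFun ((isHerm_stdB h (Fin 4)).nondeg _ hx) i.rev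

theorem aB_eq (σ : K →+* K) (x y : Fin 4 → K) : aB σ x y = (σ ∘ x) ⬝ᵥ (J4 K *ᵥ y) := by
  simp [aB_apply, J4, dotProduct, mulVec, Fin.sum_univ_four, Fin.rev]
  ring

theorem aB_mulVec (σ : K →+* K) (g : Matrix (Fin 4) (Fin 4) K) (x y : Fin 4 → K) :
    aB σ (g *ᵥ x) (g *ᵥ y) = (σ ∘ x) ⬝ᵥ (((g.map σ).transpose * J4 K * g) *ᵥ y) := by
  have e : σ ∘ (g *ᵥ x) = g.map σ *ᵥ (σ ∘ x) := funext fun i => RingHom.map_mulVec σ g x i
  rw [aB_eq, e, ← mulVec_mulVec, ← mulVec_mulVec, dotProduct_mulVec (σ ∘ x), vecMul_transpose]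

theorem mem_XU_iff (T : Hm K) (g : SpecialLinearGroup (Fin 4) K) :
    g ∈ XU T ↔ ∀ x y, aB (T.σ : K →+* K) (g.1 *ᵥ x) (g.1 *ᵥ y) = aB (T.σ : K →+* K) x y := by
  change (g.1.map (T.σ : K →+* K)).transpose * J4 K * g.1 = J4 K ↔ _
  refine ⟨fun h x y => by rw [aB_mulVec, h, aB_eq], fun h => ?_⟩
  ext i j
  have := h (Pi.single i 1) (Pi.single j 1)
  have e : ((T.σ : K →+* K) ∘ (Pi.single i 1 : Fin 4 → K)) = Pi.single i 1 := by
    funext k
    by_cases hk : k = i
    · subst hk; simp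
    · simp [hk]
  rw [aB_mulVec, aB_eq, e, single_one_dotProduct, single_one_dotProduct, mulVec_single_one,
    mulVec_single_one] at this
  exact this

theorem det_J4 : (J4 K).det = 1 := by
  simp [J4, det_succ_row_zero, Fin.sum_univ_succ, Fin.succAbove]
  norm_num

/-- the antidiagonal matrix as a member of `XU T` -/
def jX (T : Hm K) : XU T := ⟨⟨J4 K, det_J4⟩, by
  change ((J4 K).map T.σ).transpose * J4 K * J4 K = J4 K
  ext i j
  fin_cases i <;> fin_cases j <;> simp [J4, Matrix.mul_apply, Fin.sum_univ_four]⟩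

theorem eq_one_of_comm (T : Hm K) {s : U T} (h : jX T * iU T s = iU T s * jX T) : s = 1 := by
  have e : J4 K * mat s = mat s * J4 K := congrArg (fun x : XU T => x.1.1) h
  have f := fun i j => congrFun (congrFun e i) j
  have h1 := f 0 2
  have h2 := f 0 1
  have h3 := f 0 0
  have h4 := f 1 1
  simp [J4, mat, Matrix.mul_apply, Fin.sum_univ_four] at h1 h2 h3 h4
  refine U.ext h1.symm ?_ h2.symm h4.symm
  rw [← h2] at h3
  simpa using h3.symm

section Fin

variable [Fintype K] {q : ℕ}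

theorem nonempty_xu (hF : Fintype.card K = q ^ 2) : Nonempty (XU (hmQ hF) ≃* SU 4 K q) := by
  have hI : IsInvol ((hmQ hF).σ : K →+* K) := ⟨(hmQ hF).inv, (hmQ hF).ne⟩
  obtain ⟨e⟩ := (isHerm_aB hI).nonempty_sisom_equiv_SU hF (fun _ => rfl) (finrank_fin 4)
  exact ⟨(slEquiv _ _ (mem_XU_iff _)).trans e⟩

theorem emb (p : ℕ) [Fact p.Prime] [CharP K p] : EmbStmt K p := by
  intro n _ hF S
  refine ⟨hmQ hF, fun h2 => ?_⟩
  obtain ⟨e⟩ := nonempty_xu hF
  let π : XU (hmQ hF) →* PSU 4 K (p ^ n) := (QuotientGroup.mk' _).comp e.toMonoidHom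
  have hπ : Function.Surjective π := (QuotientGroup.mk'_surjective _).comp e.surjective
  let f := π.comp (iU (hmQ hF))
  have hf : Function.Injective f := (injective_iff_map_eq_one f).2 fun s hs => by
    have h1 : e (iU _ s) ∈ center (SU 4 K (p ^ n)) := (QuotientGroup.eq_one_iff _).1 hs
    refine eq_one_of_comm _ (e.injective ?_)
    rw [map_mul, map_mul]
    exact mem_center_iff.1 h1 _
  have hP : IsPGroup p f.range := (isPGroup_U p).of_surjective _ f.rangeRestrict_surjective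
  have hi : ¬ p ∣ f.range.index := fun h => h2.1 (h.trans (by
    rw [MonoidHom.range_comp]
    exact index_map_dvd _ hπ))
  haveI : Finite (PSU 4 K (p ^ n)) := inferInstance
  exact ⟨(MonoidHom.ofInjective hf).trans (Sylow.equiv (hP.toSylow hi) S)⟩

end Fin

end Cfsg.Agent.H4.U4Emb
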